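import Mathlib

/-! The composition length of a finite group, as the largest length of a subnormal chain. -/

set_option autoImplicit false

namespace Cfsg.Lib.CharDeg.CompLen

open Subgroup ArithmeticFunction
open scoped ArithmeticFunction.Omega

universe u v

/-- `G` has a descending subnormal chain with `l` proper steps starting at `G`. -/
def Ch : ℕ → (G : Type u) → [Group G] → Prop
  | 0, _, _ => True
  | l + 1, G, _ => ∃ N : Subgroup G, N.Normal ∧ N ≠ ⊤ ∧ Ch l N

theorem ch_congr : ∀ (l : ℕ) {G : Type u} {G' : Type v} [Group G] [Group G'] (_ : G ≃* G'),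
    Ch l G → Ch l G'
  | 0, _, _, _, _, _, _ => trivial
  | l + 1, G, G', _, _, e, ⟨N, hN, hne, h⟩ => by
    refine ⟨N.map e.toMonoidHom, hN.map _ e.surjective, fun ht => hne ?_,
      ch_congr l (e.subgroupMap N) h⟩
    rw [eq_top_iff]
    intro x _
    obtain ⟨y, hy, hxy⟩ : e x ∈ N.map e.toMonoidHom := by rw [ht]; exact mem_top _
    have : y = x := e.injective hxy
    exact this ▸ hy

theorem ch_down : ∀ (l : ℕ) {G : Type u} [Group G], Ch (l + 1) G → Ch l G
  | 0, _, _, _ => trivial
  | l + 1, _, _, ⟨N, hN, hne, h⟩ => ⟨N, hN, hne, ch_down l h⟩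

theorem omega_lt {G : Type u} [Group G] [Finite G] {K H : Subgroup G} (h : K < H) :
    Ω (Nat.card K) + 1 ≤ Ω (Nat.card H) := by
  obtain ⟨m, hm⟩ := card_dvd_of_le h.le
  have h1 : Nat.card K ≠ 0 := Nat.card_pos.ne'
  have h2 : m ≠ 0 := by
    rintro rfl
    exact (Nat.card_pos (α := H)).ne' (by simpa using hm)
  have h3 : m ≠ 1 := by
    rintro rfl
    exact h.ne (eq_of_le_of_card_ge h.le (by simp [hm]))
  rw [hm, cardFactors_mul h1 h2]
  have : Ω m ≠ 0 := by
    rw [Ne, cardFactors_eq_zero_iff_eq_zero_or_one]; omega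
  omega

theorem card_lt_top {G : Type u} [Group G] [Finite G] {K : Subgroup G} (h : K ≠ ⊤) :
    Nat.card K < Nat.card G :=
  lt_of_le_of_ne (card_le_card_group K) fun e => h (eq_top_of_card_eq K e)

theorem omega_lt_top {G : Type u} [Group G] [Finite G] {K : Subgroup G} (h : K ≠ ⊤) :
    Ω (Nat.card K) + 1 ≤ Ω (Nat.card G) := by
  have := omega_lt (lt_top_iff_ne_top.2 h)
  rwa [card_top] at this

theorem ch_le : ∀ (l : ℕ) {G : Type u} [Group G] [Finite G], Ch l G → l ≤ Ω (Nat.card G)
  | 0, _, _, _, _ => Nat.zero_le _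
  | l + 1, _, _, _, ⟨N, _, hne, h⟩ => by
    have := ch_le l h
    have := omega_lt_top hne
    omega

/-- The composition length. -/
noncomputable def cl (G : Type u) [Group G] : ℕ := sSup {l | Ch l G}

section
variable {G : Type u} [Group G] [Finite G]

theorem bdd : BddAbove {l | Ch l G} := ⟨Ω (Nat.card G), fun l hl => ch_le l hl⟩

theorem ch_cl : Ch (cl G) G := Nat.sSup_mem (s := {l | Ch l G}) ⟨0, trivial⟩ bdd

theorem le_cl {l : ℕ} (h : Ch l G) : l ≤ cl G := le_csSup bdd h

theorem cl_le_omega : cl G ≤ Ω (Nat.card G) := ch_le _ ch_cl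

theorem cl_congr {G' : Type v} [Group G'] (e : G ≃* G') : cl G = cl G' := by
  have : Finite G' := Finite.of_equiv G e.toEquiv
  exact le_antisymm (le_cl (ch_congr _ e ch_cl)) (le_cl (ch_congr _ e.symm ch_cl))

theorem cl_lt (N : Subgroup G) [hN : N.Normal] (h : N ≠ ⊤) : cl N + 1 ≤ cl G :=
  le_cl (l := cl N + 1) ⟨N, hN, h, ch_cl⟩

theorem cl_le (N : Subgroup G) [hN : N.Normal] : cl N ≤ cl G := by
  by_cases h : N = ⊤
  · subst h; exact (cl_congr topEquiv).le
  · have := cl_lt N h; omega

theorem cl_eq_zero [Subsingleton G] : cl G = 0 := by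
  have := cl_le_omega (G := G)
  rw [Nat.card_of_subsingleton (1 : G)] at this
  simpa using this

theorem one_le_cl [Nontrivial G] : 1 ≤ cl G := by
  have := cl_lt (⊥ : Subgroup G) bot_ne_top
  omega

theorem exists_normal (h : 0 < cl G) : ∃ N : Subgroup G, N.Normal ∧ N ≠ ⊤ ∧ cl G = cl N + 1 := by
  obtain ⟨l, hl⟩ : ∃ l, cl G = l + 1 := ⟨cl G - 1, by omega⟩
  have h1 := ch_cl (G := G)
  rw [hl] at h1
  obtain ⟨N, hN, hne, h2⟩ := h1
  have := le_cl h2
  have := cl_lt N hne
  exact ⟨N, hN, hne, by omega⟩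

theorem cl_simple [IsSimpleGroup G] : cl G = 1 := by
  obtain ⟨N, hN, hne, h⟩ := exists_normal (one_le_cl (G := G))
  have := (hN.eq_bot_or_eq_top).resolve_right hne
  subst this
  rw [h, cl_eq_zero]

theorem cl_le_of_inj {H : Type v} [Group H] (i : H →* G) (hi : Function.Injective i)
    (hn : i.range.Normal) : cl H ≤ cl G := by
  have : Finite H := Finite.of_injective i hi
  rw [cl_congr (MonoidHom.ofInjective hi)]
  exact cl_le _

theorem cl_lt_of_inj {H : Type v} [Group H] (i : H →* G) (hi : Function.Injective i)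
    (hn : i.range.Normal) (h : i.range ≠ ⊤) : cl H + 1 ≤ cl G := by
  have : Finite H := Finite.of_injective i hi
  rw [cl_congr (MonoidHom.ofInjective hi)]
  exact cl_lt _ h

end

theorem cl_le_add : ∀ (n : ℕ) (G : Type u) [Group G] [Finite G] (Q : Type v) [Group Q]
    (f : G →* Q), Function.Surjective f → Nat.card G = n → cl G ≤ cl f.ker + cl Q := by
  intro n
  induction n using Nat.strong_induction_on with
  | _ n ih =>
  intro G _ _ Q _ f hf hn
  have : Finite Q := Finite.of_surjective f hf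
  rcases Nat.eq_zero_or_pos (cl G) with h0 | h0
  · omega
  obtain ⟨M, hM, hne, hcl⟩ := exists_normal h0
  have hlt : Nat.card M < n := hn ▸ (card_lt_top hne)
  have h1 := ih _ hlt M (M.map f) (f.subgroupMap M) (f.subgroupMap_surjective M) rfl
  let i : (f.subgroupMap M).ker →* f.ker :=
    (M.subtype.comp (f.subgroupMap M).ker.subtype).codRestrict f.ker fun x =>
      congrArg Subtype.val x.2
  have hi : Function.Injective i := fun x y h =>
    Subtype.ext (Subtype.ext (congrArg (fun z : f.ker => z.1) h))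
  have hr : i.range = M.subgroupOf f.ker := by
    ext x
    constructor
    · rintro ⟨y, rfl⟩; exact y.1.2
    · intro hx; exact ⟨⟨⟨x, hx⟩, Subtype.ext x.2⟩, rfl⟩
  have hin : i.range.Normal := hr ▸ inferInstance
  have hMn : (M.map f).Normal := hM.map f hf
  by_cases ht : M.map f = ⊤
  · have h2 := cl_lt_of_inj i hi hin (by
      rw [hr, Ne, subgroupOf_eq_top]
      intro hle
      apply hne
      have := comap_map_eq f M
      rw [ht, comap_top, sup_eq_left.2 hle] at this
      exact this.symm)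
    have := cl_le (M.map f)
    omega
  · have h2 := cl_le_of_inj i hi hin
    have := cl_lt (M.map f) ht
    omega

theorem add_le_cl : ∀ (n : ℕ) (G : Type u) [Group G] [Finite G] (Q : Type v) [Group Q]
    (f : G →* Q), Function.Surjective f → Nat.card G = n → cl f.ker + cl Q ≤ cl G := by
  intro n
  induction n using Nat.strong_induction_on with
  | _ n ih =>
  intro G _ _ Q _ f hf hn
  have : Finite Q := Finite.of_surjective f hf
  rcases Nat.eq_zero_or_pos (cl Q) with h0 | h0
  · have := cl_le f.ker; omega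
  obtain ⟨M, hM, hne, hcl⟩ := exists_normal h0
  have hne' : M.comap f ≠ ⊤ := fun h => hne (by
    rw [← map_comap_eq_self_of_surjective hf M, h, map_top_of_surjective f hf])
  have hlt : Nat.card (M.comap f) < n := hn ▸ (card_lt_top hne')
  have h1 := ih _ hlt (M.comap f) M (f.subgroupComap M)
    (f.subgroupComap_surjective_of_surjective M hf) rfl
  have h2 := cl_lt (M.comap f) hne'
  let i : f.ker →* (f.subgroupComap M).ker :=
    ((f.ker.subtype.codRestrict (M.comap f) fun x => by
      rw [mem_comap, show f (f.ker.subtype x) = 1 from x.2]; exact M.one_mem)).codRestrict _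
      fun x => Subtype.ext x.2
  have hi : Function.Injective i := fun x y h =>
    Subtype.ext (congrArg (fun z => z.1.1) h)
  have hr : i.range = ⊤ := by
    rw [eq_top_iff]
    intro x _
    exact ⟨⟨x.1.1, congrArg Subtype.val x.2⟩, rfl⟩
  have := cl_le_of_inj i hi (hr ▸ inferInstance)
  omega

variable {G : Type u} [Group G] [Finite G]

theorem cl_eq_of_surj {Q : Type v} [Group Q] (f : G →* Q) (hf : Function.Surjective f) :
    cl G = cl f.ker + cl Q :=
  le_antisymm (cl_le_add _ G Q f hf rfl) (add_le_cl _ G Q f hf rfl)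

theorem cl_eq_ker_range {Q : Type v} [Group Q] (f : G →* Q) : cl G = cl f.ker + cl f.range := by
  rw [cl_eq_of_surj f.rangeRestrict f.rangeRestrict_surjective, MonoidHom.ker_rangeRestrict]

theorem cl_eq_quot (N : Subgroup G) [N.Normal] : cl G = cl N + cl (G ⧸ N) := by
  rw [cl_eq_of_surj (QuotientGroup.mk' N) (QuotientGroup.mk'_surjective N), QuotientGroup.ker_mk']

/-- `cl G + cl (N ∩ A) = cl N + cl A` when `G = N A`. -/
theorem cl_add_inf (N A : Subgroup G) [N.Normal] (h : ∀ g, ∃ a ∈ A, g * a⁻¹ ∈ N) :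
    cl G + cl (N.subgroupOf A) = cl N + cl A := by
  have h1 := cl_eq_quot N
  have h2 := cl_eq_of_surj ((QuotientGroup.mk' N).comp A.subtype) (by
    intro q
    obtain ⟨g, rfl⟩ := QuotientGroup.mk'_surjective N q
    obtain ⟨a, ha, hga⟩ := h g
    refine ⟨⟨a, ha⟩, ?_⟩
    change (a : G ⧸ N) = (g : G ⧸ N)
    rw [eq_comm, QuotientGroup.eq_iff_div_mem, div_eq_mul_inv]
    exact hga)
  have h3 : ((QuotientGroup.mk' N).comp A.subtype).ker = N.subgroupOf A := by
    ext x; simp [mem_subgroupOf]
  rw [h3] at h2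
  omega

theorem cl_prod {H : Type v} [Group H] [Finite H] : cl (G × H) = cl G + cl H := by
  rw [cl_eq_of_surj (MonoidHom.snd G H) Prod.snd_surjective]
  congr 1
  symm
  refine cl_congr ?_
  refine (MonoidHom.ofInjective (f := MonoidHom.inl G H) (fun x y h => congrArg Prod.fst h)).trans
    (MulEquiv.subgroupCongr ?_)
  ext x
  exact ⟨by rintro ⟨y, rfl⟩; rfl, fun h => ⟨x.1, Prod.ext rfl (Eq.symm h)⟩⟩

theorem cl_pi : ∀ (k : ℕ) (H : Fin k → Type u) [∀ i, Group (H i)] [∀ i, Finite (H i)],
    cl (∀ i, H i) = ∑ i, cl (H i)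
  | 0, H, _, _ => by rw [cl_eq_zero]; simp
  | k + 1, H, _, _ => by
    rw [Fin.sum_univ_succ, ← cl_pi k (fun i => H i.succ), ← cl_prod]
    symm
    exact cl_congr { Fin.consEquiv H with
      map_mul' := fun x y => by
        funext i
        refine Fin.cases ?_ (fun j => ?_) i <;> rfl }

theorem le_cl_of_chain (l : ℕ) (H : Fin (l + 1) → Subgroup G) (hl : H (Fin.last l) = ⊤)
    (hchain : ∀ i : Fin l, H i.castSucc < H i.succ ∧
      ((H i.castSucc).subgroupOf (H i.succ)).Normal) : l ≤ cl G := by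
  have key : ∀ i : Fin (l + 1), (i : ℕ) ≤ cl (H i) := by
    intro i
    refine Fin.induction (Nat.zero_le _) (fun j hj => ?_) i
    obtain ⟨h1, h2⟩ := hchain j
    have h3 := cl_lt ((H j.castSucc).subgroupOf (H j.succ))
      (by rw [Ne, subgroupOf_eq_top]; exact not_le_of_gt h1)
    rw [cl_congr (subgroupOfEquivOfLe h1.le)] at h3
    simp only [Fin.val_succ, Fin.val_castSucc] at hj ⊢
    omega
  have := key (Fin.last l)
  rw [hl, cl_congr topEquiv] at this
  simpa using this

end Cfsg.Lib.CharDeg.CompLen
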