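import Cfsg.Agent.Lib.CharDeg.CompLen
import Cfsg.Agent.Lib.Perm.Socle

/-! The bound `3 cl G + 4 r ≤ 4 n` for permutation groups: reductions and the regular case. -/

set_option autoImplicit false

namespace Cfsg.Lib.CharDeg.CompLen

open Subgroup ArithmeticFunction MulAction Function Cfsg.Lib.Core Cfsg.Lib.Perm
open scoped ArithmeticFunction.Omega

/-- The bound for all faithful actions on `W`. -/
def Bd (W : Type) : Prop :=
  ∀ (G : Type) [Group G] [Finite G] [MulAction G W] [FaithfulSMul G W] (ι : Type) (p : W → ι),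
    Surjective p → (∀ (g : G) x, p (g • x) = p x) → 3 * cl G + 4 * Nat.card ι ≤ 4 * Nat.card W

theorem Bd.nf {W : Type} [Finite W] (h : Bd W) (G : Type) [Group G] [Finite G] [MulAction G W]
    (ι : Type) (p : W → ι) (hp : Surjective p) (hg : ∀ (g : G) x, p (g • x) = p x) :
    3 * cl G + 4 * Nat.card ι ≤ 3 * cl (toPermHom G W).ker + 4 * Nat.card W := by
  have h1 := cl_eq_ker_range (toPermHom G W)
  have h2 := h (toPermHom G W).range ι p hp (by
    rintro ⟨_, g, rfl⟩ x
    exact hg g x)
  omega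

theorem Bd.nf1 {W : Type} [Finite W] [Nonempty W] (h : Bd W) (G : Type) [Group G] [Finite G]
    [MulAction G W] : 3 * cl G + 4 ≤ 3 * cl (toPermHom G W).ker + 4 * Nat.card W := by
  have := h.nf G Unit (fun _ => ()) (fun _ => ⟨Classical.arbitrary W, rfl⟩) (fun _ _ => rfl)
  simpa using this

theorem Bd.one {W : Type} [Finite W] [Nonempty W] (h : Bd W) (G : Type) [Group G] [Finite G]
    [MulAction G W] [FaithfulSMul G W] : 3 * cl G + 4 ≤ 4 * Nat.card W := by
  have := h G Unit (fun _ => ()) (fun _ => ⟨Classical.arbitrary W, rfl⟩) (fun _ _ => rfl)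
  simpa using this

theorem card_ne_add {W : Type} [Finite W] (P : W → Prop) :
    Nat.card {x // P x} + Nat.card {x // ¬ P x} = Nat.card W := by
  classical
  rw [← Nat.card_sum, Nat.card_congr (Equiv.sumCompl P)]

theorem card_ne_one {W : Type} [Finite W] (a : W) : Nat.card {x // ¬ x = a} + 1 = Nat.card W := by
  have := card_ne_add (fun x => x = a)
  rw [Nat.card_unique] at this
  omega

variable {W : Type} [Finite W]

/-- The intransitive step. -/
theorem intrans (ih : ∀ (W' : Type) [Finite W'], Nat.card W' < Nat.card W → Bd W')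
    (G : Type) [Group G] [Finite G] [MulAction G W] [FaithfulSMul G W] (ι : Type) (p : W → ι)
    (hp : Surjective p) (hg : ∀ (g : G) x, p (g • x) = p x) (h2 : 2 ≤ Nat.card ι) :
    3 * cl G + 4 * Nat.card ι ≤ 4 * Nat.card W := by
  have : Finite ι := Finite.of_surjective p hp
  have : Nontrivial ι := Finite.one_lt_card_iff_nontrivial.1 h2
  obtain ⟨i, j, hij⟩ := exists_pair_ne ι
  let O : SubMulAction G W := ⟨{x | p x = i}, fun g x hx => (hg g x).trans hx⟩
  let O' : SubMulAction G W := ⟨{x | ¬ p x = i}, fun g x hx => by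
    change ¬ p (g • x) = i
    rw [hg]; exact hx⟩
  have hc : Nat.card O + Nat.card O' = Nat.card W := card_ne_add (fun x => p x = i)
  have hO : Nonempty O := by obtain ⟨x, hx⟩ := hp i; exact ⟨⟨x, hx⟩⟩
  have hO' : Nonempty O' := by
    obtain ⟨x, hx⟩ := hp j
    exact ⟨⟨x, show ¬ p x = i by rw [hx]; exact hij.symm⟩⟩
  have h1 : 0 < Nat.card O := Nat.card_pos
  have h1' : 0 < Nat.card O' := Nat.card_pos
  have h3 := (ih O (by omega)).nf1 G
  have : FaithfulSMul (toPermHom G O).ker O' := ⟨fun {g₁ g₂} h => by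
    apply Subtype.ext
    apply FaithfulSMul.eq_of_smul_eq_smul (α := W)
    intro x
    by_cases hx : p x = i
    · have e1 := congrArg Subtype.val (DFunLike.congr_fun g₁.2 (⟨x, hx⟩ : O))
      have e2 := congrArg Subtype.val (DFunLike.congr_fun g₂.2 (⟨x, hx⟩ : O))
      exact e1.trans e2.symm
    · exact congrArg Subtype.val (h ⟨x, hx⟩)⟩
  have h4 := ih O' (by omega) (toPermHom G O).ker {k // ¬ k = i} (fun x => ⟨p x, x.2⟩)
    (fun k => by
      obtain ⟨x, hx⟩ := hp k
      exact ⟨⟨x, show ¬ p x = i by rw [hx]; exact k.2⟩, Subtype.ext hx⟩)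
    (fun g x => Subtype.ext (hg g x))
  have := card_ne_one i
  omega

/-- The imprimitive step. -/
theorem imprim (ih : ∀ (W' : Type) [Finite W'], Nat.card W' < Nat.card W → Bd W')
    (G : Type) [Group G] [Finite G] [MulAction G W] [FaithfulSMul G W] [IsPretransitive G W]
    (a : W) (M : Subgroup G) (hM : stabilizer G a < M) (hM' : M ≠ ⊤) :
    3 * cl G + 4 ≤ 4 * Nat.card W := by
  choose c hc using fun x => exists_smul_eq G a x
  let q : W → G ⧸ M := fun x => (c x : G ⧸ M)
  have hq : ∀ (g : G), q (g • a) = (g : G ⧸ M) := fun g => by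
    change ((c (g • a) : G) : G ⧸ M) = g
    rw [QuotientGroup.eq]
    apply hM.le
    rw [mem_stabilizer_iff, mul_smul, inv_smul_eq_iff, hc]
  have hq' : ∀ (g : G) x, q (g • x) = g • q x := fun g x => by
    rw [← hc x, ← mul_smul, hq, hq]; rfl
  have hs : Surjective q := fun y => by
    obtain ⟨g, rfl⟩ := QuotientGroup.mk_surjective y
    exact ⟨g • a, hq g⟩
  have h2 : 2 ≤ Nat.card (G ⧸ M) := by
    have h0 : M.index ≠ 0 := index_ne_zero_of_finite
    have h1 : M.index ≠ 1 := fun h => hM' (index_eq_one.1 h)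
    rw [← index_eq_card]; omega
  have hlt : Nat.card (G ⧸ M) < Nat.card W := by
    rw [← index_eq_card, ← index_stabilizer_of_transitive G a, ← relIndex_mul_index hM.le]
    have h0 : (stabilizer G a).relIndex M ≠ 0 := index_ne_zero_of_finite
    have h1 : (stabilizer G a).relIndex M ≠ 1 := fun h => hM.not_ge (relIndex_eq_one.1 h)
    have h3 : 0 < M.index := Nat.pos_of_ne_zero index_ne_zero_of_finite
    have h4 : 2 ≤ (stabilizer G a).relIndex M := by omega
    nlinarith
  have h3 := (ih (G ⧸ M) hlt).nf1 G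
  have h4 := intrans ih (toPermHom G (G ⧸ M)).ker (G ⧸ M) q hs (fun g x =>
    (hq' g x).trans (DFunLike.congr_fun g.2 (q x))) h2
  omega

theorem two_pow_omega_le {m : ℕ} (hm : m ≠ 0) : 2 ^ Ω m ≤ m := by
  rw [cardFactors_apply]
  conv_rhs => rw [← Nat.prod_primeFactorsList hm]
  exact List.pow_card_le_prod _ _ fun x hx => (Nat.prime_of_mem_primeFactorsList hx).two_le

theorem numeric {n w L : ℕ} (hn : 2 ≤ n) (hw : w = Ω n) (hL : L = Nat.log 2 (n - 1)) :
    3 * (w + w * L) + 4 ≤ 4 * n := by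
  have h1 : 2 ^ w ≤ n := hw ▸ two_pow_omega_le (by omega)
  have h2 : 2 ^ L ≤ n - 1 := hL ▸ Nat.pow_log_le_self 2 (by omega)
  by_cases h16 : n < 16
  · have hw3 : w ≤ 3 := by
      by_contra h
      have := Nat.pow_le_pow_right (show 0 < 2 by norm_num) (show 4 ≤ w by omega)
      omega
    have hL3 : L ≤ 3 := by
      by_contra h
      have := Nat.pow_le_pow_right (show 0 < 2 by norm_num) (show 4 ≤ L by omega)
      omega
    have h5 : n = 5 → w = 1 := by
      rintro rfl; rw [hw]; exact cardFactors_apply_prime (by norm_num)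
    have h9 : n = 9 → w = 2 := by
      rintro rfl; rw [hw]; exact cardFactors_apply_prime_pow (p := 3) (k := 2) (by norm_num)
    clear hw hL
    interval_cases w <;> interval_cases L <;> omega
  · have key : ∀ M, 4 ≤ M → 3 * (M + M * M) + 4 ≤ 4 * 2 ^ M := by
      intro M hM
      induction M, hM using Nat.le_induction with
      | base => norm_num
      | succ M hM ih => rw [pow_succ]; nlinarith
    obtain ⟨M, hM4, hwM, hLM, hM⟩ : ∃ M, 4 ≤ M ∧ w ≤ M ∧ L ≤ M ∧ 2 ^ M ≤ n := by
      refine ⟨max 4 (max w L), le_max_left _ _, by omega, by omega, ?_⟩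
      rcases max_choice 4 (max w L) with h | h
      · rw [h]; omega
      · rcases max_choice w L with h' | h' <;> rw [h, h'] <;> omega
    have := key M hM4
    have := Nat.mul_le_mul hwM hLM
    omega

/-- The regular normal subgroup step. -/
theorem omega_stab {G : Type} [Group G] [Finite G] [MulAction G W] [FaithfulSMul G W]
    (a : W) (N : Subgroup G) [hN : N.Normal] (hNt : ∀ x, ∃ u ∈ N, u • a = x)
    (hr : ∀ u ∈ N, u • a = a → u = 1) : ∀ (m : ℕ) (X : Subgroup G), X ≤ stabilizer G a →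
    Nat.card X = m → Ω m + Ω (Nat.card (N ⊓ centralizer (X : Set G) : Subgroup G)) *
      Nat.log 2 (Nat.card W - 1) ≤ Ω (Nat.card N) * Nat.log 2 (Nat.card W - 1) := by
  intro m
  induction m using Nat.strong_induction_on with
  | _ m ih =>
  intro X hX hm
  by_cases h0 : X = ⊥
  · subst h0
    rw [card_bot] at hm
    subst hm
    have : N ⊓ centralizer ((⊥ : Subgroup G) : Set G) = N := by
      rw [inf_eq_left]; intro x _; rw [mem_centralizer_iff]; intro y hy
      rw [show y = 1 from hy]; simp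
    rw [this]; simp
  obtain ⟨⟨x, hx⟩, hx1⟩ := ne_bot_iff_exists_ne_one.1 h0
  obtain ⟨w, hw⟩ : ∃ w : W, x • w ≠ w := by
    by_contra h
    push Not at h
    exact hx1 (Subtype.ext (FaithfulSMul.eq_of_smul_eq_smul (α := W) fun w => by
      rw [h w]; simp))
  obtain ⟨u, hu, rfl⟩ := hNt w
  let X' : Subgroup G := (stabilizer X (u • a)).map X.subtype
  have hX' : X' ≤ X := map_subtype_le _
  have hc : Nat.card X' = Nat.card (stabilizer X (u • a)) := card_map_of_injective X.subtype_injective
  have hi := (stabilizer X (u • a)).card_mul_index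
  rw [index_stabilizer, ← hc, hm] at hi
  have hle : (orbit X (u • a)).ncard ≤ Nat.card W - 1 := by
    have : orbit X (u • a) ⊆ {a}ᶜ := by
      rintro _ ⟨y, rfl⟩ (h : (y : G) • u • a = a)
      have h1 : u • a = a := by
        rw [smul_eq_iff_eq_inv_smul] at h
        rw [h]; exact hX (X.inv_mem y.2)
      rw [h1] at hw
      exact hw (hX hx)
    have h2 := Set.ncard_le_ncard this
    have h3 := Set.ncard_add_ncard_compl ({a} : Set W)
    rw [Set.ncard_singleton] at h3
    omega
  have hlt : N ⊓ centralizer (X : Set G) < N ⊓ centralizer (X' : Set G) := by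
    refine lt_of_le_of_ne (inf_le_inf_left _ (centralizer_le hX')) fun e => ?_
    have h1 : u ∈ N ⊓ centralizer (X' : Set G) := by
      refine ⟨hu, ?_⟩
      rintro _ ⟨y, hy, rfl⟩
      have hy' : (y : G) • u • a = u • a := hy
      have hy2 : (y : G)⁻¹ • a = a := hX (X.inv_mem y.2)
      have := hr (u⁻¹ * (y * u * (y : G)⁻¹)) (N.mul_mem (N.inv_mem hu) (hN.conj_mem u hu y)) (by
        rw [mul_smul, mul_smul, mul_smul, hy2, hy', inv_smul_smul])
      change (y : G) * u = u * y
      rw [inv_mul_eq_one, eq_mul_inv_iff_mul_eq] at this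
      exact this.symm
    rw [← e] at h1
    apply hw
    rw [← mul_smul, h1.2 x hx, mul_smul, show x • a = a from hX hx]
  have hm0 : m ≠ 0 := hm ▸ Nat.card_pos.ne'
  have ho0 : (orbit X (u • a)).ncard ≠ 0 := fun h => hm0 (by rw [← hi, h, mul_zero])
  have hc0 : Nat.card X' ≠ 0 := Nat.card_pos.ne'
  have hlt2 : Nat.card X' < m := by
    refine lt_of_le_of_ne (hm ▸ card_le_of_le hX') fun e => ?_
    have := eq_of_le_of_card_ge hX' (by omega)
    rw [this] at hlt
    exact lt_irrefl _ hlt
  have h1 := ih _ hlt2 X' (hX'.trans hX) rfl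
  have h2 := omega_lt hlt
  have h3 : Ω (orbit X (u • a)).ncard ≤ Nat.log 2 (Nat.card W - 1) :=
    Nat.le_log_of_pow_le (by norm_num) ((two_pow_omega_le ho0).trans hle)
  rw [← hi, cardFactors_mul hc0 ho0]
  have := Nat.mul_le_mul_right (Nat.log 2 (Nat.card W - 1)) h2
  rw [add_mul, one_mul] at this
  omega

theorem exists_mul_inv_mem {G : Type} [Group G] [MulAction G W] (a : W) (N : Subgroup G)
    [hN : N.Normal] (hNt : ∀ x, ∃ u ∈ N, u • a = x) (g : G) :
    ∃ s ∈ stabilizer G a, g * s⁻¹ ∈ N := by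
  obtain ⟨u, hu, h⟩ := hNt (g • a)
  refine ⟨u⁻¹ * g, ?_, by simpa using hu⟩
  rw [mem_stabilizer_iff, mul_smul, ← h, inv_smul_smul]

theorem regular {G : Type} [Group G] [Finite G] [MulAction G W] [FaithfulSMul G W]
    (h2 : 2 ≤ Nat.card W) (a : W) (N : Subgroup G) [hN : N.Normal]
    (hNt : ∀ x, ∃ u ∈ N, u • a = x) (hr : ∀ u ∈ N, u • a = a → u = 1) :
    3 * cl G + 4 ≤ 4 * Nat.card W := by
  have h1 := cl_add_inf N (stabilizer G a) (exists_mul_inv_mem a N hNt)
  have h3 := omega_stab a N hNt hr _ (stabilizer G a) le_rfl rfl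
  have h4 : Nat.card N = Nat.card W := by
    refine Nat.card_congr (Equiv.ofBijective (fun u : N => (u : G) • a) ⟨fun u v h => ?_, fun x => ?_⟩)
    · have := hr ((v : G)⁻¹ * u) (N.mul_mem (N.inv_mem v.2) u.2) (by
        rw [mul_smul, show (u : G) • a = (v : G) • a from h, inv_smul_smul])
      exact Subtype.ext (inv_mul_eq_one.1 this).symm
    · obtain ⟨u, hu, h⟩ := hNt x
      exact ⟨⟨u, hu⟩, h⟩
  have h5 := cl_le_omega (G := N)
  have h6 := cl_le_omega (G := stabilizer G a)
  rw [h4] at h3 h5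
  have := numeric h2 rfl rfl
  omega

/-- Point stabiliser step. -/
theorem stab_step (ih : ∀ (W' : Type) [Finite W'], Nat.card W' < Nat.card W → Bd W')
    {G : Type} [Group G] [Finite G] [MulAction G W] [FaithfulSMul G W]
    (h2 : 2 ≤ Nat.card W) (a : W) (N : Subgroup G) [hN : N.Normal]
    (hNt : ∀ x, ∃ u ∈ N, u • a = x) (h : cl N ≤ cl (N.subgroupOf (stabilizer G a))) :
    3 * cl G + 4 ≤ 4 * Nat.card W := by
  have h1 := cl_add_inf N (stabilizer G a) (exists_mul_inv_mem a N hNt)
  let O : SubMulAction (stabilizer G a) W := ⟨{x | ¬ x = a}, fun g x hx h => hx (by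
    have h' : (g : G) • x = a := h
    rw [smul_eq_iff_eq_inv_smul] at h'
    rw [h']; exact (stabilizer G a).inv_mem g.2)⟩
  have hc : Nat.card O + 1 = Nat.card W := card_ne_one a
  have : Nonempty O := (Nat.card_pos_iff.1 (show 0 < Nat.card O by omega)).1
  have : FaithfulSMul (stabilizer G a) O := ⟨fun {g₁ g₂} h => by
    apply Subtype.ext
    apply FaithfulSMul.eq_of_smul_eq_smul (α := W)
    intro x
    by_cases hx : x = a
    · rw [hx, show (g₁ : G) • a = a from g₁.2, show (g₂ : G) • a = a from g₂.2]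
    · exact congrArg Subtype.val (h ⟨x, hx⟩)⟩
  have := (ih O (by omega)).one (stabilizer G a)
  omega

/-- Conjugation step. -/
theorem conj_step (ih : ∀ (W' : Type) [Finite W'], Nat.card W' < Nat.card W → Bd W')
    {G : Type} [Group G] [Finite G] {N : Subgroup G} (hN : IsMinNormal N)
    (hC : ∀ g : G, (∀ u ∈ N, u * g = g * u) → g = 1) (S : Set G) (hS : ∀ s ∈ S, s ∈ N ∧ s ≠ 1)
    (hS' : ∀ s ∈ S, ∀ g : G, g * s * g⁻¹ ∈ S) (hne : S.Nonempty) (hc : S.ncard < Nat.card W) :
    3 * cl G + 4 ≤ 4 * Nat.card W := by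
  letI : MulAction G S :=
    { smul := fun g s => ⟨g * s * g⁻¹, hS' s s.2 g⟩
      one_smul := fun s => Subtype.ext (by change 1 * (s : G) * 1⁻¹ = s; simp)
      mul_smul := fun g h s => Subtype.ext (by
        change g * h * (s : G) * (g * h)⁻¹ = g * (h * s * h⁻¹) * g⁻¹; group) }
  have : Nonempty S := hne.to_subtype
  have h1 := (ih S hc).nf1 G
  have hk : (toPermHom G S).ker = ⊥ := by
    rw [eq_bot_iff]
    intro g hg
    apply hC
    have := hN.normal
    have h2 := hN.eq_of_le (K := N ⊓ centralizer ((toPermHom G S).ker : Set G)) inferInstance (by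
      obtain ⟨s, hs⟩ := hne
      refine ne_bot_iff_exists_ne_one.2 ⟨⟨s, (hS s hs).1, fun y hy => ?_⟩,
        fun h => (hS s hs).2 (congrArg Subtype.val h)⟩
      have : y * s * y⁻¹ = s := congrArg Subtype.val (DFunLike.congr_fun hy (⟨s, hs⟩ : S))
      exact mul_inv_eq_iff_eq_mul.1 this) inf_le_left
    intro u hu
    rw [← h2] at hu
    exact (hu.2 g hg).symm
  rw [hk, cl_eq_zero (G := (⊥ : Subgroup G))] at h1
  have : Nat.card S = S.ncard := rfl
  omega

end Cfsg.Lib.CharDeg.CompLen
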