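import Cfsg.Agent.Lib.CharDeg.CompLen2

/-! The bound `3 cl G + 4 r ≤ 4 n` for permutation groups: the non-regular primitive case. -/

set_option autoImplicit false

namespace Cfsg.Lib.CharDeg.CompLen

open Subgroup MulAction Function Cfsg.Lib.Core Cfsg.Lib.Perm
open scoped commutatorElement

theorem two_orders {T : Type} [Group T] [Finite T] [IsSimpleGroup T] (hT : ¬ IsMulCommutative T) :
    ∃ t₁ t₂ : T, t₁ ≠ 1 ∧ t₂ ≠ 1 ∧ orderOf t₂ ≠ orderOf t₁ := by
  by_contra h
  push Not at h
  obtain ⟨p, hp, hd⟩ := Nat.exists_prime_and_dvd (n := Nat.card T) Finite.one_lt_card.ne'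
  have : Fact p.Prime := ⟨hp⟩
  obtain ⟨t, ht⟩ := exists_prime_orderOf_dvd_card' p hd
  have ht1 : t ≠ 1 := by rintro rfl; rw [orderOf_one] at ht; exact hp.one_lt.ne ht
  have hP : IsPGroup p T := fun g => ⟨1, by
    by_cases hg : g = 1
    · simp [hg]
    · rw [pow_one, ← ht, ← h t g ht1 hg]; exact pow_orderOf_eq_one g⟩
  have := hP.center_nontrivial
  rw [center_eq_bot_of_simple hT] at this
  exact not_nontrivial _ this

theorem eq_one_of_comm_conj {T : Type} [Group T] [IsSimpleGroup T] (hT : ¬ IsMulCommutative T)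
    {t : T} (h : ∀ s, ⁅t, s * t * s⁻¹⁆ = 1) : t = 1 := by
  by_contra ht
  have h1 : normalClosure {t} = ⊤ :=
    (IsSimpleGroup.eq_bot_or_eq_top_of_normal _ inferInstance).resolve_left fun e =>
      ht (mem_bot.1 (e ▸ subset_normalClosure (Set.mem_singleton t)))
  have h2 : normalClosure {t} ≤ centralizer {t} := by
    refine (closure_le _).2 fun x hx => ?_
    obtain ⟨y, hy, hc⟩ := Group.mem_conjugatesOfSet_iff.1 hx
    rw [Set.mem_singleton_iff] at hy
    subst hy
    obtain ⟨s, rfl⟩ := isConj_iff.1 hc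
    intro z hz
    rw [show z = y from hz]
    exact commutatorElement_eq_one_iff_mul_comm.1 (h s)
  apply ht
  rw [← mem_bot, ← center_eq_bot_of_simple hT, mem_center_iff]
  intro g
  exact (h2 (h1 ▸ mem_top g) t rfl).symm

variable {W : Type} [Finite W]

theorem nonregular (ih : ∀ (W' : Type) [Finite W'], Nat.card W' < Nat.card W → Bd W')
    {G : Type} [Group G] [Finite G] [MulAction G W] [FaithfulSMul G W]
    (h2 : 2 ≤ Nat.card W) (a : W) (hA : IsCoatom (stabilizer G a)) (N : Subgroup G)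
    (hN : IsMinNormal N) (hNt : ∀ x, ∃ u ∈ N, u • a = x) (hr : ¬ ∀ u ∈ N, u • a = a → u = 1) :
    3 * cl G + 4 ≤ 4 * Nat.card W := by
  classical
  have hNn := hN.normal
  have hNt' : IsPretransitive N W := ⟨fun x y => by
    obtain ⟨u, hu, rfl⟩ := hNt x
    obtain ⟨v, hv, rfl⟩ := hNt y
    exact ⟨⟨v * u⁻¹, N.mul_mem hv (N.inv_mem hu)⟩, by
      change (v * u⁻¹) • u • a = v • a
      rw [mul_smul, inv_smul_smul]⟩⟩
  -- the centraliser of `N` is trivial
  have hC : ∀ g : G, (∀ u ∈ N, u * g = g * u) → g = 1 := by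
    intro g hg
    by_contra hg1
    apply hr
    intro u hu hua
    have hCt : IsPretransitive (centralizer (N : Set G)) W := by
      have hle : ¬ centralizer (N : Set G) ≤ stabilizer G a := fun hle =>
        hg1 (eq_one_of_centralizes hNt' hg (hle hg))
      have htop := sup_eq_top_of_isCoatom hA hle
      have key : ∀ x, ∃ c ∈ centralizer (N : Set G), c • a = x := by
        intro x
        obtain ⟨v, -, rfl⟩ := hNt x
        have hv : v ∈ centralizer (N : Set G) ⊔ stabilizer G a := htop ▸ mem_top v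
        rw [← SetLike.mem_coe, normal_mul] at hv
        obtain ⟨c, hc, s, hs, rfl⟩ := hv
        exact ⟨c, hc, by rw [mul_smul, show s • a = a from hs]⟩
      exact ⟨fun x y => by
        obtain ⟨u, hu, rfl⟩ := key x
        obtain ⟨v, hv, rfl⟩ := key y
        exact ⟨⟨v * u⁻¹, mul_mem hv (inv_mem hu)⟩, by
          change (v * u⁻¹) • u • a = v • a
          rw [mul_smul, inv_smul_smul]⟩⟩
    exact eq_one_of_centralizes hCt (fun m hm => (hm u hu).symm) hua
  obtain ⟨T, _, _, k, hk, ⟨e⟩⟩ := Cfsg.Lib.Perm.IsMinNormal.exists_equiv_pi hN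
  have : Finite (Fin k → T) := Finite.of_equiv N e.toEquiv
  have : Finite T := Finite.of_surjective (fun x : Fin k → T => x ⟨0, hk⟩)
    fun t => ⟨fun _ => t, rfl⟩
  obtain ⟨j, hj⟩ : ∃ j : (Fin k → T) →* G, ∀ x, j x = e.symm x :=
    ⟨N.subtype.comp e.symm.toMonoidHom, fun _ => rfl⟩
  have hji : Injective j := fun x y h => by
    rw [hj, hj] at h; exact e.symm.injective (Subtype.ext h)
  have hjN : ∀ x, j x ∈ N := fun x => hj x ▸ (e.symm x).2
  have hNj : ∀ u ∈ N, ∃ x, j x = u := fun u hu => ⟨e ⟨u, hu⟩, by rw [hj]; simp⟩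
  have hT : ¬ IsMulCommutative T := by
    intro hT
    obtain ⟨⟨u, hu⟩, hu1⟩ := ne_bot_iff_exists_ne_one.1 hN.ne_bot
    refine hu1 (Subtype.ext (hC u fun v hv => ?_))
    obtain ⟨x, rfl⟩ := hNj u hu
    obtain ⟨y, rfl⟩ := hNj v hv
    rw [← map_mul, ← map_mul]
    congr 1
    funext i
    exact mul_comm' (y i) (x i)
  obtain ⟨φ, hφ⟩ : ∃ φ : G → (Fin k → T) ≃* (Fin k → T), ∀ g x, j (φ g x) = g * j x * g⁻¹ :=
    ⟨fun g => (e.symm.trans (MulAut.conjNormal g)).trans e, fun g x => by
      rw [hj, hj]; simp⟩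
  have hσ : ∀ g i, ∃ i', ∀ x, φ g x i = 1 ↔ x i' = 1 := fun g i =>
    exists_eq_proj_of_surjective hT ((Pi.evalMonoidHom (fun _ => T) i).comp (φ g).toMonoidHom)
      fun t => ⟨(φ g).symm fun _ => t, by simp⟩
  choose σ hσ using hσ
  have hσi : ∀ g, Injective (σ g) := by
    intro g i i' h
    obtain ⟨t, ht⟩ := exists_ne (1 : T)
    by_contra hne
    have h1 := hσ g i ((φ g).symm (Pi.mulSingle i t))
    have h2 := hσ g i' ((φ g).symm (Pi.mulSingle i t))
    rw [MulEquiv.apply_symm_apply] at h1 h2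
    rw [h, ← h2] at h1
    simp [Ne.symm hne, ht] at h1
  have hφs : ∀ g i t, ∃ i' t', σ g i' = i ∧ φ g (Pi.mulSingle i t) = Pi.mulSingle i' t' := by
    intro g i t
    obtain ⟨i', hi'⟩ := Finite.surjective_of_injective (hσi g) i
    refine ⟨i', φ g (Pi.mulSingle i t) i', hi', funext fun l => ?_⟩
    by_cases hl : l = i'
    · subst hl; simp
    · rw [Pi.mulSingle_eq_of_ne hl, hσ, Pi.mulSingle_eq_of_ne]
      exact fun h => hl (hσi g (h.trans hi'.symm))
  -- the point stabiliser in `N`
  obtain ⟨L, hL⟩ : ∃ L : Subgroup (Fin k → T), ∀ x, x ∈ L ↔ j x • a = a :=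
    ⟨(stabilizer G a).comap j, fun _ => Iff.rfl⟩
  have hLφ : ∀ g, g • a = a → ∀ x ∈ L, φ g x ∈ L := by
    intro g hg x hx
    rw [hL] at hx ⊢
    rw [hφ, mul_smul, mul_smul, show g⁻¹ • a = a from (stabilizer G a).inv_mem hg, hx, hg]
  have hdec := exists_mul_inv_mem a N hNt
  -- subgroups of the power that are normal and `A`-invariant are trivial
  have hmin : ∀ K : Subgroup (Fin k → T), K.Normal → (∀ g, g • a = a → ∀ x ∈ K, φ g x ∈ K) →
      K ≠ ⊥ → K = ⊤ := by
    intro K hK hKφ hK0
    have h1 : (K.map j).Normal := ⟨by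
      rintro _ ⟨x, hx, rfl⟩ g
      obtain ⟨s, hs, hgs⟩ := hdec g
      obtain ⟨y, hy⟩ := hNj _ hgs
      refine ⟨y * φ s x * y⁻¹, hK.conj_mem _ (hKφ s hs x hx) y, ?_⟩
      rw [map_mul, map_mul, map_inv, hφ, hy]; group⟩
    have h2 := hN.eq_of_le h1 (fun h => hK0 ((map_eq_bot_iff_of_injective K hji).1 h))
      (by rintro _ ⟨x, -, rfl⟩; exact hjN x)
    rw [eq_top_iff]
    intro x _
    obtain ⟨y, hy, hxy⟩ : j x ∈ K.map j := h2 ▸ hjN x
    exact hji hxy ▸ hy
  by_cases hX : ∃ i t, t ≠ 1 ∧ Pi.mulSingle i t ∈ L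
  · -- every factor meets the stabiliser
    have hall : ∀ i, ∃ t, t ≠ 1 ∧ Pi.mulSingle i t ∈ L := by
      let K : Subgroup (Fin k → T) :=
        { carrier := {x | ∀ i, (∀ t, Pi.mulSingle i t ∈ L → t = 1) → x i = 1}
          one_mem' := fun _ _ => rfl
          mul_mem' := fun {x y} hx hy i hi => by rw [Pi.mul_apply, hx i hi, hy i hi, mul_one]
          inv_mem' := fun {x} hx i hi => by rw [Pi.inv_apply, hx i hi, inv_one] }
      have hK := hmin K ⟨fun x hx y i hi => by simp [hx i hi]⟩ (fun g hg x hx i hi => by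
        rw [hσ]
        apply hx
        intro t ht
        obtain ⟨i', t', h1, h2⟩ := hφs g (σ g i) t
        have h3 := hLφ g hg _ ht
        rw [h2, hσi g h1] at h3
        rw [hi t' h3, Pi.mulSingle_one, MulEquiv.map_eq_one_iff] at h2
        simpa using congrFun h2 (σ g i)) (by
        obtain ⟨i, t, ht, h⟩ := hX
        refine ne_bot_iff_exists_ne_one.2 ⟨⟨Pi.mulSingle i t, fun l hl => ?_⟩, fun h => ht ?_⟩
        · by_cases hli : l = i
          · subst hli; simpa using hl t h
          · exact Pi.mulSingle_eq_of_ne hli _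
        · simpa using congrFun (congrArg Subtype.val h) i)
      intro i
      by_contra h
      push Not at h
      obtain ⟨t, ht⟩ := exists_ne (1 : T)
      have : (fun _ => t) ∈ K := hK ▸ mem_top _
      exact ht (this i fun s hs => by_contra fun h1 => h s h1 hs)
    apply stab_step ih h2 a N hNt
    let S : Fin k → Subgroup T := fun i => L.comap (MonoidHom.mulSingle (fun _ => T) i)
    have h1 : cl N = k := by
      rw [cl_congr e, cl_pi]; simp [cl_simple]
    have h3 : k ≤ cl (∀ i, S i) := by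
      rw [cl_pi]
      calc k = ∑ _i : Fin k, 1 := by simp
        _ ≤ _ := Finset.sum_le_sum fun i _ => by
          obtain ⟨t, ht, h⟩ := hall i
          have : Nontrivial (S i) := ⟨⟨⟨t, h⟩, 1, fun e => ht (congrArg Subtype.val e)⟩⟩
          exact one_le_cl
    let f0 : (∀ i, S i) →* (Fin k → T) :=
      MonoidHom.pi fun i => (S i).subtype.comp (Pi.evalMonoidHom (fun i => S i) i)
    have hf0 : ∀ x, f0 x ∈ L := fun x => mem_of_forall_mulSingle_mem fun i => (x i).2
    let f : (∀ i, S i) →* L := f0.codRestrict L hf0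
    have h4 := cl_le_of_inj f (fun x y h => funext fun i =>
      Subtype.ext (congrFun (congrArg Subtype.val h) i)) ⟨by
        rintro _ ⟨x, rfl⟩ y
        refine ⟨fun i => ⟨y.1 i * x i * (y.1 i)⁻¹, ?_⟩, rfl⟩
        have := L.mul_mem (L.mul_mem y.2 (x i).2) (L.inv_mem y.2)
        change Pi.mulSingle i _ ∈ L
        convert this using 1
        funext l
        by_cases hl : l = i
        · subst hl; simp
        · simp [hl]⟩
    have h5 : cl L = cl (N.subgroupOf (stabilizer G a)) := by
      let f : L →* N.subgroupOf (stabilizer G a) :=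
        ((j.comp L.subtype).codRestrict (stabilizer G a) fun x => (hL x).1 x.2).codRestrict _
          fun x => hjN x
      refine cl_congr (MulEquiv.ofBijective f ⟨fun x y h => Subtype.ext (hji ?_), fun u => ?_⟩)
      · exact congrArg (fun z => z.1.1) h
      · obtain ⟨x, hx⟩ := hNj u.1.1 u.2
        exact ⟨⟨x, (hL x).2 (by rw [hx]; exact u.1.2)⟩, Subtype.ext (Subtype.ext hx)⟩
    omega
  · push Not at hX
    have hY : ∀ i t, Pi.mulSingle i t ∈ L → t = 1 := fun i t h => by_contra fun ht => hX i t ht h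
    -- the stabiliser projects onto every factor
    have hsub : ∀ i t, ∃ s ∈ L, s i = t := by
      let R : Subgroup (Fin k → T) :=
        { carrier := {x | ∀ i, ∃ s ∈ L, s i = x i}
          one_mem' := fun _ => ⟨1, L.one_mem, rfl⟩
          mul_mem' := fun {x y} hx hy i => by
            obtain ⟨s, hs, h1⟩ := hx i
            obtain ⟨s', hs', h2⟩ := hy i
            exact ⟨s * s', L.mul_mem hs hs', by rw [Pi.mul_apply, Pi.mul_apply, h1, h2]⟩
          inv_mem' := fun {x} hx i => by
            obtain ⟨s, hs, h1⟩ := hx i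
            exact ⟨s⁻¹, L.inv_mem hs, by rw [Pi.inv_apply, Pi.inv_apply, h1]⟩ }
      have hR : ∀ g, g • a = a → ∀ x ∈ R, φ g x ∈ R := by
        intro g hg x hx i
        obtain ⟨s, hs, h1⟩ := hx (σ g i)
        refine ⟨φ g s, hLφ g hg s hs, ?_⟩
        have := (hσ g i (s * x⁻¹)).2 (by simp [h1])
        rw [map_mul, map_inv, Pi.mul_apply, Pi.inv_apply, mul_inv_eq_one] at this
        exact this
      let M : Subgroup G :=
        { carrier := {g | ∃ x ∈ R, j x • a = g • a}
          one_mem' := ⟨1, R.one_mem, by simp⟩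
          mul_mem' := fun {g h} ⟨x, hx, h1⟩ ⟨y, hy, h2⟩ => by
            have h3 : ((j x)⁻¹ * g) • a = a := by rw [mul_smul, ← h1, inv_smul_smul]
            refine ⟨x * φ _ y, R.mul_mem hx (hR _ h3 y hy), ?_⟩
            rw [map_mul, hφ, mul_smul, mul_smul, mul_smul,
              show ((j x)⁻¹ * g)⁻¹ • a = a from (stabilizer G a).inv_mem h3, h2, mul_smul,
              smul_inv_smul, mul_smul]
          inv_mem' := fun {g} ⟨x, hx, h1⟩ => by
            have h3 : (g⁻¹ * j x) • a = a := by rw [mul_smul, h1, inv_smul_smul]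
            refine ⟨φ _ x⁻¹, hR _ h3 _ (R.inv_mem hx), ?_⟩
            rw [hφ, mul_smul, show (g⁻¹ * j x)⁻¹ • a = a from (stabilizer G a).inv_mem h3,
              map_inv, mul_inv_cancel_right] }
      have hAM : stabilizer G a ≤ M := fun g hg => ⟨1, R.one_mem, by
        rw [map_one, one_smul]; exact Eq.symm hg⟩
      have hLR : L ≤ R := fun x hx i => ⟨x, hx, rfl⟩
      rcases hAM.eq_or_lt with h | h
      · exfalso
        apply hr
        intro u hu hua
        obtain ⟨x, rfl⟩ := hNj u hu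
        have hx := (hL x).2 hua
        have : x = 1 := funext fun i => hY i (x i) ((hL _).2 (by
          have : j (Pi.mulSingle i (x i)) ∈ M := ⟨Pi.mulSingle i (x i), fun l => by
            by_cases hl : l = i
            · subst hl; exact ⟨x, hx, by simp⟩
            · exact ⟨1, L.one_mem, by simp [hl]⟩, rfl⟩
          rw [← h] at this
          exact this))
        rw [this, map_one]
      · intro i t
        obtain ⟨x, hx, h1⟩ : j (fun _ => t) ∈ M := hA.2 M h ▸ mem_top _
        have h3 : x⁻¹ * (fun _ => t) ∈ L := by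
          rw [hL, map_mul, map_inv, mul_smul, ← h1, inv_smul_smul]
        have h4 := R.mul_mem hx (hLR h3)
        rw [mul_inv_cancel_left] at h4
        exact h4 i
    have := Fintype.ofFinite W
    have := Fintype.ofFinite G
    obtain ⟨U, hU⟩ : ∃ U : Finset G, ∀ u, u ∈ U ↔ ∃ i t, t ≠ 1 ∧ u = j (Pi.mulSingle i t) :=
      ⟨Finset.univ.filter fun u => ∃ i t, t ≠ 1 ∧ u = j (Pi.mulSingle i t), fun u => by simp⟩
    have hdiv : ∀ x y : Fin k → T, j x • a = j y • a → x⁻¹ * y ∈ L := fun x y h => by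
      rw [hL, map_mul, map_inv, mul_smul, ← h, inv_smul_smul]
    have hsame : ∀ i t t', j (Pi.mulSingle i t) • a = j (Pi.mulSingle i t') • a → t = t' := by
      intro i t t' h
      have := hdiv _ _ h
      rw [← Pi.mulSingle_inv, ← Pi.mulSingle_mul] at this
      exact inv_mul_eq_one.1 (hY i _ this)
    have hUc : U.card ≤ 2 * (Finset.univ.erase a).card := by
      refine Finset.card_le_mul_card_image_of_maps_to (f := fun u => u • a) (fun u hu => ?_) 2
        fun w _ => ?_
      · obtain ⟨i, t, ht, rfl⟩ := (hU u).1 hu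
        exact Finset.mem_erase.2 ⟨fun h => ht (hY i t ((hL _).2 h)), Finset.mem_univ _⟩
      · by_contra hlt
        obtain ⟨u₁, u₂, u₃, h₁, h₂, h₃, n12, n13, n23⟩ := Finset.two_lt_card_iff.1 (not_le.1 hlt)
        rw [Finset.mem_filter, hU] at h₁ h₂ h₃
        obtain ⟨⟨i₁, t₁, ht₁, rfl⟩, e₁⟩ := h₁
        obtain ⟨⟨i₂, t₂, ht₂, rfl⟩, e₂⟩ := h₂
        obtain ⟨⟨i₃, t₃, ht₃, rfl⟩, e₃⟩ := h₃
        have m12 : i₁ ≠ i₂ := by rintro rfl; exact n12 (by rw [hsame _ _ _ (e₁.trans e₂.symm)])
        have m13 : i₁ ≠ i₃ := by rintro rfl; exact n13 (by rw [hsame _ _ _ (e₁.trans e₃.symm)])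
        have m23 : i₂ ≠ i₃ := by rintro rfl; exact n23 (by rw [hsame _ _ _ (e₂.trans e₃.symm)])
        have b2 := hdiv _ _ (e₂.trans e₁.symm)
        have b3 := hdiv _ _ (e₃.trans e₁.symm)
        apply ht₁
        apply eq_one_of_comm_conj hT
        intro s
        obtain ⟨z, hz, hzs⟩ := hsub i₁ s
        apply hY i₁
        have b4 := L.mul_mem (L.mul_mem hz b3) (L.inv_mem hz)
        have := L.mul_mem (L.mul_mem (L.mul_mem b2 b4) (L.inv_mem b2)) (L.inv_mem b4)
        convert this using 1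
        funext l
        by_cases hl : l = i₁
        · subst hl
          simp [commutatorElement_def, m12, m13, hzs]
        · by_cases hl2 : l = i₂
          · subst hl2
            simp [commutatorElement_def, m23, hl]
          · simp [commutatorElement_def, hl, hl2]
    rw [Finset.card_erase_of_mem (Finset.mem_univ a), Finset.card_univ, ← Nat.card_eq_fintype_card]
      at hUc
    obtain ⟨t₁, t₂, ht₁, ht₂, hne⟩ := two_orders hT
    have hord : ∀ i t, orderOf (j (Pi.mulSingle i t)) = orderOf t := fun i t => by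
      rw [orderOf_injective j hji]
      exact orderOf_injective (MonoidHom.mulSingle (fun _ => T) i) 
        (fun x y h => by simpa using congrFun h i) t
    have hstep : ∀ (P : ℕ → Prop) [DecidablePred P], (∃ t : T, t ≠ 1 ∧ P (orderOf t)) →
        (U.filter fun u => P (orderOf u)).card < Nat.card W → 3 * cl G + 4 ≤ 4 * Nat.card W := by
      intro P _ ⟨t, ht, hP⟩ hc
      refine conj_step ih hN hC (U.filter fun u => P (orderOf u)) (fun s hs => ?_)
        (fun s hs g => ?_) ⟨j (Pi.mulSingle ⟨0, hk⟩ t), ?_⟩ (by rwa [Set.ncard_coe_finset])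
      · rw [Finset.mem_coe, Finset.mem_filter, hU] at hs
        obtain ⟨⟨i, t, ht, rfl⟩, -⟩ := hs
        refine ⟨hjN _, fun h => ht ?_⟩
        rw [← orderOf_eq_one_iff, hord, orderOf_eq_one_iff] at h
        exact h
      · rw [Finset.mem_coe, Finset.mem_filter, hU] at hs ⊢
        obtain ⟨⟨i, t, ht, rfl⟩, hP⟩ := hs
        refine ⟨?_, ?_⟩
        · obtain ⟨i', t', -, h⟩ := hφs g i t
          refine ⟨i', t', fun h1 => ht ?_, by rw [← h, hφ]⟩
          rw [h1, Pi.mulSingle_one, MulEquiv.map_eq_one_iff] at h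
          simpa using congrFun h i
        · have : orderOf (g * j (Pi.mulSingle i t) * g⁻¹) = orderOf (j (Pi.mulSingle i t)) :=
            orderOf_injective (MulAut.conj g).toMonoidHom (MulAut.conj g).injective _
          rwa [this]
      · rw [Finset.mem_coe, Finset.mem_filter, hU, hord]
        exact ⟨⟨_, t, ht, rfl⟩, hP⟩
    have hsum := Finset.card_filter_add_card_filter_not (s := U)
      (fun u => orderOf u = orderOf t₁)
    by_cases hc : (U.filter fun u => orderOf u = orderOf t₁).card < Nat.card W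
    · exact hstep (fun m => m = orderOf t₁) ⟨t₁, ht₁, rfl⟩ hc
    · exact hstep (fun m => ¬ m = orderOf t₁) ⟨t₂, ht₂, hne⟩ (by omega)

theorem bd_all : ∀ (n : ℕ) (W : Type) [Finite W], Nat.card W = n → Bd W := by
  intro n
  induction n using Nat.strong_induction_on with
  | _ n ih0 =>
  intro W _ hn
  have ih : ∀ (W' : Type) [Finite W'], Nat.card W' < Nat.card W → Bd W' :=
    fun W' _ h => ih0 _ (hn ▸ h) W' rfl
  intro G _ _ _ _ ι p hp hg
  by_cases h2 : 2 ≤ Nat.card ι
  · exact intrans ih G ι p hp hg h2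
  by_cases hW : Nat.card W ≤ 1
  · have : Subsingleton W := Finite.card_le_one_iff_subsingleton.1 hW
    have : Subsingleton G := ⟨fun g h =>
      FaithfulSMul.eq_of_smul_eq_smul (α := W) fun _ => Subsingleton.elim _ _⟩
    have := Nat.card_le_card_of_surjective p hp
    rw [cl_eq_zero]; omega
  suffices 3 * cl G + 4 ≤ 4 * Nat.card W by omega
  by_cases ht : IsPretransitive G W
  swap
  · have : Nontrivial (orbitRel.Quotient G W) := by
      by_contra h
      exact ht ((pretransitive_iff_subsingleton_quotient G W).2 (not_nontrivial_iff_subsingleton.1 h))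
    have h3 : 2 ≤ Nat.card (orbitRel.Quotient G W) := Finite.one_lt_card
    have := intrans ih G (orbitRel.Quotient G W) (Quotient.mk _) Quotient.mk_surjective
      (fun g x => Quotient.sound ⟨g, rfl⟩) h3
    omega
  have hW2 : 2 ≤ Nat.card W := by omega
  have : Nontrivial W := Finite.one_lt_card_iff_nontrivial.1 hW2
  obtain ⟨a, b, hab⟩ := exists_pair_ne W
  have hne : stabilizer G a ≠ ⊤ := fun h => by
    obtain ⟨g, rfl⟩ := exists_smul_eq G a b
    exact hab (Eq.symm (h ▸ mem_top g : g ∈ stabilizer G a))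
  by_cases hA : IsCoatom (stabilizer G a)
  swap
  · rw [IsCoatom, not_and] at hA
    have := hA hne
    push Not at this
    obtain ⟨M, hM, hM'⟩ := this
    exact imprim ih G a M hM hM'
  have : Nontrivial G := by
    by_contra h
    have := not_nontrivial_iff_subsingleton.1 h
    exact hne (Subsingleton.elim _ _)
  obtain ⟨N, hN⟩ := exists_isMinNormal (G := G)
  have := hN.normal
  have hNt : ∀ x, ∃ u ∈ N, u • a = x := by
    have hle : ¬ N ≤ stabilizer G a := fun hle => hN.ne_bot (by
      rw [eq_bot_iff]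
      intro u hu
      refine FaithfulSMul.eq_of_smul_eq_smul (α := W) fun x => ?_
      obtain ⟨g, rfl⟩ := exists_smul_eq G a x
      have : (g⁻¹ * u * g⁻¹⁻¹) • a = a := hle (hN.normal.conj_mem u hu g⁻¹)
      rw [inv_inv, mul_smul, mul_smul, inv_smul_eq_iff] at this
      rw [this, one_smul])
    have htop := sup_eq_top_of_isCoatom hA hle
    intro x
    obtain ⟨v, rfl⟩ := exists_smul_eq G a x
    have hv : v ∈ N ⊔ stabilizer G a := htop ▸ mem_top v
    rw [← SetLike.mem_coe, normal_mul] at hv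
    obtain ⟨c, hc, s, hs, rfl⟩ := hv
    exact ⟨c, hc, by rw [mul_smul, show s • a = a from hs]⟩
  by_cases hr : ∀ u ∈ N, u • a = a → u = 1
  · exact regular hW2 a N hNt hr
  · exact nonregular ih hW2 a hA N hN hNt hr

end Cfsg.Lib.CharDeg.CompLen
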