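import Mathlib

/-!
Derangements in doubly transitive groups: the linear space of fixed point sets of two-point stabilisers.
-/

set_option autoImplicit false

namespace Cfsg.Lib.CharDeg.Der

open MulAction Finset

variable {G Ω : Type*} [Group G] [MulAction G Ω]

/-- two-point stabiliser -/
def st (G : Type*) [Group G] [MulAction G Ω] (x y : Ω) : Subgroup G := stabilizer G x ⊓ stabilizer G y

theorem mem_st {x y : Ω} {g : G} : g ∈ st G x y ↔ g • x = x ∧ g • y = y := Iff.rfl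

theorem st_comm (x y : Ω) : st G x y = st G y x := inf_comm _ _

theorem conj_mem_st {x y : Ω} {g : G} (h : G) : h * g * h⁻¹ ∈ st G (h • x) (h • y) ↔ g ∈ st G x y := by
  simp [mem_st, mul_smul]

theorem st_smul (x y : Ω) (h : G) : st G (h • x) (h • y) = (st G x y).map (MulAut.conj h).toMonoidHom := by
  ext g
  constructor
  · intro hg
    exact ⟨h⁻¹ * g * h, (conj_mem_st h).1 (by simpa [mul_assoc] using hg), by simp [mul_assoc]⟩
  · rintro ⟨k, hk, rfl⟩
    exact (conj_mem_st h).2 hk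

/-- double transitivity -/
def Two (G Ω : Type*) [Group G] [MulAction G Ω] : Prop :=
  ∀ a b c d : Ω, a ≠ b → c ≠ d → ∃ g : G, g • a = c ∧ g • b = d

theorem Two.card_st (h : Two G Ω) {a b x y : Ω} (hab : a ≠ b) (hxy : x ≠ y) :
    Nat.card (st G x y) = Nat.card (st G a b) := by
  obtain ⟨g, rfl, rfl⟩ := h a b x y hab hxy
  rw [st_smul, Subgroup.card_map_of_injective (MulAut.conj g).injective]

theorem Two.st_eq [Finite G] (h : Two G Ω) {a b x y : Ω} (hab : a ≠ b) (hxy : x ≠ y) (hle : st G a b ≤ st G x y) :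
    st G a b = st G x y := Subgroup.eq_of_le_of_card_ge hle (h.card_st hab hxy).le

variable [Fintype Ω]

open Classical in
/-- fixed points -/
noncomputable def fx (Ω : Type*) [Fintype Ω] [MulAction G Ω] (g : G) : Finset Ω := univ.filter fun x => g • x = x

theorem mem_fx {g : G} {x : Ω} : x ∈ fx Ω g ↔ g • x = x := by simp [fx]

open Classical in
/-- the line through two points -/
noncomputable def line (G : Type*) [Group G] [MulAction G Ω] (x y : Ω) : Finset Ω :=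
  univ.filter fun z => ∀ g ∈ st G x y, g • z = z

theorem mem_line {x y z : Ω} : z ∈ line G x y ↔ ∀ g ∈ st G x y, g • z = z := by simp [line]

theorem left_mem_line (x y : Ω) : x ∈ line G x y := mem_line.2 fun _ hg => hg.1

theorem right_mem_line (x y : Ω) : y ∈ line G x y := mem_line.2 fun _ hg => hg.2

theorem line_comm (x y : Ω) : line G x y = line G y x := by
  ext z; rw [mem_line, mem_line, st_comm]

theorem smul_mem_line {x y z : Ω} (h : G) : h • z ∈ line G (h • x) (h • y) ↔ z ∈ line G x y := by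
  rw [mem_line, mem_line, st_smul]
  constructor
  · intro H g hg
    have := H _ ⟨g, hg, rfl⟩
    simpa [mul_smul] using this
  · rintro H _ ⟨g, hg, rfl⟩
    simp [mul_smul, H g hg]

theorem Two.card_line (h : Two G Ω) {a b x y : Ω} (hab : a ≠ b) (hxy : x ≠ y) :
    #(line G x y) = #(line G a b) := by
  obtain ⟨g, rfl, rfl⟩ := h a b x y hab hxy
  symm
  exact card_bij (fun z _ => g • z) (fun z hz => (smul_mem_line g).2 hz) (fun _ _ _ _ e => MulAction.injective g e)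
    fun z hz => ⟨g⁻¹ • z, (smul_mem_line g).1 (by simpa using hz), smul_inv_smul g z⟩

theorem Two.st_eq_of_mem [Finite G] (h : Two G Ω) {a b x y : Ω} (hab : a ≠ b) (hxy : x ≠ y) (hx : x ∈ line G a b)
    (hy : y ∈ line G a b) : st G a b = st G x y :=
  h.st_eq hab hxy fun g hg => ⟨mem_line.1 hx g hg, mem_line.1 hy g hg⟩

theorem Two.fix_bound [Finite G] (h : Two G Ω) {a b : Ω} (hab : a ≠ b) {g : G} {c : Ω} (hc : g • c ≠ c) :
    #(fx Ω g) * (#(line G a b) - 1) + 1 ≤ Fintype.card Ω := by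
  classical
  have hne : ∀ x ∈ fx Ω g, x ≠ c := fun x hx e => hc (e ▸ mem_fx.1 hx)
  have h1 : #((fx Ω g).biUnion fun x => (line G x c).erase c) = #(fx Ω g) * (#(line G a b) - 1) := by
    rw [card_biUnion, sum_const_nat]
    · intro x hx
      rw [card_erase_of_mem (right_mem_line x c), h.card_line hab (hne x hx)]
    · intro x hx y hy hxy
      rw [Function.onFun, disjoint_left]
      intro z hz hz'
      rw [mem_erase] at hz hz'
      have e1 := h.st_eq_of_mem (hne x hx) hz.1 hz.2 (right_mem_line x c)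
      have e2 := h.st_eq_of_mem (hne y hy) hz.1 hz'.2 (right_mem_line y c)
      have e3 : y ∈ line G x c := mem_line.2 fun k hk => (e2 ▸ e1 ▸ hk : k ∈ st G y c).1
      have e4 := h.st_eq_of_mem (hne x hx) hxy (left_mem_line x c) e3
      exact hc (e4 ▸ (⟨mem_fx.1 hx, mem_fx.1 hy⟩ : g ∈ st G x y) : g ∈ st G x c).2
  have h2 : ((fx Ω g).biUnion fun x => (line G x c).erase c) ⊆ univ.erase c := by
    intro z hz
    obtain ⟨x, -, hx⟩ := mem_biUnion.1 hz
    exact mem_erase.2 ⟨(mem_erase.1 hx).1, mem_univ _⟩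
  have h3 := card_le_card h2
  rw [h1, card_erase_of_mem (mem_univ _), card_univ] at h3
  have : 0 < Fintype.card Ω := Fintype.card_pos_iff.2 ⟨c⟩
  omega

theorem card_fx_conj (g h : G) : #(fx Ω (h * g * h⁻¹)) = #(fx Ω g) := by
  symm
  exact card_bij (fun z _ => h • z) (fun z hz => by simpa [mem_fx, mul_smul] using hz)
    (fun _ _ _ _ e => MulAction.injective h e)
    fun z hz => ⟨h⁻¹ • z, by simpa [mem_fx, mul_smul, smul_eq_iff_eq_inv_smul] using hz, smul_inv_smul h z⟩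

open Classical in
theorem Two.sum_pairs [Fintype G] (h : Two G Ω) {a b : Ω} (hab : a ≠ b) (ψ : ℕ → ℚ) :
    ∑ g : G, (#(fx Ω g) : ℚ) * (#(fx Ω g) - 1) * ψ #(fx Ω g) =
      Fintype.card Ω * (Fintype.card Ω - 1) * ∑ g ∈ univ.filter (· ∈ st G a b), ψ #(fx Ω g) := by
  have h1 : ∀ g : G, (#(fx Ω g) : ℚ) * (#(fx Ω g) - 1) * ψ #(fx Ω g) =
      ∑ p ∈ (univ : Finset Ω).offDiag, if g ∈ st G p.1 p.2 then ψ #(fx Ω g) else 0 := by
    intro g
    rw [← sum_filter, sum_const, nsmul_eq_mul]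
    congr 1
    have : (univ : Finset Ω).offDiag.filter (fun p => g ∈ st G p.1 p.2) = (fx Ω g).offDiag := by
      ext p; simp only [mem_filter, mem_offDiag, mem_univ, true_and, mem_st, mem_fx]; tauto
    rw [this, offDiag_card, Nat.cast_sub (Nat.le_mul_self _)]
    push_cast; ring
  have h2 : ∀ p ∈ (univ : Finset Ω).offDiag, (∑ g : G, if g ∈ st G p.1 p.2 then ψ #(fx Ω g) else 0) =
      ∑ g ∈ univ.filter (· ∈ st G a b), ψ #(fx Ω g) := by
    rintro ⟨x, y⟩ hp
    obtain ⟨k, rfl, rfl⟩ := h a b x y hab (mem_offDiag.1 hp).2.2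
    rw [sum_filter, ← (MulAut.conj k).toEquiv.sum_comp]
    refine sum_congr rfl fun g _ => ?_
    change (if k * g * k⁻¹ ∈ _ then ψ #(fx Ω (k * g * k⁻¹)) else 0) = _
    simp only [conj_mem_st, card_fx_conj]
  rw [sum_congr rfl fun g _ => h1 g, sum_comm, sum_congr rfl h2, sum_const, offDiag_card, card_univ, nsmul_eq_mul,
    Nat.cast_sub (Nat.le_mul_self _)]
  push_cast; ring

open Classical in
theorem Two.card_eq [Fintype G] (h : Two G Ω) {a b : Ω} (hab : a ≠ b) :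
    Fintype.card G = Fintype.card Ω * (Fintype.card Ω - 1) * #(univ.filter (· ∈ st G a b)) := by
  rw [← card_univ, card_eq_sum_card_fiberwise (f := fun g : G => (g • a, g • b)) (t := (univ : Finset Ω).offDiag)
    (fun g _ => by simpa using hab), sum_const_nat (m := #(univ.filter (· ∈ st G a b))), offDiag_card, card_univ,
    Nat.mul_sub_one]
  rintro ⟨x, y⟩ hp
  obtain ⟨k, rfl, rfl⟩ := h a b x y hab (mem_offDiag.1 hp).2.2
  symm
  exact card_bij (fun g _ => k * g) (fun g hg => by simpa [mul_smul, mem_st] using hg)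
    (fun _ _ _ _ e => mul_left_cancel e)
    fun g hg => ⟨k⁻¹ * g, by simpa [mul_smul, mem_st, inv_smul_eq_iff] using hg, by simp⟩

omit [Fintype Ω] in
theorem Two.small_orbits (h : Two G Ω) {a b : Ω} (hab : a ≠ b)
    (H : ∀ z : Ω, ∀ g ∈ st G a b, ∀ k ∈ st G a b, g • z ≠ z → k • z ≠ z → g • z = k • z) {x y : Ω} (hxy : x ≠ y)
    (z : Ω) : ∀ g ∈ st G x y, ∀ k ∈ st G x y, g • z ≠ z → k • z ≠ z → g • z = k • z := by
  obtain ⟨t, rfl, rfl⟩ := h a b x y hab hxy
  rw [st_smul]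
  rintro _ ⟨g, hg, rfl⟩ _ ⟨k, hk, rfl⟩ h1 h2
  change (t * g * t⁻¹) • z ≠ z at h1
  change (t * k * t⁻¹) • z ≠ z at h2
  change (t * g * t⁻¹) • z = (t * k * t⁻¹) • z
  simp only [mul_smul] at h1 h2 ⊢
  rw [H (t⁻¹ • z) g hg k hk (fun e => h1 (by rw [e, smul_inv_smul])) (fun e => h2 (by rw [e, smul_inv_smul]))]

omit [Fintype Ω] in
theorem Two.eq_one_of_small [Finite G] [FaithfulSMul G Ω] (h : Two G Ω) {a b : Ω} (hab : a ≠ b)
    (H : ∀ z : Ω, ∀ g ∈ st G a b, ∀ k ∈ st G a b, g • z ≠ z → k • z ≠ z → g • z = k • z) {c : Ω} {g₀ : G}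
    (hg₀ : g₀ ∈ st G a b) (hc : g₀ • c ≠ c) {u : G} (hu : u ∈ st G a b) (huc : u • c = c) : u = 1 := by
  by_contra hne
  obtain ⟨d, hd⟩ : ∃ d : Ω, u • d ≠ d := by
    by_contra h1
    push Not at h1
    exact hne (eq_of_smul_eq_smul (α := Ω) fun x => by rw [h1, one_smul])
  have H' := fun {x y : Ω} (hxy : x ≠ y) => h.small_orbits hab H hxy
  have hac : a ≠ c := fun e => hc (e ▸ hg₀.1)
  have hbc : b ≠ c := fun e => hc (e ▸ hg₀.2)
  have had : a ≠ d := fun e => hd (e ▸ hu.1)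
  have hbd : b ≠ d := fun e => hd (e ▸ hu.2)
  -- adjust an element to fix `d`
  have adj : ∀ x y z : Ω, x ≠ y → u ∈ st G x y → u • z = z → (∃ g ∈ st G x y, g • z ≠ z) →
      ∃ g ∈ st G x y, g • z ≠ z ∧ g • d = d := by
    rintro x y z hxy h1 h2 ⟨g, hg, hz⟩
    by_cases h3 : g • d = d
    · exact ⟨g, hg, hz, h3⟩
    · refine ⟨u⁻¹ * g, Subgroup.mul_mem _ (Subgroup.inv_mem _ h1) hg, ?_, ?_⟩
      · rwa [mul_smul, Ne, inv_smul_eq_iff, h2]
      · rw [mul_smul, inv_smul_eq_iff]; exact H' hxy d g hg u h1 h3 hd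
  obtain ⟨g, hg, hgc, hgd⟩ := adj a b c hab hu huc ⟨g₀, hg₀, hc⟩
  obtain ⟨k, hk, hkb, hkd⟩ := adj a c b hac ⟨hu.1, huc⟩ hu.2 (by
    by_contra h1
    push Not at h1
    have := h.st_eq hac hab fun g hg => ⟨hg.1, h1 g hg⟩
    exact hc (this ▸ hg₀ : g₀ ∈ st G a c).2)
  obtain ⟨l, hl, hla, hld⟩ := adj b c a hbc ⟨hu.2, huc⟩ hu.1 (by
    by_contra h1
    push Not at h1
    have := h.st_eq hbc hab fun g hg => ⟨h1 g hg, hg.1⟩
    exact hc (this ▸ hg₀ : g₀ ∈ st G b c).2)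
  have fixc : ∀ x y : Ω, x ≠ y → g ∈ st G x y → ∀ w ∈ st G x y, w • c = c → w • g • c = g • c := by
    intro x y hxy h1 w hw hwc
    rw [← mul_smul]
    refine H' hxy c _ (Subgroup.mul_mem _ hw h1) g h1 ?_ hgc
    rw [mul_smul]
    exact fun e => hgc (MulAction.injective w (e.trans hwc.symm))
  have h1 : k • g • c = g • c := fixc a d had ⟨hg.1, hgd⟩ k ⟨hk.1, hkd⟩ hk.2
  have h2 : l • g • c = g • c := fixc b d hbd ⟨hg.2, hgd⟩ l ⟨hl.1, hld⟩ hl.2
  have h3 : st G a c = st G c (g • c) := by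
    refine h.st_eq hac hgc.symm fun w hw => ⟨hw.2, ?_⟩
    by_cases hwb : w • b = b
    · exact fixc a b hab hg w ⟨hw.1, hwb⟩ hw.2
    · have h4 : k⁻¹ * w ∈ st G a c := Subgroup.mul_mem _ (Subgroup.inv_mem _ hk) hw
      have h5 := fixc a b hab hg (k⁻¹ * w) ⟨h4.1, show (k⁻¹ * w) • b = b by
        rw [mul_smul, inv_smul_eq_iff]; exact H' hac b w hw k hk hwb hkb⟩ h4.2
      rw [mul_smul, inv_smul_eq_iff, h1] at h5
      exact h5
  exact hla (h3 ▸ (⟨hl.2, h2⟩ : l ∈ st G c (g • c)) : l ∈ st G a c).1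

theorem Two.nine_le [Finite G] (h : Two G Ω) {a b : Ω} (hab : a ≠ b) {t : G} (ht : t ∈ st G a b) {c₀ : Ω}
    (hc₀ : t • c₀ ≠ c₀) (hL : ∀ g ∈ st G a b, g = 1 ∨ g = t) (h3 : #(line G a b) = 3) : 9 ≤ Fintype.card Ω := by
  classical
  have ht1 : t ≠ 1 := fun e => hc₀ (by rw [e, one_smul])
  have htt : t * t = 1 := (hL _ (Subgroup.mul_mem _ ht ht)).resolve_right (by simpa using ht1)
  have htt' : ∀ x : Ω, t • t • x = x := fun x => by rw [← mul_smul, htt, one_smul]
  have hF : ∀ z, z ∈ line G a b ↔ t • z = z := fun z =>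
    ⟨fun hz => mem_line.1 hz t ht, fun hz => mem_line.2 fun g hg => by
      rcases hL g hg with rfl | rfl
      · exact one_smul _ _
      · exact hz⟩
  have third : ∀ c : Ω, t • c ≠ c → ∀ z ∈ line G c (t • c), ∀ z' ∈ line G c (t • c), z ≠ c → z ≠ t • c → z' ≠ c →
      z' ≠ t • c → z = z' := by
    intro c hc z hz z' hz' a1 a2 a3 a4
    have h4 : #(((line G c (t • c)).erase c).erase (t • c)) = 1 := by
      rw [card_erase_of_mem (mem_erase.2 ⟨hc, right_mem_line _ _⟩), card_erase_of_mem (left_mem_line _ _),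
        h.card_line hab hc.symm, h3]
    exact card_le_one.1 h4.le z (by simp [*]) z' (by simp [*])
  obtain ⟨z₀, hz₀, hz₀'⟩ : ∃ z₀ ∈ line G a b, z₀ ∈ line G c₀ (t • c₀) := by
    have h4 : 0 < #(((line G c₀ (t • c₀)).erase c₀).erase (t • c₀)) := by
      rw [card_erase_of_mem (mem_erase.2 ⟨hc₀, right_mem_line _ _⟩), card_erase_of_mem (left_mem_line _ _),
        h.card_line hab hc₀.symm, h3]; norm_num
    obtain ⟨z, hz⟩ := card_pos.1 h4
    simp only [mem_erase] at hz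
    refine ⟨z, (hF z).2 (third c₀ hc₀ _ ?_ _ hz.2.2 ?_ ?_ hz.2.1 hz.1), hz.2.2⟩
    · have := (smul_mem_line t).2 hz.2.2
      rwa [htt', line_comm] at this
    · exact fun e => hz.1 (by rw [← e, htt'])
    · exact fun e => hz.2.1 (MulAction.injective t e)
  have hex : ∀ z ∈ line G a b, ∃ c, t • c ≠ c ∧ z ∈ line G c (t • c) := by
    intro z hz
    obtain ⟨w₀, hw₀, hw₀'⟩ := exists_mem_ne (s := line G a b) (by omega) z₀
    obtain ⟨w, hw, hw'⟩ := exists_mem_ne (s := line G a b) (by omega) z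
    obtain ⟨g, rfl, rfl⟩ := h z₀ w₀ z w hw₀'.symm hw'.symm
    have e1 := h.st_eq_of_mem hab hw₀'.symm hz₀ hw₀
    have e2 := h.st_eq_of_mem hab hw'.symm hz hw
    have e3 : g * t * g⁻¹ = t :=
      (hL _ (e2 ▸ (conj_mem_st g).2 (e1 ▸ ht))).resolve_left (by simpa using ht1)
    have e4 : t • g • c₀ = g • t • c₀ := by
      nth_rewrite 1 [← e3]; simp [mul_smul]
    refine ⟨g • c₀, ?_, ?_⟩ <;> rw [e4]
    · exact fun e => hc₀ (MulAction.injective g e)
    · exact (smul_mem_line g).2 hz₀'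
  choose! c hc using hex
  have h5 : #((line G a b).biUnion fun z => {c z, t • c z}) = 6 := by
    rw [card_biUnion, sum_const_nat (m := 2), h3]
    · exact fun z hz => card_pair (hc z hz).1.symm
    · intro z hz z' hz' hne
      rw [Function.onFun, disjoint_left]
      intro x hx hx'
      have e : line G (c z') (t • c z') = line G (c z) (t • c z) := by
        simp only [mem_insert, mem_singleton] at hx hx'
        rcases hx with rfl | rfl <;> rcases hx' with e | e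
        · rw [e]
        · rw [e, htt', line_comm]
        · rw [← e, htt', line_comm]
        · rw [MulAction.injective t e]
      have b1 := (hF z).1 hz
      have b2 := (hF z').1 hz'
      have b3 := (hc z hz).1
      exact hne (third (c z) b3 z (hc z hz).2 z' (e ▸ (hc z' hz').2) (fun e => b3 (e ▸ b1))
        (fun e => b3 (MulAction.injective t (e ▸ b1 : t • t • c z = t • c z))) (fun e => b3 (e ▸ b2))
        (fun e => b3 (MulAction.injective t (e ▸ b2 : t • t • c z = t • c z))))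
  have h6 : Disjoint (line G a b) ((line G a b).biUnion fun z => {c z, t • c z}) := by
    rw [disjoint_left]
    intro x hx hx'
    obtain ⟨z, hz, hx''⟩ := mem_biUnion.1 hx'
    have b1 := (hF x).1 hx
    simp only [mem_insert, mem_singleton] at hx''
    rcases hx'' with rfl | rfl
    · exact (hc z hz).1 b1
    · exact (hc z hz).1 (MulAction.injective t b1)
  have := card_le_univ ((line G a b) ∪ ((line G a b).biUnion fun z => {c z, t • c z}))
  rw [card_union_of_disjoint h6, h5, h3] at this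
  exact this

theorem ineq_cs {L : Finset G} (h1 : (1 : G) ∈ L) (h2 : 2 ≤ #L) (hpos : ∀ g ∈ L, 0 < #(fx Ω g)) {d : ℚ}
    (hS : 2 * ∑ g ∈ L, (#(fx Ω g) : ℚ) ≤ #L * (Fintype.card Ω + d)) (hd : (2 * #L - 1) * d ≤ Fintype.card Ω) :
    (2 * #L : ℚ) ≤ Fintype.card Ω * ∑ g ∈ L, (1 : ℚ) / #(fx Ω g) := by
  classical
  have e1 : #(fx Ω (1 : G)) = Fintype.card Ω := by
    rw [← card_univ]; congr 1; ext x; simp [mem_fx]
  have hn : (0 : ℚ) < Fintype.card Ω := by rw [← e1]; exact_mod_cast hpos 1 h1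
  rw [← add_sum_erase _ _ h1, e1] at hS ⊢
  have h3 := sq_sum_div_le_sum_sq_div (L.erase 1) (fun _ => (1 : ℚ)) (g := fun g => (#(fx Ω g) : ℚ))
    (fun g hg => by exact_mod_cast hpos g (mem_of_mem_erase hg))
  have h4 : (0 : ℚ) < ∑ g ∈ L.erase 1, (#(fx Ω g) : ℚ) :=
    sum_pos (fun g hg => by exact_mod_cast hpos g (mem_of_mem_erase hg))
      (card_pos.1 (by rw [card_erase_of_mem h1]; omega))
  simp only [one_pow, sum_const, nsmul_eq_mul, mul_one, card_erase_of_mem h1] at h3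
  rw [Nat.cast_sub (by omega), div_le_iff₀ h4] at h3
  have h5 : (2 : ℚ) ≤ #L := by exact_mod_cast h2
  set l : ℚ := ((#L : ℕ) : ℚ)
  set n : ℚ := ((Fintype.card Ω : ℕ) : ℚ)
  set S := ∑ g ∈ L.erase 1, (#(fx Ω g) : ℚ)
  set R := ∑ g ∈ L.erase 1, (1 : ℚ) / #(fx Ω g)
  rw [mul_add, mul_one_div_cancel hn.ne']
  have h6 : (2 * l - 1) * S ≤ n * (l - 1) ^ 2 := by nlinarith
  have h7 : (2 * l - 1) * S ≤ n * R * S := by push_cast at h3; nlinarith
  have := le_of_mul_le_mul_right h7 h4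
  linarith

theorem ineq_pt {L : Finset G} (h1 : (1 : G) ∈ L) (hpos : ∀ g ∈ L, 0 < #(fx Ω g)) {d : ℕ} (hn : 2 ≤ Fintype.card Ω)
    (hd : ∀ g ∈ L, g ≠ 1 → #(fx Ω g) * d + 1 ≤ Fintype.card Ω)
    (h : (2 * #L - 1 : ℚ) * (Fintype.card Ω - 1) ≤ Fintype.card Ω * ((#L - 1) * d)) :
    (2 * #L : ℚ) ≤ Fintype.card Ω * ∑ g ∈ L, (1 : ℚ) / #(fx Ω g) := by
  classical
  have e1 : #(fx Ω (1 : G)) = Fintype.card Ω := by
    rw [← card_univ]; congr 1; ext x; simp [mem_fx]
  have hn' : (2 : ℚ) ≤ Fintype.card Ω := by exact_mod_cast hn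
  rw [← add_sum_erase _ _ h1, e1, mul_add, mul_one_div_cancel (by linarith)]
  have h3 : ∑ g ∈ L.erase 1, (d : ℚ) / (Fintype.card Ω - 1) ≤ ∑ g ∈ L.erase 1, (1 : ℚ) / #(fx Ω g) := by
    refine sum_le_sum fun g hg => ?_
    rw [div_le_div_iff₀ (by linarith) (by exact_mod_cast hpos g (mem_of_mem_erase hg))]
    have : ((#(fx Ω g) * d + 1 : ℕ) : ℚ) ≤ Fintype.card Ω := by
      exact_mod_cast hd g (mem_of_mem_erase hg) (ne_of_mem_erase hg)
    push_cast at this
    linarith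
  rw [sum_const, nsmul_eq_mul, card_erase_of_mem h1, Nat.cast_sub (card_pos.2 ⟨1, h1⟩), mul_div_assoc',
    div_le_iff₀ (by linarith)] at h3
  set R := ∑ g ∈ L.erase 1, (1 : ℚ) / #(fx Ω g)
  have h4 : (2 * #L - 1 : ℚ) * (Fintype.card Ω - 1) ≤ Fintype.card Ω * R * (Fintype.card Ω - 1) := by
    push_cast at h3; nlinarith
  have := le_of_mul_le_mul_right h4 (by linarith)
  linarith

theorem Two.three_cycle [Finite G] [FaithfulSMul G Ω] [DecidableEq Ω] (h : Two G Ω) (hn : 7 ≤ Fintype.card Ω)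
    {a b x₀ : Ω} {L : Finset G} (hL : ∀ g, g ∈ L ↔ g ∈ st G a b) (h3 : 3 ∣ Nat.card (st G a b)) {T : Finset Ω}
    (hT : ∀ x, x ∈ T ↔ 2 < #(L.image (· • x))) (hT5 : #T < 6) (hxa : x₀ ≠ a) (hxb : x₀ ≠ b)
    (hk3 : #(L.image (· • x₀)) ≤ 3) : False := by
  have h1 : (1 : G) ∈ L := (hL 1).2 (Subgroup.one_mem _)
  haveI : Fact (Nat.Prime 3) := ⟨Nat.prime_three⟩
  obtain ⟨⟨g, hg⟩, hg3⟩ := exists_prime_orderOf_dvd_card' 3 h3
  have hinj : Function.Injective (toPermHom G Ω) := toPerm_injective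
  have ho : orderOf (toPermHom G Ω g) = 3 := by
    rw [orderOf_injective _ hinj, ← hg3, Subgroup.orderOf_mk]
  have hg3' : g ^ 3 = 1 := by rw [← ho, orderOf_injective _ hinj]; exact pow_orderOf_eq_one g
  have hsub : (toPermHom G Ω g).support ⊆ T := by
    intro x hx
    have hx' : g • x ≠ x := Equiv.Perm.mem_support.1 hx
    refine (hT x).2 (two_lt_card_iff.2 ⟨x, g • x, (g * g) • x, mem_image.2 ⟨1, h1, one_smul _ _⟩,
      mem_image_of_mem (· • x) ((hL g).2 hg), mem_image_of_mem (· • x) ((hL _).2 (Subgroup.mul_mem _ hg hg)),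
      hx'.symm, fun e => hx' ?_, fun e => hx' ?_⟩)
    · nth_rewrite 1 [e]; rw [← mul_smul, ← pow_three, hg3', one_smul]
    · rw [mul_smul] at e; exact (MulAction.injective g e).symm
  have hcyc : (toPermHom G Ω g).IsThreeCycle := by
    rw [← card_support_eq_three_iff, ← (Equiv.Perm.isCycle_of_prime_order (by rw [ho]; norm_num)
      (by rw [ho]; exact (card_le_card hsub).trans_lt hT5)).orderOf, ho]
  have hprim : IsPreprimitive (toPermHom G Ω).range Ω := by
    apply isPreprimitive_of_is_two_pretransitive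
    rw [is_two_pretransitive_iff]
    intro x y z w h1 h2
    obtain ⟨k, hk⟩ := h x y z w h1 h2
    exact ⟨⟨_, k, rfl⟩, hk⟩
  have hA := Equiv.Perm.alternatingGroup_le_of_isPreprimitive_of_isThreeCycle_mem hprim hcyc ⟨g, rfl⟩
  have hc4 : 4 ≤ #(({a, b, x₀} : Finset Ω)ᶜ) := by
    have := card_le_three (a := a) (b := b) (c := x₀)
    rw [card_compl]; omega
  have : ({a, b, x₀} : Finset Ω)ᶜ ⊆ L.image (· • x₀) := by
    intro d hd
    obtain ⟨e, he, hed⟩ := exists_mem_ne (s := ({a, b, x₀} : Finset Ω)ᶜ) (by omega) d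
    simp only [mem_compl, mem_insert, mem_singleton, not_or] at hd he
    obtain ⟨k, hk⟩ := hA (x := Equiv.swap x₀ e * Equiv.swap x₀ d) (by
      rw [Equiv.Perm.mem_alternatingGroup, Equiv.Perm.sign_mul, Equiv.Perm.sign_swap (Ne.symm he.2.2),
        Equiv.Perm.sign_swap (Ne.symm hd.2.2)]; rfl)
    have hk' : ∀ x, k • x = Equiv.swap x₀ e (Equiv.swap x₀ d x) := fun x => congrArg (fun σ : Equiv.Perm Ω => σ x) hk
    refine mem_image.2 ⟨k, (hL k).2 ⟨?_, ?_⟩, ?_⟩
    · change k • a = a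
      rw [hk', Equiv.swap_apply_of_ne_of_ne hxa.symm (Ne.symm hd.1), Equiv.swap_apply_of_ne_of_ne hxa.symm (Ne.symm he.1)]
    · change k • b = b
      rw [hk', Equiv.swap_apply_of_ne_of_ne hxb.symm (Ne.symm hd.2.1),
        Equiv.swap_apply_of_ne_of_ne hxb.symm (Ne.symm he.2.1)]
    · rw [hk', Equiv.swap_apply_left, Equiv.swap_apply_of_ne_of_ne hd.2.2 hed.symm]
  have := card_le_card this
  omega

section Orbits

variable [DecidableEq Ω]

omit [Fintype Ω] in
theorem orb_km {a b : Ω} {L : Finset G} (hL : ∀ g, g ∈ L ↔ g ∈ st G a b) :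
    ∀ x : Ω, #(L.image (· • x)) * #(L.filter (· • x = x)) = #L := by
  classical
  intro x
  rw [card_eq_sum_card_image (· • x) L, sum_const_nat]
  intro y hy
  obtain ⟨k, hk, rfl⟩ := mem_image.1 hy
  symm
  refine card_bij (fun g _ => k * g) (fun g hg => ?_) (fun _ _ _ _ e => mul_left_cancel e)
    fun g hg => ⟨k⁻¹ * g, ?_, by simp⟩
  · simp only [mem_filter, hL] at hg hk ⊢
    exact ⟨Subgroup.mul_mem _ hk hg.1, by rw [mul_smul, hg.2]⟩
  · simp only [mem_filter, hL] at hg hk ⊢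
    exact ⟨Subgroup.mul_mem _ (Subgroup.inv_mem _ hk) hg.1, by rw [mul_smul, hg.2, inv_smul_smul]⟩

theorem orb_two {a b : Ω} {L : Finset G} (hL : ∀ g, g ∈ L ↔ g ∈ st G a b) : ∀ x, x ∉ line G a b → 2 ≤ #(L.image (· • x)) := by
  have h1 : (1 : G) ∈ L := (hL 1).2 (Subgroup.one_mem _)
  intro x hx
  rw [mem_line] at hx
  push Not at hx
  obtain ⟨g, hg, hx⟩ := hx
  exact one_lt_card.2 ⟨_, mem_image_of_mem _ ((hL g).2 hg), x, mem_image.2 ⟨1, h1, one_smul _ _⟩, hx⟩

theorem orb_one {a b : Ω} {L : Finset G} (hL : ∀ g, g ∈ L ↔ g ∈ st G a b) : ∀ x ∈ line G a b, #(L.image (· • x)) ≤ 1 := by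
  intro x hx
  refine card_le_one.2 fun y hy z hz => ?_
  obtain ⟨g, hg, rfl⟩ := mem_image.1 hy
  obtain ⟨k, hk, rfl⟩ := mem_image.1 hz
  rw [mem_line.1 hx g ((hL g).1 hg), mem_line.1 hx k ((hL k).1 hk)]

theorem orb_sum {a b : Ω} {L : Finset G} (hL : ∀ g, g ∈ L ↔ g ∈ st G a b) : ∀ W : Finset Ω, (∀ x ∈ W, x ∉ line G a b) → 2 * ∑ g ∈ L, (#(fx Ω g) : ℚ) +
      ∑ x ∈ W, (#L - 2 * #(L.filter (· • x = x)) : ℚ) ≤ #L * (Fintype.card Ω + #(line G a b)) := by
  have hkm := orb_km hL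
  have hk2 := orb_two hL
  intro W hW
  have e1 : ∑ g ∈ L, #(fx Ω g) = ∑ x : Ω, #(L.filter (· • x = x)) := by
    have : ∀ g : G, fx Ω g = univ.filter fun x => g • x = x := fun g => by ext; simp [mem_fx]
    simp only [this, card_filter]; exact sum_comm
  have e2 : ∑ x ∈ W, (#L - 2 * #(L.filter (· • x = x)) : ℚ) ≤
      ∑ x ∈ (line G a b)ᶜ, (#L - 2 * #(L.filter (· • x = x)) : ℚ) := by
    refine sum_le_sum_of_subset_of_nonneg (fun x hx => mem_compl.2 (hW x hx)) fun x hx _ => ?_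
    have a1 := hk2 x (mem_compl.1 hx)
    have a2 : 2 * #(L.filter (· • x = x)) ≤ #L := by rw [← hkm x]; exact Nat.mul_le_mul_right _ a1
    have : ((2 * #(L.filter (· • x = x)) : ℕ) : ℚ) ≤ #L := by exact_mod_cast a2
    push_cast at this; linarith
  have e3 : ∑ x ∈ line G a b, (#(L.filter (· • x = x)) : ℚ) ≤ #(line G a b) * #L := by
    rw [← nsmul_eq_mul, ← sum_const]
    exact sum_le_sum fun x _ => by exact_mod_cast card_filter_le _ _
  rw [sum_sub_distrib (s := (line G a b)ᶜ), sum_const, card_compl, nsmul_eq_mul, Nat.cast_sub (card_le_univ _),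
    ← mul_sum] at e2
  rw [← Nat.cast_sum, e1, Nat.cast_sum, ← sum_add_sum_compl (line G a b)]
  linarith

theorem orb_three {a b : Ω} {L : Finset G} (hL : ∀ g, g ∈ L ↔ g ∈ st G a b) (h2' : (2 : ℚ) ≤ #L) (hW : ∀ W : Finset Ω, (∀ x ∈ W, x ∉ line G a b) →
      ∑ x ∈ W, (#L - 2 * #(L.filter (· • x = x)) : ℚ) < (2 * #L : ℚ)) : ∀ x : Ω, #(L.image (· • x)) ≤ 3 := by
  have hkm := orb_km hL
  have hk1 := orb_one hL
  intro x
  by_contra h4
  have horb : ∀ y ∈ L.image (· • x), L.image (· • y) = L.image (· • x) := by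
    intro y hy
    obtain ⟨k, hk, rfl⟩ := mem_image.1 hy
    ext z
    simp only [mem_image, hL] at hk ⊢
    constructor
    · rintro ⟨g, hg, rfl⟩
      exact ⟨g * k, Subgroup.mul_mem _ hg hk, mul_smul _ _ _⟩
    · rintro ⟨g, hg, rfl⟩
      exact ⟨g * k⁻¹, Subgroup.mul_mem _ hg (Subgroup.inv_mem _ hk), by simp [mul_smul]⟩
  have := hW (L.image (· • x)) fun y hy hy' => by
    have := hk1 y hy'
    rw [horb y hy] at this
    omega
  rw [sum_sub_distrib, sum_const, nsmul_eq_mul, ← mul_sum] at this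
  have e : ∑ y ∈ L.image (· • x), (#(L.filter (· • y = y)) : ℚ) = #L := by
    have : ∑ y ∈ L.image (· • x), #(L.filter (· • y = y)) = #L := by
      rw [sum_const_nat (m := #(L.filter (· • x = x))), hkm]
      intro y hy
      have a1 := hkm y
      rw [horb y hy, ← hkm x] at a1
      exact Nat.eq_of_mul_eq_mul_left (by omega) a1
    exact_mod_cast this
  have a5 : (4 : ℚ) ≤ #(L.image (· • x)) := by exact_mod_cast (by omega : 4 ≤ #(L.image (· • x)))
  rw [e] at this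
  nlinarith

theorem orb_five {a b : Ω} {L : Finset G} (hL : ∀ g, g ∈ L ↔ g ∈ st G a b) (h2' : (2 : ℚ) ≤ #L) (hW : ∀ W : Finset Ω, (∀ x ∈ W, x ∉ line G a b) →
      ∑ x ∈ W, (#L - 2 * #(L.filter (· • x = x)) : ℚ) < (2 * #L : ℚ)) {T : Finset Ω}
    (hT : ∀ x, x ∈ T ↔ 2 < #(L.image (· • x))) : #T < 6 := by
  have hkm := orb_km hL
  have hk1 := orb_one hL
  by_contra h6
  have a1 := hW T fun y hy hy' => by
    have := hk1 y hy'
    have := (hT y).1 hy
    omega
  have a2 : ∑ x ∈ T, (#L / 3 : ℚ) ≤ ∑ x ∈ T, (#L - 2 * #(L.filter (· • x = x)) : ℚ) := by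
    refine sum_le_sum fun x hx => ?_
    have b1 : 3 * #(L.filter (· • x = x)) ≤ #L := by
      rw [← hkm x]; exact Nat.mul_le_mul_right _ ((hT x).1 hx)
    have : ((3 * #(L.filter (· • x = x)) : ℕ) : ℚ) ≤ #L := by exact_mod_cast b1
    push_cast at this; linarith
  rw [sum_const, nsmul_eq_mul] at a2
  have a3 : (6 : ℚ) ≤ #T := by exact_mod_cast (by omega : 6 ≤ #T)
  nlinarith

end Orbits

open Classical in
theorem Two.main [Fintype G] [FaithfulSMul G Ω] (h : Two G Ω) (hn : 7 ≤ Fintype.card Ω) {a b : Ω} (hab : a ≠ b)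
    {g₀ : G} (hg₀ : g₀ ∈ st G a b) (hg1 : g₀ ≠ 1) :
    (2 * #(univ.filter (· ∈ st G a b)) : ℚ) ≤
      Fintype.card Ω * ∑ g ∈ univ.filter (· ∈ st G a b), (1 : ℚ) / #(fx Ω g) := by
  obtain ⟨L, hL⟩ : ∃ L : Finset G, ∀ g, g ∈ L ↔ g ∈ st G a b := ⟨univ.filter (· ∈ st G a b), by simp⟩
  rw [show univ.filter (· ∈ st G a b) = L by ext g; simp [hL]]
  have h1 : (1 : G) ∈ L := (hL 1).2 (Subgroup.one_mem _)
  have h2 : 2 ≤ #L := one_lt_card.2 ⟨1, h1, g₀, (hL _).2 hg₀, hg1.symm⟩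
  have hpos : ∀ g ∈ L, 0 < #(fx Ω g) := fun g hg => card_pos.2 ⟨a, mem_fx.2 ((hL g).1 hg).1⟩
  have hmv : ∀ g : G, g ≠ 1 → ∃ c : Ω, g • c ≠ c := fun g hg => by
    by_contra h1
    push Not at h1
    exact hg (eq_of_smul_eq_smul (α := Ω) fun x => by rw [h1, one_smul])
  have hfb : ∀ g ∈ L, g ≠ 1 → #(fx Ω g) * (#(line G a b) - 1) + 1 ≤ Fintype.card Ω := fun g _ hg => by
    obtain ⟨c, hc⟩ := hmv g hg
    exact h.fix_bound hab hc
  have hf2 : 2 ≤ #(line G a b) := one_lt_card.2 ⟨a, left_mem_line _ _, b, right_mem_line _ _, hab⟩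
  have hn' : (7 : ℚ) ≤ Fintype.card Ω := by exact_mod_cast hn
  have h2' : (2 : ℚ) ≤ #L := by exact_mod_cast h2
  by_cases hf4 : 4 ≤ #(line G a b)
  · refine ineq_pt h1 hpos (d := 3) (by omega) (fun g hg hg' => le_trans ?_ (hfb g hg hg')) ?_
    · have : 3 ≤ #(line G a b) - 1 := by omega
      nlinarith
    · push_cast; nlinarith
  have hkm := orb_km hL
  have hk1 := orb_one hL
  have hS := orb_sum hL
  by_cases hT : ∀ x : Ω, #(L.image (· • x)) ≤ 2
  · have H : ∀ z : Ω, ∀ g ∈ st G a b, ∀ k ∈ st G a b, g • z ≠ z → k • z ≠ z → g • z = k • z := by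
      intro z g hg k hk a1 a2
      by_contra a3
      have := two_lt_card_iff.2 ⟨z, g • z, k • z, mem_image.2 ⟨1, h1, one_smul _ _⟩, mem_image_of_mem (· • z) ((hL g).2 hg),
        mem_image_of_mem (· • z) ((hL k).2 hk), a1.symm, a2.symm, a3⟩
      exact absurd (hT z) (by omega)
    obtain ⟨c, hc⟩ := hmv g₀ hg1
    have hL2 : ∀ g ∈ st G a b, g = 1 ∨ g = g₀ := by
      intro g hg
      by_cases a1 : g • c = c
      · exact Or.inl (h.eq_one_of_small hab H hg₀ hc hg a1)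
      · right
        have := h.eq_one_of_small hab H hg₀ hc (Subgroup.mul_mem _ (Subgroup.inv_mem _ hg₀) hg)
          (by rw [mul_smul, H c g hg g₀ hg₀ a1 hc, inv_smul_smul])
        exact (inv_mul_eq_one.1 this).symm
    have hl : #L = 2 := le_antisymm
      ((card_le_card (t := {1, g₀}) fun g hg => by simpa using hL2 g ((hL g).1 hg)).trans card_le_two) h2
    refine ineq_cs h1 h2 hpos (by simpa using hS ∅ (by simp)) ?_
    rw [hl]
    have : 3 * #(line G a b) ≤ Fintype.card Ω := by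
      by_cases h3 : #(line G a b) = 3
      · have := h.nine_le hab hg₀ hc hL2 h3
        omega
      · omega
    have : ((3 * #(line G a b) : ℕ) : ℚ) ≤ Fintype.card Ω := by exact_mod_cast this
    push_cast at this ⊢; linarith
  push Not at hT
  obtain ⟨x₀, hx₀⟩ := hT
  by_cases hW : ∃ W : Finset Ω, (∀ x ∈ W, x ∉ line G a b) ∧
      (2 * #L : ℚ) ≤ ∑ x ∈ W, (#L - 2 * #(L.filter (· • x = x)) : ℚ)
  · obtain ⟨W, hW1, hW2⟩ := hW
    have hS' : 2 * ∑ g ∈ L, (#(fx Ω g) : ℚ) ≤ #L * (Fintype.card Ω + (#(line G a b) - 2)) := by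
      have := hS W hW1
      linarith
    by_cases h3 : #(line G a b) = 3
    · by_cases h4 : (2 * #L - 1 : ℚ) ≤ Fintype.card Ω
      · refine ineq_cs h1 h2 hpos hS' ?_
        rw [h3]; push_cast; linarith
      · refine ineq_pt h1 hpos (by omega) hfb ?_
        rw [h3]; push_cast; nlinarith
    · refine ineq_cs h1 h2 hpos hS' ?_
      rw [show #(line G a b) = 2 by omega]; push_cast; linarith
  exfalso
  push Not at hW
  have hk3 := orb_three hL h2' hW
  obtain ⟨T, hT⟩ : ∃ T : Finset Ω, ∀ x, x ∈ T ↔ 2 < #(L.image (· • x)) :=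
    ⟨univ.filter fun x => 2 < #(L.image (· • x)), by simp⟩
  have hT5 := orb_five hL h2' hW hT
  have h3 : 3 ∣ Nat.card (st G a b) := by
    have : Nat.card (st G a b) = #L := by
      rw [← Nat.card_eq_finsetCard]
      exact Nat.card_congr (Equiv.subtypeEquivRight fun g => (hL g).symm)
    rw [this, ← hkm x₀, show #(L.image (· • x₀)) = 3 from le_antisymm (hk3 x₀) hx₀]
    exact dvd_mul_right _ _
  exact h.three_cycle hn hL h3 hT hT5 (fun e => by have := hk1 x₀ (by rw [e]; exact left_mem_line a b); omega)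
    (fun e => by have := hk1 x₀ (by rw [e]; exact right_mem_line a b); omega) (hk3 x₀)

end Cfsg.Lib.CharDeg.Der
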