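import Mathlib

/-!
The algebraic core of the Feit–Higman theorem (Kilmoyer–Solomon style): an integrality condition coming from two
matrices satisfying the quadratic and braid relations of a dihedral Hecke algebra.
-/

set_option autoImplicit false

namespace Cfsg.Lib.CharDeg.FH

open Matrix

variable {X : Type*} [Fintype X] [DecidableEq X]

theorem exists_nat_trace {Z : Matrix X X ℂ} {κ : ℂ} (h : Z * Z = κ • Z) : ∃ n : ℕ, Z.trace = n * κ := by
  by_cases hκ : κ = 0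
  · refine ⟨0, ?_⟩
    have : IsNilpotent Z := ⟨2, by rw [pow_two, h, hκ, zero_smul]⟩
    simpa using (Matrix.isNilpotent_trace_of_isNilpotent this).eq_zero
  · have h1 : IsIdempotentElem (Matrix.toLin' (κ⁻¹ • Z)) := by
      unfold IsIdempotentElem
      rw [Module.End.mul_eq_comp, ← Matrix.toLin'_mul, smul_mul_smul_comm, h, smul_smul, mul_assoc,
        inv_mul_cancel₀ hκ, mul_one]
    have h2 := (LinearMap.IsIdempotentElem.isProj_range _ h1).trace
    rw [Matrix.trace_toLin'_eq, trace_smul, smul_eq_mul] at h2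
    exact ⟨_, by rw [← h2]; field_simp⟩

section

variable {R : Type*} [Ring R] [Algebra ℂ R] {A B : R} {u v : ℂ}

/-- the central element -/
def cen (A B : R) (u v : ℂ) : R := A * B + B * A - (v - 1) • A - (u - 1) • B + ((u - 1) * (v - 1)) • 1

theorem cen_comm (A B : R) (u v : ℂ) : cen A B u v = cen B A v u := by
  unfold cen; module

theorem cen_mul (hA : A * A = (u - 1) • A + u • 1) (hB : B * B = (v - 1) • B + v • 1) (W : R) :
    cen A B u v * (A * B * W) = A * B * (A * B * W) + (u * v) • W := by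
  have hA' : ∀ W, A * (A * W) = (u - 1) • (A * W) + u • W := fun W => by
    rw [← mul_assoc, hA]; simp [add_mul]
  have hB' : ∀ W, B * (B * W) = (v - 1) • (B * W) + v • W := fun W => by
    rw [← mul_assoc, hB]; simp [add_mul]
  have hc : cen A B u v * A = A * cen A B u v := by
    unfold cen
    simp only [mul_add, add_mul, mul_sub, sub_mul, smul_mul_assoc, mul_smul_comm, mul_assoc, mul_one, one_mul,
      hA', hA]
    module
  rw [mul_assoc A B W, ← mul_assoc (cen A B u v), hc]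
  unfold cen
  simp only [mul_add, add_mul, mul_sub, sub_mul, smul_mul_assoc, mul_smul_comm, mul_assoc, mul_one, one_mul,
    hA', hB']
  module

/-- the differences `(AB)^k - (BA)^k` -/
def dif (A B : R) (k : ℕ) : R := (A * B) ^ k - (B * A) ^ k

theorem cen_mul_dif (hA : A * A = (u - 1) • A + u • 1) (hB : B * B = (v - 1) • B + v • 1) (k : ℕ) :
    cen A B u v * dif A B (k + 1) = dif A B (k + 2) + (u * v) • dif A B k := by
  unfold dif
  rw [mul_sub, pow_succ' (A * B) (k + 1), pow_succ' (B * A) (k + 1), pow_succ' (A * B) k, pow_succ' (B * A) k,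
    cen_mul hA hB, cen_comm, cen_mul hB hA]
  module

theorem dif_one_sq (hA : A * A = (u - 1) • A + u • 1) (hB : B * B = (v - 1) • B + v • 1) :
    dif A B 1 * dif A B 1 = (cen A B u v + (u + v) • 1) * (cen A B u v - (u * v + 1) • 1) := by
  have hA' : ∀ W, A * (A * W) = (u - 1) • (A * W) + u • W := fun W => by
    rw [← mul_assoc, hA]; simp [add_mul]
  have hB' : ∀ W, B * (B * W) = (v - 1) • (B * W) + v • W := fun W => by
    rw [← mul_assoc, hB]; simp [add_mul]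
  unfold dif cen
  simp only [pow_one, mul_add, add_mul, mul_sub, sub_mul, smul_mul_assoc, mul_smul_comm, mul_assoc, mul_one,
    one_mul, hA', hB', hA, hB, smul_add, smul_sub]
  module

end

/-- Chebyshev values -/
noncomputable def sig (ζ : ℂ) (k : ℕ) : ℂ := (ζ ^ k - ζ⁻¹ ^ k) / (ζ - ζ⁻¹)

theorem sub_inv_ne {ζ : ℂ} (h0 : ζ ≠ 0) (h2 : ζ ^ 2 ≠ 1) : ζ - ζ⁻¹ ≠ 0 := by
  intro h
  apply h2
  rw [sub_eq_zero] at h
  rw [pow_two]; nth_rewrite 2 [h]; exact mul_inv_cancel₀ h0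

theorem sig_zero (ζ : ℂ) : sig ζ 0 = 0 := by simp [sig]

theorem sig_one {ζ : ℂ} (h0 : ζ ≠ 0) (h2 : ζ ^ 2 ≠ 1) : sig ζ 1 = 1 := by
  simp [sig, sub_inv_ne h0 h2]

theorem sig_rec {ζ : ℂ} (h0 : ζ ≠ 0) (k : ℕ) : sig ζ (k + 2) = (ζ + ζ⁻¹) * sig ζ (k + 1) - sig ζ k := by
  unfold sig
  have : ζ * ζ⁻¹ = 1 := mul_inv_cancel₀ h0
  rw [mul_div_assoc', ← sub_div]
  congr 1
  linear_combination (ζ⁻¹ ^ k - ζ ^ k) * this

theorem sum_sig_sq {ζ : ℂ} {m : ℕ} (hm : 0 < m) (h : ζ ^ m = 1) (h2 : ζ ^ 2 ≠ 1) :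
    (∑ k ∈ Finset.range m, sig ζ k ^ 2) * (4 - (ζ + ζ⁻¹) ^ 2) = 2 * m := by
  have h0 : ζ ≠ 0 := by rintro rfl; simp [hm.ne'] at h
  have h1 : ζ * ζ⁻¹ = 1 := mul_inv_cancel₀ h0
  have hd := sub_inv_ne h0 h2
  have e1 : ∑ k ∈ Finset.range m, (ζ ^ 2) ^ k = 0 := by
    have := geom_sum_eq h2 m
    rw [this, ← pow_mul, mul_comm, pow_mul, h]; simp
  have e2 : ∑ k ∈ Finset.range m, (ζ⁻¹ ^ 2) ^ k = 0 := by
    have h3 : ζ⁻¹ ^ 2 ≠ 1 := by rw [inv_pow]; simpa using h2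
    rw [geom_sum_eq h3 m, ← pow_mul, mul_comm, pow_mul, inv_pow, h]; simp
  have e3 : ∀ k, sig ζ k ^ 2 * (4 - (ζ + ζ⁻¹) ^ 2) = 2 - (ζ ^ 2) ^ k - (ζ⁻¹ ^ 2) ^ k := by
    intro k
    have : 4 - (ζ + ζ⁻¹) ^ 2 = -(ζ - ζ⁻¹) ^ 2 := by linear_combination (-4) * h1
    have h4 : ζ ^ k * ζ⁻¹ ^ k = 1 := by rw [← mul_pow, h1, one_pow]
    rw [this, sig, div_pow, mul_neg, div_mul_cancel₀ _ (pow_ne_zero 2 hd), ← pow_mul, ← pow_mul, mul_comm 2 k,
      pow_mul, pow_mul]
    linear_combination 2 * h4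
  rw [Finset.sum_mul, Finset.sum_congr rfl (fun k _ => e3 k), Finset.sum_sub_distrib, Finset.sum_sub_distrib, e1, e2]
  simp [mul_comm]

theorem trace_swap (A B : Matrix X X ℂ) (k : ℕ) : ((B * A) ^ k).trace = ((A * B) ^ k).trace := by
  cases k with
  | zero => simp
  | succ k => rw [pow_succ, pow_succ', ← mul_assoc, mul_pow_mul, trace_mul_comm, ← mul_assoc]

theorem trace_aux {A B : Matrix X X ℂ} {u v : ℂ}
    (hA : A * A = (u - 1) • A + u • 1) (hB : B * B = (v - 1) • B + v • 1) (i : ℕ) :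
    ((A * B) ^ (i + 1) * (B * A)).trace = (u - 1) * (v - 1) * ((A * B) ^ (i + 1)).trace +
      (u - 1) * v * (A * (B * A) ^ i).trace + u * (v - 1) * (B * (A * B) ^ i).trace +
      u * v * ((A * B) ^ i).trace := by
  have e : (A * B) ^ (i + 1) = A * ((B * A) ^ i * B) := by
    rw [pow_succ, ← mul_assoc, mul_pow_mul, mul_assoc]
  have e2 : ((A * B) ^ (i + 1) * (B * A)).trace = ((A * A) * ((B * A) ^ i * (B * B))).trace := by
    rw [← mul_assoc, trace_mul_comm, e]; simp only [mul_assoc]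
  rw [e2, hA, hB, e, ← mul_pow_mul B A, ← trace_swap A B i]
  simp only [mul_add, add_mul, smul_mul_assoc, mul_smul_comm, mul_one, one_mul, trace_add, trace_smul, smul_eq_mul]
  ring

theorem key {A B : Matrix X X ℂ} {u v r ζ : ℂ} {m : ℕ} (hm : 3 ≤ m)
    (hA : A * A = (u - 1) • A + u • 1) (hB : B * B = (v - 1) • B + v • 1) (hr : r ^ 2 = u * v) (hr0 : r ≠ 0)
    (h1 : ∀ k, 1 ≤ k → k < m → ((A * B) ^ k).trace = 0)
    (h2 : ∀ k, k < m → (A * (B * A) ^ k).trace = 0) (h3 : ∀ k, k < m → (B * (A * B) ^ k).trace = 0)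
    (h4 : ((A * B) ^ m).trace = Fintype.card X * r ^ m) (h5 : (A * B) ^ m = (B * A) ^ m)
    (hζ : ζ ^ m = 1) (hζ2 : ζ ^ 2 ≠ 1) :
    ∃ n : ℕ, n * m * ((r * (ζ + ζ⁻¹) + u + v) * (u * v + 1 - r * (ζ + ζ⁻¹))) =
      2 * (u * v) * Fintype.card X * (4 - (ζ + ζ⁻¹) ^ 2) := by
  have h0 : ζ ≠ 0 := by rintro rfl; simp [show m ≠ 0 by omega] at hζ
  set Y := cen A B u v with hY
  set c := ζ + ζ⁻¹ with hc
  set K : ℕ → Matrix X X ℂ := fun j => ∑ k ∈ Finset.range j, (sig ζ k * r⁻¹ ^ k) • dif A B k with hK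
  have hrr : r * r⁻¹ = 1 := mul_inv_cancel₀ hr0
  have hCD : ∀ j, Y * K (j + 1) - (r * c) • K (j + 1) =
      (sig ζ j * r⁻¹ ^ j) • dif A B (j + 1) - (sig ζ (j + 1) * r⁻¹ ^ j * r) • dif A B j := by
    intro j
    induction j with
    | zero => simp [hK, sig_zero, dif]
    | succ j ih =>
      have : K (j + 1 + 1) = K (j + 1) + (sig ζ (j + 1) * r⁻¹ ^ (j + 1)) • dif A B (j + 1) := by
        simp only [hK, Finset.sum_range_succ]
      rw [this, mul_add, smul_add, mul_smul_comm, cen_mul_dif hA hB, sig_rec h0, ← hr]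
      rw [add_sub_add_comm, ih, ← hc]
      have e : r⁻¹ ^ j = r⁻¹ ^ (j + 1) * r := by rw [pow_succ, mul_assoc, inv_mul_cancel₀ hr0, mul_one]
      rw [e]
      module
  obtain ⟨j, rfl⟩ : ∃ j, m = j + 3 := ⟨m - 3, by omega⟩
  have hs : sig ζ (j + 3) = 0 := by simp [sig, hζ]
  have hd : dif A B (j + 3) = 0 := by rw [dif, h5, sub_self]
  have hYK : Y * K (j + 3) = (r * c) • K (j + 3) := by
    have := hCD (j + 2)
    rw [hs, hd] at this
    simpa [sub_eq_zero] using this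
  set Z := K (j + 3) * dif A B 1 with hZ
  have hYZ : Y * Z = (r * c) • Z := by rw [hZ, ← mul_assoc, hYK, smul_mul_assoc]
  set d := (r * c + u + v) * (r * c - (u * v + 1)) with hdd
  have hE : ∀ k, dif A B k * dif A B 1 * Z = (sig ζ k * r ^ k * r⁻¹ * d) • Z := by
    intro k
    induction k using Nat.twoStepInduction with
    | zero => simp [dif, sig_zero]
    | one =>
      rw [dif_one_sq hA hB, ← hY, mul_assoc, sub_mul, hYZ, add_mul, mul_sub, mul_smul_comm, smul_mul_assoc,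
        mul_smul_comm, one_mul, hYZ, sig_one h0 hζ2, pow_one, one_mul, hrr, hdd]
      simp only [smul_mul_assoc, one_mul]
      module
    | more k ih1 ih2 =>
      have := cen_mul_dif hA hB k
      rw [← sub_eq_iff_eq_add] at this
      rw [← this, sub_mul, sub_mul, smul_mul_assoc, smul_mul_assoc, ih1, mul_assoc, mul_assoc, ← mul_assoc (dif _ _ _),
        ih2, mul_smul_comm, ← hY, hYZ, sig_rec h0, ← hr, ← hc]
      module
  have hZZ : Z * Z = ((∑ k ∈ Finset.range (j + 3), sig ζ k ^ 2) * r⁻¹ * d) • Z := by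
    nth_rewrite 1 [hZ]
    simp only [hK, Finset.sum_mul, smul_mul_assoc, hE, Finset.sum_smul, smul_smul]
    refine Finset.sum_congr rfl fun k _ => ?_
    congr 1
    have : r⁻¹ ^ k * r ^ k = 1 := by rw [← mul_pow, inv_mul_cancel₀ hr0, one_pow]
    linear_combination (sig ζ k ^ 2 * r⁻¹ * d) * this
  have htr : ∀ i, i < j + 2 → (dif A B (i + 1) * dif A B 1).trace =
      2 * ((A * B) ^ (i + 2)).trace - 2 * (u * v) * ((A * B) ^ i).trace := by
    intro i hi
    have a1 := trace_aux hA hB i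
    have a2 := trace_aux hB hA i
    rw [trace_swap A B, trace_swap A B] at a2
    rw [h1 (i + 1) (by omega) (by omega), h2 i (by omega), h3 i (by omega)] at a1 a2
    simp only [dif, pow_one, mul_sub, sub_mul, trace_sub, a1, a2, ← pow_succ, trace_swap A B]
    ring
  have htZ : Z.trace = - 4 * r * Fintype.card X := by
    rw [hZ]
    simp only [hK, Finset.sum_mul, smul_mul_assoc, trace_sum, trace_smul, smul_eq_mul]
    rw [Finset.sum_range_succ', Finset.sum_range_succ', Finset.sum_range_succ, Finset.sum_eq_zero, sig_zero,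
      htr _ (by omega), htr _ (by omega), h4, h1 2 (by omega) (by omega), h1 (j + 1) (by omega) (by omega)]
    · have e1 : sig ζ (j + 1 + 1) = -1 := by
        have hd := sub_inv_ne h0 hζ2
        have a1 : ζ ^ (j + 1 + 1) = ζ⁻¹ := by
          apply eq_inv_of_mul_eq_one_left; rw [← pow_succ]; exact hζ
        rw [sig, inv_pow, a1, inv_inv, div_eq_iff hd]; ring
      have e2 : r⁻¹ ^ (j + 1 + 1) * r ^ (j + 3) = r := by
        rw [pow_succ r (j + 2), ← mul_assoc, ← mul_pow, inv_mul_cancel₀ hr0, one_pow, one_mul]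
      rw [e1, zero_add 1, sig_one h0 hζ2, pow_zero, trace_one, ← hr]
      linear_combination (-2 * Fintype.card X) * e2 - 2 * r * Fintype.card X * hrr
    · intro i hi
      rw [Finset.mem_range] at hi
      rw [htr _ (by omega), h1 _ (by omega) (by omega), h1 _ (by omega) (by omega)]
      simp
  obtain ⟨n, hn⟩ := exists_nat_trace hZZ
  refine ⟨n, ?_⟩
  have hsum := sum_sig_sq (by omega) hζ hζ2
  rw [← hc] at hsum
  rw [htZ] at hn
  rw [← hr] at hdd ⊢
  set σ := ∑ k ∈ Finset.range (j + 3), sig ζ k ^ 2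
  linear_combination (r * (4 - c ^ 2) / 2) * hn + (n * d / 2) * hsum + (n * (j + 3 : ℕ)) * hdd
    + (n * σ * d * (4 - c ^ 2) / 2) * hrr

theorem root_of_rat {ζ : ℂ} {m : ℕ} (hm : 0 < m) (h : ζ ^ m = 1) {q : ℚ} (hq : ζ + ζ⁻¹ = q) :
    ζ ^ 2 = 1 ∨ ζ ^ 3 = 1 ∨ ζ ^ 4 = 1 ∨ ζ ^ 6 = 1 := by
  have h0 : ζ ≠ 0 := by rintro rfl; simp [hm.ne'] at h
  have hi : ∀ z : ℂ, z ^ m = 1 → IsIntegral ℤ z := fun z hz =>
    IsIntegral.of_pow hm (by rw [hz]; exact isIntegral_one)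
  have h1 : IsIntegral ℤ (q : ℂ) := hq ▸ (hi ζ h).add (hi ζ⁻¹ (by rw [inv_pow, h, inv_one]))
  have h2 : IsIntegral ℤ q := (isIntegral_algebraMap_iff (algebraMap ℚ ℂ).injective).1 h1
  obtain ⟨z, hz⟩ := IsIntegrallyClosed.algebraMap_eq_of_integral h2
  have hz' : (z : ℂ) = ζ + ζ⁻¹ := by rw [hq, ← hz]; simp
  have hn : ‖ζ‖ = 1 := Complex.norm_eq_one_of_pow_eq_one h hm.ne'
  have h3 : |z| ≤ 2 := by
    have : ‖(z : ℂ)‖ ≤ 2 := by
      rw [hz']
      refine (norm_add_le _ _).trans ?_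
      rw [norm_inv, hn]; norm_num
    rw [Complex.norm_intCast] at this
    exact_mod_cast this
  have h4 : ζ ^ 2 - z * ζ + 1 = 0 := by rw [hz']; field_simp; ring
  obtain ⟨h5, h6⟩ := abs_le.1 h3
  interval_cases z
  · left
    have : (ζ + 1) ^ 2 = 0 := by push_cast at h4; linear_combination h4
    rw [eq_neg_of_add_eq_zero_left (pow_eq_zero_iff two_ne_zero |>.1 this)]; norm_num
  · right; left; push_cast at h4; linear_combination (ζ - 1) * h4
  · right; right; left; push_cast at h4; linear_combination (ζ ^ 2 - 1) * h4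
  · right; right; right; push_cast at h4; linear_combination (ζ ^ 3 - 1) * (ζ + 1) * h4
  · left
    have : (ζ - 1) ^ 2 = 0 := by push_cast at h4; linear_combination h4
    rw [sub_eq_zero.1 (pow_eq_zero_iff two_ne_zero |>.1 this)]; norm_num

theorem four_sub_ne {ζ : ℂ} (h0 : ζ ≠ 0) (h2 : ζ ^ 2 ≠ 1) : 4 - (ζ + ζ⁻¹) ^ 2 ≠ 0 := by
  have : 4 - (ζ + ζ⁻¹) ^ 2 = -(ζ - ζ⁻¹) ^ 2 := by linear_combination (-4) * mul_inv_cancel₀ h0
  rw [this]; exact neg_ne_zero.2 (pow_ne_zero 2 (sub_inv_ne h0 h2))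

theorem rat_of_mul {c : ℂ} {a b : ℤ} (ha : a ≠ 0) (h : c * a = b) : ∃ q : ℚ, c = q :=
  ⟨b / a, by
    have : (a : ℂ) ≠ 0 := by exact_mod_cast ha
    push_cast; rw [eq_div_iff this, h]⟩

theorem arith {u v m N : ℕ} (hu : 2 ≤ u) (hv : 2 ≤ v) (hm : 3 ≤ m) (hN : 0 < N) {r : ℂ} (hr : r ^ 2 = u * v)
    (hodd : Odd m → u = v ∧ r = u)
    (H : ∀ ζ : ℂ, ζ ^ m = 1 → ζ ^ 2 ≠ 1 → ∃ n : ℕ, n * m * ((r * (ζ + ζ⁻¹) + u + v) * (u * v + 1 - r * (ζ + ζ⁻¹))) =
      2 * (u * v) * N * (4 - (ζ + ζ⁻¹) ^ 2)) : m = 3 ∨ m = 4 ∨ m = 6 ∨ m = 8 := by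
  have hp := Complex.isPrimitiveRoot_exp m (by omega)
  set ζ := Complex.exp (2 * Real.pi * Complex.I / m)
  have hζ : ζ ^ m = 1 := hp.pow_eq_one
  have hnd : ∀ k, ζ ^ k = 1 → m ∣ k := fun k hk => (hp.pow_eq_one_iff_dvd k).1 hk
  have hζ2 : ζ ^ 2 ≠ 1 := fun h => by have := Nat.le_of_dvd two_pos (hnd 2 h); omega
  have hu0 : (u : ℂ) ≠ 0 := by exact_mod_cast (by omega : u ≠ 0)
  have hv0 : (v : ℂ) ≠ 0 := by exact_mod_cast (by omega : v ≠ 0)
  have hN0 : (N : ℂ) ≠ 0 := by exact_mod_cast (by omega : N ≠ 0)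
  have hne : ∀ z : ℂ, z ^ m = 1 → z ≠ 0 := by rintro z hz rfl; simp [show m ≠ 0 by omega] at hz
  rcases Nat.even_or_odd m with hev | hod
  · have key : ∀ z : ℂ, z ^ m = 1 → z ^ 2 ≠ 1 → (∃ q : ℚ, (z + z⁻¹) ^ 2 = q) ∧ ∃ q : ℚ, r * (z + z⁻¹) = q := by
      intro z hz hz2
      obtain ⟨n₁, h₁⟩ := H z hz hz2
      obtain ⟨n₂, h₂⟩ := H (-z) (by rw [hev.neg_pow, hz]) (by rwa [neg_sq])
      rw [inv_neg, ← neg_add, neg_sq] at h₂
      have hR := four_sub_ne (hne z hz) hz2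
      set c := z + z⁻¹
      have hR' : 2 * (u * v : ℂ) * N * (4 - c ^ 2) ≠ 0 := by simp [hu0, hv0, hN0, hR]
      have hn₁ : n₁ ≠ 0 := by rintro rfl; apply hR'; rw [← h₁]; simp
      have hn₂ : n₂ ≠ 0 := by rintro rfl; apply hR'; rw [← h₂]; simp
      have hx : (r * c) ^ 2 = u * v * c ^ 2 := by rw [mul_pow, hr]
      have e1 : c ^ 2 * ((u * v * ((n₁ + n₂) * N - n₁ * n₂ * m) : ℤ) : ℂ) =
          ((4 * u * v * N * (n₁ + n₂) - n₁ * n₂ * m * ((u * v + 1) * (u + v)) : ℤ) : ℂ) := by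
        push_cast
        linear_combination (n₂ / 2) * h₁ + (n₁ / 2) * h₂ + (n₁ * n₂ * m) * hx
      have e2 : (u * v * ((n₁ + n₂) * N - n₁ * n₂ * m) : ℤ) ≠ 0 := by
        intro h
        rw [h] at e1
        have e3 : (4 * u * v * N * (n₁ + n₂) - n₁ * n₂ * m * ((u * v + 1) * (u + v)) : ℤ) = 0 := by
          exact_mod_cast (by simpa using e1.symm : ((4 * u * v * N * (n₁ + n₂) -
            n₁ * n₂ * m * ((u * v + 1) * (u + v)) : ℤ) : ℂ) = 0)
        have e4 : ((n₁ * n₂ * m : ℕ) : ℤ) * ((u * v + 1) * (u + v) - 4 * u * v) = 0 := by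
          push_cast; linear_combination 4 * h - e3
        rcases mul_eq_zero.1 e4 with e5 | e5
        · have : n₁ * n₂ * m = 0 := by exact_mod_cast e5
          simp [hn₁, hn₂] at this; omega
        · have a1 : (2 : ℤ) ≤ u := by exact_mod_cast hu
          have a2 : (2 : ℤ) ≤ v := by exact_mod_cast hv
          nlinarith [mul_pos (by omega : (0 : ℤ) < u) (by omega : (0 : ℤ) < v),
            mul_nonneg (mul_nonneg (by omega : (0 : ℤ) ≤ u) (by omega : (0 : ℤ) ≤ v))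
              (by omega : (0 : ℤ) ≤ u + v - 4)]
      obtain ⟨q, hq⟩ := rat_of_mul e2 e1
      refine ⟨⟨q, hq⟩, ?_⟩
      have e3 : (n₁ * n₂ * m * ((u - 1) * (v - 1)) : ℤ) ≠ 0 := by
        have a1 : (u - 1 : ℤ) ≠ 0 := by omega
        have a2 : (v - 1 : ℤ) ≠ 0 := by omega
        have a3 : m ≠ 0 := by omega
        simp [a1, a2, a3, hn₁, hn₂]
      have e3' : ((n₁ * n₂ * m * ((u - 1) * (v - 1)) : ℤ) : ℂ) ≠ 0 := by exact_mod_cast e3
      refine ⟨((n₂ - n₁) * (u * v) * N * (4 - q)) / (n₁ * n₂ * m * ((u - 1) * (v - 1)) : ℤ), ?_⟩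
      rw [Rat.cast_div, Rat.cast_intCast, eq_div_iff e3']
      push_cast
      rw [← hq]
      linear_combination (n₂ / 2) * h₁ - (n₁ / 2) * h₂
    obtain ⟨⟨q, hq⟩, ⟨q', hq'⟩⟩ := key ζ hζ hζ2
    have h0 := hne ζ hζ
    have hc2 : ζ ^ 2 + (ζ ^ 2)⁻¹ = ((q - 2 : ℚ) : ℂ) := by
      push_cast; rw [← hq, ← inv_pow]; linear_combination (-2) * mul_inv_cancel₀ h0
    have h12 : m ≠ 12 := by
      rintro rfl
      have a4 : (ζ ^ 2) ^ 2 ≠ 1 := fun h => by
        rw [← pow_mul] at h; exact absurd (hnd _ h) (by decide)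
      have a6 : ζ ^ 6 - 1 ≠ 0 := fun h => absurd (hnd _ (sub_eq_zero.1 h)) (by decide)
      have a2 : ζ ^ 2 + 1 ≠ 0 := fun h => a4 (by rw [eq_neg_of_add_eq_zero_left h]; norm_num)
      have a7 : ζ ^ 4 - ζ ^ 2 + 1 = 0 := by
        apply mul_left_cancel₀ a6; apply mul_left_cancel₀ a2; linear_combination hζ
      obtain ⟨-, ⟨q₂, hq₂⟩⟩ := key (ζ ^ 2) (by rw [← pow_mul, mul_comm, pow_mul, hζ, one_pow]) a4
      have a8 : ζ ^ 2 + (ζ ^ 2)⁻¹ = 1 := by field_simp; linear_combination a7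
      rw [a8, mul_one] at hq₂
      have hr0 : r ≠ 0 := by rintro rfl; exact mul_ne_zero hu0 hv0 (by rw [← hr]; simp)
      have a9 : ζ + ζ⁻¹ = ((q' / q₂ : ℚ) : ℂ) := by
        push_cast; rw [← hq₂, ← hq', eq_div_iff hr0, mul_comm]
      rcases root_of_rat (by omega) hζ a9 with h | h | h | h <;> exact absurd (hnd _ h) (by decide)
    rcases root_of_rat (m := m) (by omega) (by rw [← pow_mul, mul_comm, pow_mul, hζ, one_pow]) hc2 with
      h | h | h | h
    all_goals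
      rw [← pow_mul] at h
      have h7 := hnd _ h
      have h8 := Nat.le_of_dvd (by norm_num) h7
      obtain ⟨k, hk⟩ := hev
      clear_value ζ
      clear H hodd hp hζ hnd hne key h
      interval_cases m <;> omega
  · obtain ⟨rfl, rfl⟩ := hodd hod
    obtain ⟨n, hn⟩ := H ζ hζ hζ2
    have hR := four_sub_ne (hne ζ hζ) hζ2
    set c := ζ + ζ⁻¹ with hc
    have h2 : (2 + c) * u ≠ 0 := mul_ne_zero (fun h => hR (by linear_combination (2 - c) * h)) hu0
    have e1 : c * ((u * (2 * N - n * m) : ℤ) : ℂ) = ((4 * u * N - n * m * (u * u + 1) : ℤ) : ℂ) := by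
      push_cast
      apply mul_left_cancel₀ h2
      linear_combination hn
    have e2 : (u * (2 * N - n * m) : ℤ) ≠ 0 := by
      intro h
      rw [h] at e1
      have e3 : (4 * u * N - n * m * (u * u + 1) : ℤ) = 0 := by
        exact_mod_cast (by simpa using e1.symm : ((4 * u * N - n * m * (u * u + 1) : ℤ) : ℂ) = 0)
      have e4 : (2 * N - n * m : ℤ) = 0 := (mul_eq_zero.1 h).resolve_left (by omega)
      have e5 : (2 * N * (u - 1) ^ 2 : ℤ) = 0 := by linear_combination (u * u + 1) * e4 - e3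
      have a1 : (u - 1 : ℤ) ≠ 0 := by omega
      simp [a1] at e5; omega
    obtain ⟨q, hq⟩ := rat_of_mul e2 e1
    rcases root_of_rat (m := m) (by omega) hζ hq with h | h | h | h
    all_goals
      have h7 := hnd _ h
      have h8 := Nat.le_of_dvd (by norm_num) h7
      obtain ⟨k, hk⟩ := hod
      clear_value c ζ
      clear H hodd hp hζ hnd hne h e1 e2 hn
      interval_cases m <;> omega

end Cfsg.Lib.CharDeg.FH
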