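import Cfsg.Agent.Lib.CharDeg.FeitHigman
import Cfsg.Agent.Lib.BN.Basic

/-!
The Feit–Higman theorem for finite (B,N)-pairs of rank two.
-/

set_option autoImplicit false

namespace Cfsg.Lib.CharDeg.FH

open Cfsg Cfsg.Lib.BN Matrix

/-- alternating products in a monoid -/
def altM {M : Type*} [Monoid M] (a b : M) : ℕ → M
  | 0 => 1
  | n + 1 => a * altM b a n

section
variable {M : Type*} [Monoid M]

theorem altM_succ (a b : M) (n : ℕ) : altM a b (n + 1) = a * altM b a n := rfl

theorem altM_even (a b : M) (k : ℕ) : altM a b (2 * k) = (a * b) ^ k := by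
  induction k with
  | zero => simp [altM]
  | succ k ih => rw [mul_add, mul_one, altM_succ, altM_succ, ih, pow_succ', mul_assoc]

theorem altM_odd (a b : M) (k : ℕ) : altM a b (2 * k + 1) = a * (b * a) ^ k := by
  rw [altM_succ, altM_even]

theorem altM_add (a b : M) (i j : ℕ) :
    altM a b (i + j) = altM a b i * (if Even i then altM a b j else altM b a j) := by
  induction i generalizing a b with
  | zero => simp [altM]
  | succ i ih =>
    rw [Nat.add_right_comm, altM_succ, altM_succ, ih, mul_assoc]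
    by_cases h : Even i <;> simp [h, Nat.even_add_one]

end

theorem wp_alt_eq {ι W : Type*} [Group W] (s : ι → W) (i j : ι) (n : ℕ) :
    wp s (alt i j n) = altM (s i) (s j) n := by
  induction n generalizing i j with
  | zero => rfl
  | succ n ih => rw [alt_succ, wp_cons, ih, altM_succ]

section Dihedral

variable {ι W : Type*} [Group W] {s : ι → W} {i j : ι}

theorem conj_rot (h : InvGen s) (z : ℤ) : s i * (s i * s j) ^ z * s i = (s i * s j) ^ (-z) := by
  have : s i * (s i * s j) * (s i)⁻¹ = (s i * s j)⁻¹ := by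
    rw [h.cancel_left, _root_.mul_inv_rev, h.inv, h.inv]
  rw [_root_.zpow_neg, ← _root_.inv_zpow, ← this, conj_zpow, h.inv]

theorem normal_form (h : InvGen s) (hij : ∀ k, k = i ∨ k = j) (l : List ι) :
    ∃ z : ℤ, (wp s l = (s i * s j) ^ z ∧ 2 * |z| ≤ l.length) ∨
      (wp s l = s i * (s i * s j) ^ z ∧ |2 * z - 1| ≤ l.length) := by
  induction l with
  | nil => exact ⟨0, Or.inl ⟨by simp, by simp⟩⟩
  | cons k l ih =>
    obtain ⟨z, hz⟩ := ih
    rw [wp_cons, List.length_cons]
    push_cast
    rcases hij k with rfl | rfl <;> rcases hz with ⟨h1, h2⟩ | ⟨h1, h2⟩ <;> rw [h1]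
    · refine ⟨z, Or.inr ⟨rfl, ?_⟩⟩
      rw [abs_le]; constructor <;> cases abs_cases z <;> omega
    · refine ⟨z, Or.inl ⟨h.cancel_left _ _, ?_⟩⟩
      rw [abs_le] at h2; cases abs_cases z <;> omega
    · refine ⟨1 + z, Or.inr ⟨by rw [_root_.zpow_add, zpow_one, ← mul_assoc, h.cancel_left], ?_⟩⟩
      rw [abs_le]; constructor <;> cases abs_cases z <;> omega
    · refine ⟨-1 + z, Or.inl ⟨?_, ?_⟩⟩
      · rw [_root_.zpow_add, _root_.zpow_neg, zpow_one, _root_.mul_inv_rev, h.inv, h.inv, mul_assoc]
      · rw [abs_le] at h2; cases abs_cases (-1 + z) <;> omega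

theorem refl_ne_rot (h : InvGen s) (h1 : ∀ k, s k ≠ 1) (z : ℤ) : s i ≠ (s i * s j) ^ z := by
  intro hz
  have h2 := conj_rot (i := i) (j := j) h 1
  have h3 : Commute (s i) (s i * s j) := by
    nth_rewrite 1 [hz]; exact (Commute.refl _).zpow_left z
  rw [zpow_one, h3.eq, h.cancel_right, _root_.zpow_neg, zpow_one] at h2
  have h4 : (s i * s j) ^ (2 : ℤ) = 1 := by
    rw [zpow_two]; nth_rewrite 1 [h2]; exact inv_mul_cancel _
  rcases Int.even_or_odd' z with ⟨t, rfl | rfl⟩
  · rw [_root_.zpow_mul, h4, _root_.one_zpow] at hz; exact h1 i hz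
  · rw [_root_.zpow_add, _root_.zpow_mul, h4, _root_.one_zpow, one_mul, zpow_one] at hz
    exact h1 j (by simpa using hz.symm)

theorem len_altM (h : InvGen s) (hij : ∀ k, k = i ∨ k = j) (h1 : ∀ k, s k ≠ 1) {n : ℕ}
    (hn : n ≤ orderOf (s i * s j)) : len s (altM (s i) (s j) n) = n := by
  apply le_antisymm
  · rw [← wp_alt_eq]; exact (len_wp_le _ _).trans (length_alt i j n).le
  obtain ⟨l, hl, hw⟩ := h.exists_reduced (altM (s i) (s j) n)
  obtain ⟨z, hz⟩ := normal_form h hij l
  rw [← hl]
  rw [hw] at hz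
  have hr : ∀ a b : ℤ, (s i * s j) ^ a ≠ s i * (s i * s j) ^ b := fun a b hab =>
    refl_ne_rot (j := j) h h1 (a - b) (by rw [_root_.zpow_sub, hab, mul_inv_cancel_right])
  set m := orderOf (s i * s j) with hm
  rcases Nat.even_or_odd' n with ⟨k, rfl | rfl⟩
  · rw [altM_even, ← zpow_natCast] at hz
    rcases hz with ⟨h2, h3⟩ | ⟨h2, -⟩
    · obtain ⟨t, ht⟩ := (zpow_eq_zpow_iff_modEq.1 h2).dvd
      rw [← hm] at ht
      have : (0 : ℤ) ≤ m := by positivity
      rcases lt_trichotomy t 0 with h4 | rfl | h4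
      · have : (m : ℤ) * t ≤ -m := by nlinarith
        cases abs_cases z <;> omega
      · cases abs_cases z <;> omega
      · have : (m : ℤ) ≤ m * t := by nlinarith
        cases abs_cases z <;> omega
    · exact absurd h2 (hr _ _)
  · have e : s j * s i = (s i * s j)⁻¹ := by rw [_root_.mul_inv_rev, h.inv, h.inv]
    rw [altM_odd, e, ← zpow_natCast, _root_.inv_zpow'] at hz
    rcases hz with ⟨h2, -⟩ | ⟨h2, h3⟩
    · exact absurd h2.symm (hr _ _)
    · obtain ⟨t, ht⟩ := (zpow_eq_zpow_iff_modEq.1 (mul_left_cancel h2)).dvd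
      rw [← hm] at ht
      have : (0 : ℤ) ≤ m := by positivity
      rcases lt_trichotomy t 0 with h4 | rfl | h4
      · have : (m : ℤ) * t ≤ -m := by nlinarith
        cases abs_cases (2 * z - 1) <;> omega
      · cases abs_cases (2 * z - 1) <;> omega
      · have : (m : ℤ) ≤ m * t := by nlinarith
        cases abs_cases (2 * z - 1) <;> omega

theorem card_dihedral (h : InvGen s) (hij : ∀ k, k = i ∨ k = j) (h1 : ∀ k, s k ≠ 1) :
    Nat.card W = 2 * orderOf (s i * s j) := by
  rw [← Nat.card_zpowers, ← Subgroup.index_mul_card (Subgroup.zpowers (s i * s j))]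
  congr 1
  rw [Subgroup.index_eq_two_iff]
  refine ⟨s i, fun w => ?_⟩
  have hn : s i ∉ Subgroup.zpowers (s i * s j) := fun ⟨z, hz⟩ => refl_ne_rot h h1 z hz.symm
  obtain ⟨l, rfl⟩ := h.exists_word w
  obtain ⟨z, ⟨h2, -⟩ | ⟨h2, -⟩⟩ := normal_form h hij l <;> rw [h2]
  · exact Or.inr ⟨⟨z, rfl⟩, fun h3 => hn ((Subgroup.mul_mem_cancel_left _ (Subgroup.zpow_mem_zpowers _ z)).1 h3)⟩
  · refine Or.inl ⟨⟨-z, (conj_rot h z).symm⟩, fun h3 => hn ((Subgroup.mul_mem_cancel_right _ (Subgroup.zpow_mem_zpowers _ z)).1 h3)⟩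

end Dihedral

section BN

variable {G : Type*} [Group G] (P : BNPair G)

/-- relative position of two cosets -/
def Pos (w : Weyl P) (x y : G ⧸ P.B) : Prop := Cell P w (x.out⁻¹ * y.out)

variable {P}

theorem pos_mk {w : Weyl P} (g h : G) : Pos P w (g : G ⧸ P.B) (h : G ⧸ P.B) ↔ Cell P w (g⁻¹ * h) := by
  obtain ⟨b, hb⟩ := QuotientGroup.mk_out_eq_mul P.B g
  obtain ⟨b', hb'⟩ := QuotientGroup.mk_out_eq_mul P.B h
  unfold Pos
  rw [hb, hb']
  constructor
  · intro h1
    have := (h1.mul_left b.2).mul_right (P.B.inv_mem b'.2)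
    convert this using 1; group
  · intro h1
    have := (h1.mul_left (P.B.inv_mem b.2)).mul_right b'.2
    convert this using 1; group

theorem pos_one {x y : G ⧸ P.B} : Pos P 1 x y ↔ x = y := by
  induction x using QuotientGroup.induction_on
  induction y using QuotientGroup.induction_on
  rw [pos_mk, cell_one_iff, QuotientGroup.eq]

theorem Pos.inv {w : Weyl P} {x y : G ⧸ P.B} (h : Pos P w x y) : Pos P w⁻¹ y x := by
  have := Cell.inv h
  rwa [_root_.mul_inv_rev, inv_inv] at this

theorem Pos.unique {w w' : Weyl P} {x y : G ⧸ P.B} (h : Pos P w x y) (h' : Pos P w' x y) : w = w' :=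
  Cell.unique h h'

theorem Pos.symm {s : P.S} {x y : G ⧸ P.B} (h : Pos P (sW P s) x y) : Pos P (sW P s) y x := by
  have := h.inv
  rwa [(invGen P).inv] at this

theorem Pos.ne {s : P.S} {x y : G ⧸ P.B} (h : Pos P (sW P s) x y) : x ≠ y := fun e =>
  sW_ne_one P s (h.unique (pos_one.2 e))

theorem Pos.trans {s : P.S} {x y z : G ⧸ P.B} (h : Pos P (sW P s) x y) (h' : Pos P (sW P s) y z) (hne : x ≠ z) :
    Pos P (sW P s) x z := by
  have := Cell.simple_mul h h'
  rw [mul_assoc, mul_inv_cancel_left, sW_sq] at this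
  exact this.resolve_left fun h1 => hne (pos_one.1 h1)

theorem Pos.trans_le {s : P.S} {w : Weyl P} (hle : len (sW P) w ≤ len (sW P) (sW P s * w)) {x y z : G ⧸ P.B}
    (h : Pos P (sW P s) x y) (h' : Pos P w y z) : Pos P (sW P s * w) x z := by
  have := Cell.simple_mul_of_le hle h h'
  rwa [mul_assoc, mul_inv_cancel_left] at this

theorem Pos.split {w w' : Weyl P} {x z : G ⧸ P.B} (h : Pos P (w * w') x z) : ∃ y, Pos P w x y ∧ Pos P w' y z := by
  induction x using QuotientGroup.induction_on with | H g => ?_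
  induction z using QuotientGroup.induction_on with | H k => ?_
  rw [pos_mk] at h
  obtain ⟨a, b, ha, hb, hab⟩ := h.split
  refine ⟨(g * a : G), ?_, ?_⟩ <;> rw [pos_mk]
  · simpa using ha
  · rw [_root_.mul_inv_rev, mul_assoc, hab]; simpa using hb

theorem Pos.smul {w : Weyl P} {x y : G ⧸ P.B} (g : G) : Pos P w (g • x) (g • y) ↔ Pos P w x y := by
  induction x using QuotientGroup.induction_on
  induction y using QuotientGroup.induction_on
  rw [MulAction.Quotient.smul_coe, MulAction.Quotient.smul_coe, pos_mk, pos_mk, smul_eq_mul, smul_eq_mul,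
    _root_.mul_inv_rev, mul_assoc, inv_mul_cancel_left]

variable (P)

open Classical in
/-- Hecke matrices -/
noncomputable def hk (w : Weyl P) : Matrix (G ⧸ P.B) (G ⧸ P.B) ℂ := Matrix.of fun x y => if Pos P w x y then 1 else 0

open Classical in
/-- valency -/
noncomputable def val [Fintype (G ⧸ P.B)] (s : P.S) : ℕ :=
  (Finset.univ.filter fun y => Pos P (sW P s) ((1 : G) : G ⧸ P.B) y).card

variable [Fintype (G ⧸ P.B)] [DecidableEq (G ⧸ P.B)]

theorem hk_one : hk P 1 = 1 := by
  ext x y; simp [hk, pos_one, Matrix.one_apply]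

open Classical in
theorem card_pos (s : P.S) (x : G ⧸ P.B) : (Finset.univ.filter fun y => Pos P (sW P s) x y).card = val P s := by
  induction x using QuotientGroup.induction_on with | H g => ?_
  symm
  refine Finset.card_bij (fun y _ => g • y) (fun y hy => ?_) (fun y _ y' _ h => MulAction.injective g h)
    (fun y hy => ⟨g⁻¹ • y, ?_, smul_inv_smul g y⟩)
  · simp only [Finset.mem_filter, Finset.mem_univ, true_and] at hy ⊢
    have := (Pos.smul g).2 hy
    rwa [MulAction.Quotient.smul_coe, smul_eq_mul, mul_one] at this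
  · simp only [Finset.mem_filter, Finset.mem_univ, true_and] at hy ⊢
    have := (Pos.smul g⁻¹).2 hy
    rwa [MulAction.Quotient.smul_coe, smul_eq_mul, inv_mul_cancel] at this

theorem two_le_val (s : P.S) : 2 ≤ val P s := by
  classical
  obtain ⟨b, hb, hb'⟩ := exists_conj_not_mem P s.2
  refine Finset.one_lt_card.2 ⟨((s : G) : G ⧸ P.B), ?_, ((b * s : G) : G ⧸ P.B), ?_, ?_⟩
  · simpa [pos_mk] using cell_sW s
  · simpa [pos_mk] using (cell_sW s).mul_left hb
  · intro h
    apply hb'
    have := P.B.mul_mem (P.sq_mem s s.2) (QuotientGroup.eq.1 h)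
    convert this using 1; group

theorem hk_mulVec (s : P.S) : hk P (sW P s) *ᵥ (fun _ => 1) = (val P s : ℂ) • fun _ => 1 := by
  classical
  ext x
  simp only [mulVec, dotProduct, hk, of_apply, mul_one, Pi.smul_apply, smul_eq_mul, Finset.sum_boole]
  rw [← card_pos P s x]

theorem hk_mul {s : P.S} {w : Weyl P} (hle : len (sW P) w ≤ len (sW P) (sW P s * w)) :
    hk P (sW P s) * hk P w = hk P (sW P s * w) := by
  classical
  ext x z
  simp only [Matrix.mul_apply, hk, of_apply, ite_mul, one_mul, zero_mul, ← ite_and, Finset.sum_boole]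
  split_ifs with h
  · obtain ⟨y, h1, h2⟩ := h.split
    rw [Nat.cast_eq_one, Finset.card_eq_one]
    refine ⟨y, Finset.eq_singleton_iff_unique_mem.2 ⟨by simp [h1, h2], fun y' hy' => ?_⟩⟩
    simp only [Finset.mem_filter, Finset.mem_univ, true_and] at hy'
    by_contra hne
    have := ((hy'.1.symm.trans h1 hne).trans_le hle h2).unique hy'.2
    exact sW_ne_one P s (by simpa using this)
  · rw [Nat.cast_eq_zero, Finset.card_eq_zero, Finset.filter_eq_empty_iff]
    exact fun y _ hy => h (hy.1.trans_le hle hy.2)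

theorem hk_sq (s : P.S) : hk P (sW P s) * hk P (sW P s) =
    ((val P s : ℂ) - 1) • hk P (sW P s) + (val P s : ℂ) • 1 := by
  classical
  ext x z
  simp only [Matrix.mul_apply, hk, of_apply, ite_mul, one_mul, zero_mul, ← ite_and, Finset.sum_boole,
    Matrix.add_apply, Matrix.smul_apply, Matrix.one_apply, smul_eq_mul]
  by_cases hxz : x = z
  · subst hxz
    have : ¬ Pos P (sW P s) x x := fun h => h.ne rfl
    simp only [this, if_false, if_true, mul_zero, mul_one, zero_add, Nat.cast_inj]
    rw [← card_pos P s x]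
    congr 1; ext y
    simp only [Finset.mem_filter, Finset.mem_univ, true_and]
    exact ⟨fun h => h.1, fun h => ⟨h, h.symm⟩⟩
  · by_cases h : Pos P (sW P s) x z
    · simp only [h, hxz, if_false, if_true, mul_zero, mul_one, add_zero]
      rw [← card_pos P s x, eq_sub_iff_add_eq]
      have : (Finset.univ.filter fun y => Pos P (sW P s) x y) =
          insert z (Finset.univ.filter fun y => Pos P (sW P s) x y ∧ Pos P (sW P s) y z) := by
        ext y
        simp only [Finset.mem_filter, Finset.mem_univ, true_and, Finset.mem_insert]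
        constructor
        · intro hy
          by_cases hyz : y = z
          · exact Or.inl hyz
          · exact Or.inr ⟨hy, hy.symm.trans h hyz⟩
        · rintro (rfl | hy)
          · exact h
          · exact hy.1
      rw [this, Finset.card_insert_of_notMem (by simp only [Finset.mem_filter]; exact fun h => h.2.2.ne rfl)]
      push_cast; rfl
    · simp only [h, hxz, if_false, mul_zero, add_zero]
      rw [Nat.cast_eq_zero, Finset.card_eq_zero, Finset.filter_eq_empty_iff]
      exact fun y _ hy => h (hy.1.trans hy.2 hxz)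

theorem trace_hk_mul {w w' : Weyl P} (h : w' ≠ w⁻¹) : (hk P w * hk P w').trace = 0 := by
  classical
  refine Finset.sum_eq_zero fun x _ => Finset.sum_eq_zero fun y _ => ?_
  simp only [hk, of_apply, ite_mul, one_mul, zero_mul, ← ite_and]
  rw [if_neg]
  exact fun h1 => h (h1.2.unique h1.1.inv)

theorem trace_hk_mul_inv (w : Weyl P) : (hk P w * hk P w⁻¹).trace = ∑ x, (hk P w *ᵥ fun _ => 1) x := by
  classical
  refine Finset.sum_congr rfl fun x _ => Finset.sum_congr rfl fun y _ => ?_
  simp only [hk, of_apply]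
  by_cases h : Pos P w x y
  · simp [h, h.inv]
  · simp [h]

theorem hk_altM {i j : P.S} (hij : ∀ k, k = i ∨ k = j) {n : ℕ} (hn : n ≤ orderOf (sW P i * sW P j)) :
    altM (hk P (sW P i)) (hk P (sW P j)) n = hk P (altM (sW P i) (sW P j) n) := by
  induction n generalizing i j with
  | zero => exact (hk_one P).symm
  | succ n ih =>
    have e : orderOf (sW P j * sW P i) = orderOf (sW P i * sW P j) := by
      rw [← orderOf_inv, _root_.mul_inv_rev, (invGen P).inv, (invGen P).inv]
    have hji : ∀ k, k = j ∨ k = i := fun k => (hij k).symm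
    rw [altM_succ, ih hji (by omega), altM_succ, hk_mul]
    rw [← altM_succ, len_altM (invGen P) hij (sW_ne_one P) hn, len_altM (invGen P) hji (sW_ne_one P) (by omega)]
    omega

theorem altM_mulVec (i j : P.S) (n : ℕ) : altM (hk P (sW P i)) (hk P (sW P j)) n *ᵥ (fun _ => 1) =
    ((altM (val P i) (val P j) n : ℕ) : ℂ) • fun _ => 1 := by
  induction n generalizing i j with
  | zero => simp [altM]
  | succ n ih => rw [altM_succ, ← mulVec_mulVec, ih, mulVec_smul, hk_mulVec, altM_succ, smul_smul, mul_comm]; simp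

theorem trace_altM {i j : P.S} (hij : ∀ k, k = i ∨ k = j) {n : ℕ} (h1 : 1 ≤ n)
    (hn : n < 2 * orderOf (sW P i * sW P j)) : (altM (hk P (sW P i)) (hk P (sW P j)) n).trace = 0 := by
  have e : orderOf (sW P j * sW P i) = orderOf (sW P i * sW P j) := by
    rw [← orderOf_inv, _root_.mul_inv_rev, (invGen P).inv, (invGen P).inv]
  have hji : ∀ k, k = j ∨ k = i := fun k => (hij k).symm
  obtain ⟨a, b, rfl, ha, hb⟩ : ∃ a b, n = a + b ∧ a ≤ orderOf (sW P i * sW P j) ∧ b < a :=
    ⟨min n (orderOf (sW P i * sW P j)), n - min n (orderOf (sW P i * sW P j)), by omega, by omega, by omega⟩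
  rw [altM_add, hk_altM P hij ha, hk_altM P hij (by omega), hk_altM P hji (by omega)]
  split_ifs <;> refine trace_hk_mul P fun h => ?_ <;> have := congrArg (len (sW P)) h
  · rw [(invGen P).len_inv, len_altM (invGen P) hij (sW_ne_one P) ha,
      len_altM (invGen P) hij (sW_ne_one P) (by omega)] at this
    omega
  · rw [(invGen P).len_inv, len_altM (invGen P) hij (sW_ne_one P) ha,
      len_altM (invGen P) hji (sW_ne_one P) (by omega)] at this
    omega

end BN

theorem feit_higman {G : Type*} [Group G] [Finite G] (P : BNPair G) {i j : P.S} (hij : ∀ k, k = i ∨ k = j)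
    (h3 : 3 ≤ orderOf (sW P i * sW P j)) : orderOf (sW P i * sW P j) ∈ ({3, 4, 6, 8} : Set ℕ) := by
  classical
  haveI := Fintype.ofFinite (G ⧸ P.B)
  have e : orderOf (sW P j * sW P i) = orderOf (sW P i * sW P j) := by
    rw [← orderOf_inv, _root_.mul_inv_rev, (invGen P).inv, (invGen P).inv]
  have hji : ∀ k, k = j ∨ k = i := fun k => (hij k).symm
  set m := orderOf (sW P i * sW P j) with hm
  set w := altM (sW P i) (sW P j) m with hw
  have hw' : altM (sW P j) (sW P i) m = w := by
    have := wp_alt_mul_inv (sW_sq P) i j m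
    rw [pow_orderOf_eq_one, mul_inv_eq_one, wp_alt_eq, wp_alt_eq] at this
    exact this.symm
  have hww : w⁻¹ = w := by
    have := altM_add (sW P i) (sW P j) m m
    rw [← two_mul, altM_even, pow_orderOf_eq_one, hw', ← hw, ite_self] at this
    exact inv_eq_of_mul_eq_one_right this.symm
  set A := hk P (sW P i)
  set B := hk P (sW P j)
  have a1 : altM A B m = hk P w := hk_altM P hij le_rfl
  have a2 : altM B A m = hk P w := by rw [← hw']; exact hk_altM P hji e.ge
  have a3 : (A * B) ^ m = hk P w * hk P w := by rw [← altM_even, two_mul, altM_add, a1, a2, ite_self]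
  have a4 : (B * A) ^ m = hk P w * hk P w := by rw [← altM_even, two_mul, altM_add, a1, a2, ite_self]
  set u := val P i
  set v := val P j
  have hq : altM v u m = altM u v m := by
    have b1 := altM_mulVec P i j m
    have b2 := altM_mulVec P j i m
    rw [a1] at b1; rw [a2, b1] at b2
    have := congrFun b2 ((1 : G) : G ⧸ P.B)
    simp only [Pi.smul_apply, smul_eq_mul, mul_one, Nat.cast_inj] at this
    exact this.symm
  have hq2 : altM u v m ^ 2 = (u * v) ^ m := by rw [← altM_even, two_mul, altM_add, hq, ite_self, pow_two]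
  have hu := two_le_val P i
  have hv := two_le_val P j
  set r : ℝ := Real.sqrt (u * v) with hr
  have hr2 : r ^ 2 = u * v := Real.sq_sqrt (by positivity)
  have hrm : r ^ m = (altM u v m : ℕ) := by
    rw [← pow_left_inj₀ (by positivity) (by positivity) two_ne_zero, ← pow_mul, mul_comm, pow_mul, hr2]
    exact_mod_cast hq2.symm
  have hr2' : (r : ℂ) ^ 2 = u * v := by exact_mod_cast hr2
  have := arith (u := u) (v := v) (m := m) (N := Fintype.card (G ⧸ P.B)) (r := r) hu hv h3 Fintype.card_pos hr2'
    (by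
      rintro ⟨k, hk⟩
      rw [hk, altM_odd, altM_odd, mul_comm v u] at hq
      have huv : v = u := Nat.eq_of_mul_eq_mul_right (by positivity) hq
      refine ⟨huv.symm, ?_⟩
      rw [hr, huv, Real.sqrt_mul_self (by positivity)]; simp)
    (fun ζ hζ hζ2 => key h3 (hk_sq P i) (hk_sq P j) hr2'
      (fun h => by
        rw [h] at hr2'
        have : (u * v : ℕ) = 0 := by exact_mod_cast (by simpa using hr2'.symm : (u * v : ℂ) = 0)
        exact absurd this (by positivity))
      (fun k h1 h2 => by rw [← altM_even]; exact trace_altM P hij (by omega) (by omega))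
      (fun k h2 => by rw [← altM_odd]; exact trace_altM P hij (by omega) (by omega))
      (fun k h2 => by rw [← altM_odd]; exact trace_altM P hji (by omega) (by omega))
      (by
        rw [a3]; nth_rewrite 2 [← hww]
        rw [trace_hk_mul_inv, ← a1, altM_mulVec]
        have : (r : ℂ) ^ m = (altM u v m : ℕ) := by exact_mod_cast hrm
        simp [this, u, v])
      (a3.trans a4.symm) hζ hζ2)
  simpa using this

end Cfsg.Lib.CharDeg.FH
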