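import Cfsg.Agent.Lib.BG.Basic
import Cfsg.Agent.Lib.BG.T01_Chief

/-! # Average size of fixed point subgroups -/

set_option autoImplicit false

namespace Cfsg.Lib.FixAvg

open Subgroup Cfsg.Lib.BG

variable {V : Type*} [CommGroup V] [Finite V]

/-- fixed points of an automorphism -/
def fx (x : MulAut V) : Subgroup V := x.toMonoidHom.eqLocus (MonoidHom.id V)

/-- fixed points of a group of automorphisms -/
def fxs (H : Subgroup (MulAut V)) : Subgroup V := ⨅ h ∈ H, fx h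

omit [Finite V] in
theorem mem_fx {x : MulAut V} {v : V} : v ∈ fx x ↔ x v = v := Iff.rfl

omit [Finite V] in
theorem mem_fxs {H : Subgroup (MulAut V)} {v : V} : v ∈ fxs H ↔ ∀ h ∈ H, h v = v := by
  simp [fxs, mem_iInf, mem_fx]

omit [Finite V] in
theorem fxs_iff {H : Subgroup (MulAut V)} {v : V} : v ∈ fxs H ↔ H ≤ MulAction.stabilizer (MulAut V) v := mem_fxs

omit [Finite V] in
theorem fxs_zp {x : MulAut V} : fxs (zpowers x) = fx x := Subgroup.ext fun _ => fxs_iff.trans zpowers_le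

/-- the norm map -/
noncomputable def nm (H : Subgroup (MulAut V)) : V →* V :=
  have := Fintype.ofFinite H
  ∏ h : H, (h : MulAut V).toMonoidHom

theorem nm_apply (H : Subgroup (MulAut V)) [Fintype H] (v : V) : nm H v = ∏ h : H, (h : MulAut V) v := by
  simp only [nm, MonoidHom.finset_prod_apply]
  congr!

theorem nm_comm {H : Subgroup (MulAut V)} {y : MulAut V} (hy : y ∈ 𝐍(H)) (v : V) : nm H (y v) = y (nm H v) := by
  have := Fintype.ofFinite H
  rw [nm_apply, nm_apply, map_prod]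
  exact (Fintype.prod_equiv (H.normalizerMonoidHom ⟨y, hy⟩).toEquiv _ _ fun h => by
    show y (h.1 v) = (y * h.1 * y⁻¹) (y v)
    simp [MulAut.mul_apply]).symm

theorem nm_mem {H : Subgroup (MulAut V)} (v : V) : nm H v ∈ fxs H := mem_fxs.2 fun k hk => by
  have := Fintype.ofFinite H
  rw [nm_apply, map_prod]
  exact Fintype.prod_equiv (Equiv.mulLeft (⟨k, hk⟩ : H)) _ _ fun h => rfl

theorem nm_fix {H : Subgroup (MulAut V)} {v : V} (h : v ∈ fxs H) (hc : (Nat.card H).Coprime (Nat.card V))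
    (e : nm H v = 1) : v = 1 := by
  have := Fintype.ofFinite H
  rw [nm_apply, Finset.prod_congr rfl fun (k : H) _ => mem_fxs.1 h k k.2, Finset.prod_const, Finset.card_univ,
    ← Nat.card_eq_fintype_card] at e
  exact orderOf_eq_one_iff.1 (Nat.eq_one_of_dvd_coprimes hc (orderOf_dvd_of_pow_eq_one e) (orderOf_dvd_natCard v))

theorem card_mul_le {A B W : Subgroup V} (hA : A ≤ W) (hB : B ≤ W) (h : A ⊓ B = ⊥) :
    Nat.card A * Nat.card B ≤ Nat.card W := by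
  have := PGroup.card_sup_mul_card_inf (H := A) (K := B) le_normalizer_of_normal
  rw [h, card_bot, mul_one] at this
  exact this ▸ card_le_of_le (sup_le hA hB)

theorem coset {A : Subgroup (MulAut V)} [Fintype A] (hA : IsMulCommutative A) (hc : (Nat.card A).Coprime (Nat.card V))
    {x : MulAut V} (hx : x ∈ 𝐍(A)) (W : Subgroup V) (hW : ∀ g ∈ A ⊔ zpowers x, ∀ w ∈ W, g w ∈ W)
    (h0 : W ⊓ fxs A = ⊥) : ∏ a : A, Nat.card ↥(W ⊓ fx (x * a)) ^ 2 ≤ Nat.card W ^ Nat.card A := by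
  induction W using WellFoundedLT.induction with | _ W ih => ?_
  by_cases hb : W = ⊥
  · simp [hb]
  obtain ⟨H, -, ⟨h1, h2⟩, h3⟩ := Core.exists_maximal_ge (P := fun H : Subgroup (MulAut V) => H ≤ A ∧ W ⊓ fxs H ≠ ⊥)
    (H := ⊥) ⟨bot_le, by rwa [inf_of_le_left fun v _ => mem_fxs.2 fun h e => by rw [mem_bot.1 e]; rfl]⟩
  have hcH := hc.coprime_dvd_left (card_dvd_of_le h1)
  have hn : A ≤ 𝐍(H) := abelian_norm hA h1
  have hΓ : A ⊔ zpowers x ≤ 𝐍(A) := sup_le_norm_left (zpowers_le.2 hx)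
  have hm : ∀ K ≤ A, ¬ K ≤ H → ∀ w ∈ W, w ∈ fxs H → w ∈ fxs K → w = 1 := fun K a b w c d e => by
    by_contra f
    exact b (le_sup_right.trans (h3 (H ⊔ K) ⟨sup_le h1 a, ne_bot_of_mem (x := w) ⟨c, fxs_iff.2
      (sup_le (fxs_iff.1 d) (fxs_iff.1 e))⟩ f⟩ le_sup_left).le)
  let W2 : Subgroup V := W ⊓ ⨅ g ∈ A ⊔ zpowers x, ((nm H).comp g.toMonoidHom).ker
  have m2 : ∀ w, w ∈ W2 ↔ w ∈ W ∧ ∀ g ∈ A ⊔ zpowers x, nm H (g w) = 1 := fun w => by
    simp only [W2, mem_inf, mem_iInf, MonoidHom.mem_ker]; rfl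
  have u2 : (W ⊓ fxs H) ⊓ W2 = ⊥ := eq_bot_iff.2 fun w hw =>
    nm_fix hw.1.2 hcH (((m2 w).1 hw.2).2 1 (one_mem _))
  have nW : ∀ w ∈ W, nm H w ∈ W := fun w hw => by
    have := Fintype.ofFinite H
    rw [nm_apply]
    exact prod_mem fun h _ => hW _ (mem_sup_left (h1 h.2)) _ hw
  have i2 := ih W2 (lt_of_le_of_ne inf_le_left fun e => h2 (by rwa [e, inf_of_le_left inf_le_left] at u2))
    (fun g hg w hw => (m2 _).2 ⟨hW g hg w ((m2 w).1 hw).1, fun k hk => ((m2 w).1 hw).2 _ (mul_mem hk hg)⟩)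
    (BG.eq_bot_mono h0 (inf_le_inf_right _ inf_le_left))
  have e1 : ∀ a : A, Nat.card ↥(W ⊓ fx (x * a)) =
      Nat.card ((W ⊓ fx (x * a)).map (nm H)) * Nat.card ↥(W2 ⊓ fx (x * a)) := fun a => by
    rw [← Core.card_map_mul_card_inf_ker (nm H) (W ⊓ fx (x * a))]
    congr 4
    refine le_antisymm (fun w hw => ⟨(m2 w).2 ⟨hw.1.1, fun g hg => ?_⟩, hw.1.2⟩) fun w hw =>
      ⟨⟨((m2 w).1 hw.1).1, hw.2⟩, ((m2 w).1 hw.1).2 1 (one_mem _)⟩
    have : g ∈ A ⊔ zpowers (x * a) := (sup_le le_sup_left (zpowers_le.2 (by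
      simpa using mul_mem (mem_sup_right (mem_zpowers (x * a))) (mem_sup_left (S := A) (inv_mem a.2)))) : _ ≤ _) hg
    obtain ⟨b, hb, y, hy, rfl⟩ := (mem_sup_left_norm (zpowers_le.2 (mul_mem hx (le_norm _ a.2)))).1 this
    rw [MulAut.mul_apply, mem_fxs.1 (fxs_zp.ge hw.1.2) y hy, nm_comm (hn hb),
      show nm H w = 1 from hw.2, map_one]
  have e2 : ∀ a : A, (W ⊓ fx (x * a)).map (nm H) ≤ W ⊓ fxs H := fun a => by
    rintro _ ⟨w, hw, rfl⟩; exact ⟨nW w hw.1, nm_mem w⟩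
  simp only [e1, mul_pow, Finset.prod_mul_distrib]
  by_cases hH : x ∈ 𝐍(H)
  · obtain ⟨n, n1, n2⟩ := SetLike.not_le_iff_exists.1 fun h : A ≤ H => h2 (le_antisymm h1 h ▸ h0)
    have e3 : ∀ a : A, (W ⊓ fx (x * a)).map (nm H) ≤ fx (x * (a : MulAut V)) := fun a => by
      rintro _ ⟨w, hw, rfl⟩
      exact mem_fx.2 (by rw [← nm_comm (mul_mem hH (hn a.2)), mem_fx.1 hw.2])
    refine (Nat.mul_le_mul ?_ i2).trans ((mul_pow _ _ _).ge.trans (Nat.pow_le_pow_left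
      (card_mul_le inf_le_left inf_le_left u2) _))
    simp only [sq, Finset.prod_mul_distrib]
    nth_rw 1 [← Equiv.prod_comp (Equiv.mulRight (⟨n, n1⟩ : A))]
    rw [← Finset.prod_mul_distrib, Nat.card_eq_fintype_card (α := A)]
    refine Finset.prod_le_pow_card _ _ _ fun a _ => card_mul_le (e2 _) (e2 _) (eq_bot_iff.2 fun w hw => ?_)
    refine hm (zpowers n) (zpowers_le.2 n1) (by rwa [zpowers_le]) w (e2 _ hw.1).1 (e2 _ hw.1).2
      (fxs_zp.ge ?_)
    exact (x * (a : MulAut V)).injective ((mem_fx.1 (e3 _ hw.1)).trans (mem_fx.1 (e3 _ hw.2)).symm)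
  · have hx' : x ∈ A ⊔ zpowers x := mem_sup_right (mem_zpowers x)
    have e3 : (W ⊓ fxs H) ⊓ ((W ⊓ fxs H).map x.toMonoidHom ⊔ W2) = ⊥ := eq_bot_iff.2 fun w hw => by
      obtain ⟨_, ⟨u, hu, rfl⟩, v, hv, e⟩ := mem_sup.1 hw.2
      refine nm_fix hw.1.2 hcH ?_
      rw [← e, map_mul, show nm H v = 1 from ((m2 v).1 hv).2 1 (one_mem _), mul_one]
      refine hm (H.map (MulAut.conj x).toMonoidHom) (conj_le_of_norm h1 hx) (fun h => hH (norm_of_conj_eq
        (eq_of_le_of_card_le h (card_map_of_injective (MulAut.conj x).injective).ge))) _ (nW _ (hW _ hx' _ hu.1))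
        (nm_mem _) (mem_fxs.2 ?_)
      rintro _ ⟨h, hh, rfl⟩
      rw [← nm_comm (hn (conj_le_of_norm h1 hx (mem_map_of_mem _ hh)))]
      simp [MulAut.mul_apply, mem_fxs.1 hu.2 h hh]
    have e4 : (W ⊓ fxs H).map x.toMonoidHom ⊓ W2 = ⊥ := eq_bot_iff.2 fun w hw => by
      obtain ⟨u, hu, rfl⟩ := hw.1
      rw [nm_fix hu.2 hcH (by simpa using ((m2 _).1 hw.2).2 _ (inv_mem hx')), map_one]
      exact one_mem _
    have e5 := PGroup.card_sup_mul_card_inf (H := (W ⊓ fxs H).map x.toMonoidHom) (K := W2) le_normalizer_of_normal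
    rw [e4, card_bot, mul_one, card_map_of_injective x.injective] at e5
    have e6 := card_mul_le inf_le_left (sup_le (by rintro _ ⟨u, hu, rfl⟩; exact hW _ hx' _ hu.1) inf_le_left) e3
    rw [e5, ← mul_assoc, ← sq] at e6
    refine (Nat.mul_le_mul ?_ i2).trans ((mul_pow _ _ _).ge.trans (Nat.pow_le_pow_left e6 _))
    rw [Nat.card_eq_fintype_card (α := A)]
    exact Finset.prod_le_pow_card _ _ _ fun a _ => Nat.pow_le_pow_left (card_le_of_le (e2 a)) _

variable {G : Type*} [Group G] {ρ : G →* MulAut V} {p : ℕ} [Fact p.Prime]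

omit [Finite V] in
theorem irr_fxs (hi : ∀ W : Subgroup V, (∀ g, ∀ w ∈ W, ρ g w ∈ W) → W = ⊥ ∨ W = ⊤) (M : Subgroup G) [hM : M.Normal] :
    fxs (M.map ρ) = ⊥ ∨ M ≤ ρ.ker := by
  refine (hi _ fun g w hw => mem_fxs.2 ?_).imp_right fun h m hm => MulEquiv.ext fun v =>
    mem_fxs.1 (h.ge (mem_top v)) _ (mem_map_of_mem ρ hm)
  rintro _ ⟨m, hm, rfl⟩
  have := mem_fxs.1 hw _ (mem_map_of_mem ρ (hM.conj_mem' m hm g))
  rw [map_mul, map_mul, map_inv, MulAut.mul_apply, MulAut.mul_apply] at this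
  simpa using congrArg (ρ g) this

theorem le_ker (hi : ∀ W : Subgroup V, (∀ g, ∀ w ∈ W, ρ g w ∈ W) → W = ⊥ ∨ W = ⊤) (hV : IsPGroup p V)
    (M : Subgroup G) [M.Normal] (hM : IsPGroup p (M.map ρ)) : M ≤ ρ.ker := by
  refine (irr_fxs hi M).elim (fun h => ?_) id
  rcases subsingleton_or_nontrivial V with _ | _
  · exact fun m _ => MulEquiv.ext fun v => Subsingleton.elim _ _
  obtain ⟨n, h0, hn⟩ := hV.nontrivial_iff_card.1 ‹_›
  obtain ⟨b, h1, h2⟩ := hM.exists_fixed_point_of_prime_dvd_card_of_fixed_point V (hn ▸ dvd_pow_self p h0.ne')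
    (a := 1) fun g => map_one g.1
  exact absurd (mem_bot.1 (h.le (mem_fxs.2 fun k hk => h1 ⟨k, hk⟩))).symm h2

/-- the average dimension of the fixed spaces on a nontrivial irreducible module of a solvable group -/
theorem avg [Fintype G] (hs : Group.IsSolvable G)
    (hi : ∀ W : Subgroup V, (∀ g, ∀ w ∈ W, ρ g w ∈ W) → W = ⊥ ∨ W = ⊤) (hV : IsPGroup p V) (hne : ρ.ker ≠ ⊤) :
    ∏ g, Nat.card (fx (ρ g)) ^ 2 ≤ Nat.card V ^ Nat.card G := by
  obtain ⟨M, hM, -⟩ := exists_chief_le (M := ⊤) (V := ρ.ker) (U := ⊤) ⟨le_top, le_normalizer_of_normal⟩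
    ⟨le_rfl, le_norm _⟩ hne.lt_top
  obtain ⟨q, hq, h1, -, k, -, h2⟩ := hM.elem inferInstance
  have : M.Normal := normalizer_eq_top_iff.1 (top_le_iff.1 hM.nmlU.2)
  have := Fact.mk hq
  rw [relIndex_ker] at h2
  have h3 : ¬ M ≤ ρ.ker := not_le_of_gt hM.lt
  have := Fintype.ofFinite (M.map ρ)
  obtain ⟨n, hn⟩ := hV.exists_card_eq
  have hc : (Nat.card (M.map ρ)).Coprime (Nat.card V) := by
    rw [h2, hn]
    refine Nat.coprime_pow_primes _ _ hq Fact.out fun e => h3 (le_ker hi hV M (e ▸ .of_card h2))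
  have hA : IsMulCommutative (M.map ρ) := by
    rw [← le_centralizer_iff_isMulCommutative, ← commutator_eq_bot_iff_le_centralizer, ← map_commutator,
      Subgroup.map_eq_bot_iff]
    exact h1
  have key : ∀ g, ∏ a : M.map ρ, Nat.card (fx (ρ g * a.1)) ^ 2 ≤ Nat.card V ^ Nat.card (M.map ρ) := fun g => by
    simpa only [top_inf_eq, card_top] using coset hA hc (x := ρ g) (le_normalizer_map ρ (mem_map_of_mem ρ (hM.nmlU.2 (mem_top g)))) ⊤
      (fun _ _ _ _ => mem_top _) (by rw [top_inf_eq]; exact (irr_fxs hi M).resolve_right h3)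
  refine le_of_pow_le_pow_left₀ (Nat.card_pos (α := M.map ρ)).ne' (Nat.zero_le _) ?_
  calc _ = ∏ a : M.map ρ, ∏ g, Nat.card (fx (ρ g * a.1)) ^ 2 := by
        rw [Nat.card_eq_fintype_card (α := M.map ρ), ← Finset.card_univ, ← Finset.prod_const]
        refine Finset.prod_congr rfl fun ⟨_, m, _, rfl⟩ _ => ?_
        rw [← Equiv.prod_comp (Equiv.mulRight m)]
        simp only [Equiv.coe_mulRight, map_mul]
    _ ≤ _ := by
        rw [Finset.prod_comm, ← pow_mul, mul_comm, pow_mul, Nat.card_eq_fintype_card (α := G)]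
        exact Finset.prod_le_pow_card _ _ _ fun g _ => key g

end Cfsg.Lib.FixAvg
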