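import Cfsg.Agent.Lib.Clifford.GoingDown
import Cfsg.Agent.Lib.Clifford.Gallagher
import Cfsg.Agent.Lib.FGS.ClassSize
import Cfsg.Agent.Lib.Transfer.SylowIn

/-!
Fully ramified characters: the DeMeyer–Janusz lemma and the subgroups of prime power index of
Howlett–Isaacs.
-/

set_option autoImplicit false

namespace Cfsg.Lib.CharDeg

open Cfsg.Lib.PF Subgroup
open scoped ComplexConjugate

variable {X : Type*} [Group X] [Finite X]

/-- `θ` is fully ramified in the ambient group. -/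
structure FRam (Z : Subgroup X) (θ : X → ℂ) (e : ℕ) : Prop where
  normal : Z.Normal
  irr : θ ∈ Irr Z
  top : (e : ℂ) • θ ∈ Irr (⊤ : Subgroup X)
  sq : e ^ 2 = Z.index

theorem exists_fRam (Z : Subgroup X) [hZ : Z.Normal] (χ : IrrCharacter X)
    (h : ∃ (θ : IrrCharacter Z) (e : ℕ), e ^ 2 = Z.index ∧
      ∀ z : Z, (χ : X → ℂ) z = (e : ℂ) * (θ : Z → ℂ) z) :
    ∃ θ e, FRam Z θ e ∧ (χ : X → ℂ) = (e : ℂ) • θ := by
  obtain ⟨θ, e, he, h⟩ := h
  haveI := Fintype.ofFinite X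
  haveI := Fintype.ofFinite Z
  have h0 := (Clifford.sq_eq_index_iff_of_res_eq_smul Z χ.2 θ.2 (e := e) (funext h)).1 he
  have h1 : (χ : X → ℂ) = (e : ℂ) • extendByZero Z θ := by
    funext g
    by_cases hg : g ∈ Z
    · rw [Pi.smul_apply, Induce.extendByZero_of_mem Z _ hg, smul_eq_mul]
      exact h ⟨g, hg⟩
    · rw [Pi.smul_apply, Induce.extendByZero_of_not_mem Z _ hg, h0 g hg, smul_zero]
  exact ⟨_, e, ⟨hZ, extendByZero_mem_Irr.2 θ.2, h1 ▸ mem_Irr_top.2 χ.2, he⟩, h1⟩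

theorem le_normalizer_of_normal' (Z R : Subgroup X) [Z.Normal] : R ≤ normalizer (Z : Set X) :=
  le_top.trans (normalizer_eq_top Z).ge

namespace FRam

variable {Z R Q K : Subgroup X} {θ ψ φ : X → ℂ} {e : ℕ}

theorem ne_zero (h : FRam Z θ e) : e ≠ 0 := by
  rintro rfl
  exact index_ne_zero_of_finite (H := Z) (by rw [← h.sq]; rfl)

theorem conj_apply (h : FRam Z θ e) (g x : X) : θ (g * x * g⁻¹) = θ x :=
  mul_left_cancel₀ (Nat.cast_ne_zero.2 h.ne_zero : (e : ℂ) ≠ 0)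
    (CF.conj (Irr.mem_CF h.top) (mem_top g) x)

theorem mem_inertia (h : FRam Z θ e) (g : X) : g ∈ inertia θ := mem_inertia_iff.2 (h.conj_apply g)

theorem le_inertia (h : FRam Z θ e) (R : Subgroup X) : R ≤ inertia θ := fun g _ => h.mem_inertia g

theorem mem_CF (h : FRam Z θ e) (hZR : Z ≤ R) : θ ∈ CF R :=
  PF.mem_CF.2 ⟨fun _ hx => CF.zero_off (Irr.mem_CF h.irr) fun h' => hx (hZR h'),
    fun g _ x => h.conj_apply g x⟩

theorem cfdot_eq (h : FRam Z θ e) (hZR : Z ≤ R) (ψ : X → ℂ) :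
    (Z.relIndex R : ℂ) * cfdot R θ ψ = cfdot Z θ ψ := by
  have := card_mul_cfdot_of_le (φ := θ) (ψ := ψ) hZR
    (fun x _ hx => Or.inl (CF.zero_off (Irr.mem_CF h.irr) hx))
  rw [← cast_card_mul_relIndex hZR, mul_assoc] at this
  exact mul_left_cancel₀ (card_ne_zero Z) this

theorem cfdot_ne_zero (h : FRam Z θ e) (hZR : Z ≤ R) (hne : cfdot Z ψ θ ≠ 0) : cfdot R θ ψ ≠ 0 := by
  intro h0
  have := h.cfdot_eq hZR ψ
  rw [h0, mul_zero] at this
  exact hne (cfdot_symm_zero this.symm)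

theorem isChar (h : FRam Z θ e) (hZR : Z ≤ R) : IsChar R ((e : ℂ) • θ) := by
  have := (Irr.isChar h.top).res (le_top : R ≤ ⊤)
  rwa [map_smul, CF.res_eq (h.mem_CF hZR)] at this

/-- DeMeyer–Janusz -/
theorem sylow (h : FRam Z θ e) (hZR : Z ≤ R) {p k : ℕ} (hp : p.Prime) (hk : Z.relIndex R = p ^ k)
    (hi : ¬ p ∣ R.index) : ∃ j, k = 2 * j ∧ ((p ^ j : ℕ) : ℂ) • θ ∈ Irr R := by
  obtain ⟨j, m, hm, he⟩ := Nat.exists_eq_pow_mul_and_not_dvd h.ne_zero p hp.ne_one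
  have h1 := h.sq
  rw [← relIndex_mul_index hZR, hk, he] at h1
  have hkj : k = 2 * j := by
    have h2 := congrArg (fun n => n.factorization p) h1
    have hm0 : m ≠ 0 := by rintro rfl; exact hm (dvd_zero p)
    have hi0 : R.index ≠ 0 := index_ne_zero_of_finite
    have hp0 := hp.ne_zero
    simp only [Nat.factorization_pow, Nat.factorization_mul (pow_ne_zero j hp0) hm0,
      Nat.factorization_mul (pow_ne_zero k hp0) hi0, Finsupp.add_apply, Finsupp.smul_apply,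
      hp.factorization_self, Nat.factorization_eq_zero_of_not_dvd hm,
      Nat.factorization_eq_zero_of_not_dvd hi, smul_eq_mul] at h2
    omega
  refine ⟨j, hkj, ?_⟩
  have hp0 : ((p ^ j : ℕ) : ℂ) ≠ 0 := Nat.cast_ne_zero.2 (pow_ne_zero j hp.ne_zero)
  have hR : (Z.relIndex R : ℂ) = ((p ^ j : ℕ) : ℂ) * (p ^ j : ℕ) := by
    rw [hk, hkj, two_mul, pow_add, Nat.cast_mul]
  refine IsChar.mem_Irr_of_cfdot (isChar_of_nat (Submodule.smul_mem _ _ (h.mem_CF hZR))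
    fun ψ hψ => ?_) ?_
  · obtain ⟨a, ha⟩ := (h.isChar hZR).exists_cfdot_nat (Irr.isChar hψ)
    obtain ⟨f, hf⟩ := (Irr.isChar hψ).exists_cfdot_res_nat hZR (Irr.isChar h.irr)
    have h2 := h.cfdot_eq hZR ψ
    rw [cfdot_symm_nat hf, hR] at h2
    rw [cfdot_smul_left, he] at ha
    have h3 : m * f = p ^ j * a := by
      have : ((m * f : ℕ) : ℂ) = (p ^ j * a : ℕ) := by
        push_cast at h2 ha ⊢
        rw [← h2, ← ha]; ring
      exact_mod_cast this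
    obtain ⟨b, hb⟩ : p ^ j ∣ f :=
      (((Nat.Prime.coprime_iff_not_dvd hp).2 hm).pow_left j).dvd_of_dvd_mul_left ⟨a, h3⟩
    refine ⟨b, mul_left_cancel₀ hp0 ?_⟩
    rw [cfdot_smul_left, ← mul_assoc, h2, hb, Nat.cast_mul]
  · have h2 := h.cfdot_eq hZR θ
    rw [Irr.cfdot_self h.irr, hR] at h2
    rw [cfdot_smul_left, cfdot_smul_right, map_natCast, ← mul_assoc, h2]

theorem eq_of_over (h : FRam Z θ e) (hZR : Z ≤ R) {f : ℕ} (hf : (f : ℂ) • θ ∈ Irr R)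
    (hψ : ψ ∈ Irr R) (hne : cfdot Z ψ θ ≠ 0) : ψ = (f : ℂ) • θ := by
  refine (Irr.eq_of_cfdot_ne_zero hf hψ ?_).symm
  rw [cfdot_smul_left]
  refine mul_ne_zero (fun h0 => Irr.ne_zero hf (by rw [h0, zero_smul])) (h.cfdot_ne_zero hZR hne)

theorem mem_cfclass (h : FRam Z θ e) (hZQ : Z ≤ Q) (hQR : Q ≤ R) (hn : R ≤ normalizer (Q : Set X))
    {f : ℕ} (hf : (f : ℂ) • θ ∈ Irr R) (hψ : ψ ∈ Irr Q) (hφ : φ ∈ Irr Q)
    (h1 : cfdot Z ψ θ ≠ 0) (h2 : cfdot Z φ θ ≠ 0) : φ ∈ cfclass R ψ := by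
  have h0 : (f : ℂ) ≠ 0 := fun h0 => Irr.ne_zero hf (by rw [h0, zero_smul])
  refine Irr.mem_cfclass_of_over hQR hn hf hψ hφ ?_ ?_ <;> rw [cfdot_smul_left]
  · exact mul_ne_zero h0 (h.cfdot_ne_zero hZQ h1)
  · exact mul_ne_zero h0 (h.cfdot_ne_zero hZQ h2)

theorem cfdot_cfConj (h : FRam Z θ e) (g : X) (ψ : X → ℂ) : cfdot Z (cfConj g ψ) θ = cfdot Z ψ θ := by
  haveI := h.normal
  rw [cfdot_cfConj_left (le_normalizer_of_normal' Z ⊤ (mem_top g)), PF.mem_inertia.1 (h.mem_inertia _)]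

/-- The subgroup of prime power index of Howlett–Isaacs. -/
theorem exists_index [K.Normal] (h : FRam Z θ e) (hZK : Z ≤ K) {p : ℕ} [hp : Fact p.Prime]
    (P : Sylow p X) {f : ℕ} (hf : (f : ℂ) • θ ∈ Irr (Z ⊔ (P : Subgroup X)))
    (hψ : ψ ∈ Irr ((Z ⊔ (P : Subgroup X)) ⊓ K)) (h1 : cfdot Z ψ θ ≠ 0) :
    ∃ M : Subgroup (X ⧸ K), M.index = (inertia ψ).relIndex (Z ⊔ (P : Subgroup X)) := by
  haveI := h.normal
  set R := Z ⊔ (P : Subgroup X) with hR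
  set Q := R ⊓ K with hQ
  have hZQ : Z ≤ Q := le_inf le_sup_left hZK
  have hRN : R ≤ normalizer (Q : Set X) := by
    intro r hr
    rw [mem_normalizer_iff]
    intro x
    constructor
    · rintro ⟨h1, h2⟩
      exact ⟨R.mul_mem (R.mul_mem hr h1) (R.inv_mem hr), Normal.conj_mem inferInstance x h2 r⟩
    · rintro ⟨h1, h2⟩
      have e : x = r⁻¹ * (r * x * r⁻¹) * r⁻¹⁻¹ := by group
      exact ⟨e ▸ R.mul_mem (R.mul_mem (R.inv_mem hr) h1) (R.inv_mem (R.inv_mem hr)),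
        e ▸ Normal.conj_mem inferInstance _ h2 r⁻¹⟩
  set N := normalizer (Q : Set X) with hN
  have hcl : cfclass N ψ = cfclass R ψ := by
    ext φ
    constructor
    · intro hφ
      obtain ⟨g, hg, rfl⟩ := PF.mem_cfclass.1 hφ
      exact h.mem_cfclass hZQ inf_le_left hRN hf hψ (Irr.cfConj_mem hg hψ) h1
        (by rwa [h.cfdot_cfConj])
    · intro hφ
      obtain ⟨g, hg, rfl⟩ := PF.mem_cfclass.1 hφ
      exact cfConj_mem_cfclass (hRN hg) ψ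
  have ht : (inertia ψ).relIndex N = (inertia ψ).relIndex R := by
    rw [← card_cfclass, hcl, card_cfclass]
  have hQI : Q ≤ inertia ψ := CF.le_inertia (Irr.mem_CF hψ)
  have hPR : ¬ p ∣ R.index := fun hd => P.not_dvd_index (hd.trans (index_dvd_of_le le_sup_right))
  obtain ⟨k, hk⟩ : ∃ k, (inertia ψ).relIndex R = p ^ k := by
    obtain ⟨n, hn⟩ := P.2.exists_card_eq
    have : (inertia ψ).relIndex R ∣ p ^ n := by
      refine (relIndex_dvd_of_le_left R (hZQ.trans hQI)).trans ?_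
      rw [hR, relIndex_sup_left, ← hn]
      exact relIndex_dvd_card Z P
    obtain ⟨k, -, hk⟩ := (Nat.dvd_prime_pow hp.out).1 this
    exact ⟨k, hk⟩
  have hL : K ⊓ N ≤ inertia ψ := by
    rw [← relIndex_eq_one]
    have a1 : (inertia ψ).relIndex (K ⊓ N) ∣ p ^ k := by
      rw [← hk, ← ht, ← relIndex_subgroupOf (inf_le_right : K ⊓ N ≤ N), inf_subgroupOf_right]
      exact FGS.relIndex_dvd_index_of_normal' _ _
    have a2 : (inertia ψ).relIndex (K ⊓ N) ∣ R.index := by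
      refine (relIndex_dvd_of_le_left _ hQI).trans ?_
      refine (Dvd.intro _ (relIndex_mul_relIndex Q (K ⊓ N) K (le_inf inf_le_right le_normalizer)
        inf_le_left)).trans ?_
      rw [hQ, inf_relIndex_right]
      exact FGS.relIndex_dvd_index_of_normal' _ _
    exact Nat.eq_one_of_dvd_coprimes
      (((Nat.Prime.coprime_iff_not_dvd hp.out).2 hPR).pow_left k) a1 a2
  have hF : ∀ x : X, ∃ n ∈ N, x⁻¹ * n ∈ K := by
    intro x
    have hT : ¬ p ∣ ((P : Subgroup X) ⊓ K).relIndex K := by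
      rw [inf_relIndex_right]
      exact fun hd => P.not_dvd_index (hd.trans (FGS.relIndex_dvd_index_of_normal' _ _))
    obtain ⟨n, hn, hx⟩ := Transfer.frattini_argument (K := ⊤) inf_le_right (P.2.to_inf_left) hT
      (le_normalizer_of_normal' K ⊤) (mem_top x)
    refine ⟨n * x, ?_, by simpa [mul_assoc] using Normal.conj_mem inferInstance n hn x⁻¹⟩
    have hQ' : Q = Z ⊔ ((P : Subgroup X) ⊓ K) := by
      refine le_antisymm ?_ (sup_le hZQ (inf_le_inf_right K le_sup_right))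
      rintro y ⟨hy, hyK⟩
      obtain ⟨z, hz, u, hu, rfl⟩ := mem_sup_of_normal_left.1 hy
      exact mul_mem_sup hz ⟨hu, (K.mul_mem_cancel_left (hZK hz)).1 hyK⟩
    rw [hN, hQ']
    exact normalizer_inf_normalizer_le_normalizer_sup _ _
      ⟨le_normalizer_of_normal' Z ⊤ (mem_top _), hx⟩
  refine ⟨(N ⊓ inertia ψ).map (QuotientGroup.mk' K), ?_⟩
  rw [← ht, ← index_comap_of_surjective _ (f := (QuotientGroup.mk' K).comp N.subtype)]
  · rw [relIndex]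
    congr 1
    ext ⟨x, hx⟩
    rw [mem_comap, mem_subgroupOf, mem_map]
    constructor
    · rintro ⟨y, ⟨hy1, hy2⟩, hy⟩
      have : y⁻¹ * x ∈ K := QuotientGroup.eq.1 hy
      have h3 := hL ⟨this, N.mul_mem (N.inv_mem hy1) hx⟩
      exact ((inertia ψ).mul_mem_cancel_left ((inertia ψ).inv_mem hy2)).1 h3
    · exact fun h => ⟨x, ⟨hx, h⟩, rfl⟩
  · intro q
    obtain ⟨x, rfl⟩ := QuotientGroup.mk_surjective q
    obtain ⟨n, hn, hx⟩ := hF x
    exact ⟨⟨n, hn⟩, (QuotientGroup.eq.2 hx).symm⟩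

theorem inertia_le_of_cyclic (h : FRam Z θ e) (hZQ : Z ≤ Q) (hQR : Q ≤ R)
    (hn : R ≤ normalizer (Q : Set X)) {f : ℕ} (hf : (f : ℂ) • θ ∈ Irr R) (hψ : ψ ∈ Irr Q)
    (h1 : cfdot Z ψ θ ≠ 0) {g : X} (hg : g ∈ R ⊓ inertia ψ)
    (hc : ∀ t ∈ R ⊓ inertia ψ, ∃ n : ℤ, (g ^ n)⁻¹ * t ∈ Q) : R ⊓ inertia ψ ≤ Q := by
  have hQT : Q ≤ R ⊓ inertia ψ := le_inf hQR (CF.le_inertia (Irr.mem_CF hψ))
  obtain ⟨η, hη, he⟩ := exists_extension_of_cyclic hQT (inf_le_left.trans hn) hψ inf_le_right hg hc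
  have h2 : cfdot Q η ψ = 1 := by rw [← cfdot_res_left, he, Irr.cfdot_self hψ]
  have h3 : ∀ χ ∈ Irr R, cfdot Q χ ψ ≠ 0 → χ = (f : ℂ) • θ := fun χ hχ hne =>
    h.eq_of_over (hZQ.trans hQR) hf hχ
      (IsChar.cfdot_ne_zero_trans hZQ hQR (Irr.isChar hχ) hψ (Irr.isChar h.irr) hne h1)
  have h4 := cfdot_ind_of_over hQT inf_le_left hn hψ le_rfl hη (by rw [h2]; exact one_ne_zero)
  rw [h2] at h4
  have h5 := h3 _ (ind_mem_Irr_of_over hQT inf_le_left hn hψ le_rfl hη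
    (by rw [h2]; exact one_ne_zero)) (by rw [h4]; exact one_ne_zero)
  obtain ⟨C, hC, hcard, -⟩ := ind_eq_smul_sum_of_const hQR hn hψ (e := 1) (fun χ hχ hne => by
    rw [h3 χ hχ hne, ← h5, h4, Nat.cast_one])
  have h6 : C.card ≤ 1 := Finset.card_le_one.2 fun a ha b hb => by
    rw [h3 a ((hC a).1 ha).1 ((hC a).1 ha).2, h3 b ((hC b).1 hb).1 ((hC b).1 hb).2]
  rw [← relIndex_eq_one]
  have := relIndex_pos Q (R ⊓ inertia ψ)
  omega

theorem exists_sq_mul (h : FRam Z θ e) (hZQ : Z ≤ Q) (hQR : Q ≤ R)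
    (hn : R ≤ normalizer (Q : Set X)) {f : ℕ} (hf : (f : ℂ) • θ ∈ Irr R) (hψ : ψ ∈ Irr Q)
    (h1 : cfdot Z ψ θ ≠ 0) : ∃ a : ℕ, a ^ 2 * (inertia ψ).relIndex R = Z.relIndex Q ∧
      ∀ φ, IsChar Q φ → ∃ b : ℕ, cfdot Z φ θ = (a * b : ℕ) := by
  haveI := h.normal
  obtain ⟨a, ha⟩ := (Irr.isChar hψ).exists_cfdot_res_nat hZQ (Irr.isChar h.irr)
  have h2 : ∀ χ ∈ Irr Q, cfdot Z χ θ ≠ 0 → cfdot Z χ θ = a := fun χ hχ hne => by
    obtain ⟨g, -, rfl⟩ := PF.mem_cfclass.1 (h.mem_cfclass hZQ hQR hn hf hψ hχ h1 hne)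
    rw [h.cfdot_cfConj, ha]
  obtain ⟨C, hC, hcard, -⟩ := ind_eq_smul_sum_of_const hZQ (le_normalizer_of_normal' Z Q) h.irr h2
  refine ⟨a, ?_, fun φ hφ => ?_⟩
  · rw [inf_of_le_left (h.le_inertia Q)] at hcard
    rw [← hcard, ← card_cfclass]
    congr 2
    ext χ
    rw [hC]
    constructor
    · intro hχ
      obtain ⟨g, hg, rfl⟩ := PF.mem_cfclass.1 hχ
      exact ⟨Irr.cfConj_mem (hn hg) hψ, by rwa [h.cfdot_cfConj]⟩
    · exact fun hχ => h.mem_cfclass hZQ hQR hn hf hψ hχ.1 h1 hχ.2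
  · refine hφ.induction_on (P := fun φ => ∃ b : ℕ, cfdot Z φ θ = (a * b : ℕ))
      ⟨0, by simp [cfdot_zero_left]⟩ ?_
    rintro χ φ hχ - ⟨b, hb⟩
    by_cases h0 : cfdot Z χ θ = 0
    · exact ⟨b, by rw [cfdot_add_left, h0, hb, zero_add]⟩
    · exact ⟨b + 1, by rw [cfdot_add_left, h2 χ hχ h0, hb]; push_cast; ring⟩

end FRam

end Cfsg.Lib.CharDeg
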