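import Cfsg.Agent.Lib.Clifford.Basic
import Cfsg.Agent.Lib.Char.Product
import Cfsg.Agent.Lib.Core.MinNormal

/-! Irreducible characters vanishing on all but two conjugacy classes (Gagola). -/

namespace Cfsg.Lib.CharDeg

open Cfsg.Lib.Char Cfsg.Lib.Clifford Cfsg.Lib.Core Finset Subgroup
open scoped ComplexConjugate

variable {G : Type*} [Group G] [Finite G]

/-- If every element of the coset `yN` is conjugate to `y`, then `|C_G(y)| = |C_{G/N}(yN)|`. -/
theorem card_centralizer_eq_quotient {N : Subgroup G} [N.Normal] {y : G}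
    (h : ∀ n ∈ N, IsConj y (y * n)) : Nat.card (centralizer ({y} : Set G)) =
      Nat.card (centralizer ({(y : G ⧸ N)} : Set (G ⧸ N))) := by
  haveI := Fintype.ofFinite N
  let K := (centralizer ({(y : G ⧸ N)} : Set (G ⧸ N))).comap (QuotientGroup.mk' N)
  have hK : ∀ k, k ∈ K ↔ y⁻¹ * (k * y * k⁻¹) ∈ N := fun k => by
    rw [← QuotientGroup.eq, mem_comap, mem_centralizer_singleton_iff]
    simp [eq_mul_inv_iff_mul_eq, eq_comm]
  have h1 : Nat.card K = Nat.card N * Nat.card (centralizer ({y} : Set G)) := by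
    rw [Nat.card_congr (α := K) (β := Σ n : N, {k : G // k * y * k⁻¹ = y * n})
      ⟨fun k => ⟨⟨_, (hK k).1 k.2⟩, k, by simp⟩, fun k => ⟨k.2, (hK _).2 (by simp [k.2.2])⟩,
        fun _ => rfl, fun ⟨⟨n, hn⟩, k, hk⟩ => by
          obtain rfl : n = y⁻¹ * (k * y * k⁻¹) := by simp [hk]
          rfl⟩, Nat.card_sigma, sum_congr rfl fun (n : N) _ => card_conj_fiber (h n n.2), sum_const,
      card_univ, smul_eq_mul, Nat.card_eq_fintype_card (α := N)]
  have h2 := K.card_mul_index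
  rw [index_comap_of_surjective _ (QuotientGroup.mk'_surjective N), h1,
    card_eq_card_quotient_mul_card_subgroup N,
    ← (centralizer ({(y : G ⧸ N)} : Set (G ⧸ N))).card_mul_index, mul_assoc, mul_comm] at h2
  exact Nat.eq_of_mul_eq_mul_right (Nat.pos_of_ne_zero index_ne_zero_of_finite)
    (Nat.eq_of_mul_eq_mul_right Nat.card_pos h2)

/-- `χ` is a non-principal irreducible character that vanishes off `1` and the class of `x`. -/
structure Gag (χ : G → ℂ) (x : G) : Prop where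
  irr : IsIrrCharacter G χ
  ne : x ≠ 1
  ne_one : χ ≠ fun _ => 1
  iff : ∀ g, χ g ≠ 0 ↔ g = 1 ∨ IsConj x g

theorem exists_gag (hG : 2 < Nat.card G) (χ : IrrCharacter G)
    (hχ : Nat.card {C : ConjClasses G // ∃ g ∈ C.carrier, (χ : G → ℂ) g ≠ 0} = 2) :
    ∃ x, Gag χ.1 x := by
  obtain ⟨⟨C, x, hx, h0⟩, h1, h2⟩ := (Nat.card_eq_two_iff' (⟨ConjClasses.mk 1, 1,
    ConjClasses.mem_carrier_mk, χ.2.apply_one_ne_zero⟩ :
    {C : ConjClasses G // ∃ g ∈ C.carrier, (χ : G → ℂ) g ≠ 0})).1 hχ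
  obtain rfl := ConjClasses.mem_carrier_iff_mk_eq.1 hx
  have h3 : x ≠ 1 := fun e => h1 (Subtype.ext (congrArg ConjClasses.mk e))
  have h4 : ∀ g, (χ : G → ℂ) g ≠ 0 ↔ g = 1 ∨ IsConj x g := fun g => by
    refine ⟨fun h => or_iff_not_imp_left.2 fun e => ConjClasses.mk_eq_mk_iff_isConj.1
      (congrArg Subtype.val (h2 ⟨_, g, ConjClasses.mem_carrier_mk, h⟩ fun e' => e ?_)).symm, ?_⟩
    · exact isConj_one_right.1 (ConjClasses.mk_eq_mk_iff_isConj.1 (congrArg Subtype.val e')).symm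
    · rintro (rfl | h)
      · exact χ.2.apply_one_ne_zero
      · rwa [← χ.2.isClassFunction.eq_of_isConj h]
  refine ⟨x, χ.2, h3, fun e => ?_, h4⟩
  have h5 : (centralizer ({x} : Set G)).index + 1 = Nat.card G := by
    rw [← ncard_conjugatesOf, ← Set.ncard_insert_of_notMem (a := 1)
      (fun h => h3 (isConj_one_left.1 h)), ← Set.ncard_univ]
    exact congrArg _ (Set.eq_univ_of_forall fun g => (h4 g).1 (by simp [e]))
  have h6 := (centralizer ({x} : Set G)).index_dvd_card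
  rw [← h5, Nat.dvd_add_right dvd_rfl, Nat.dvd_one] at h6
  omega

namespace Gag

variable {χ ψ : G → ℂ} {x : G} (h : Gag χ x)
include h

theorem sum_eq [Fintype G] (hψ : IsClassFunction G ψ) : ∑ g, ψ g * conj (χ g) =
    ψ 1 * χ 1 + (centralizer ({x} : Set G)).index * (ψ x * conj (χ x)) := by
  classical
  have := (hψ.mul h.irr.isClassFunction.conj).sum_filter_isConj x
  simp only [Pi.mul_apply] at this
  rw [← this, ← h.irr.isCharacter.conj_apply_one,
    ← sum_insert (f := fun g => ψ g * conj (χ g)) (by simpa using h.ne)]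
  refine (sum_subset (subset_univ _) fun g _ hg => ?_).symm
  rw [not_not.1 (mt (h.iff g).1 (by simpa using hg)), map_zero, mul_zero]

theorem apply_one_eq : χ 1 = -((centralizer ({x} : Set G)).index * χ x) := by
  haveI := Fintype.ofFinite G
  have := h.sum_eq (irrOne G).2.isClassFunction
  rw [← card_mul_classInner, (irrOne G).2.inner_eq_zero_of_ne h.irr h.ne_one.symm] at this
  have := congrArg conj this
  simp only [irrOne_apply, mul_zero, map_zero, one_mul, map_add, map_mul, map_natCast,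
    h.irr.isCharacter.conj_apply_one, Complex.conj_conj] at this
  linear_combination -this

theorem apply_eq (hψ : IsIrrCharacter G ψ) (hne : ψ ≠ χ) : ψ x = ψ 1 := by
  haveI := Fintype.ofFinite G
  have := h.sum_eq hψ.isClassFunction
  rw [← card_mul_classInner, hψ.inner_eq_zero_of_ne h.irr hne,
    ← h.irr.isCharacter.conj_apply_one, h.apply_one_eq, map_neg, map_mul, map_natCast] at this
  refine mul_right_cancel₀ (mul_ne_zero (Nat.cast_ne_zero.2 (index_ne_zero_of_finite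
    (H := centralizer ({x} : Set G)))) ((map_ne_zero (starRingEnd ℂ)).2
    ((h.iff x).2 (Or.inr (IsConj.refl x))))) ?_
  linear_combination -this

theorem ne_zero_iff {g : G} : χ g ≠ 0 ↔ ∀ ψ, IsIrrCharacter G ψ → ψ ≠ χ → ψ g = ψ 1 := by
  classical
  refine ⟨fun hg ψ hψ hne => ?_, fun hg h0 => ?_⟩
  · rcases (h.iff g).1 hg with rfl | e
    · rfl
    · rw [← hψ.isClassFunction.eq_of_isConj e, h.apply_eq hψ hne]
  · have h1 := sum_irr_apply_one_mul_apply_of_ne_one (g := g) fun e =>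
      h.irr.apply_one_ne_zero (e ▸ h0)
    rw [← add_sum_erase _ _ (mem_univ ⟨χ, h.irr⟩), sum_congr rfl
      (g := fun ψ => ((charDegree ψ.1 * charDegree ψ.1 : ℕ) : ℂ)) fun ψ hψ => by
        rw [hg _ ψ.2 fun e => (mem_erase.1 hψ).1 (Subtype.ext e), ψ.2.apply_one_eq,
          Nat.cast_mul]] at h1
    simp only [h0, mul_zero, zero_add, ← Nat.cast_sum, Nat.cast_eq_zero, sum_eq_zero_iff] at h1
    simpa [charDegree_one, coe_irrOne] using h1 (irrOne G)
      (mem_erase.2 ⟨fun e => h.ne_one (congrArg Subtype.val e).symm, mem_univ _⟩)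

theorem exists_normal : ∃ N : Subgroup G, N.Normal ∧ ∀ g, g ∈ N ↔ χ g ≠ 0 := by
  have h1 : ∀ g, g ∈ (⨅ ψ : {ψ // IsIrrCharacter G ψ ∧ ψ ≠ χ}, charKer ψ.1) ↔ χ g ≠ 0 :=
    fun g => by
      rw [h.ne_zero_iff, mem_iInf]
      exact ⟨fun e ψ h1 h2 => h1.isCharacter.mem_charKer_iff.1 (e ⟨ψ, h1, h2⟩),
        fun e ψ => ψ.2.1.isCharacter.mem_charKer_iff.2 (e _ ψ.2.1 ψ.2.2)⟩
  exact ⟨_, ⟨fun n hn g => (h1 _).2 (by rw [h.irr.isClassFunction]; exact (h1 n).1 hn)⟩, h1⟩

theorem faithful {g : G} (hg : χ g = χ 1) : g = 1 := by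
  refine ((h.iff g).1 (hg ▸ h.irr.apply_one_ne_zero)).resolve_right fun e => ?_
  have h1 := h.apply_one_eq
  rw [h.irr.isClassFunction.eq_of_isConj e, hg] at h1
  have h2 : (((centralizer ({x} : Set G)).index + 1 : ℕ) : ℂ) * χ 1 = 0 := by
    push_cast; linear_combination h1
  exact mul_ne_zero (Nat.cast_ne_zero.2 (Nat.succ_ne_zero _)) h.irr.apply_one_ne_zero h2

theorem mem_of_normal (K : Subgroup G) [hK : K.Normal] (h1 : K ≠ ⊥) : x ∈ K := by
  by_contra e
  obtain ⟨ψ, h2, h3, h4⟩ := exists_irr_ker_ge_apply_ne K e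
  obtain rfl : ψ = χ := by_contra fun e => h4 (h.apply_eq h2 e)
  exact h1 (eq_bot_iff.2 fun k hk => h.faithful (h3 k hk))

variable {N : Subgroup G} (hN : ∀ g, g ∈ N ↔ χ g ≠ 0)
include hN

theorem mem_iff {g : G} : g ∈ N ↔ g = 1 ∨ IsConj x g := (hN g).trans (h.iff g)

theorem mem : x ∈ N := (h.mem_iff hN).2 (Or.inr (IsConj.refl x))

theorem isConj {a b : G} (ha : a ∈ N) (hb : b ∈ N) (ha1 : a ≠ 1) (hb1 : b ≠ 1) : IsConj a b :=
  (((h.mem_iff hN).1 ha).resolve_left ha1).symm.trans (((h.mem_iff hN).1 hb).resolve_left hb1)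

theorem le_of_normal (K : Subgroup G) [hK : K.Normal] (h1 : K ≠ ⊥) : N ≤ K := fun g hg => by
  rcases (h.mem_iff hN).1 hg with rfl | e
  · exact K.one_mem
  · obtain ⟨c, rfl⟩ := isConj_iff.1 e
    exact hK.conj_mem _ (h.mem_of_normal K h1) c

theorem isConj_mul {y n : G} (hy : y ∉ N) (hn : n ∈ N) : IsConj y (y * n) :=
  isConj_of_forall_irr fun ψ hψ => by
    by_cases e : ψ = χ
    · rw [e, not_not.1 (mt (hN _).2 hy), not_not.1 (mt (hN _).2 fun e =>
        hy (by simpa using N.mul_mem e (N.inv_mem hn)))]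
    · rw [hψ.isClassFunction.mul_comm,
        hψ.isCharacter.mem_charKer_iff.2 (h.ne_zero_iff.1 ((hN n).1 hn) ψ hψ e)]

theorem index_add_one {a : G} (ha : a ∈ N) (ha1 : a ≠ 1) :
    (centralizer ({a} : Set G)).index + 1 = Nat.card N := by
  rw [← index_centralizer_eq_of_isConj (h.isConj hN (h.mem hN) ha h.ne ha1), ← ncard_conjugatesOf,
    ← Set.ncard_insert_of_notMem (a := 1) (fun e => h.ne (isConj_one_left.1 e))]
  exact congrArg Set.ncard (Set.ext fun g => (h.mem_iff hN).symm)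

theorem isPGroup : ∃ p : ℕ, p.Prime ∧ IsPGroup p N := by
  obtain ⟨p, hp, h1⟩ := Nat.exists_prime_and_dvd (n := orderOf x) (mt orderOf_eq_one_iff.1 h.ne)
  haveI := Fact.mk hp
  obtain ⟨⟨y, hy⟩, h2⟩ := exists_prime_orderOf_dvd_card' (G := N) p
    (h1.trans (orderOf_dvd_natCard N (h.mem hN)))
  rw [← orderOf_coe] at h2
  refine ⟨p, hp, fun ⟨g, hg⟩ => ⟨1, Subtype.ext ?_⟩⟩
  by_cases e : g = 1
  · simp [e]
  · obtain ⟨c, rfl⟩ := isConj_iff.1 (h.isConj hN hy hg (fun e => by simp [e, hp.one_lt.ne] at h2) e)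
    simp [← h2, pow_orderOf_eq_one]

variable {p : ℕ} [hp : Fact p.Prime] (hNp : IsPGroup p N)
include hNp

theorem isPGroup_centralizer {a : G} (ha : a ∈ N) (ha1 : a ≠ 1) :
    IsPGroup p (centralizer ({a} : Set G)) := by
  refine (isPGroup_iff_primeFactors_card_subset hp.out.ne_zero).2 fun r hr => ?_
  have hr' := Nat.prime_of_mem_primeFactors hr
  obtain ⟨y, hy, h1⟩ := exists_mem_orderOf_eq_prime hr' (Nat.dvd_of_mem_primeFactors hr)
  have h2 : ∀ n ∈ N, n ≠ 1 → n ^ r = 1 → r ∈ p.primeFactors := fun n hn hn1 e => by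
    haveI := Fact.mk hr'
    obtain ⟨k, hk⟩ := hNp ⟨n, hn⟩
    exact Nat.mem_primeFactors.2 ⟨hr', hr'.dvd_of_dvd_pow (orderOf_eq_prime e hn1 ▸
      orderOf_dvd_of_pow_eq_one (congrArg Subtype.val hk)), hp.out.ne_zero⟩
  by_cases e : y ∈ N
  · exact h2 y e (fun e => by simp [e, hr'.one_lt.ne] at h1) (h1 ▸ pow_orderOf_eq_one y)
  obtain ⟨c, hc⟩ := isConj_iff.1 (h.isConj_mul hN e ha)
  refine h2 a ha ha1 ?_
  have h3 : (y * a) ^ r = 1 := by rw [← hc, conj_pow, ← h1, pow_orderOf_eq_one]; simp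
  rwa [Commute.mul_pow (mem_centralizer_singleton_iff.1 hy), ← h1, pow_orderOf_eq_one, one_mul,
    h1] at h3

theorem not_dvd_index {a : G} (ha : a ∈ N) (ha1 : a ≠ 1) :
    ¬ p ∣ (centralizer ({a} : Set G)).index := fun e => by
  obtain ⟨k, hk⟩ := IsPGroup.iff_card.1 hNp
  have h1 := h.index_add_one hN ha ha1
  have h2 : p ∣ Nat.card N := hk ▸ dvd_pow_self p fun e => ha1 (by
    rw [e, pow_zero, Subgroup.card_eq_one] at hk; simpa [hk] using ha)
  rw [← h1, Nat.dvd_add_right e, Nat.dvd_one] at h2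
  exact hp.out.one_lt.ne' h2

theorem isElementaryAbelian [hn : N.Normal] : IsElementaryAbelian p N :=
  IsMinNormal.isElementaryAbelian_of_isPGroup ⟨hn, fun e => h.ne (by simpa [e] using h.mem hN),
    fun K hK e => or_iff_not_imp_left.2 fun e' => le_antisymm e (h.le_of_normal hN K e')⟩ hNp

theorem index_inertia [N.Normal] {μ : N → ℂ} (hμ : IsIrrCharacter N μ) (h1 : μ ≠ fun _ => 1) :
    (inertia N μ).index = (centralizer ({x} : Set G)).index := by
  classical
  haveI := Fintype.ofFinite N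
  haveI := Fintype.ofFinite G
  haveI := (h.isElementaryAbelian hN hNp).1
  have h2 : classInner (fun n : N => χ n) μ = -χ x := by
    have h3 := congrArg conj (hμ.sum_eq_zero h1)
    rw [map_sum, ← add_sum_erase _ _ (mem_univ 1), hμ.apply_one_of_comm, map_one, map_zero] at h3
    rw [classInner_def, ← add_sum_erase _ _ (mem_univ 1), sum_congr rfl
      (g := fun n => χ x * conj (μ n)) fun n hn => by
        rw [h.irr.isClassFunction.eq_of_isConj (h.isConj hN (h.mem hN) n.2 h.ne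
          fun e => (mem_erase.1 hn).1 (Subtype.ext e))], ← mul_sum, hμ.apply_one_of_comm,
      eq_neg_of_add_eq_zero_right h3, inv_mul_eq_iff_eq_mul₀ (card_ne_zero_complex N),
      ← h.index_add_one hN (h.mem hN) h.ne, OneMemClass.coe_one, h.apply_one_eq, map_one]
    push_cast
    ring
  have h0 := (hN x).1 (h.mem hN)
  have h3 := clifford_degree N h.irr hμ (by rwa [h2, neg_ne_zero])
  rw [h2, hμ.apply_one_of_comm, h.apply_one_eq] at h3
  exact Nat.cast_injective (R := ℂ) (mul_left_cancel₀ h0 (by linear_combination h3))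

end Gag

end Cfsg.Lib.CharDeg
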