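import Cfsg.Agent.Lib.BG.Hall
import Cfsg.Agent.Lib.Core.PSolvable
import Cfsg.Agent.Lib.Small.Basic

/-! Groups whose maximal subgroups are `p`-nilpotent or of prime index. -/

set_option autoImplicit false

namespace Cfsg.Lib.CharDeg.MaxChain

open Subgroup Cfsg.Lib Cfsg.Lib.BG Cfsg.Lib.Transfer

universe u

/-- A normal chain `N ≤ A ≤ B ≤ C ≤ G` with factors of type `p', p, p', p`. -/
def Ch (p : ℕ) {G : Type*} [Group G] (N : Subgroup G) : Prop :=
  ∃ A B C : Subgroup G, A.Normal ∧ B.Normal ∧ C.Normal ∧ N ≤ A ∧ A ≤ B ∧ B ≤ C ∧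
    PiNat {p}ᶜ (N.relIndex A) ∧ PiNat {p} (A.relIndex B) ∧ PiNat {p}ᶜ (B.relIndex C) ∧
    PiNat {p} (C.relIndex ⊤)

variable {p : ℕ} {G : Type*} [Group G] [Finite G]

omit [Finite G] in
theorem pull {N : Subgroup G} [N.Normal] (h : Ch p (⊥ : Subgroup (G ⧸ N))) : Ch p N := by
  obtain ⟨A, B, C, hA, hB, hC, -, h1, h2, h3, h4, h5, h6⟩ := h
  have hs := QuotientGroup.mk'_surjective N
  have key : ∀ X Y : Subgroup (G ⧸ N), (X.comap (QuotientGroup.mk' N)).relIndex
      (Y.comap (QuotientGroup.mk' N)) = X.relIndex Y := fun X Y => by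
    rw [relIndex_comap, map_comap_eq_self_of_surjective hs]
  refine ⟨A.comap (QuotientGroup.mk' N), B.comap (QuotientGroup.mk' N),
    C.comap (QuotientGroup.mk' N), inferInstance, inferInstance, inferInstance, ?_, comap_mono h1,
    comap_mono h2, ?_, key A B ▸ h4, key B C ▸ h5, ?_⟩
  · conv_lhs => rw [← QuotientGroup.ker_mk' N]
    exact ker_le_comap _ _
  · have := key ⊥ A
    rw [MonoidHom.comap_bot, QuotientGroup.ker_mk'] at this
    exact this ▸ h3
  · have := key C ⊤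
    rw [comap_top] at this
    exact this ▸ h6

omit [Finite G] in
theorem pi_inf {π : Set ℕ} {A B C D : Subgroup G} [A.Normal] [C.Normal] (h1 : A ≤ B) (h2 : C ≤ D)
    (h3 : PiNat π (A.relIndex B)) (h4 : PiNat π (C.relIndex D)) :
    PiNat π ((A ⊓ C).relIndex (B ⊓ D)) := by
  rw [← relIndex_inf_mul_relIndex]
  exact (h3.of_dvd (relIndex_dvd_of_norm (inf_le_right.trans inf_le_left)
    le_normalizer_of_normal)).mul (h4.of_dvd (relIndex_dvd_of_norm inf_le_right
      le_normalizer_of_normal))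

omit [Finite G] in
theorem Ch.inf {N M : Subgroup G} [N.Normal] [M.Normal] (h : Ch p N) (h' : Ch p M) :
    Ch p (N ⊓ M) := by
  obtain ⟨A, B, C, hA, hB, hC, h0, h1, h2, h3, h4, h5, h6⟩ := h
  obtain ⟨A', B', C', hA', hB', hC', h0', h1', h2', h3', h4', h5', h6'⟩ := h'
  refine ⟨A ⊓ A', B ⊓ B', C ⊓ C', inferInstance, inferInstance, inferInstance,
    inf_le_inf h0 h0', inf_le_inf h1 h1', inf_le_inf h2 h2', pi_inf h0 h0' h3 h3',
    pi_inf h1 h1' h4 h4', pi_inf h2 h2' h5 h5', ?_⟩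
  simpa using pi_inf le_top le_top h6 h6'

omit [Finite G] in
theorem Ch.of_p' {N : Subgroup G} (h : Ch p N) (hN : PiGrp {p}ᶜ N) : Ch p (⊥ : Subgroup G) := by
  obtain ⟨A, B, C, hA, hB, hC, h0, h1, h2, h3, h4, h5, h6⟩ := h
  refine ⟨A, B, C, hA, hB, hC, bot_le, h1, h2, ?_, h4, h5, h6⟩
  rw [relIndex_bot_left, ← BG.card_mul_relIndex h0]
  exact PiNat.mul hN h3

theorem Ch.of_frattini [Fact p.Prime] {N : Subgroup G} [N.Normal] (h : Ch p N) (hN : IsPGroup p N)
    (hF : N ≤ frattini G) : Ch p (⊥ : Subgroup G) := by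
  obtain ⟨A, B, C, hA, hB, hC, h0, h1, h2, h3, h4, h5, h6⟩ := h
  have hN' : PiGrp {p} N := PiGrp.p_iff.2 hN
  obtain ⟨L, h7, h8⟩ := (Hall.mk' h0 hN' h3).exists_compl le_normalizer_of_normal
  have hL : L.Normal := by
    refine normalizer_eq_top_iff.1 (frattini_nongenerating (eq_top_iff.2 fun g _ => ?_))
    obtain ⟨n, hn, e⟩ := Coprime.exists_map_conj_eq_of_sup_eq (B := g ⋆ L) h7.norm (by
      rw [h7.sup, ← conj_eq_self_of_normal g A, ← h7.sup, conj_sup, conj_eq_self_of_normal g N])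
      h7.inf (hN'.coprime (h8.pi.conj g)).symm (Or.inr (pgroup_sol hN))
    have h9 : n * g ∈ 𝐍(L) := norm_of_conj_eq ((conj_conj n g L).symm.trans e)
    have := mul_mem (mem_sup_right (inv_mem (hF hn)) : _ ∈ 𝐍(L) ⊔ frattini G) (mem_sup_left h9)
    rwa [inv_mul_cancel_left] at this
  refine ⟨L, B, C, hL, hB, hC, bot_le, h7.right_le.trans h1, h2, ?_, ?_, h5, h6⟩
  · rw [relIndex_bot_left]; exact h8.pi
  · rw [← relIndex_mul_relIndex L A B h7.right_le h1, h7.relIndex_right]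
    exact PiNat.mul hN' h4

theorem main [hp : Fact p.Prime] (G : Type u) [Group G] [Finite G] (hs : IsPSolvable p G)
    (h : ∀ M : Subgroup G, IsCoatom M → HasNormalPComplement p M ∨ M.index.Prime) :
    Ch p (⊥ : Subgroup G) := by
  induction hn : Nat.card G using Nat.strong_induction_on generalizing G with | _ n ih
  have ih' : ∀ N : Subgroup G, N.Normal → N ≠ ⊥ → Ch p N := fun N _ h0 => by
    refine pull (ih _ (hn ▸ Core.card_quotient_lt h0) (G ⧸ N) (Core.isPSolvable_quotient hs N)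
      (fun M hM => ?_) rfl)
    have hf := QuotientGroup.mk'_surjective N
    refine (h _ (isCoatom_comap_of_surjective hf hM)).imp (fun h1 => ?_) fun h1 => ?_
    · exact hasNormalPComplement_of_surjective h1 _
        (MonoidHom.subgroupComap_surjective_of_surjective _ M hf)
    · rwa [index_comap_of_surjective _ hf] at h1
  rcases subsingleton_or_nontrivial G with h0 | h0
  · refine ⟨⊥, ⊥, ⊥, inferInstance, inferInstance, inferInstance, le_rfl, le_rfl, le_rfl, ?_, ?_, ?_,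
      ?_⟩ <;> simp [PiNat.one]
  obtain ⟨N, hN⟩ := Core.exists_isMinNormal (G := G)
  haveI := hN.normal
  have hC := ih' N hN.normal hN.ne_bot
  rcases hN.isPGroup_or_coprime (Core.isPSolvable_subgroup hs N) with h1 | h1
  swap
  · exact hC.of_p' (PiGrp.p'_iff_coprime.2 h1)
  by_cases hF : N ≤ frattini G
  · exact hC.of_frattini h1 hF
  obtain ⟨M, hM, hNM⟩ : ∃ M : Subgroup G, IsCoatom M ∧ ¬ N ≤ M := by
    by_contra hc
    push Not at hc
    exact hF (le_iInf₂ hc)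
  haveI := hN.isMulCommutative (pgroup_sol h1)
  have hsup := Core.sup_eq_top_of_isCoatom hM hNM
  have hinf := hN.inf_eq_bot_of_sup_eq_top hM.1 hsup
  have hN' : PiGrp {p} N := PiGrp.p_iff.2 h1
  rcases h M hM with h2 | h2
  · have h3 := hasNormalPComplement_iff.1 h2
    have h4 : (N ⊔ 𝐎({p}ᶜ, M)).Normal := Nml.top_iff.1 ⟨le_top, hsup ▸ sup_le
      (le_norm_of_le le_sup_left) (norm_sup le_normalizer_of_normal (pcore_nml _ M).norm)⟩
    refine ⟨⊥, N, N ⊔ 𝐎({p}ᶜ, M), inferInstance, hN.normal, h4, le_rfl, bot_le, le_sup_left, ?_, ?_,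
      ?_, ?_⟩
    · simp [PiNat.one]
    · rw [relIndex_bot_left]; exact hN'
    · rw [relIndex_sup_left]; exact h3.pi.relIndex N
    · have h5 : N ⊔ 𝐎({p}ᶜ, M) ⊔ M = ⊤ := eq_top_iff.2 (hsup.ge.trans
        (sup_le_sup_right le_sup_left M))
      rw [← h5, relIndex_sup_left]
      exact PiNat.of_dvd (by simpa using h3.idx) (relIndex_dvd_left le_sup_right M)
  rw [Core.index_eq_card_of_inf_eq_bot hinf hsup] at h2
  have hNp : Nat.card N = p := hN' _ h2 dvd_rfl
  by_cases h3 : M ⊓ 𝐂(N) = ⊥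
  · refine ⟨⊥, N, ⊤, inferInstance, hN.normal, inferInstance, le_rfl, bot_le, le_top, ?_, ?_, ?_, ?_⟩
    · simp [PiNat.one]
    · rw [relIndex_bot_left]; exact hN'
    · have h4 := Small.relIndex_centralizer_dvd_card_mulAut N
      haveI := cyclic_of_prime h2
      rw [IsCyclic.card_mulAut, hNp, Nat.totient_prime hp.out] at h4
      have h5 := (relIndex_dvd_of_norm (le_normalizer_of_normal : M ≤ 𝐍(N))
        (norm_cent le_rfl)).trans h4
      rw [← inf_relIndex_left, h3, relIndex_bot_left] at h5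
      rw [← hsup, relIndex_sup_left]
      refine PiNat.of_dvd (PiNat.p'_iff.2 fun h6 => ?_) ((BG.relIndex_dvd_card N M).trans h5)
      have := hp.out.two_le
      exact absurd (Nat.le_of_dvd (by omega) h6) (by omega)
    · simp [PiNat.one]
  have h4 : (M ⊓ 𝐂(N)).Normal := Nml.top_iff.1 ⟨le_top, hsup ▸ sup_le
    (norm_of_cent (cent_symm inf_le_right)) (Nml.cent le_normalizer_of_normal).norm⟩
  have h5 := hC.inf (ih' _ h4 h3)
  rwa [← inf_assoc, hinf, bot_inf_eq] at h5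

theorem main' [hp : Fact p.Prime] (hs : IsPSolvable p G)
    (h : ∀ M : Subgroup G, IsCoatom M → (∃ K : Subgroup M, K.Normal ∧ ¬ p ∣ Nat.card K ∧
      ∃ k : ℕ, K.index = p ^ k) ∨ M.index.Prime) :
    ∃ A B C : Subgroup G, A.Normal ∧ B.Normal ∧ C.Normal ∧ A ≤ B ∧ B ≤ C ∧ ¬ p ∣ Nat.card A ∧
      (∃ k : ℕ, A.relIndex B = p ^ k) ∧ ¬ p ∣ B.relIndex C ∧ ∃ k : ℕ, C.index = p ^ k := by
  obtain ⟨A, B, C, hA, hB, hC, -, h1, h2, h3, h4, h5, h6⟩ := main G hs fun M hM =>
    (h M hM).imp_left fun ⟨K, _, h1, k, h2⟩ => hasNormalPComplement_of_coprime K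
      ((Nat.Prime.coprime_iff_not_dvd hp.out).2 h1).symm (IsPGroup.of_card h2)
  rw [relIndex_bot_left] at h3
  rw [relIndex_top_right] at h6
  exact ⟨A, B, C, hA, hB, hC, h1, h2, PiNat.p'_iff.1 h3,
    (PiNat.p_iff FiniteIndex.index_ne_zero).1 h4, PiNat.p'_iff.1 h5,
    (PiNat.p_iff FiniteIndex.index_ne_zero).1 h6⟩

end Cfsg.Lib.CharDeg.MaxChain
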