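import Cfsg.Agent.Lib.PSL2.SL
import Cfsg.Agent.Lib.Linear.Simple
import Cfsg.Agent.Lib.Transfer.SylowIn
import Cfsg.Agent.Lib.PGroup.Basic
import Cfsg.Agent.Lib.Inv.Basic

/-!
# Overgroups of `SL₂(F)` on its natural module

A finite group `G` acts faithfully on `F × F`, and `ι : SL(2, F) →* G` acts naturally.  If a Sylow
`p`-subgroup `S` of `G` normalises the image `L` of `ι`, the root group `U` is strongly closed in `S`
(unless `|F| = 4`), and then `L` is normal in `G`.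
-/

set_option autoImplicit false

namespace Cfsg.Lib.CharDeg.NatSL

open Subgroup Matrix Cfsg.Lib.PSL2
open scoped MatrixGroups Cfsg.Lib.Transfer

variable {F : Type*} [Field F]

/-- Two nontrivial involutory automorphisms of a finite field coincide. -/
theorem comp_eq_id [Fintype F] (p : ℕ) [Fact p.Prime] [CharP F p] {σ τ : F →+* F}
    (hσ : ∃ x, σ x ≠ x) (hτ : ∃ x, τ x ≠ x)
    (h : ((∀ x, σ (σ x) = x) ∧ ∀ x, τ (τ x) = x) ∨ Fintype.card F = 4) (x : F) : σ (τ x) = x := by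
  classical
  letI := ZMod.algebra F p
  have mk : ∀ ρ : F →+* F, ∃ e : Gal(F/ZMod p), ∀ x, e x = ρ x := fun ρ =>
    ⟨AlgEquiv.ofRingEquiv (f := RingEquiv.ofBijective ρ
      (Finite.injective_iff_bijective.1 ρ.injective)) fun x =>
      RingHom.congr_fun (RingHom.ext_zmod (ρ.comp (algebraMap (ZMod p) F)) (algebraMap (ZMod p) F)) x,
      fun _ => rfl⟩
  obtain ⟨e, he⟩ := mk σ
  obtain ⟨f, hf⟩ := mk τ
  have he1 : e ≠ 1 := fun h1 => hσ.elim fun y hy => hy (by rw [← he, h1]; rfl)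
  have hf1 : f ≠ 1 := fun h1 => hτ.elim fun y hy => hy (by rw [← hf, h1]; rfl)
  have h2 : e ^ 2 = 1 ∧ f ^ 2 = 1 := by
    rcases h with ⟨h1, h2⟩ | h4
    · exact ⟨AlgEquiv.ext fun y => by rw [pow_two, AlgEquiv.mul_apply, he, he, h1]; rfl,
        AlgEquiv.ext fun y => by rw [pow_two, AlgEquiv.mul_apply, hf, hf, h2]; rfl⟩
    · have hc : Nat.card Gal(F/ZMod p) = 2 := by
        rw [IsGalois.card_aut_eq_finrank]
        have h5 := Module.card_eq_pow_finrank (K := ZMod p) (V := F)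
        rw [ZMod.card, h4] at h5
        have hp : p.Prime := Fact.out
        have h6 := (Nat.Prime.pow_eq_iff (p := 2) Nat.prime_two (a := p) (k := 1)).2
        have h7 : p = 2 := (Nat.prime_dvd_prime_iff_eq hp Nat.prime_two).1 (hp.dvd_of_dvd_pow
          (n := 2) (by
            rw [show 2 ^ 2 = 4 from rfl, h5]
            exact dvd_pow_self p fun e => by rw [e, pow_zero] at h5; omega))
        subst h7
        exact (Nat.pow_right_injective le_rfl (show 2 ^ 2 = _ from h5)).symm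
      exact ⟨hc ▸ pow_card_eq_one', hc ▸ pow_card_eq_one'⟩
  have hef : e = f := by
    by_contra hne
    have h3 := IsCyclic.card_pow_eq_one_le (α := Gal(F/ZMod p)) two_pos
    have h4 : ({1, e, f} : Finset Gal(F/ZMod p)) ⊆ Finset.univ.filter fun a => a ^ 2 = 1 := by
      intro a ha
      simp only [Finset.mem_insert, Finset.mem_singleton] at ha
      rcases ha with rfl | rfl | rfl <;> simp [h2.1, h2.2]
    have h5 := Finset.card_le_card h4
    rw [Finset.card_eq_three.2 ⟨1, e, f, he1.symm, hf1.symm, hne, rfl⟩] at h5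
    omega
  rw [← hf, ← he, ← hef, ← AlgEquiv.mul_apply, ← pow_two, h2.1]
  rfl

/-- An explicit element of `SL(2, F)`. -/
def mk2 (a b c d : F) (h : a * d - b * c = 1) : SL(2, F) := ⟨!![a, b; c, d], by simpa [det_fin_two]⟩

@[simp] theorem coe_mk2 (a b c d : F) (h : a * d - b * c = 1) :
    (mk2 a b c d h : Matrix (Fin 2) (Fin 2) F) = !![a, b; c, d] := rfl

variable {G : Type*} [Group G] [DistribMulAction G (F × F)]

/-- The root subgroup. -/
def U (ι : SL(2, F) →* G) : Subgroup G where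
  carrier := {g | ∃ a, g = ι (upper a)}
  one_mem' := ⟨0, by rw [upper_zero, map_one]⟩
  mul_mem' := by
    rintro _ _ ⟨a, rfl⟩ ⟨b, rfl⟩
    exact ⟨a + b, by rw [← map_mul, upper_mul]⟩
  inv_mem' := by
    rintro _ ⟨a, rfl⟩
    exact ⟨-a, inv_eq_of_mul_eq_one_right (by
      rw [← map_mul, upper_mul, add_neg_cancel, upper_zero, map_one])⟩

theorem u_mem (ι : SL(2, F) →* G) (a : F) : ι (upper a) ∈ U ι := ⟨a, rfl⟩

/-- `s` acts semilinearly on the line `F × 0` and on the quotient. -/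
def T (s : G) (τ : F →+* F) (c d : F) : Prop :=
  (∀ x, s • ((x, 0) : F × F) = (c * τ x, 0)) ∧ ∀ v : F × F, (s • v).2 = d * τ v.2

theorem T.mul {s s' : G} {τ τ' : F →+* F} {c d c' d' : F} (h : T s τ c d) (h' : T s' τ' c' d') :
    T (s * s') (τ.comp τ') (c * τ c') (d * τ d') :=
  ⟨fun x => by rw [mul_smul, h'.1, h.1, map_mul, mul_assoc]; rfl,
    fun v => by rw [mul_smul, h.2, h'.2, map_mul, mul_assoc]; rfl⟩

theorem T.id_of_fix {s : G} {τ : F →+* F} {c d : F} (h : T s τ c d)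
    (hs : ∀ x, s • ((x, 0) : F × F) = (x, 0)) (x : F) : τ x = x := by
  have h1 := congrArg Prod.fst ((h.1 1).symm.trans (hs 1))
  have h2 := congrArg Prod.fst ((h.1 x).symm.trans (hs x))
  simp only [map_one, mul_one] at h1 h2
  rwa [h1, one_mul] at h2

/-- The setting. -/
structure Ctx (p : ℕ) (ι : SL(2, F) →* G) (S : Subgroup G) : Prop where
  act : ∀ (A : SL(2, F)) (v : F × F),
    ι A • v = (A 0 0 * v.1 + A 0 1 * v.2, A 1 0 * v.1 + A 1 1 * v.2)
  faith : ∀ g : G, (∀ v : F × F, g • v = v) → g = 1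
  pS : IsPGroup p S
  idx : ¬ p ∣ S.index
  uS : U ι ≤ S
  nS : S ≤ normalizer (ι.range : Set G)

namespace Ctx

variable {p : ℕ} {ι : SL(2, F) →* G} {S : Subgroup G} (h : Ctx p ι S)
include h

theorem ext {g g' : G} (e : ∀ v : F × F, g • v = g' • v) : g = g' :=
  (inv_mul_eq_one.1 (h.faith _ fun v => by rw [mul_smul, e, inv_smul_smul])).symm

theorem u_smul (a : F) (v : F × F) : ι (upper a) • v = (v.1 + a * v.2, v.2) := by
  rw [h.act]
  change (1 * v.1 + a * v.2, 0 * v.1 + 1 * v.2) = _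
  simp

theorem fix_iff {a : F} (ha : a ≠ 0) (v : F × F) : ι (upper a) • v = v ↔ v.2 = 0 := by
  rw [h.u_smul, Prod.ext_iff]
  simp [ha]

theorem u_inj {a b : F} (e : ι (upper a) = ι (upper b)) : a = b := by
  have := (h.u_smul a (0, 1)).symm.trans (e ▸ h.u_smul b (0, 1))
  simpa using this

theorem u_ne_one {a : F} (ha : a ≠ 0) : ι (upper a) ≠ 1 := fun e =>
  ha (h.u_inj (by rw [e, upper_zero, map_one]))

theorem exists_T {s : G} (hs : s ∈ normalizer (U ι : Set G)) : ∃ (τ : F →+* F) (c d : F),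
    c ≠ 0 ∧ T s τ c d ∧ ∀ a, s * ι (upper a) * s⁻¹ = ι (upper (c / d * τ a)) := by
  have hσ : ∀ a, ∃ b, s * ι (upper a) * s⁻¹ = ι (upper b) := fun a =>
    (mem_normalizer_iff.1 hs _).1 (u_mem ι a)
  choose σ hσ using hσ
  have hW : ∀ x, (s • ((x, 0) : F × F)).2 = 0 := fun x => by
    obtain ⟨b, hb⟩ : s⁻¹ * ι (upper 1) * s ∈ U ι :=
      (mem_normalizer_iff.1 hs _).2 (by simpa [mul_assoc] using u_mem ι 1)
    refine (h.fix_iff one_ne_zero _).1 ?_
    have e : ι (upper 1) * s = s * ι (upper b) := by rw [← hb]; group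
    rw [← mul_smul, e, mul_smul, h.u_smul]
    simp
  let α : F → F := fun x => (s • ((x, 0) : F × F)).1
  let δ : F → F := fun y => (s • ((0, y) : F × F)).2
  have hα : ∀ x, s • ((x, 0) : F × F) = (α x, 0) := fun x => Prod.ext rfl (hW x)
  have hδ : ∀ v : F × F, (s • v).2 = δ v.2 := fun v => by
    have : v = (v.1, 0) + (0, v.2) := by simp
    rw [this, smul_add, Prod.snd_add, hW, zero_add]
    simp [δ]
  have rel : ∀ a y, α (a * y) = σ a * δ y := fun a y => by
    have e : s * ι (upper a) = ι (upper (σ a)) * s := by rw [← hσ, inv_mul_cancel_right]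
    have h1 := congrArg (fun g : G => (g • ((0, y) : F × F)).1) e
    simp only [mul_smul, h.u_smul, zero_add] at h1
    have h2 : ((a * y, y) : F × F) = (a * y, 0) + (0, y) := by simp
    rw [h2, smul_add, Prod.fst_add, add_comm] at h1
    exact add_left_cancel h1
  have h1 : α 1 ≠ 0 := fun e => by
    have := (smul_eq_zero_iff_eq s).1 ((hα 1).trans (by rw [e]; rfl))
    simp at this
  have h2 : α 1 = σ 1 * δ 1 := by rw [← rel, mul_one]
  have h3 : σ 1 ≠ 0 := left_ne_zero_of_mul (h2 ▸ h1)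
  have h4 : δ 1 ≠ 0 := right_ne_zero_of_mul (h2 ▸ h1)
  have h5 : ∀ a, σ a = α a / δ 1 := fun a => by rw [eq_div_iff h4, ← rel, mul_one]
  have h6 : ∀ y, δ y = α y / σ 1 := fun y => by rw [eq_div_iff h3, mul_comm, ← rel, one_mul]
  let τ : F →+* F :=
    { toFun := fun x => α x / α 1
      map_one' := div_self h1
      map_mul' := fun a y => by rw [rel, h5 a, h6 y, h2]; field_simp
      map_zero' := by
        have : α 0 = 0 := congrArg Prod.fst (smul_zero s : s • (0 : F × F) = 0)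
        rw [this, zero_div]
      map_add' := fun a b => by
        have : α (a + b) = α a + α b := by
          have e : ((a + b, 0) : F × F) = (a, 0) + (b, 0) := by simp
          exact (congrArg (fun v => (s • v).1) e).trans (congrArg Prod.fst (smul_add s _ _))
        rw [this, add_div] }
  refine ⟨τ, α 1, δ 1, h1, ⟨fun x => ?_, fun v => ?_⟩, fun a => ?_⟩
  · rw [hα]
    change _ = (α 1 * (α x / α 1), (0 : F))
    rw [mul_div_cancel₀ _ h1]
  · rw [hδ, h6]
    change _ = δ 1 * (α v.2 / α 1)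
    rw [h2]; field_simp
  · rw [hσ, h5]
    change _ = ι (upper (α 1 / δ 1 * (α a / α 1)))
    congr 2
    field_simp

theorem isConj_u [Finite F] (h2 : ringChar F = 2) {a b : F} (ha : a ≠ 0) (hb : b ≠ 0) :
    ∃ A : SL(2, F), ι A * ι (upper a) * (ι A)⁻¹ = ι (upper b) := by
  obtain ⟨t, ht⟩ := FiniteField.isSquare_of_char_two h2 (b / a)
  have ht0 : t ≠ 0 := fun e => div_ne_zero hb ha (by rw [ht, e, mul_zero])
  refine ⟨mk2 t 0 0 t⁻¹ (by simp [ht0]), ?_⟩
  rw [mul_inv_eq_iff_eq_mul, ← map_mul, ← map_mul]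
  congr 1
  have hb' : b = t * t * a := by rw [← ht]; field_simp
  apply sl_ext <;> simp [hb', Matrix.mul_apply, Fin.sum_univ_two]
  field_simp

theorem exists_smul_eq {v : F × F} (hv : v ≠ 0) : ∃ A : SL(2, F), ι A • ((1, 0) : F × F) = v := by
  by_cases h1 : v.1 = 0
  · have h2 : v.2 ≠ 0 := fun e => hv (Prod.ext h1 e)
    refine ⟨mk2 0 (-v.2⁻¹) v.2 0 (by simp [h2]), ?_⟩
    rw [h.act]
    exact Prod.ext (by simp [h1]) (by simp)
  · refine ⟨mk2 v.1 0 v.2 v.1⁻¹ (by simp [h1]), ?_⟩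
    rw [h.act]
    exact Prod.ext (by simp) (by simp)

/-- A normal subgroup with a nonzero fixed vector is trivial. -/
theorem eq_bot_of_fix {N : Subgroup G} (hN : N.Normal) {v : F × F} (hv : v ≠ 0)
    (hf : ∀ n ∈ N, n • v = v) : N = ⊥ := eq_bot_iff.2 fun n hn => h.faith n fun w => by
  by_cases hw : w = 0
  · rw [hw, smul_zero]
  obtain ⟨A, hA⟩ := h.exists_smul_eq hv
  obtain ⟨B, rfl⟩ := h.exists_smul_eq hw
  have := hf _ (hN.conj_mem' n hn (ι B * (ι A)⁻¹))
  rw [← hA, mul_smul, mul_smul, mul_smul, inv_smul_smul, inv_smul_eq_iff, mul_smul,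
    inv_smul_smul] at this
  exact this

variable [hp : Fact p.Prime] [CharP F p]

theorem u_pow (a : F) : ι (upper a) ^ p = 1 := by
  rw [← map_pow, upper_pow, CharP.cast_eq_zero, zero_mul, upper_zero, map_one]

theorem isPGroup_U : IsPGroup p (U ι) := h.pS.to_le h.uS

theorem mem_U_of_T {s : G} (hs : s ∈ S) {τ : F →+* F} {c d : F} (hT : T s τ c d)
    (hτ : ∀ x, τ x = x) : s ∈ U ι := by
  obtain ⟨k, hk⟩ := h.pS ⟨s, hs⟩
  have hk' : s ^ p ^ k = 1 := congrArg Subtype.val hk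
  have one : ∀ e : F, e ^ p ^ k = 1 → e = 1 := fun e he => by
    have := sub_pow_char_pow e 1 (p := p) (n := k)
    rw [he, one_pow, sub_self] at this
    exact sub_eq_zero.1 (pow_eq_zero_iff (pow_ne_zero _ hp.out.ne_zero) |>.1 this)
  have hc : c = 1 := one c (by
    have : ∀ n : ℕ, s ^ n • ((1, 0) : F × F) = (c ^ n, 0) := fun n => by
      induction n with
      | zero => simp
      | succ n ih => rw [pow_succ', mul_smul, ih, hT.1, hτ, pow_succ']
    have := this (p ^ k)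
    rw [hk', one_smul] at this
    exact (congrArg Prod.fst this).symm)
  have hd : d = 1 := one d (by
    have : ∀ n : ℕ, (s ^ n • ((0, 1) : F × F)).2 = d ^ n := fun n => by
      induction n with
      | zero => simp
      | succ n ih => rw [pow_succ', mul_smul, hT.2, hτ, ih, pow_succ']
    have := this (p ^ k)
    rw [hk', one_smul] at this
    exact this.symm)
  have h1 : ∀ x, s • ((x, 0) : F × F) = (x, 0) := fun x => by rw [hT.1, hτ, hc, one_mul]
  have h2 : ∀ v : F × F, (s • v).2 = v.2 := fun v => by rw [hT.2, hτ, hd, one_mul]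
  have h3 : ∀ v : F × F, s • v = (v.1 + (s • ((0, v.2) : F × F)).1, v.2) := fun v => by
    refine Prod.ext ?_ (h2 v)
    have : v = (v.1, 0) + (0, v.2) := by simp
    conv_lhs => rw [this, smul_add, h1]
    rfl
  obtain ⟨A, hA⟩ : s * ι (mk2 1 0 1 1 (by simp)) * s⁻¹ ∈ ι.range :=
    (mem_normalizer_iff.1 (h.nS hs) _).1 ⟨_, rfl⟩
  have h4 : ∀ y, (s • ((0, y) : F × F)).1 = (1 - A 1 1) * y := fun y => by
    have e := congrArg (fun g : G => (g • s • ((-(s • ((0, y) : F × F)).1, y) : F × F)).2) hA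
    simp only [mul_smul, inv_smul_smul, h2] at e
    rw [h3, h.act, h.act] at e
    simp at e
    linear_combination e
  refine ⟨1 - A 1 1, h.ext fun v => ?_⟩
  rw [h3, h4, h.u_smul]

variable [Fintype F] [Finite G]

theorem exists_fix {r : ℕ} [Fact r.Prime] {N : Subgroup G} (hN : IsPGroup r N)
    (hr : r ∣ Fintype.card F) : ∃ v : F × F, v ≠ 0 ∧ ∀ n ∈ N, n • v = v := by
  obtain ⟨v, hv, h0⟩ := hN.exists_fixed_point_of_prime_dvd_card_of_fixed_point (F × F)
    (by rw [Nat.card_prod, Nat.card_eq_fintype_card]; exact hr.mul_right _) (a := 0)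
    (fun n => smul_zero n)
  exact ⟨v, h0.symm, fun n hn => hv ⟨n, hn⟩⟩

omit [Finite G] in
theorem p_dvd : p ∣ Fintype.card F := by
  obtain ⟨n, -, hn⟩ := FiniteField.card F p
  rw [hn]
  exact dvd_pow_self p n.ne_zero

theorem le_norm_U : S ≤ normalizer (U ι : Set G) := fun s hs => by
  refine mem_normalizer_fintype ?_
  rintro _ ⟨a, rfl⟩
  obtain ⟨A, hA⟩ : s * ι (upper a) * s⁻¹ ∈ ι.range :=
    (mem_normalizer_iff.1 (h.nS hs) _).1 ⟨_, rfl⟩
  obtain ⟨v, hv, hf⟩ := h.exists_fix h.pS h.p_dvd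
  have h2 : v.2 = 0 := (h.fix_iff one_ne_zero v).1 (hf _ (h.uS (u_mem ι 1)))
  have h1 : v.1 ≠ 0 := fun e => hv (Prod.ext e h2)
  have h3 := hf _ (mul_mem (mul_mem hs (h.uS (u_mem ι a))) (inv_mem hs))
  rw [← hA, h.act, h2, Prod.ext_iff, h2] at h3
  have h4 : A 0 0 = 1 := by simpa [h1] using h3.1
  have h5 : A 1 0 = 0 := by simpa [h1] using h3.2
  have h6 := sl_det A
  rw [h4, h5, one_mul, mul_zero, sub_zero] at h6
  exact ⟨A 0 1, by rw [← hA]; congr 1; exact sl_ext h4 rfl h5 h6⟩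

theorem exists_T' {s : G} (hs : s ∈ S) (hU : s ∉ U ι) : ∃ (τ : F →+* F) (c d : F),
    c ≠ 0 ∧ T s τ c d ∧ (∀ a, s * ι (upper a) * s⁻¹ = ι (upper (c / d * τ a))) ∧ ∃ x, τ x ≠ x := by
  obtain ⟨τ, c, d, hc, hT, e⟩ := h.exists_T (h.le_norm_U hs)
  exact ⟨τ, c, d, hc, hT, e, not_forall.1 fun hτ => hU (h.mem_U_of_T hs hT hτ)⟩

theorem mul_mem_U {s s' : G} (hs : s ∈ S) (hs' : s' ∈ S) (hU : s ∉ U ι) (hU' : s' ∉ U ι)
    (h2 : (s * s = 1 ∧ s' * s' = 1) ∨ Fintype.card F = 4) : s * s' ∈ U ι := by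
  obtain ⟨τ, c, d, -, hT, -, hτ⟩ := h.exists_T' hs hU
  obtain ⟨τ', c', d', -, hT', -, hτ'⟩ := h.exists_T' hs' hU'
  refine h.mem_U_of_T (mul_mem hs hs') (hT.mul hT') (comp_eq_id p hτ hτ' (h2.imp_left fun e => ?_))
  exact ⟨(hT.mul hT).id_of_fix fun x => by rw [e.1, one_smul],
    (hT'.mul hT').id_of_fix fun x => by rw [e.2, one_smul]⟩

/-- A conjugate of a root element in `S` outside `U` forces characteristic two. -/
theorem two_eq_zero {g : G} {a : F} (hs : g * ι (upper a) * g⁻¹ ∈ S)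
    (hU : g * ι (upper a) * g⁻¹ ∉ U ι) : (2 : F) = 0 := by
  obtain ⟨τ, c, d, hc, hT, -, b, hb⟩ := h.exists_T' hs hU
  have q : ∀ x, c * τ c * τ (τ x) - 2 * c * τ x + x = 0 := fun x => by
    have h1 : ∀ v : F × F, (g * ι (upper a) * g⁻¹) • ((g * ι (upper a) * g⁻¹) • v - v) =
        (g * ι (upper a) * g⁻¹) • v - v := fun v => by
      obtain ⟨w, rfl⟩ : ∃ w, v = g • w := ⟨g⁻¹ • v, (smul_inv_smul g v).symm⟩
      simp only [mul_smul, inv_smul_smul, ← smul_sub, h.u_smul]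
      congr 1
      ext <;> simp
    have h2 := h1 (x, 0)
    rw [hT.1, show ((c * τ x, 0) : F × F) - (x, 0) = (c * τ x - x, 0) by simp, hT.1] at h2
    have h3 := congrArg Prod.fst h2
    simp only [map_sub, map_mul] at h3
    linear_combination h3
  have q1 : ∀ a x, -2 * c * (τ a - τ (τ a)) * τ x + (a - τ (τ a)) * x = 0 := fun a x => by
    have h1 := q (a * x)
    simp only [map_mul] at h1
    linear_combination h1 - τ (τ a) * q x
  have q2 : τ (τ b) = b := by
    have h1 := q1 b b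
    have h2 := q1 b 1
    rw [map_one] at h2
    have h3 : (b - τ (τ b)) * (b - τ b) = 0 := by linear_combination h1 - τ b * h2
    exact (sub_eq_zero.1 ((mul_eq_zero.1 h3).resolve_right (sub_ne_zero.2 hb.symm))).symm
  have h4 := q1 b 1
  rw [q2, map_one] at h4
  have h5 : 2 * (c * (τ b - b)) = 0 := by linear_combination -h4
  exact (mul_eq_zero.1 h5).resolve_right (mul_ne_zero hc (sub_ne_zero.2 hb))

/-- `U` is strongly closed in `S` unless `|F| = 4`. -/
theorem sc (h4 : Fintype.card F ≠ 4) (g : G) (a : F) (hs : g * ι (upper a) * g⁻¹ ∈ S) :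
    g * ι (upper a) * g⁻¹ ∈ U ι := by
  classical
  by_contra hU
  have h2 := h.two_eq_zero hs hU
  have hp2 : p = 2 := (Nat.prime_dvd_prime_iff_eq hp.out Nat.prime_two).1
    ((CharP.cast_eq_zero_iff F p 2).1 (by exact_mod_cast h2))
  subst hp2
  have ha : a ≠ 0 := fun e => hU (by
    rw [e, upper_zero, map_one, mul_one, mul_inv_cancel]; exact one_mem _)
  have uu : ∀ (k : G) (e : F), k * ι (upper e) * k⁻¹ * (k * ι (upper e) * k⁻¹) = 1 := fun k e => by
    rw [conj_mul, ← pow_two, h.u_pow, mul_one, mul_inv_cancel]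
  generalize hsg : g * ι (upper a) * g⁻¹ = s at hs hU
  have hss : s * s = 1 := hsg ▸ uu g a
  obtain ⟨τ, c, d, hc, hT, hσ, hτ⟩ := h.exists_T' hs hU
  -- two distinct nontrivial elements of `U` centralised by `s`
  obtain ⟨a₁, a₂, h1, h2', h12, e1, e2⟩ : ∃ a₁ a₂ : F, a₁ ≠ 0 ∧ a₂ ≠ 0 ∧ a₁ + a₂ ≠ 0 ∧
      c / d * τ a₁ = a₁ ∧ c / d * τ a₂ = a₂ := by
    have hσσ : ∀ x, c / d * τ (c / d * τ x) = x := fun x => h.u_inj (by
      rw [← hσ, ← hσ]
      calc s * (s * ι (upper x) * s⁻¹) * s⁻¹ = (s * s) * ι (upper x) * (s * s)⁻¹ := by group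
        _ = _ := by rw [hss]; group)
    let f : F →+ F := AddMonoidHom.mk' (fun x => x + c / d * τ x) fun x y => by
      rw [map_add]; ring
    have hf : ∀ x, x ∈ f.ker ↔ c / d * τ x = x := fun x => by
      change x + c / d * τ x = 0 ↔ _
      constructor <;> intro e
      · linear_combination e - x * h2
      · linear_combination e + x * h2
    have hr : f.range ≤ f.ker := by
      rintro _ ⟨x, rfl⟩
      rw [hf]
      change c / d * τ (x + c / d * τ x) = x + c / d * τ x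
      rw [map_add, mul_add, hσσ, add_comm]
    have hc1 : Nat.card F = Nat.card f.ker * Nat.card f.range := by
      rw [← AddSubgroup.card_mul_index f.ker, AddSubgroup.index_ker]
    have hc2 := AddSubgroup.card_le_of_le hr
    have hc3 : 2 < Fintype.card f.ker := by
      rw [← Nat.card_eq_fintype_card]
      by_contra hle
      have h5 : Fintype.card F ≤ 4 := by
        rw [← Nat.card_eq_fintype_card, hc1]
        exact (Nat.mul_le_mul (not_lt.1 hle) (hc2.trans (not_lt.1 hle)) : _ ≤ 2 * 2)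
      obtain ⟨n, -, hn⟩ := FiniteField.card F 2
      have h6 : (n : ℕ) ≤ 2 := (Nat.pow_le_pow_iff_right one_lt_two).1 (hn ▸ h5)
      have h7 : (n : ℕ) = 1 := by
        have := n.pos
        have : (n : ℕ) ≠ 2 := fun e => h4 (by rw [hn, e]; rfl)
        omega
      obtain ⟨x, hx⟩ := hτ
      have h8 := FiniteField.pow_card x
      rw [hn, h7, pow_one] at h8
      have h9 : x * (x - 1) = 0 := by linear_combination h8
      rcases mul_eq_zero.1 h9 with e | e
      · exact hx (by rw [e, map_zero])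
      · exact hx (by rw [sub_eq_zero.1 e, map_one])
    obtain ⟨x, y, z, hxy, hxz, hyz⟩ := Fintype.two_lt_card_iff.1 hc3
    refine ⟨x - z, y - z, sub_ne_zero.2 fun e => hxz (Subtype.ext e),
      sub_ne_zero.2 fun e => hyz (Subtype.ext e), fun e => hxy (Subtype.ext ?_),
      (hf _).1 (sub_mem x.2 z.2), (hf _).1 (sub_mem y.2 z.2)⟩
    linear_combination e + (z - y : F) * h2
  -- a central root element
  haveI := h.pS.isNilpotent
  obtain ⟨⟨_, ⟨b, rfl⟩, hz⟩, hz1⟩ := (ne_bot_iff_exists_ne_one.1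
    (PGroup.inf_centralizer_ne_bot_of_nilpotent h.uS h.le_norm_U fun e =>
      h.u_ne_one one_ne_zero (mem_bot.1 (e ▸ u_mem ι 1))))
  have hb : b ≠ 0 := fun e => hz1 (Subtype.ext (by
    change ι (upper b) = 1
    rw [e, upper_zero, map_one]))
  obtain ⟨A, hA⟩ := h.isConj_u (ringChar.eq F 2) ha hb
  have hk0 : ι A * g⁻¹ * s * (ι A * g⁻¹)⁻¹ = ι (upper b) := by rw [← hA, ← hsg]; group
  obtain ⟨e, he, hle⟩ := Transfer.exists_conj_le_of_not_dvd_relIndex'
    (H := centralizer {ι (upper b)}) (T := S) (Q := (ι A * g⁻¹) ⋆ (S ⊓ centralizer {s}))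
    (fun hd => h.idx (hd.trans (relIndex_dvd_index_of_le fun x hx =>
      mem_centralizer_singleton_iff.2 (hz x hx))))
    ((h.pS.to_inf_left).map _) (by
      rintro _ ⟨x, hx, rfl⟩
      rw [← hk0]
      refine mem_centralizer_singleton_iff.2 ?_
      change ι A * g⁻¹ * x * (ι A * g⁻¹)⁻¹ * _ = _ * (ι A * g⁻¹ * x * (ι A * g⁻¹)⁻¹)
      rw [conj_mul, conj_mul, mem_centralizer_singleton_iff.1 hx.2])
  rw [Transfer.conj_conj] at hle
  have hk : e * (ι A * g⁻¹) * s * (e * (ι A * g⁻¹))⁻¹ = ι (upper b) := by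
    calc _ = e * (ι A * g⁻¹ * s * (ι A * g⁻¹)⁻¹) * e⁻¹ := by group
      _ = _ := by rw [hk0, mem_centralizer_singleton_iff.1 he, mul_inv_cancel_right]
  generalize e * (ι A * g⁻¹) = k at hle hk
  have hin : ∀ x, c / d * τ x = x → k * ι (upper x) * k⁻¹ ∈ S := fun x hx =>
    hle (Transfer.conj_mem_conj.2 ⟨h.uS (u_mem ι x), mem_centralizer_singleton_iff.2 (by
      have := hσ x
      rw [hx, mul_inv_eq_iff_eq_mul] at this
      exact this.symm)⟩)
  obtain ⟨x, hx, y, hy⟩ : ∃ x, x ≠ 0 ∧ k * ι (upper x) * k⁻¹ ∈ U ι := by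
    by_cases c1 : k * ι (upper a₁) * k⁻¹ ∈ U ι
    · exact ⟨_, h1, c1⟩
    by_cases c2 : k * ι (upper a₂) * k⁻¹ ∈ U ι
    · exact ⟨_, h2', c2⟩
    refine ⟨_, h12, ?_⟩
    rw [← upper_mul, map_mul, ← conj_mul]
    exact h.mul_mem_U (hin _ e1) (hin _ e2) c1 c2 (Or.inl ⟨uu _ _, uu _ _⟩)
  have hy0 : y ≠ 0 := fun e => h.u_ne_one hx (by
    rw [e, upper_zero, map_one] at hy
    exact conj_eq_one_iff.1 hy)
  obtain ⟨w, hw⟩ := hτ
  refine hw (hT.id_of_fix (fun w => ?_) w)
  have h5 : (k • ((w, 0) : F × F)).2 = 0 := (h.fix_iff hy0 _).1 (by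
    rw [← hy, mul_smul, mul_smul, inv_smul_smul, (h.fix_iff hx _).2 rfl])
  have h6 := (h.fix_iff hb _).2 h5
  rw [← hk, mul_smul, mul_smul, inv_smul_smul] at h6
  exact MulAction.injective k h6

section SC

variable (hsc : ∀ (g : G) (a : F), g * ι (upper a) * g⁻¹ ∈ S → g * ι (upper a) * g⁻¹ ∈ U ι)
include hsc

theorem sc' {R : Subgroup G} (hR : IsPGroup p R) (hUR : U ι ≤ R) {g : G} {a : F}
    (hx : g * ι (upper a) * g⁻¹ ∈ R) : g * ι (upper a) * g⁻¹ ∈ U ι := by
  obtain ⟨k, hk⟩ := Transfer.exists_conj_le_of_not_dvd_index h.idx hR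
  have hn : k ∈ normalizer (U ι : Set G) := mem_normalizer_fintype (by
    rintro _ ⟨b, rfl⟩
    exact hsc k b (hk (Transfer.conj_mem_conj.2 (hUR (u_mem ι b)))))
  refine (mem_normalizer_iff.1 hn _).2 ?_
  have e : k * (g * ι (upper a) * g⁻¹) * k⁻¹ = k * g * ι (upper a) * (k * g)⁻¹ := by group
  rw [e]
  exact hsc _ _ (e ▸ hk (Transfer.conj_mem_conj.2 hx))

theorem mem_norm_of_le {g : G} (hg : ∀ v : F × F, v.2 = 0 → (g • v).2 = 0) :
    g ∈ normalizer (U ι : Set G) := by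
  have hg' : ∀ v : F × F, v.2 = 0 → (g⁻¹ • v).2 = 0 := fun v hv => by
    have : ∀ n : ℕ, (g ^ n • v).2 = 0 := fun n => by
      induction n with
      | zero => rwa [pow_zero, one_smul]
      | succ n ih => rw [pow_succ', mul_smul]; exact hg _ ih
    have e : g⁻¹ = g ^ (orderOf g - 1) := inv_eq_of_mul_eq_one_right (by
      rw [← pow_succ', Nat.sub_add_cancel (orderOf_pos g), pow_orderOf_eq_one])
    rw [e]; exact this _
  let R : Subgroup G :=
    { carrier := {x | ∀ v : F × F, (v.2 = 0 → x • v = v) ∧ (x • v).2 = v.2}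
      one_mem' := fun v => ⟨fun _ => one_smul _ _, by rw [one_smul]⟩
      mul_mem' := fun {x y} hx hy v => ⟨fun hv => by rw [mul_smul, (hy v).1 hv, (hx v).1 hv],
        by rw [mul_smul, (hx _).2, (hy _).2]⟩
      inv_mem' := fun {x} hx v => ⟨fun hv => inv_smul_eq_iff.2 ((hx v).1 hv).symm,
        by rw [← (hx (x⁻¹ • v)).2, smul_inv_smul]⟩ }
  have hR : IsPGroup p R := fun x => ⟨1, Subtype.ext (h.faith _ fun v => by
    have h1 : ∀ n : ℕ, (x : G) ^ n • v = v + n • ((x : G) • v - v) := fun n => by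
      induction n with
      | zero => simp
      | succ n ih =>
        rw [pow_succ', mul_smul, ih, smul_add, (x.2 (n • ((x : G) • v - v))).1 (by
          rw [Prod.smul_snd, Prod.snd_sub, (x.2 v).2, sub_self, smul_zero]), succ_nsmul]
        abel
    change (x : G) ^ p ^ 1 • v = v
    rw [pow_one, h1]
    ext <;> simp [CharP.cast_eq_zero])⟩
  refine mem_normalizer_fintype ?_
  rintro _ ⟨a, rfl⟩
  refine h.sc' hsc hR ?_ fun v => ⟨fun hv => ?_, ?_⟩
  · rintro _ ⟨b, rfl⟩ v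
    rw [h.u_smul]
    exact ⟨fun hv => by rw [hv, mul_zero, add_zero, ← hv], rfl⟩
  · rw [mul_smul, mul_smul, h.u_smul, hg' v hv, mul_zero, add_zero, ← hg' v hv]
    exact smul_inv_smul g v
  · have e : ι (upper a) • g⁻¹ • v = g⁻¹ • v + (a * (g⁻¹ • v).2, 0) := by
      rw [h.u_smul]; ext <;> simp
    rw [mul_smul, mul_smul, e, smul_add, smul_inv_smul, Prod.snd_add, hg _ rfl, add_zero]

theorem mem_norm_of_meet (g : G) (hg : ∃ v : F × F, v ≠ 0 ∧ v.2 = 0 ∧ (g • v).2 = 0) :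
    g ∈ normalizer (U ι : Set G) := by
  induction hn : Nat.card (F × F) - {v : F × F | v.2 = 0 ∧ (g • v).2 = 0}.ncard
    using Nat.strong_induction_on generalizing g with
  | _ n ih =>
  by_contra hN
  obtain ⟨y, hy, hy'⟩ : ∃ y : F × F, y.2 = 0 ∧ (g • y).2 ≠ 0 := by
    by_contra hc
    push Not at hc
    exact hN (h.mem_norm_of_le hsc hc)
  obtain ⟨z, hz0, hz, hz'⟩ := hg
  have hz1 : (g • z).1 ≠ 0 := fun e => hz0 ((smul_eq_zero_iff_eq g).1 (Prod.ext e hz'))
  have ha : (g • z).1 / (g • y).2 ≠ 0 := div_ne_zero hz1 hy'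
  generalize hae : (g • z).1 / (g • y).2 = a at ha
  have key : ∀ v : F × F, (g • v).2 = 0 → (g⁻¹ * ι (upper a) * g) • v = v := fun v hv => by
    rw [mul_smul, mul_smul, (h.fix_iff ha _).2 hv, inv_smul_smul]
  have hyz : (g⁻¹ * ι (upper a) * g) • y = y + z := by
    rw [mul_smul, mul_smul, inv_smul_eq_iff, smul_add, h.u_smul, ← hae, div_mul_cancel₀ _ hy']
    ext <;> simp [hz']
  have hlt : {v : F × F | v.2 = 0 ∧ (g • v).2 = 0}.ncard <
      {v : F × F | v.2 = 0 ∧ ((g⁻¹ * ι (upper a) * g) • v).2 = 0}.ncard :=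
    Set.ncard_lt_ncard ⟨fun v hv => ⟨hv.1, by rw [key v hv.2]; exact hv.1⟩, fun hle =>
      hy' (hle ⟨hy, by rw [hyz, Prod.snd_add, hy, hz, add_zero]⟩).2⟩
  have hle := Set.ncard_le_card {v : F × F | v.2 = 0 ∧ ((g⁻¹ * ι (upper a) * g) • v).2 = 0}
  have h1 := ih _ (hn ▸ Nat.sub_lt_sub_left (hlt.trans_le hle) hlt) (g⁻¹ * ι (upper a) * g)
    ⟨z, hz0, hz, by rw [key z hz']; exact hz⟩ rfl
  obtain ⟨b, hb⟩ := h.sc' hsc (R := zpowers (g⁻¹ * ι (upper a) * g) ⊔ U ι)
    (IsPGroup.to_sup_of_normal_right' (Inv.isPGroup_zpowers (k := 1) (by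
      have := conj_pow (a := g⁻¹) (b := ι (upper a)) (i := p)
      rw [inv_inv, h.u_pow, mul_one, inv_mul_cancel] at this
      rwa [pow_one])) h.isPGroup_U (zpowers_le.2 h1))
    le_sup_right (g := g⁻¹) (a := a) (mem_sup_left (by rw [inv_inv]; exact mem_zpowers _))
  rw [inv_inv] at hb
  rw [hb, h.u_smul, hy, mul_zero, add_zero, ← hy] at hyz
  exact hz0 (left_eq_add.1 hyz)

theorem conj_u_mem (g : G) (a : F) : g * ι (upper a) * g⁻¹ ∈ ι.range := by
  obtain ⟨A, hA⟩ := h.exists_smul_eq (v := g • ((1, 0) : F × F))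
    (fun e => by simpa using (smul_eq_zero_iff_eq g).1 e)
  have h1 := h.mem_norm_of_meet hsc ((ι A)⁻¹ * g) ⟨(1, 0), by simp, rfl, by
    rw [mul_smul, ← hA, inv_smul_smul]⟩
  obtain ⟨b, hb⟩ := (mem_normalizer_iff.1 h1 _).1 (u_mem ι a)
  refine ⟨A * upper b * A⁻¹, ?_⟩
  rw [map_mul, map_mul, map_inv, ← hb]
  group

theorem normal : ι.range.Normal := by
  refine ⟨?_⟩
  rintro _ ⟨A, rfl⟩ g
  induction A using Linear.transvection_induction with
  | h1 => rw [map_one, mul_one, mul_inv_cancel]; exact one_mem _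
  | hmul A B hA hB => rw [map_mul, ← conj_mul]; exact mul_mem hA hB
  | ht i j hij c =>
    fin_cases i <;> fin_cases j
    · exact absurd rfl hij
    · convert h.conj_u_mem hsc g c using 4
      apply sl_ext <;> simp [SpecialLinearGroup.transvection_coe]
    · have := h.conj_u_mem hsc (g * ι (mk2 0 (-1) 1 0 (by simp))) (-c)
      convert this using 1
      rw [_root_.mul_inv_rev, ← map_inv, mul_assoc g, mul_assoc g, mul_assoc g, ← map_mul,
        ← mul_assoc (ι _), ← map_mul]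
      congr 3
      rw [eq_mul_inv_iff_mul_eq]
      apply sl_ext <;> simp [SpecialLinearGroup.transvection_coe, Matrix.mul_apply,
        Fin.sum_univ_two]
    · exact absurd rfl hij

end SC

end Ctx

end Cfsg.Lib.CharDeg.NatSL
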