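import Cfsg.Agent.Lib.CharDeg.MinNonab
import Cfsg.Agent.Lib.Transfer.Criteria
import Cfsg.Agent.Lib.Core.PSolvable
import Cfsg.Agent.Lib.Core.Frattini
import Cfsg.Agent.Lib.Coprime.Action

/-! Characters of degree prime to `p` and the kernel they share. -/

set_option autoImplicit false

namespace Cfsg.Lib.NavWolf

open Cfsg.Lib.Char Cfsg.Lib.Clifford Cfsg.Lib.Induce Cfsg.Lib.Core Cfsg.Lib.CharDeg
  Cfsg.Lib.Transfer Subgroup
open scoped commutatorElement

variable {G : Type*} [Group G] [Finite G] {p q : ℕ}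

theorem exists_over_not_dvd [hp : Fact p.Prime] (H : Subgroup G) [Fintype H] (hH : ¬ p ∣ H.index)
    {η : H → ℂ} (hη : IsCharacter H η) (hd : ¬ p ∣ charDegree η) :
    ∃ χ, IsIrrCharacter G χ ∧ classInner (fun h : H => χ h) η ≠ 0 ∧ ¬ p ∣ charDegree χ := by
  haveI := Fintype.ofFinite G
  have h1 : charDegree (indFun H η) = H.index * charDegree η :=
    charDegree_eq_of_apply_one (by rw [indFun_one, hη.apply_one_eq, Nat.cast_mul])
  obtain ⟨χ, hχ, h2, h3⟩ := exists_constituent_not_dvd (isCharacter_indFun H hη) (p := p) (by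
    rw [h1]
    exact fun h => ((Nat.Prime.dvd_mul hp.out).1 h).elim hH hd)
  refine ⟨χ, hχ, ?_, h3⟩
  rw [frobenius_reciprocity H η hχ.isClassFunction] at h2
  exact fun h => h2 (classInner_eq_zero_comm.1 h)

theorem mem_commutator_of_forall_hom {P : Subgroup G} {x : G} (hx : x ∈ P)
    (h : ∀ μ : P →* ℂˣ, μ ⟨x, hx⟩ = 1) : x ∈ ⁅P, P⁆ := by
  rw [← map_subtype_commutator]
  refine ⟨⟨x, hx⟩, ?_, rfl⟩
  by_contra hc
  have h1 : (QuotientGroup.mk ⟨x, hx⟩ : P ⧸ _root_.commutator P) ≠ 1 := by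
    rwa [Ne, QuotientGroup.eq_one_iff]
  obtain ⟨χ, hχ, h2⟩ := exists_irr_apply_ne_of_ne_one h1
  haveI : IsMulCommutative (P ⧸ _root_.commutator P) :=
    Normal.quotient_commutative_iff_commutator_le.mpr le_rfl
  obtain ⟨lam, rfl⟩ := hχ.exists_hom_of_comm
  have := h (lam.comp (QuotientGroup.mk' _))
  simp only [MonoidHom.comp_apply, QuotientGroup.mk'_apply] at this
  simp [this] at h2

theorem charDegree_hom {H : Type*} [Group H] (μ : H →* ℂˣ) : charDegree (fun h => (μ h : ℂ)) = 1 :=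
  charDegree_eq_of_apply_one (by simp)

theorem mem_commutator_of_ker [hp : Fact p.Prime] (P : Sylow p G) {x : G} (hx : x ∈ (P : Subgroup G))
    (h : ∀ χ, IsIrrCharacter G χ → ¬ p ∣ charDegree χ → χ x = χ 1) :
    x ∈ ⁅(P : Subgroup G), (P : Subgroup G)⁆ := by
  haveI := Fintype.ofFinite (P : Subgroup G)
  refine mem_commutator_of_forall_hom hx fun μ => ?_
  obtain ⟨χ, hχ, h1, h2⟩ := exists_over_not_dvd (P : Subgroup G) P.not_dvd_index (isCharacter_hom μ)
    (by rw [charDegree_hom]; exact hp.out.not_dvd_one)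
  have := (hχ.isCharacter.restrict (P : Subgroup G)).apply_eq_of_constituent (isIrrCharacter_hom μ) h1
    (g := ⟨x, hx⟩) (h χ hχ h2)
  ext
  simpa using this

theorem mem_commutator_of_ker' [hp : Fact p.Prime] (P : Sylow p G) (K : Subgroup G) [K.Normal]
    (hK : (Nat.card K).Coprime p) {x : G} (hx : x ∈ (P : Subgroup G))
    (h : ∀ χ, IsIrrCharacter G χ → ¬ p ∣ charDegree χ → (∀ k ∈ K, χ k = χ 1) → χ x = χ 1) :
    x ∈ ⁅(P : Subgroup G), (P : Subgroup G)⁆ := by
  have h1 := mem_commutator_of_ker (P.mapSurjective (QuotientGroup.mk'_surjective K))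
    (x := QuotientGroup.mk' K x) (mem_map_of_mem _ hx) fun χ hχ hd =>
      h _ hχ.inflate hd fun k hk => by
        simp only [(QuotientGroup.eq_one_iff k).2 hk, QuotientGroup.mk_one]
  rw [Sylow.coe_mapSurjective, ← map_commutator] at h1
  obtain ⟨y, hy, e⟩ := h1
  have h2 : y⁻¹ * x ∈ (P : Subgroup G) ⊓ K :=
    ⟨(P : Subgroup G).mul_mem (inv_mem (Coprime.commutator_le_of_le_normalizer le_normalizer hy)) hx,
      QuotientGroup.eq.1 e⟩
  rw [inf_eq_bot_of_isPGroup_of_coprime P.isPGroup' hK, mem_bot, inv_mul_eq_one] at h2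
  exact h2 ▸ hy

/-- Tate's theorem for a normal subgroup. -/
theorem mem_pPrimeCore_of_inf_le [hp : Fact p.Prime] (P : Sylow p G) (U : Subgroup G) [U.Normal]
    (h : U ⊓ P ≤ ⁅(P : Subgroup G), (P : Subgroup G)⁆) {g : G} (hg : g ∈ U)
    (hc : (orderOf g).Coprime p) : g ∈ pPrimeCore p G := by
  have h0 : (P : Subgroup G) ≤ U ⊔ (P : Subgroup G) := le_sup_right
  have h1 : HasNormalPComplement p ↥(U ⊔ (P : Subgroup G)) := by
    refine hasNormalPComplement_subgroup_of_inf_le_frattini h0 P.isPGroup'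
      (fun e => P.not_dvd_index (e.trans (relIndex_dvd_index_of_le h0))) ?_
    refine le_trans (inf_le_inf_right _ (map_subtype_pResidual_le_iff.2 fun x hx hxc => ?_))
      (h.trans (commutator_le_frattiniOf_of_isNilpotent P.isPGroup'.isNilpotent))
    rw [← SetLike.mem_coe, normal_mul] at hx
    obtain ⟨u, hu, s, hs, rfl⟩ := hx
    obtain ⟨k, hk⟩ := isPGroup_subgroup_iff.1 P.isPGroup' s hs
    refine mem_of_pow_mem_of_coprime (n := p ^ k) ?_ (hxc.pow_right k)
    rw [← QuotientGroup.eq_one_iff, QuotientGroup.mk_pow, QuotientGroup.mk_mul,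
      (QuotientGroup.eq_one_iff u).2 hu, one_mul, ← QuotientGroup.mk_pow, hk, QuotientGroup.mk_one]
  have h2 := hasNormalPComplement_of_le le_sup_left h1
  refine pPrimeCoreOf_le_pPrimeCore U ?_
  rw [← pResidual_eq_pPrimeCore h2]
  exact mem_map_subtype_pResidual hg hc

theorem inf_le_of_coprime {P : Subgroup G} (hP : IsPGroup p P) {D U : Subgroup G}
    [D.Normal] (h : (D.relIndex U).Coprime p) : U ⊓ P ≤ D := by
  rintro x ⟨hU, hx⟩
  obtain ⟨k, hk⟩ := isPGroup_subgroup_iff.1 hP x hx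
  have h1 : x ^ D.relIndex U ∈ D := by
    have := (D.subgroupOf U).pow_index_mem ⟨x, hU⟩
    rwa [mem_subgroupOf] at this
  exact mem_of_pow_mem_of_coprime h1
    (Nat.Coprime.coprime_dvd_left (orderOf_dvd_of_pow_eq_one hk) (h.symm.pow_left k))

theorem le_of_coprime_relIndex [hp : Fact p.Prime] (P : Sylow p G) (L U : Subgroup G) [L.Normal]
    [U.Normal] (hL : L ⊓ P ≤ ⁅(P : Subgroup G), (P : Subgroup G)⁆)
    (h : ((pPrimeCore p G ⊔ L).relIndex U).Coprime p) : U ≤ pPrimeCore p G ⊔ L := by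
  have h1 : (L.relIndex (pPrimeCore p G ⊔ L)).Coprime p := by
    rw [relIndex_sup_right]
    exact Nat.Coprime.coprime_dvd_left (relIndex_dvd_card _ _) (pPrimeCore_coprime p G)
  have h2 : U ⊓ P ≤ ⁅(P : Subgroup G), (P : Subgroup G)⁆ := fun x hx =>
    hL ⟨inf_le_of_coprime P.isPGroup' h1 ⟨inf_le_of_coprime P.isPGroup' h hx, hx.2⟩, hx.2⟩
  intro x hx
  obtain ⟨a, ha, b, hb, ⟨k, hk⟩, h3, rfl⟩ := exists_p_part_mul_p'_part (p := p) x
  refine mul_mem ?_ (mem_sup_left (mem_pPrimeCore_of_inf_le P U h2 (zpowers_le.2 hx hb) h3))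
  refine inf_le_of_coprime (P := zpowers a) ?_ h ⟨zpowers_le.2 hx ha, mem_zpowers a⟩
  refine isPGroup_subgroup_iff.2 ?_
  rintro _ ⟨n, rfl⟩
  exact ⟨k, by rw [← zpow_natCast, ← zpow_mul, mul_comm, zpow_mul, zpow_natCast, hk, one_zpow]⟩

theorem sup_eq_top_of_inf_le [hp : Fact p.Prime] [hq : Fact q.Prime] (hpq : p ≠ q)
    (hs : IsPSolvable p G) (P : Sylow p G) (Q : Sylow q G)
    (h1 : pPrimeCore q G ⊓ P ≤ ⁅(P : Subgroup G), (P : Subgroup G)⁆)
    (h2 : pPrimeCore p G ⊓ Q ≤ ⁅(Q : Subgroup G), (Q : Subgroup G)⁆) :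
    pPrimeCore p G ⊔ pPrimeCore q G = ⊤ := by
  by_contra hne
  obtain ⟨U, hU, -⟩ := exists_isChiefFactor_le (W := pPrimeCore p G ⊔ pPrimeCore q G) inferInstance
    (V := ⊤) inferInstance (lt_top_iff_ne_top.2 hne)
  haveI := hU.2.1
  refine hU.1.not_ge ?_
  rcases isPSolvable_iff_chief.1 hs _ _ hU with ⟨m, hm⟩ | hm
  · rw [sup_comm] at hm ⊢
    refine le_of_coprime_relIndex Q _ U h2 ?_
    rw [hm]
    exact ((Nat.coprime_primes hp.out hq.out).2 hpq).pow_left m
  · exact le_of_coprime_relIndex P _ U h1 hm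

theorem not_dvd_card_of_inf_le [hp : Fact p.Prime] (P : Sylow p G) (L : Subgroup G) [L.Normal]
    (hL : L ⊓ P ≤ ⁅(P : Subgroup G), (P : Subgroup G)⁆) (h : pPrimeCore p G ⊔ L = ⊤) :
    ¬ p ∣ Nat.card G := by
  have h1 : (L.relIndex (pPrimeCore p G ⊔ L)).Coprime p := by
    rw [relIndex_sup_right]
    exact Nat.Coprime.coprime_dvd_left (relIndex_dvd_card _ _) (pPrimeCore_coprime p G)
  have h2 : (P : Subgroup G) ≤ (frattini (P : Subgroup G)).map (P : Subgroup G).subtype := fun x hx =>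
    commutator_le_frattiniOf_of_isNilpotent P.isPGroup'.isNilpotent
      (hL ⟨inf_le_of_coprime P.isPGroup' h1 ⟨h ▸ mem_top x, hx⟩, hx⟩)
  have h3 : (P : Subgroup G) = ⊥ := by
    by_contra h0
    exact (frattiniOf_lt h0).not_ge h2
  have := P.not_dvd_index
  rwa [h3, index_bot] at this

end Cfsg.Lib.NavWolf
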