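import Cfsg.Agent.Lib.CharDeg.NavWolf
import Cfsg.Agent.Lib.CharDeg.GlaubermanSolvable
import Cfsg.Agent.Lib.Clifford.Extension
import Cfsg.Agent.Lib.Coprime.Sylow
import Cfsg.Agent.Lib.Coprime.Nilpotent
import Cfsg.Agent.Lib.FGS.Misc
import Cfsg.Agent.Lib.FGS.Sylow

/-! Groups whose characters of degree prime to `p` have degree prime to `q`. -/

set_option autoImplicit false

namespace Cfsg.Lib.NavWolf

open Cfsg.Lib.Char Cfsg.Lib.Clifford Cfsg.Lib.Induce Cfsg.Lib.Core Cfsg.Lib.CharDeg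
  Cfsg.Lib.Coprime Subgroup
open scoped commutatorElement

universe u

variable {G : Type u} [Group G] [Finite G] {p q : ℕ}

/-- Conjugation as an action. -/
@[reducible] def cj (G : Type u) [Group G] : MulAction G G :=
  MulAction.compHom G (MulAut.conj : G →* MulAut G)

theorem exists_conj_of_inertia {M A B : Subgroup G} [M.Normal] (hBA : B ≤ A)
    (hA : Group.IsSolvable A) (hcop : (Nat.card M).Coprime (Nat.card A))
    (h : ∀ θ, IsIrrCharacter M θ → B ≤ inertia M θ → A ≤ inertia M θ) {c : G} (hc : c ∈ M)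
    (hcB : c ∈ centralizer (B : Set G)) {a : G} (ha : a ∈ A) :
    ∃ k ∈ M, a * c * a⁻¹ = k * c * k⁻¹ := by
  have h1 := card_invariant_irr_eq_card_invariant_classes hA M
    (MulAut.conjNormal.comp A.subtype) hcop
  have h2 := card_invariant_irr_eq_card_invariant_classes (Core.isSolvable_of_le hBA hA) M
    (MulAut.conjNormal.comp B.subtype) (hcop.coprime_dvd_right (card_dvd_of_le hBA))
  rw [Nat.card_congr (Equiv.subtypeEquivRight (q := fun χ : IrrCharacter M => ∀ (a : B) g,
    (χ : M → ℂ) ((MulAut.conjNormal.comp B.subtype) a g) = (χ : M → ℂ) g) fun χ =>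
    ⟨fun e b g => e ⟨b, hBA b.2⟩ g, fun e b g => (mem_inertia_iff M).1
      (h _ χ.2 (fun x hx => (mem_inertia_iff M).2 fun n => e ⟨x, hx⟩ n) b.2) g⟩), h2] at h1
  let j : {L : ConjClasses M // ∀ (a : A) g, ConjClasses.mk g = L →
      ConjClasses.mk ((MulAut.conjNormal.comp A.subtype) a g) = L} →
      {L : ConjClasses M // ∀ (a : B) g, ConjClasses.mk g = L →
      ConjClasses.mk ((MulAut.conjNormal.comp B.subtype) a g) = L} :=
    fun L => ⟨L.1, fun b g e => L.2 ⟨b, hBA b.2⟩ g e⟩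
  have hj : Function.Injective j := fun L L' e => Subtype.ext (congrArg (fun x => x.1) e)
  obtain ⟨L, hL⟩ := (hj.bijective_of_nat_card_le h1.le).2 ⟨ConjClasses.mk ⟨c, hc⟩, fun b g e => by
    rw [ConjClasses.mk_eq_mk_iff_isConj] at e ⊢
    have h3 := ((MulAut.conjNormal.comp B.subtype) b).toMonoidHom.map_isConj e
    have h4 : (MulAut.conjNormal.comp B.subtype) b (⟨c, hc⟩ : M) = ⟨c, hc⟩ :=
      Subtype.ext (by
        change (b : G) * c * (b : G)⁻¹ = c
        rw [hcB b b.2, mul_inv_cancel_right])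
    exact h4 ▸ h3⟩
  have h5 : L.1 = ConjClasses.mk ⟨c, hc⟩ := congrArg Subtype.val hL
  have h6 := L.2 ⟨a, ha⟩ ⟨c, hc⟩ h5.symm
  rw [h5, ConjClasses.mk_eq_mk_iff_isConj] at h6
  obtain ⟨k, hk⟩ := isConj_iff.1 h6.symm
  exact ⟨k, k.2, (congrArg Subtype.val hk).symm⟩

theorem centralizer_le_of_inertia {M A B : Subgroup G} [M.Normal] (hBA : B ≤ A)
    (hA : Group.IsSolvable A) (hcop : (Nat.card M).Coprime (Nat.card A))
    (h : ∀ θ, IsIrrCharacter M θ → B ≤ inertia M θ → A ≤ inertia M θ) :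
    M ⊓ centralizer (B : Set G) ≤ centralizer (A : Set G) := by
  rw [← subgroupOf_eq_top]
  by_contra hne
  obtain ⟨⟨c, hc, hcB⟩, hx⟩ := FGS.exists_forall_not_mem_conj hne
  obtain ⟨k, hk, h1⟩ := @exists_fixed_point G _ _ G (cj G) A M le_normalizer_of_normal hcop.symm
    (Or.inl hA) c fun a ha => exists_conj_of_inertia hBA hA hcop h hc hcB ha
  obtain ⟨d, hd, h2⟩ := @exists_centralizer_smul_eq G _ _ G (cj G) B M le_normalizer_of_normal
    (hcop.coprime_dvd_right (card_dvd_of_le hBA)).symm (Or.inl (Core.isSolvable_of_le hBA hA)) c k hk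
    (fun b hb => by
      change b * c * b⁻¹ = c
      rw [hcB b hb, mul_inv_cancel_right]) fun b hb => h1 b (hBA hb)
  refine hx ⟨d, hd⟩⁻¹ (Transfer.mem_conj.2 (mem_subgroupOf.2 fun a ha => ?_))
  have h3 := h1 a ha
  rw [← h2] at h3
  change a * (d * c * d⁻¹) * a⁻¹ = d * c * d⁻¹ at h3
  simp only [inv_inv, coe_mul, coe_inv]
  rw [← mul_inv_eq_iff_eq_mul]
  exact h3

theorem exists_invariant_sylow [hp : Fact p.Prime] [hq : Fact q.Prime] {P H T : Subgroup G} [H.Normal]
    (hP : IsPGroup p P) (hH : (Nat.card H).Coprime p) (hHq : ¬ q ∣ H.index) (hPT : P ≤ T)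
    (hT : ¬ q ∣ T.index) : ∃ Q : Sylow q G, ↑Q ≤ T ∧ P ≤ normalizer ((Q : Subgroup G) : Set G) := by
  obtain ⟨R, h1, h2, h3, h4⟩ := exists_invariant_sylowIn q (A := P) (K := H ⊓ T)
    (Core.le_normalizer_inf le_normalizer_of_normal (hPT.trans le_normalizer))
    (Core.coprime_card_of_isPGroup hP (coprime_of_le inf_le_left hH)) (Or.inl (Core.isSolvable_of_isPGroup hP))
  refine ⟨h2.toSylow ?_, h1.trans inf_le_right, h4⟩
  rw [← relIndex_mul_index h1, ← relIndex_mul_index (inf_le_right : H ⊓ T ≤ T), inf_relIndex_right,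
    hq.out.dvd_mul, hq.out.dvd_mul]
  rintro (e | e | e)
  · exact h3 e
  · exact hHq (e.trans (relIndex_dvd_index_of_normal H T))
  · exact hT e

/-- Irreducible characters of degree prime to `p` have degree prime to `q`. -/
def Hyp (p q : ℕ) (G : Type u) [Group G] : Prop :=
  ∀ χ, IsIrrCharacter G χ → ¬ p ∣ charDegree χ → ¬ q ∣ charDegree χ

omit [Finite G] in
theorem Hyp.quotient (h : Hyp p q G) (N : Subgroup G) [N.Normal] : Hyp p q (G ⧸ N) :=
  fun _ hχ => h _ hχ.inflate

theorem Hyp.not_dvd_index [Fact p.Prime] (h : Hyp p q G) {N S : Subgroup G} [N.Normal] (hNS : N ≤ S)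
    (hS : ¬ p ∣ S.index) {η : S → ℂ} (hη : IsIrrCharacter S η) (hd : ¬ p ∣ charDegree η)
    {θ : N → ℂ} (hθ : IsIrrCharacter N θ) (e : ∀ n : N, η ⟨n, hNS n.2⟩ = θ n) :
    ¬ q ∣ (inertia N θ).index := by
  haveI := Fintype.ofFinite S
  haveI := Fintype.ofFinite N
  haveI := Fintype.ofFinite G
  obtain ⟨χ, hχ, h1, h2⟩ := exists_over_not_dvd S hS hη.isCharacter hd
  have h3 : classInner (fun n : N => χ n) θ ≠ 0 :=
    inner_comp_ne_zero_of_constituent (inclusion hNS) (hχ.isCharacter.restrict S) hη h1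
      hθ.isCharacter (by
        have : (fun n : N => η (inclusion hNS n)) = θ := funext e
        rw [this, hθ.inner_self]
        exact one_ne_zero)
  have h4 := clifford_degree N hχ hθ h3
  obtain ⟨m, hm⟩ := (hχ.isCharacter.restrict N).exists_inner_eq_nat hθ.isCharacter
  rw [hm, hχ.apply_one_eq, hθ.apply_one_eq] at h4
  have h5 : charDegree χ = m * (inertia N θ).index * charDegree θ := by exact_mod_cast h4
  exact fun hq => h χ hχ h2 (h5 ▸ (hq.mul_left m).mul_right _)

theorem map_le_normalizer_map {G' : Type*} [Group G'] (f : G →* G') {P Q : Subgroup G}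
    (h : P ≤ normalizer (Q : Set G)) : P.map f ≤ normalizer ((Q.map f : Subgroup G') : Set G') :=
  (map_mono h).trans (le_normalizer_map f)

theorem Hyp.sylow_unique [hp : Fact p.Prime] [hq : Fact q.Prime] (G : Type u) [Group G] [Finite G] :
    Hyp p q G → IsPSolvable q G → ∀ H : Subgroup G, H.Normal → (Nat.card H).Coprime p →
      ¬ q ∣ H.index → ∀ (P : Sylow p G) (Q R : Sylow q G),
      ↑P ≤ normalizer ((Q : Subgroup G) : Set G) → ↑P ≤ normalizer ((R : Subgroup G) : Set G) →
      Q = R := by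
  refine induction_on_card (P := fun G _ _ => Hyp p q G → IsPSolvable q G → ∀ H : Subgroup G,
    H.Normal → (Nat.card H).Coprime p → ¬ q ∣ H.index → ∀ (P : Sylow p G) (Q R : Sylow q G),
      ↑P ≤ normalizer ((Q : Subgroup G) : Set G) → ↑P ≤ normalizer ((R : Subgroup G) : Set G) →
      Q = R) G fun G _ _ ih h hs H hn hH hHq P => ?_
  by_cases h0 : H = ⊥
  · intro Q R _ _
    rw [h0, index_bot] at hHq
    have : ∀ S : Sylow q G, (S : Subgroup G) = ⊥ := fun S =>
      eq_bot_of_isPGroup_of_coprime S.isPGroup'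
        (Nat.Coprime.coprime_dvd_left (card_subgroup_dvd_card _) (coprime_iff_not_dvd.2 hHq))
    exact Sylow.ext (by rw [this, this])
  obtain ⟨M, hM, hMH⟩ := exists_isMinNormal_le hn h0
  haveI := hM.normal
  have hf := QuotientGroup.mk'_surjective M
  have key : ∀ Q R : Sylow q G, ↑P ≤ normalizer ((Q : Subgroup G) : Set G) →
      ↑P ≤ normalizer ((R : Subgroup G) : Set G) → (Q : Subgroup G) ≤ (R : Subgroup G) ⊔ M := fun Q R h1 h2 => by
    have := ih (G ⧸ M) (card_quotient_lt hM.ne_bot) (h.quotient M) (isPSolvable_quotient hs M)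
      (H.map (QuotientGroup.mk' M)) (hn.map _ hf) (coprime_map _ hH)
      (fun e => hHq (e.trans (index_map_dvd H hf))) (P.mapSurjective hf) (Q.mapSurjective hf)
      (R.mapSurjective hf) (map_le_normalizer_map _ h1) (map_le_normalizer_map _ h2)
    have h3 := congrArg (fun S : Sylow q (G ⧸ M) => (S : Subgroup (G ⧸ M))) this
    simp only [Sylow.coe_mapSurjective] at h3
    have h4 := (map_le_map_iff.1 h3.le)
    rwa [QuotientGroup.ker_mk'] at h4
  intro Q R hQ hR
  rcases hM.isPGroup_or_coprime (isPSolvable_subgroup hs M) with hMq | hMq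
  · exact FGS.sylow_eq_of_le ((key Q R hQ hR).trans
      (sup_le le_rfl ((le_pCore hM.normal hMq).trans (pCore_le_sylow R))))
  have hMp := coprime_of_le hMH hH
  have h1 : M ⊓ centralizer ((P : Subgroup G) : Set G) ≤
      centralizer (((P : Subgroup G) ⊔ Q : Subgroup G) : Set G) := by
    refine centralizer_le_of_inertia le_sup_left (isSolvable_sup hQ
      (Core.isSolvable_of_isPGroup P.isPGroup') (Core.isSolvable_of_isPGroup Q.isPGroup')) ?_ fun θ hθ hP => ?_
    · rw [sup_comm]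
      exact Nat.Coprime.coprime_dvd_right (card_sup_dvd hQ) (Nat.Coprime.mul_right
        (Core.coprime_card_of_isPGroup Q.isPGroup' hMq).symm (Core.coprime_card_of_isPGroup P.isPGroup' hMp).symm)
    have hMT := le_inertia M hθ.isClassFunction
    obtain ⟨η, hη, e⟩ := exists_extension_le_of_coprime M (T := M ⊔ P) le_sup_left hθ (sup_le hMT hP) (by
      rw [relIndex_sup_left]
      exact Nat.Coprime.coprime_dvd_right (relIndex_dvd_card _ _)
        (Core.coprime_card_of_isPGroup P.isPGroup' hMp).symm)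
    have h2 := h.not_dvd_index (le_sup_left : M ≤ M ⊔ P)
      (fun e => P.not_dvd_index (e.trans (index_dvd_of_le le_sup_right))) hη (by
        have : charDegree η = charDegree θ := charDegree_eq_of_apply_one (by
          rw [← hθ.apply_one_eq]; exact e 1)
        rw [this]
        exact fun e => coprime_iff_not_dvd.1 hMp (e.trans hθ.charDegree_dvd_card)) hθ e
    obtain ⟨S, h3, h4⟩ := exists_invariant_sylow P.isPGroup' hH hHq hP h2
    exact sup_le hP ((key Q S hQ h4).trans (sup_le h3 hMT))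
  obtain ⟨g, hg, e⟩ := FGS.exists_conj_sylow_eq_of_le (P := Q) (Q := R) (H := M ⊔ Q) le_sup_right
    ((key R Q hR hQ).trans (sup_comm _ _).le)
  obtain ⟨m, hm, y, hy, rfl⟩ := (mem_sup_left_of_le_normalizer le_normalizer_of_normal).1 hg
  rw [← FGS.smul_eq_iff_conj, mul_smul, FGS.smul_eq_self_iff.2 (le_normalizer hy)] at e
  obtain ⟨c, hc, e'⟩ := exists_centralizer_smul_eq (A := P) (K := M) le_normalizer_of_normal
    (Core.coprime_card_of_isPGroup P.isPGroup' hMp) (Or.inl (Core.isSolvable_of_isPGroup P.isPGroup')) (x := Q) hm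
    (fun a ha => FGS.smul_eq_self_iff.2 (hQ ha)) fun a ha => by
      rw [e]; exact FGS.smul_eq_self_iff.2 (hR ha)
  rw [← e, ← e', FGS.smul_eq_self_iff.2
    (centralizer_le_normalizer _ (centralizer_le (SetLike.coe_subset_coe.2 le_sup_right) (h1 hc)))]

theorem Hyp.not_dvd_index_pPrimeCore [hp : Fact p.Prime] [hq : Fact q.Prime] (hpq : p ≠ q)
    (G : Type u) [Group G] [Finite G] : Hyp p q G → IsPSolvable p G → IsPSolvable q G →
      ¬ q ∣ (pPrimeCore p G).index := by
  refine induction_on_card (P := fun G _ _ => Hyp p q G → IsPSolvable p G → IsPSolvable q G →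
      ¬ q ∣ (pPrimeCore p G).index) G fun G _ _ ih h hps hqs => ?_
  by_cases h0 : pPrimeCore p G = ⊥
  swap
  · have := ih (G ⧸ pPrimeCore p G) (card_quotient_lt h0) (h.quotient _) (isPSolvable_quotient hps _)
      (isPSolvable_quotient hqs _)
    rwa [pPrimeCore_quotient_pPrimeCore, index_bot] at this
  rcases subsingleton_or_nontrivial G with hG | hG
  · rw [h0, index_bot, Nat.card_of_subsingleton (1 : G)]
    exact hq.out.not_dvd_one
  obtain ⟨N, hN⟩ : ∃ N, N = pCore p G := ⟨_, rfl⟩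
  haveI : N.Normal := hN ▸ inferInstance
  have hN0 : N ≠ ⊥ := hN ▸ (pCore_ne_bot_or_of_isPSolvable hps).resolve_right (not_not.2 h0)
  have hNp : IsPGroup p N := hN ▸ pCore_isPGroup p G
  have hf := QuotientGroup.mk'_surjective N
  have hH := ih (G ⧸ N) (card_quotient_lt hN0) (h.quotient _) (isPSolvable_quotient hps _)
      (isPSolvable_quotient hqs _)
  obtain ⟨P⟩ : Nonempty (Sylow p G) := inferInstance
  have hNP : N ≤ P := hN ▸ pCore_le_sylow P
  obtain ⟨Q', -, hQ'⟩ := exists_invariant_sylow (T := ⊤) (P.mapSurjective hf).isPGroup'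
    (pPrimeCore_coprime p (G ⧸ N)) hH le_top (by rw [index_top]; exact hq.out.not_dvd_one)
  obtain ⟨Q, rfl⟩ := Sylow.mapSurjective_surjective hf q Q'
  have hcop : (Nat.card (Q : Subgroup G)).Coprime (Nat.card N) := by
    obtain ⟨k, hk⟩ := IsPGroup.iff_card.1 hNp
    rw [hk]
    exact Core.coprime_card_of_isPGroup Q.isPGroup'
      (((Nat.coprime_primes hp.out hq.out).2 hpq).pow_left k)
  have h1 : ⁅N, (Q : Subgroup G)⁆ ≤ ⁅(P : Subgroup G), (P : Subgroup G)⁆ := by
    rw [commutator_comm, commutator_le]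
    intro y hy n hn
    have hm : y * n * y⁻¹ ∈ N := Normal.conj_mem inferInstance n hn y
    refine mem_commutator_of_forall_hom (hNP (mul_mem hm (inv_mem hn))) fun μ => ?_
    have hθ := isIrrCharacter_hom (μ.comp (inclusion hNP))
    have hNT := le_inertia N hθ.isClassFunction
    have h2 := h.not_dvd_index hNP P.not_dvd_index (isIrrCharacter_hom μ)
      (by rw [charDegree_hom]; exact hp.out.not_dvd_one) hθ fun _ => rfl
    have hPT : (P : Subgroup G) ≤ inertia N fun g => ((μ.comp (inclusion hNP)) g : ℂ) :=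
      fun x hx => (mem_inertia_iff N).2 fun n =>
        (isIrrCharacter_hom μ).isClassFunction.conj_apply ⟨n, hNP n.2⟩ ⟨x, hx⟩
    obtain ⟨S, h3, h4⟩ := exists_invariant_sylow (P.mapSurjective hf).isPGroup'
      (pPrimeCore_coprime p (G ⧸ N)) hH (map_mono hPT) fun e => h2 (e.trans (index_map_dvd _ hf))
    rw [Hyp.sylow_unique (G ⧸ N) (h.quotient N) (isPSolvable_quotient hqs N) _ inferInstance
      (pPrimeCore_coprime p (G ⧸ N)) hH _ _ _ h4 hQ', Sylow.coe_mapSurjective, Subgroup.map_le_map_iff,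
      QuotientGroup.ker_mk', sup_eq_left.2 hNT] at h3
    have h5 : μ ⟨_, hNP hm⟩ = μ ⟨n, hNP hn⟩ := Units.ext ((mem_inertia_iff N).1 (h3 hy) ⟨n, hn⟩)
    have h6 : (⟨⁅y, n⁆, hNP (mul_mem hm (inv_mem hn))⟩ : (P : Subgroup G)) =
        ⟨_, hNP hm⟩ * (⟨n, hNP hn⟩ : (P : Subgroup G))⁻¹ := rfl
    rw [h6, map_mul, map_inv, h5, mul_inv_cancel]
  have h2 : (P : Subgroup G) ⊓ normalizer ((Q : Subgroup G) : Set G) = P := by
    refine eq_of_sup_frattini inf_le_left fun s hs => ?_
    have h3 : s ∈ normalizer ((Q : Subgroup G) : Set G) ⊔ (QuotientGroup.mk' N).ker := by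
      rw [← FGS.comap_normalizer_map_sylow hf]
      exact hQ' (mem_map_of_mem _ hs)
    rw [QuotientGroup.ker_mk', sup_comm] at h3
    obtain ⟨n, hn, t, ht, rfl⟩ := (mem_sup_left_of_le_normalizer le_normalizer_of_normal).1 h3
    obtain ⟨w, hw, c, hc, rfl⟩ := exists_commutator_mul_centralizer le_normalizer_of_normal hcop
      (Or.inl (Core.isSolvable_of_isPGroup Q.isPGroup')) hn
    refine mul_mem (mul_mem (mem_sup_left (commutator_le_frattiniOf_of_isNilpotent
      P.isPGroup'.isNilpotent (h1 hw))) (mem_sup_right ⟨hNP hc.1, centralizer_le_normalizer _ hc.2⟩))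
      (mem_sup_right ⟨?_, ht⟩)
    exact (mul_mem_cancel_left (hNP hn)).1 hs
  have h3 : N ≤ centralizer ((Q : Subgroup G) : Set G) := fun n hn =>
    ((inf_normalizer_eq_inf_centralizer le_normalizer_of_normal (inf_eq_bot_of_coprime' hcop)).le
      ⟨hn, (h2.ge (hNP hn)).2⟩).2
  have h4 : (Q : Subgroup G) ≤ N := by
    refine (le_centralizer_iff.1 h3).trans ?_
    rw [hN]
    exact centralizer_pCore_le_of_isPSolvable hps h0
  have h5 : (Q : Subgroup G) = ⊥ := by rw [← inf_eq_bot_of_coprime' hcop, inf_eq_left.2 h4]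
  have := Q.not_dvd_index
  rwa [h5, ← h0] at this

end Cfsg.Lib.NavWolf
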