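import Mathlib

/-! Counting solutions of `x ^ n = 1` in iterated split extensions of cyclic groups. -/

set_option autoImplicit false

namespace Cfsg.Lib.CharDeg.OT

/-- Number of solutions of `x ^ n = 1`. -/
noncomputable def sol (G : Type*) [Monoid G] (n : ℕ) : ℕ := Nat.card {x : G // x ^ n = 1}

theorem sol_prod (G H : Type*) [Monoid G] [Monoid H] (n : ℕ) :
    sol (G × H) n = sol G n * sol H n := by
  unfold sol
  rw [← Nat.card_prod]
  exact Nat.card_congr ((Equiv.subtypeEquivRight fun x => by simp [Prod.ext_iff]).trans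
    Equiv.subtypeProdEquivProd)

theorem sol_units (M : Type*) [Monoid M] {n : ℕ} (hn : n ≠ 0) : sol Mˣ n = sol M n := by
  refine Nat.card_congr (Equiv.ofBijective (fun x => ⟨x.1, by
    rw [← Units.val_pow_eq_pow_val, x.2, Units.val_one]⟩) ⟨fun a b h => ?_, fun x => ?_⟩)
  · exact Subtype.ext (Units.ext (Subtype.mk.inj h))
  · exact ⟨⟨Units.ofPowEqOne x.1 n x.2 hn, Units.ext (by simp)⟩, rfl⟩

theorem sol_gcd {G : Type*} [Group G] {E : ℕ} (h : ∀ x : G, x ^ E = 1) (n : ℕ) :
    sol G n = sol G (Nat.gcd n E) :=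
  Nat.card_congr (Equiv.subtypeEquivRight fun x => by simp [pow_gcd_eq_one, h])

theorem pow_eq_one_of_sol {G : Type*} [Group G] [Finite G] {E : ℕ} (h : sol G E = sol G 0)
    (x : G) : x ^ E = 1 := by
  classical
  haveI := Fintype.ofFinite G
  simp only [sol, pow_zero, Nat.card_eq_fintype_card, Fintype.card_subtype_true] at h
  by_contra hx
  exact (Fintype.card_subtype_lt (p := fun x : G => x ^ E = 1) hx).ne h

theorem card_orderOf_eq {G H : Type*} [Group G] [Finite G] [Group H] [Finite H]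
    (h : ∀ n, n ≠ 0 → sol G n = sol H n) (n : ℕ) :
    Nat.card {g : G // orderOf g = n} = Nat.card {g : H // orderOf g = n} := by
  classical
  haveI := Fintype.ofFinite G
  haveI := Fintype.ofFinite H
  simp only [sol, Nat.card_eq_fintype_card, Fintype.card_subtype] at h ⊢
  induction n using Nat.strong_induction_on with
  | _ n ih =>
    rcases eq_or_ne n 0 with rfl | hn
    · rw [Finset.card_eq_zero.2, Finset.card_eq_zero.2] <;>
        exact Finset.filter_eq_empty_iff.2 fun x _ => (orderOf_pos x).ne'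
    have h1 := h n hn
    rw [← sum_card_orderOf_eq_card_pow_eq_one (G := G) hn,
      ← sum_card_orderOf_eq_card_pow_eq_one (G := H) hn,
      ← Nat.cons_self_properDivisors hn, Finset.sum_cons, Finset.sum_cons,
      Finset.sum_congr rfl fun m hm => ih m (Nat.mem_properDivisors.1 hm).2] at h1
    exact Nat.add_right_cancel h1

/-- Towers of split cyclic extensions. -/
inductive Tw
  | nil : Tw
  | ext (t : Tw) (m tbl : ℕ) : Tw

/-- Table lookup. -/
def look (tbl k : ℕ) : ℕ := Nat.mod (Nat.shiftRight tbl (Nat.mul 7 k)) 128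

/-- Iterated table lookup. -/
def iter (tbl : ℕ) : ℕ → ℕ → ℕ := fun i => Nat.rec (fun k => k) (fun _ f k => f (look tbl k)) i

namespace Tw

/-- Order of the group. -/
def size : Tw → ℕ
  | nil => 1
  | ext t m _ => Nat.mul t.size m

/-- Multiplication of codes. -/
def mul : Tw → ℕ → ℕ → ℕ
  | nil => fun _ _ => 0
  | ext t m tbl => fun x y => Nat.add
      (Nat.mul (t.mul (Nat.div x m) (iter tbl (Nat.mod x m) (Nat.div y m))) m)
      (Nat.mod (Nat.add (Nat.mod x m) (Nat.mod y m)) m)

/-- The validity check. -/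
def ok : Tw → Bool
  | nil => true
  | ext t m tbl => t.ok && Nat.blt 0 m && (List.range t.size).all fun a =>
      Nat.blt (look tbl a) t.size && Nat.beq (iter tbl m a) a && (List.range t.size).all fun b =>
        Nat.beq (look tbl (t.mul a b)) (t.mul (look tbl a) (look tbl b))

/-- Powers of codes. -/
def pw (t : Tw) (x : ℕ) : ℕ → ℕ := fun d => Nat.rec 0 (fun _ y => t.mul y x) d

/-- Number of solutions. -/
def count (t : Tw) (d : ℕ) : ℕ := (List.range t.size).countP fun x => Nat.beq (t.pw x d) 0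

theorem exists_group (t : Tw) (h : t.ok = true) : ∃ (G : Type) (_ : Group G) (e : G → ℕ),
    Group.IsSolvable G ∧ Function.Injective e ∧ (∀ k, k < t.size ↔ ∃ g, e g = k) ∧ e 1 = 0 ∧
      ∀ a b, e (a * b) = t.mul (e a) (e b) := by
  induction t with
  | nil =>
    exact ⟨PUnit, inferInstance, fun _ => 0, inferInstance, fun _ _ _ => rfl,
      fun k => by simp [size, eq_comm], rfl, fun _ _ => rfl⟩
  | ext t m tbl ih =>
    simp only [ok, Bool.and_eq_true, List.all_eq_true, List.mem_range, Nat.blt_eq,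
      Nat.beq_eq] at h
    obtain ⟨⟨h0, hm⟩, h⟩ := h
    obtain ⟨G, _, e, hs, he, hr, h1, hmul⟩ := ih h0
    have hlt : ∀ g, e g < t.size := fun g => (hr _).2 ⟨g, rfl⟩
    choose f hf using fun g : G => (hr _).1 (h _ (hlt g)).1.1
    have hit : ∀ (i : ℕ) (g : G), e (f^[i] g) = iter tbl i (e g) := by
      intro i
      induction i with
      | zero => exact fun _ => rfl
      | succ i ih => intro g; rw [Function.iterate_succ_apply, ih, hf]; rfl
    have hfm : ∀ g, f^[m] g = g := fun g => he ((hit m g).trans (h _ (hlt g)).1.2)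
    let φ₀ : G →* G := MonoidHom.mk' f fun a b => he (by
      rw [hf, hmul, hmul, hf, hf]; exact (h _ (hlt a)).2 _ (hlt b))
    obtain ⟨m, rfl⟩ : ∃ k, m = k + 1 := ⟨m - 1, by omega⟩
    let φ : MulAut G :=
      { toFun := f
        invFun := f^[m]
        left_inv := hfm
        right_inv := fun g => (Function.iterate_succ_apply' f m g).symm.trans (hfm g)
        map_mul' := φ₀.map_mul }
    have hφ : ∀ (i : ℕ) (g : G), (φ ^ i) g = f^[i] g := by
      intro i
      induction i with
      | zero => exact fun _ => rfl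
      | succ i ih => intro g; rw [pow_succ, MulAut.mul_apply, ih]; rfl
    have hφm : φ ^ (m + 1) = 1 := MulEquiv.ext fun g => (hφ _ g).trans (hfm g)
    let ψ : Multiplicative (ZMod (m + 1)) →* MulAut G := MonoidHom.mk'
      (fun i => φ ^ (Multiplicative.toAdd i).val) fun i j => by
        rw [toAdd_mul, ZMod.val_add, ← pow_eq_pow_mod _ hφm, pow_add]
    have hv : ∀ i : ZMod (m + 1), i.val < m + 1 := ZMod.val_lt
    have hd : ∀ (a : ℕ) (i : ZMod (m + 1)), (a * (m + 1) + i.val) / (m + 1) = a := fun a i => by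
      rw [mul_comm, Nat.mul_add_div (by omega), Nat.div_eq_of_lt (hv i), add_zero]
    have hmd : ∀ (a : ℕ) (i : ZMod (m + 1)), (a * (m + 1) + i.val) % (m + 1) = i.val :=
      fun a i => by rw [Nat.mul_add_mod', Nat.mod_eq_of_lt (hv i)]
    refine ⟨G ⋊[ψ] Multiplicative (ZMod (m + 1)), inferInstance,
      fun x => e x.left * (m + 1) + (Multiplicative.toAdd x.right).val, ?_, ?_, ?_, ?_, ?_⟩
    · exact Group.isSolvable_of_ker_le_range SemidirectProduct.inl SemidirectProduct.rightHom
        SemidirectProduct.range_inl_eq_ker_rightHom.ge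
    · intro x y hxy
      have h2 := congrArg (· / (m + 1)) hxy
      have h3 := congrArg (· % (m + 1)) hxy
      simp only [hd, hmd] at h2 h3
      exact SemidirectProduct.ext (he h2) (ZMod.val_injective _ h3)
    · intro k
      change k < t.size * (m + 1) ↔ _
      constructor
      · intro hk
        obtain ⟨g, hg⟩ := (hr (k / (m + 1))).1 (Nat.div_lt_of_lt_mul (by rwa [mul_comm]))
        refine ⟨⟨g, Multiplicative.ofAdd (k : ZMod (m + 1))⟩, ?_⟩
        simp only [hg, toAdd_ofAdd, ZMod.val_natCast]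
        exact Nat.div_add_mod' _ _
      · rintro ⟨x, rfl⟩
        have := hlt x.left
        have := hv (Multiplicative.toAdd x.right)
        nlinarith
    · simp [h1]
    · intro a b
      change _ = t.mul (_ / (m + 1)) (iter tbl (_ % (m + 1)) (_ / (m + 1))) * (m + 1)
        + (_ % (m + 1) + _ % (m + 1)) % (m + 1)
      simp only [hd, hmd]
      rw [← hit, ← hmul, ← ZMod.val_add, ← hφ]
      rfl

end Tw

/-- The function is realised by a finite solvable group. -/
def Real (f : ℕ → ℕ) : Prop :=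
  ∃ (G : Type) (_ : Group G) (_ : Finite G), Group.IsSolvable G ∧ ∀ d, sol G d = f d

theorem Real.one : Real fun _ => 1 :=
  ⟨PUnit, inferInstance, inferInstance, inferInstance, fun d => by simp [sol]⟩

theorem Real.mul {f g : ℕ → ℕ} (hf : Real f) (hg : Real g) : Real fun d => f d * g d := by
  obtain ⟨G, _, _, _, hG⟩ := hf
  obtain ⟨H, _, _, _, hH⟩ := hg
  exact ⟨G × H, inferInstance, inferInstance, inferInstance, fun d => by rw [sol_prod, hG, hH]⟩

theorem Real.pow {f : ℕ → ℕ} (hf : Real f) (n : ℕ) : Real fun d => f d ^ n := by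
  induction n with
  | zero => exact Real.one
  | succ n ih => exact ih.mul hf

theorem Tw.real (t : Tw) (h : t.ok = true) : Real t.count := by
  classical
  obtain ⟨G, _, e, hs, he, hr, h1, hmul⟩ := t.exists_group h
  haveI : Finite G := Finite.of_injective (fun g => (⟨e g, (hr _).2 ⟨g, rfl⟩⟩ : Fin t.size))
    fun a b hab => he (Fin.mk.inj hab)
  haveI := Fintype.ofFinite G
  refine ⟨G, inferInstance, inferInstance, hs, fun d => ?_⟩
  have hp : ∀ (g : G) (d : ℕ), e (g ^ d) = t.pw (e g) d := by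
    intro g d
    induction d with
    | zero => rw [pow_zero]; exact h1
    | succ d ih => rw [pow_succ, hmul, ih]; rfl
  rw [sol, Tw.count, List.countP_eq_length_filter, ← List.toFinset_card_of_nodup
    (List.nodup_range.filter _), Nat.card_eq_fintype_card, Fintype.card_subtype]
  refine Finset.card_bij (fun g _ => e g) ?_ (fun a _ b _ hab => he hab) ?_
  · intro g hg
    simp only [List.toFinset_filter, Finset.mem_filter, List.mem_toFinset, List.mem_range,
      Nat.beq_eq, Finset.mem_univ, true_and] at hg ⊢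
    exact ⟨(hr _).2 ⟨g, rfl⟩, by rw [← hp, hg, h1]⟩
  · intro k hk
    simp only [List.toFinset_filter, Finset.mem_filter, List.mem_toFinset, List.mem_range,
      Nat.beq_eq] at hk
    obtain ⟨g, rfl⟩ := (hr k).1 hk.1
    exact ⟨g, Finset.mem_filter.2 ⟨Finset.mem_univ _, he (by rw [hp, hk.2, h1])⟩, rfl⟩

/-- Product of counts over a list of towers with multiplicities. -/
def countL (L : List (Tw × ℕ)) (d : ℕ) : ℕ := (L.map fun x => x.1.count d ^ x.2).prod

theorem real_countL (L : List (Tw × ℕ)) (h : (L.all fun x => x.1.ok) = true) :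
    Real (countL L) := by
  induction L with
  | nil => exact Real.one
  | cons x L ih =>
    simp only [List.all_cons, Bool.and_eq_true] at h
    exact ((x.1.real h.1).pow x.2).mul (ih h.2)

/-- Three by three matrices over the field with two elements. -/
@[ext] structure M3 where
  (a b c d e f g h i : ZMod 2)
  deriving DecidableEq

instance M3.fintype : Fintype M3 :=
  Fintype.ofEquiv ((ZMod 2 × ZMod 2 × ZMod 2) × (ZMod 2 × ZMod 2 × ZMod 2) ×
    (ZMod 2 × ZMod 2 × ZMod 2))
    { toFun := fun x => ⟨x.1.1, x.1.2.1, x.1.2.2, x.2.1.1, x.2.1.2.1, x.2.1.2.2, x.2.2.1,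
        x.2.2.2.1, x.2.2.2.2⟩
      invFun := fun x => ⟨⟨x.a, x.b, x.c⟩, ⟨x.d, x.e, x.f⟩, ⟨x.g, x.h, x.i⟩⟩
      left_inv := fun _ => rfl
      right_inv := fun _ => rfl }

instance M3.monoid : Monoid M3 where
  mul x y := ⟨x.a * y.a + x.b * y.d + x.c * y.g, x.a * y.b + x.b * y.e + x.c * y.h,
    x.a * y.c + x.b * y.f + x.c * y.i, x.d * y.a + x.e * y.d + x.f * y.g,
    x.d * y.b + x.e * y.e + x.f * y.h, x.d * y.c + x.e * y.f + x.f * y.i,
    x.g * y.a + x.h * y.d + x.i * y.g, x.g * y.b + x.h * y.e + x.i * y.h,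
    x.g * y.c + x.h * y.f + x.i * y.i⟩
  one := ⟨1, 0, 0, 0, 1, 0, 0, 0, 1⟩
  mul_assoc x y z := by
    refine M3.ext ?_ ?_ ?_ ?_ ?_ ?_ ?_ ?_ ?_ <;>
    · change (_ * _ + _ * _ + _ * _) * _ + (_ * _ + _ * _ + _ * _) * _ + (_ * _ + _ * _ + _ * _) * _
        = _ * (_ * _ + _ * _ + _ * _) + _ * (_ * _ + _ * _ + _ * _) + _ * (_ * _ + _ * _ + _ * _)
      ring
  one_mul := by decide +kernel
  mul_one := by decide +kernel

/-- Determinant. -/
def M3.det (x : M3) : ZMod 2 :=
  x.a * (x.e * x.i - x.f * x.h) - x.b * (x.d * x.i - x.f * x.g) + x.c * (x.d * x.h - x.e * x.g)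

theorem M3.det_mul (x y : M3) : (x * y).det = x.det * y.det := by
  change M3.det ⟨_, _, _, _, _, _, _, _, _⟩ = _
  simp only [M3.det]
  ring

theorem M3.pow_eq_one (x : M3ˣ) : x ^ 84 = 1 := by
  have h1 : ∀ x : M3, x.det ≠ 0 → ((x ^ 7) ^ 3) ^ 4 = 1 := by decide +kernel
  have h2 := M3.det_mul x.1 x⁻¹.1
  rw [Units.mul_inv] at h2
  apply Units.ext
  have := h1 x fun h => by rw [h, zero_mul] at h2; revert h2; decide
  rwa [← pow_mul, ← pow_mul] at this

open scoped commutatorElement in
theorem M3.not_solvable : ¬ Group.IsSolvable M3ˣ := by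
  let x : M3ˣ := ⟨⟨1, 1, 0, 0, 1, 0, 0, 0, 1⟩, ⟨1, 1, 0, 0, 1, 0, 0, 0, 1⟩, by decide, by decide⟩
  let y : M3ˣ := ⟨⟨1, 0, 0, 0, 0, 1, 0, 1, 0⟩, ⟨1, 0, 0, 0, 0, 1, 0, 1, 0⟩, by decide, by decide⟩
  let z : M3ˣ := ⟨⟨0, 1, 0, 0, 0, 1, 1, 0, 0⟩, ⟨0, 0, 1, 1, 0, 0, 0, 1, 0⟩, by decide, by decide⟩
  have key : x = ⁅y * x * y⁻¹, z * (y * x * y⁻¹) * z⁻¹⁆ := by decide
  refine not_isSolvable_of_mem_derivedSeries (show x ≠ 1 by decide) fun n => ?_
  induction n with
  | zero => exact Subgroup.mem_top x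
  | succ n ih =>
    rw [key]
    have h := (derivedSeries_normal _ _).conj_mem _ ih y
    exact Subgroup.commutator_mem_commutator h ((derivedSeries_normal _ _).conj_mem _ h z)

theorem M3.sol_aux : ∀ x ∈ [(1, 1, 1), (2, 1, 22), (3, 1, 57), (4, 1, 64), (6, 1, 78), (7, 1, 49),
    (4, 3, 120), (2, 7, 70), (3, 7, 105), (4, 7, 112), (6, 7, 126), (12, 7, 168)],
    (Finset.univ.filter fun y : M3 => (y ^ x.1) ^ x.2.1 = 1).card = x.2.2 := by decide +kernel

theorem M3.sol_eq : ∀ x ∈ [(1, 1, 1), (2, 1, 22), (3, 1, 57), (4, 1, 64), (6, 1, 78), (7, 1, 49),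
    (4, 3, 120), (2, 7, 70), (3, 7, 105), (4, 7, 112), (6, 7, 126), (12, 7, 168)],
    sol M3 (x.1 * x.2.1) = x.2.2 := by
  intro x hx
  rw [sol, Nat.card_eq_fintype_card, Fintype.card_subtype, ← M3.sol_aux x hx]
  simp only [pow_mul]

end Cfsg.Lib.CharDeg.OT
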