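import Cfsg.Agent.Lib.BG.Hall

/-! Subgroups with a normal Sylow subgroup and cyclic quotient. -/

set_option autoImplicit false

namespace Cfsg.Lib.CharDeg.PByCyc

open Subgroup Cfsg.Lib Cfsg.Lib.BG Cfsg.Lib.Transfer

theorem pbc_iff {G : Type*} [Group G] [Finite G] {p : ℕ} [Fact p.Prime] (Φ : Subgroup G → Prop) :
    (∀ H : Subgroup G, (∀ S : Sylow p H, (S : Subgroup H).Normal) →
      (∀ (S : Sylow p H) [(S : Subgroup H).Normal], IsCyclic (H ⧸ (S : Subgroup H))) → Φ H) ↔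
    ∀ (Q : Subgroup G) (c : G), IsPGroup p Q → c ∈ 𝐍(Q) → PiElt {p}ᶜ c → Φ (Q ⊔ zpowers c) := by
  constructor
  · intro h Q c hQ hc hc'
    have hn : zpowers c ≤ 𝐍(Q) := zpowers_le.2 hc
    have hQ' : PiGrp {p} Q := PiGrp.p_iff.2 hQ
    have hsd : SD Q (zpowers c) (Q ⊔ zpowers c) := ⟨hn, hQ'.inf_eq_bot hc'.zpowers, rfl⟩
    have h1 : Syl p Q (Q ⊔ zpowers c) := (Hall.of_sd hsd hQ' hc'.zpowers).1
    have h2 : ∀ S : Sylow p ↥(Q ⊔ zpowers c), (S : Subgroup _) = Q.subgroupOf (Q ⊔ zpowers c) := by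
      intro S
      obtain ⟨g, hg, e⟩ := Syl.exists_conj_eq h1 (Syl.of_sylow S)
      rw [conj_eq_of_norm (sup_le_norm_left hn hg)] at e
      rw [← comap_map_eq_self_of_injective (Q ⊔ zpowers c).subtype_injective (S : Subgroup _), e]
      rfl
    refine h _ (fun S => ?_) (fun S _ => ?_)
    · rw [h2]
      exact normal_subgroupOf_of_le_normalizer (sup_le_norm_left hn)
    · refine ⟨⟨QuotientGroup.mk ⟨c, mem_sup_right (mem_zpowers c)⟩, fun x => ?_⟩⟩
      obtain ⟨⟨x, hx⟩, rfl⟩ := QuotientGroup.mk_surjective x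
      obtain ⟨y, ⟨k, rfl⟩, q, hq, rfl⟩ :=
        (mem_sup_right_norm hn).1 (by rwa [sup_comm] at hx)
      refine ⟨k, ?_⟩
      change (QuotientGroup.mk _ : _ ⧸ (S : Subgroup ↥(Q ⊔ zpowers c))) ^ k = _
      rw [← QuotientGroup.mk_zpow, QuotientGroup.eq, h2, mem_subgroupOf]
      simpa using hq
  · intro h H h1 h2
    obtain ⟨S⟩ : Nonempty (Sylow p H) := inferInstance
    haveI := h1 S
    obtain ⟨⟨g, hg⟩⟩ := h2 S
    obtain ⟨⟨g, hgH⟩, rfl⟩ := QuotientGroup.mk_surjective g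
    obtain ⟨y, hy, z, hz, hy', hz', e, -⟩ := exists_pi_decomp {p} g
    have hS := Syl.of_sylow S
    have hn : H ≤ 𝐍((S : Subgroup H).map H.subtype) := (Nml.of_normal H _).norm
    have hyQ := hS.mem_of_normal hn (zpowers_le.2 hgH hy) hy'
    have hzH : z ∈ H := zpowers_le.2 hgH hz
    have key : (S : Subgroup H).map H.subtype ⊔ zpowers z = H := by
      refine le_antisymm (sup_le hS.le (zpowers_le.2 hzH)) fun x hx => ?_
      obtain ⟨k, hk⟩ := hg (QuotientGroup.mk ⟨x, hx⟩)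
      change (QuotientGroup.mk _ : _ ⧸ (S : Subgroup H)) ^ k = _ at hk
      rw [← QuotientGroup.mk_zpow, QuotientGroup.eq] at hk
      have h3 : (g ^ k)⁻¹ * x ∈ (S : Subgroup H).map H.subtype := mem_map_of_mem H.subtype hk
      have h4 : g ∈ (S : Subgroup H).map H.subtype ⊔ zpowers z :=
        e ▸ mul_mem (mem_sup_left hyQ) (mem_sup_right (mem_zpowers z))
      have := mul_mem (zpow_mem h4 k) (mem_sup_left h3)
      rwa [mul_inv_cancel_left] at this
    rw [← key]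
    exact h _ z hS.pgroup (hn hzH) hz'

end Cfsg.Lib.CharDeg.PByCyc
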