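import Cfsg.Agent.Lib.CharDeg.PairChar

/-! Glauberman's characterization of the Suzuki groups: odd primes. -/

set_option autoImplicit false

namespace Cfsg.Lib.CharDeg.Pair

open Subgroup Cfsg.Lib.Modular Cfsg.Lib.Core Cfsg.Lib.Transfer

variable {G : Type*} [Group G] [Finite G] {p : ℕ} [hp : Fact p.Prime] (P : Sylow p G)

local notation "𝒫" => (P : Subgroup G)
local notation "𝒩" => normalizer ((P : Subgroup G) : Set G)

theorem hb_conj (hb : ∀ x ∈ 𝒫, orderOf x = p → HasNormalPComplement p (centralizer ({x} : Set G)))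
    (x : G) (hx : orderOf x = p) : HasNormalPComplement p (centralizer ({x} : Set G)) := by
  obtain ⟨y, hy, e⟩ := exists_isConj_mem_sylow P (x := x) ⟨1, by rwa [pow_one]⟩
  obtain ⟨g, rfl⟩ := isConj_iff.1 e
  refine hasNormalPComplement_of_injective (hb _ hy (by rwa [Modular.orderOf_conj_eq]))
    (((MulAut.conj g).toMonoidHom.comp (Subgroup.subtype _)).codRestrict _ fun c =>
      mem_centralizer_singleton_iff.2 ?_) fun a b e => ?_
  · have := congrArg (MulAut.conj g) (mem_centralizer_singleton_iff.1 c.2)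
    rw [map_mul, map_mul] at this
    exact this
  · exact Subtype.ext ((MulAut.conj g).injective (congrArg Subtype.val e :))

/-- `Ω₁(Z(P))`. -/
def zOm : Subgroup G where
  carrier := {a | a ∈ 𝒫 ∧ (∀ y ∈ 𝒫, a * y = y * a) ∧ a ^ p = 1}
  one_mem' := ⟨one_mem _, by simp, one_pow _⟩
  mul_mem' := fun {a b} ha hb => ⟨mul_mem ha.1 hb.1, fun y hy => by
    rw [mul_assoc, hb.2.1 y hy, ← mul_assoc, ha.2.1 y hy, mul_assoc], by
    rw [Commute.mul_pow (ha.2.1 b hb.1), ha.2.2, hb.2.2, one_mul]⟩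
  inv_mem' := fun {a} ha => ⟨inv_mem ha.1, fun y hy => (Commute.inv_left (ha.2.1 y hy) :), by
    rw [inv_pow, ha.2.2, inv_one]⟩

theorem zOm_ne_bot (h : 𝒫 ≠ ⊥) : zOm P ≠ ⊥ := by
  have := (nontrivial_iff_ne_bot _).2 h
  have := P.isPGroup'.center_nontrivial
  obtain ⟨z, hz⟩ := exists_prime_orderOf_dvd_card' p
    (((P.isPGroup'.to_subgroup (center 𝒫)).nontrivial_iff_card.1 this).elim fun n h =>
      h.2 ▸ dvd_pow_self p h.1.ne')
  have h1 : orderOf (z.1.1 : G) = p := by rwa [orderOf_coe, orderOf_coe]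
  refine ne_bot_iff_exists_ne_one.2 ⟨⟨z.1.1, z.1.2, fun y hy =>
    (congrArg Subtype.val (mem_center_iff.1 z.2 ⟨y, hy⟩)).symm, orderOf_dvd_iff_pow_eq_one.1 h1.dvd⟩,
    fun e => hp.out.ne_one ?_⟩
  rw [← h1, show (z.1.1 : G) = 1 from congrArg Subtype.val e, orderOf_one]

variable {P}

theorem ph_zOm (ha : ∀ x ∈ 𝒫, ∀ y ∈ 𝒫, (∃ g : G, g * x * g⁻¹ = y) → ∃ n ∈ 𝒩, n * x * n⁻¹ = y)
    (hb : ∀ x ∈ 𝒫, orderOf x = p → HasNormalPComplement p (centralizer ({x} : Set G)))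
    (hc : ∀ x y : G, orderOf x = p → orderOf y = p → IsPSolvable p (closure ({x, y} : Set G))) :
    PH P (zOm P) := by
  refine ⟨fun _ h => h.1, fun _ h => h.2.1, fun _ h => h.2.2, fun a h x hx e => ?_,
    hb_conj P hb, hc⟩
  obtain ⟨n, hn, rfl⟩ := ha a h.1 x hx (isConj_iff.1 e)
  refine ⟨hx, fun y hy => ?_, by rw [conj_pow, h.2.2]; simp⟩
  have := h.2.1 _ ((mem_normalizer_iff''.1 hn y).1 hy)
  calc n * a * n⁻¹ * y = n * (a * (n⁻¹ * y * n)) * n⁻¹ := by group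
    _ = _ := by rw [this]; group

theorem PH.centralizer_eq {A : Subgroup G} (h : PH P A) (hA : A ≠ ⊥) (h0 : pPrimeCore p G = ⊥)
    {C : Subgroup G} [C.Normal] (h1 : 𝒫 ≤ C) (h2 : C ≤ centralizer (A : Set G)) : C = 𝒫 := by
  obtain ⟨⟨a, ha⟩, a1⟩ := ne_bot_iff_exists_ne_one.1 hA
  obtain ⟨N, hn, h4, h5⟩ := hasNormalPComplement_iff_exists.1 (hasNormalPComplement_of_le
    (h2.trans (centralizer_le (Set.singleton_subset_iff.2 ha)))
    (h.hb' (h.le ha) fun e => a1 (Subtype.ext e)))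
  obtain rfl := pPrimeCore_eq_bot_iff.1 (by
    rw [pPrimeCore_eq_subgroupOf_of_normal, h0, bot_subgroupOf]) N hn h4
  exact P.is_maximal' (h5.of_equiv QuotientGroup.quotientBot) h1

theorem sylow_normal (h2 : p ≠ 2) (h0 : pPrimeCore p G = ⊥)
    (ha : ∀ x ∈ 𝒫, ∀ y ∈ 𝒫, (∃ g : G, g * x * g⁻¹ = y) → ∃ n ∈ 𝒩, n * x * n⁻¹ = y)
    (hb : ∀ x ∈ 𝒫, orderOf x = p → HasNormalPComplement p (centralizer ({x} : Set G)))
    (hc : ∀ x y : G, orderOf x = p → orderOf y = p → IsPSolvable p (closure ({x, y} : Set G))) :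
    (𝒫).Normal := by
  by_cases hP : 𝒫 = ⊥
  · rw [hP]; infer_instance
  have h := ph_zOm ha hb hc
  have := PH.normal h2 _ rfl h h0
  rw [← h.centralizer_eq (zOm_ne_bot P hP) h0 (C := centralizer (zOm P : Set G))
    (fun y hy a ha => h.cent a ha y hy) le_rfl]
  infer_instance

end Cfsg.Lib.CharDeg.Pair
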