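import Cfsg.Agent.Lib.CharDeg.FixAvg
import Cfsg.Agent.Lib.Clifford.GoingDown
import Cfsg.Agent.Lib.Clifford.Correspondence

/-! # Degrees of primitive characters of solvable groups and class sizes -/

set_option autoImplicit false

namespace Cfsg.Lib.FixAvg

open Subgroup Cfsg.Lib.BG Cfsg.Lib.PF
open scoped IsMulCommutative

variable {G : Type*} [Group G] [Fintype G] {L K : Subgroup G} (p : ℕ) [hp : Fact p.Prime]

theorem step (hs : Group.IsSolvable G) (h : Chief ⊤ L K) (N : Subgroup G) (hN : p ∣ L.relIndex K → ⁅K, N⁆ ≤ L) :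
    ∃ c : G → ℕ, (∀ g, ∀ n ∈ N, (Nat.card ↥(K ⊓ 𝐂[g * n])).factorization p ≤
      (Nat.card ↥(L ⊓ 𝐂[g * n])).factorization p + c g) ∧ ∀ f : ℕ, f = 1 ∨ f ^ 2 = L.relIndex K →
      ∑ g, (c g + f.factorization p) ≤ Nat.card G * (L.relIndex K).factorization p := by
  have : L.Normal := normalizer_eq_top_iff.1 (top_le_iff.1 h.nmlV.2)
  have : K.Normal := normalizer_eq_top_iff.1 (top_le_iff.1 h.nmlU.2)
  obtain ⟨q, hq, h1, -, k, -, h2⟩ := h.elem inferInstance
  let π := QuotientGroup.mk' L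
  have hk : π.ker = L := QuotientGroup.ker_mk' L
  have : (K.map π).Normal := Normal.map ‹_› _ (QuotientGroup.mk'_surjective L)
  have hV : Nat.card (K.map π) = L.relIndex K := by rw [← relIndex_ker, hk]
  have d : ∀ g, Nat.card ↥(K.map π ⊓ 𝐂[π g]) ∣ L.relIndex K := fun g => hV ▸ card_dvd_of_le inf_le_left
  have d1 : ∀ g, (Nat.card ↥(K.map π ⊓ 𝐂[π g])).factorization p ≤ (L.relIndex K).factorization p := fun g =>
    (Nat.factorization_le_iff_dvd Nat.card_pos.ne' (relIndex_ne_zero _ _)).2 (d g) p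
  refine ⟨fun g => (Nat.card ↥(K.map π ⊓ 𝐂[π g])).factorization p, fun g n hn => ?_, fun f hf => ?_⟩
  · rw [← Core.card_map_mul_card_inf_ker π (K ⊓ 𝐂[g * n]), Nat.factorization_mul Nat.card_pos.ne' Nat.card_pos.ne',
      Finsupp.add_apply, add_comm, hk, inf_right_comm, inf_of_le_right h.lt.le]
    refine Nat.add_le_add_left ?_ _
    have l1 : (K ⊓ 𝐂[g * n]).map π ≤ K.map π ⊓ 𝐂[π (g * n)] := by
      rintro _ ⟨x, hx, rfl⟩
      exact ⟨mem_map_of_mem _ hx.1, mem_centralizer_singleton_iff.2 (by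
        rw [← map_mul, ← map_mul, mem_centralizer_singleton_iff.1 hx.2])⟩
    by_cases hd : p ∣ L.relIndex K
    · refine (Nat.factorization_le_iff_dvd Nat.card_pos.ne' Nat.card_pos.ne').2 (card_dvd_of_le (l1.trans ?_)) p
      rintro _ ⟨⟨x, hx, rfl⟩, hc⟩
      have e : Commute (π x) (π n) := commutatorElement_eq_one_iff_commute.1 (by
        rw [← map_commutatorElement]; exact hk.ge (hN hd (commutator_mem_commutator hx hn)))
      have e2 : Commute (π x) (π g * π n) := map_mul π g n ▸ mem_centralizer_singleton_iff.1 hc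
      exact ⟨mem_map_of_mem _ hx, mem_centralizer_singleton_iff.2 (Commute.eq (by simpa using e2.mul_right e.inv_right))⟩
    · rw [Nat.factorization_eq_zero_of_not_dvd fun e => hd (e.trans ((card_dvd_of_le l1).trans (d _)))]
      exact Nat.zero_le _
  by_cases h0 : f.factorization p = 0
  · rw [h0, Nat.card_eq_fintype_card (α := G)]
    exact Finset.sum_le_card_nsmul _ _ _ fun g _ => d1 g
  replace hf := hf.resolve_left fun e => h0 (by simp [e])
  obtain rfl : p = q := (Nat.prime_dvd_prime_iff_eq hp.out hq).1 (hp.out.dvd_of_dvd_pow (h2 ▸ hf ▸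
    dvd_pow (Nat.dvd_of_factorization_pos h0) two_ne_zero))
  have : IsMulCommutative (K.map π) := by
    rw [← le_centralizer_iff_isMulCommutative, ← commutator_eq_bot_iff_le_centralizer, ← map_commutator,
      Subgroup.map_eq_bot_iff, hk]
    exact h1
  let ρ : G →* MulAut (K.map π) := MulAut.conjNormal.comp π
  have hc := chief_map h π hk.le
  rw [(Subgroup.map_eq_bot_iff _).2 hk.ge] at hc
  have hi : ∀ W : Subgroup (K.map π), (∀ g, ∀ w ∈ W, ρ g w ∈ W) → W = ⊥ ∨ W = ⊤ := fun W hW => by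
    refine (hc.min (W.map (K.map π).subtype) ?_ bot_le (map_subtype_le _)).imp
      (map_eq_bot_iff_of_injective _ (subtype_injective _)).1 fun e => map_injective (subtype_injective _)
        (by rw [e, ← MonoidHom.range_eq_map, range_subtype])
    rintro _ ⟨g, -, rfl⟩
    refine mem_normalizer_fintype ?_
    rintro _ ⟨w, hw, rfl⟩
    exact ⟨_, hW g w hw, rfl⟩
  have a := avg (p := p) hs hi (.of_card (hV.trans h2)) fun e => by
    have := (K.map π).nontrivial_iff_ne_bot.2 hc.lt.ne'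
    have : IsSimpleGroup (K.map π) := ⟨fun W _ => hi W fun g w hw => by rwa [show ρ g = 1 from e.ge (mem_top g)]⟩
    exact (Nat.prime_iff.1 (IsSimpleGroup.prime_card (α := K.map π))).not_isSquare ⟨f, by rw [hV, ← hf, sq]⟩
  have e : ∀ g, Nat.card (fx (ρ g)) = p ^ (Nat.card ↥(K.map π ⊓ 𝐂[π g])).factorization p := fun g => by
    obtain ⟨j, -, hj⟩ := (Nat.dvd_prime_pow hq).1 (h2 ▸ d g)
    rw [hj, hq.factorization_pow, Finsupp.single_eq_same, ← hj, inf_comm, ← Core.card_subgroupOf]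
    congr 2
    ext v
    rw [mem_fx, mem_subgroupOf, mem_centralizer_singleton_iff, Subtype.ext_iff, eq_comm (a := _ * _)]
    exact mul_inv_eq_iff_eq_mul
  simp only [e, hV, h2, ← pow_mul, Finset.prod_pow_eq_pow_sum, ← Finset.sum_mul] at a
  have b := congrArg (fun n : ℕ => n.factorization p) (hf.trans h2)
  simp only [Nat.factorization_pow, Finsupp.smul_apply, hq.factorization_self, smul_eq_mul, mul_one] at b
  rw [Nat.pow_le_pow_iff_right hq.one_lt, ← b] at a
  rw [Finset.sum_add_distrib, h2, hq.factorization_pow, Finsupp.single_eq_same, ← b, Finset.sum_const, smul_eq_mul,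
    Finset.card_univ, ← Nat.card_eq_fintype_card]
  nlinarith

theorem ind_aux (hs : Group.IsSolvable G) {χ : G → ℂ} (hχ : χ ∈ Irr (⊤ : Subgroup G))
    (hh : ∀ L : Subgroup G, L.Normal → Homog L χ) (N : Subgroup G)
    (hN : ∀ L K : Subgroup G, Chief ⊤ L K → p ∣ L.relIndex K → ⁅K, N⁆ ≤ L) (K : Subgroup G) (hK : K.Normal)
    {θ : G → ℂ} (hθ : θ ∈ Irr K) {e : ℕ} (he : res K χ = (e : ℂ) • θ) : ∃ F : G → ℕ,
    (∀ g, ∀ n ∈ N, (Nat.card ↥(K ⊓ 𝐂[g * n])).factorization p ≤ F g) ∧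
      ∑ g, (F g + (deg θ).factorization p) ≤ Nat.card G * (Nat.card K).factorization p := by
  induction K using WellFoundedLT.induction generalizing θ e with | _ K ih => ?_
  have z : ∀ {M : Subgroup G} {e : ℕ} {θ : G → ℂ}, res M χ = (e : ℂ) • θ → (e : ℂ) ≠ 0 := fun h h0 =>
    Irr.apply_one_ne_zero hχ (by simpa [h0] using congrFun h 1)
  by_cases hb : K = ⊥
  · subst hb
    have : deg θ = 1 := Nat.dvd_one.1 (by simpa using Irr.deg_dvd_card hθ)
    exact ⟨0, by simp, by simp [this]⟩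
  obtain ⟨L, h, -⟩ := exists_chief_ge (M := ⊤) (V := ⊥) (U := K) ⟨le_top, le_normalizer_of_normal⟩
    ⟨le_top, le_normalizer_of_normal⟩ (bot_lt_iff_ne_bot.2 hb)
  have hL : L.Normal := normalizer_eq_top_iff.1 (top_le_iff.1 h.nmlV.2)
  obtain ⟨c, c1, c2⟩ := step p hs h N (hN L K h)
  obtain ⟨-, -, h1, -⟩ := h.elem inferInstance
  have hr : res L χ = (e : ℂ) • res L θ := by rw [← res_res h.lt.le, he, map_smul]
  obtain ⟨φ, hφ, f, f1, f2⟩ : ∃ φ ∈ Irr L, ∃ f : ℕ, res L θ = (f : ℂ) • φ ∧ (f = 1 ∨ f ^ 2 = L.relIndex K) := by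
    rcases Irr.going_down h h1 hθ (le_inertia_of_res_eq_smul h.nmlU.2 (Irr.mem_CF hχ) (z he) he) with
      a | ⟨φ, a, f, b, c⟩ | ⟨φ, a, b, c⟩
    · exact ⟨_, a, 1, by simp, .inl rfl⟩
    · exact ⟨φ, a, f, b, .inr c⟩
    obtain ⟨ψ, hψ, e', he'⟩ := hh L hL
    obtain rfl : ψ = φ := res_eq_smul_of_cfdot_ne_zero hψ a he' (by
      rw [← cfdot_res_left, hr, cfdot_smul_left, cfdot_res_left, ← cfdot_ind_right h.lt.le _ (Irr.mem_CF hθ), c,
        Irr.cfdot_self hθ, mul_one]
      exact z he)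
    exact absurd ((le_inf le_rfl (le_top.trans (le_inertia_of_res_eq_smul h.nmlV.2 (Irr.mem_CF hχ) (z he') he'))).trans b)
      (not_le_of_gt h.lt)
  obtain ⟨F, F1, F2⟩ := ih L h.lt hL hφ (e := e * f) (by rw [hr, f1, smul_smul, Nat.cast_mul])
  refine ⟨fun g => F g + c g, fun g n hn => (c1 g n hn).trans (Nat.add_le_add_right (F1 g n hn) _), ?_⟩
  have d : deg θ = f * deg φ := deg_of_eq (by simpa [Irr.apply_one hφ] using congrFun f1 1)
  have d0 := (Irr.deg_pos hθ).ne'
  rw [d] at d0 ⊢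
  rw [← BG.card_mul_relIndex h.lt.le, Nat.factorization_mul Nat.card_pos.ne' (relIndex_ne_zero _ _),
    Nat.factorization_mul (left_ne_zero_of_mul d0) (right_ne_zero_of_mul d0)]
  have := c2 f f2
  simp only [Finset.sum_add_distrib, Finsupp.add_apply, mul_add] at *
  omega

/-- the `p`-part of the degree of a primitive character of a solvable group divides some class size -/
theorem main (hs : Group.IsSolvable G) (χ : IrrCharacter G) (hprim : ¬ ∃ H : Subgroup G, H ≠ ⊤ ∧ ∃ θ : H → ℂ,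
    IsCharacter H θ ∧ indFun H θ = (χ : G → ℂ)) (N : Subgroup G)
    (hN : ∀ L K : Subgroup G, Chief ⊤ L K → p ∣ L.relIndex K → ⁅K, N⁆ ≤ L) : ∃ g : G, ∀ n ∈ N,
    (charDegree (χ : G → ℂ)).factorization p ≤ (centralizer {g * n}).index.factorization p := by
  obtain ⟨F, F1, F2⟩ := ind_aux p hs (mem_Irr_top.2 χ.2) (fun L hL => by
    have := Fintype.ofFinite L
    obtain ⟨θ, e, a, -, b⟩ := (Clifford.homogeneous_or_induced L χ.2).resolve_right fun ⟨T, ψ, _, a, b, c⟩ =>
      hprim ⟨T, a, ψ, Char.Cfsg.IsIrrCharacter.isCharacter b, c⟩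
    refine ⟨_, extendByZero_mem_Irr.2 a, e, funext fun x => ?_⟩
    by_cases hx : x ∈ L
    · rw [res_of_mem _ hx, Pi.smul_apply, show extendByZero L θ x = _ from congrFun (coe_extendByZero L θ) ⟨x, hx⟩]
      exact congrFun b ⟨x, hx⟩
    · rw [res_of_not_mem _ hx, Pi.smul_apply, (mem_Irr.1 (extendByZero_mem_Irr.2 a)).1 x hx, smul_zero])
    N hN ⊤ inferInstance (mem_Irr_top.2 χ.2) (e := 1) (by simp)
  rw [Nat.card_eq_fintype_card (α := G), ← Finset.card_univ, ← smul_eq_mul, ← Finset.sum_const] at F2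
  obtain ⟨g, -, hg⟩ := Finset.exists_le_of_sum_le Finset.univ_nonempty F2
  refine ⟨g, fun n hn => ?_⟩
  have := F1 g n hn
  rw [top_inf_eq] at this
  rw [card_top, ← (centralizer {g * n}).card_mul_index, Nat.factorization_mul Nat.card_pos.ne' index_ne_zero_of_finite,
    Finsupp.add_apply] at hg
  show (deg χ.1).factorization p ≤ _
  omega

end Cfsg.Lib.FixAvg
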