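import Cfsg.Agent.Lib.CharDeg.PermChar

/-! # Eigenvalues of an orbital of a rank three group -/

set_option autoImplicit false

namespace Cfsg.Lib.PermChar

open Cfsg.Lib.Char Cfsg.Lib.Perm Matrix Finset MulAction

variable {G Ω : Type*} [Group G] [Fintype G] [Fintype Ω] [MulAction G Ω] [IsPretransitive G Ω]
  {χ₁ χ₂ : G → ℂ}

theorem exists_eig (h₁ : IsIrrCharacter G χ₁) (h₂ : IsIrrCharacter G χ₂)
    (hπ : pc G Ω = (fun _ => 1) + χ₁ + χ₂) (hd : charDegree χ₁ ≠ charDegree χ₂) {a b b' : Ω}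
    (hb : b ≠ a) (hb1 : b' ≠ a) (hb2 : b' ∉ orbit (stabilizer G a) b) {k : ℕ}
    (hk' : Nat.card (orbit (stabilizer G a) b) = k) :
    ∃ r s : ℤ, k + charDegree χ₁ * r + charDegree χ₂ * s = 0 ∧
      (k : ℤ) ^ 2 + charDegree χ₁ * r ^ 2 + charDegree χ₂ * s ^ 2 = Nat.card Ω * k := by
  classical
  have h₀ : IsIrrCharacter G fun _ => 1 := (irrOne G).2
  have hin : ∀ χ, classInner (pc G Ω) χ =
      classInner (fun _ => 1) χ + classInner χ₁ χ + classInner χ₂ χ := fun χ => by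
    rw [hπ, classInner_add_left, classInner_add_left]
  have n12 : χ₁ ≠ χ₂ := fun e => hd (e ▸ rfl)
  have e1 := (hin _).symm.trans (inner_pc_one_of_trans a)
  rw [h₀.inner_self, h₁.inner_eq_ite h₀, h₂.inner_eq_ite h₀] at e1
  have n1 : χ₁ ≠ fun _ => 1 := fun e => by
    rw [if_pos e, if_neg fun e' => n12 (e.trans e'.symm)] at e1; norm_num at e1
  have n2 : χ₂ ≠ fun _ => 1 := fun e => by rw [if_pos e, if_neg n1] at e1; norm_num at e1
  have hz : ∀ χ, IsIrrCharacter G χ → χ ≠ (fun _ => 1) → χ ≠ χ₁ → χ ≠ χ₂ →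
      classInner (pc G Ω) χ = 0 := fun χ h a b c => by
    rw [hin, h₀.inner_eq_zero_of_ne h a.symm, h₁.inner_eq_zero_of_ne h b.symm,
      h₂.inner_eq_zero_of_ne h c.symm, add_zero, add_zero]
  have i0 := inner_pc_one_of_trans (G := G) a
  have i1 : classInner (pc G Ω) χ₁ = 1 := by
    simp [hin, h₀.inner_eq_zero_of_ne h₁ n1.symm, h₁.inner_self, h₂.inner_eq_zero_of_ne h₁ n12.symm]
  have i2 : classInner (pc G Ω) χ₂ = 1 := by
    simp [hin, h₀.inner_eq_zero_of_ne h₂ n2.symm, h₂.inner_self, h₁.inner_eq_zero_of_ne h₂ n12]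
  have hc : ∀ χ, IsIrrCharacter G χ → classInner (pc G Ω) χ = 1 →
      classInner (pc G Ω) (fun g => (starRingEnd ℂ) (χ g)) ≠ 0 := fun χ h e => by
    have := classInner_conj_conj (pc G Ω) χ
    simp only [pc, map_natCast] at this
    rw [this, ← conj_classInner, e]; simp
  have hd₁ := h₁.apply_one_eq
  have hd₂ := h₂.apply_one_eq
  have hreal : ∀ χ, IsIrrCharacter G χ → classInner (pc G Ω) χ ≠ 0 →
      classInner (pc G Ω) χ = 1 ∧ ∀ g, (starRingEnd ℂ) (χ g) = χ g := fun χ h h0 => by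
    have c0 : ∀ ψ : G → ℂ, ψ ≠ (fun _ => 1) → (fun g => (starRingEnd ℂ) (ψ g)) ≠ fun _ => 1 :=
      fun ψ e e' => e (funext fun g => by simpa using congrArg (starRingEnd ℂ) (congrFun e' g))
    by_cases a : χ = fun _ => 1
    · subst a; exact ⟨i0, fun g => map_one _⟩
    by_cases b : χ = χ₁
    · subst b
      refine ⟨i1, congrFun (by_contra fun e => hc _ h i1 (hz _ h.conj (c0 _ a) e fun e' => ?_))⟩
      exact hd (by simpa [hd₁, hd₂] using congrFun e' 1)
    obtain rfl : χ = χ₂ := by_contra fun c => h0 (hz χ h a b c)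
    refine ⟨i2, congrFun (by_contra fun e => hc _ h i2 (hz _ h.conj (c0 _ a) (fun e' => ?_) e))⟩
    exact hd.symm (by simpa [hd₁, hd₂] using congrFun e' 1)
  have hsum : ∀ c : IrrCharacter G → ℂ, ∑ χ : IrrCharacter G, c χ • em Ω (χ : G → ℂ) =
      c (irrOne G) • em Ω (fun _ : G => 1) + c ⟨χ₁, h₁⟩ • em Ω χ₁ + c ⟨χ₂, h₂⟩ • em Ω χ₂ :=
    fun c => by
      rw [← sum_subset (subset_univ {irrOne G, ⟨χ₁, h₁⟩, ⟨χ₂, h₂⟩}) fun χ _ hχ => by
          simp only [mem_insert, mem_singleton, not_or, Subtype.ext_iff] at hχ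
          rw [(em_eq_zero_iff χ.2).2 (hz _ χ.2 hχ.1 hχ.2.1 hχ.2.2), smul_zero],
        sum_insert (by simpa [Subtype.ext_iff, coe_irrOne] using ⟨n1.symm, n2.symm⟩),
        sum_pair fun e => n12 (congrArg Subtype.val e), add_assoc]
      rfl
  have hI := hsum fun _ => 1
  simp only [one_smul, sum_em] at hI
  have hE : ∀ x y : Ω, em Ω (fun _ : G => 1) x y = (Nat.card Ω : ℂ)⁻¹ := fun x y => by
    simp only [em_apply, one_mul]
    rw [sum_smul_base y fun z => if x = z then (1 : ℂ) else 0, ← index_stabilizer_of_transitive G y,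
      ← (stabilizer G y).card_mul_index]
    rw [sum_ite_eq, if_pos (mem_univ _), mul_one, Nat.cast_mul, one_div, mul_inv,
      mul_right_comm, inv_mul_cancel₀ (card_ne_zero_complex _), one_mul]
  obtain ⟨c, hc⟩ := (eqv_orb (G := G) a b).exists_eq_sum fun χ h =>
    or_iff_not_imp_left.2 fun e => (hreal χ h e).1
  have hs := Eqv.isSymm hreal (eqv_orb (G := G) a b)
  rw [hsum] at hc
  have hk := sum_orb (G := G) a b
  rw [hk'] at hk
  have o0 : orb G a b a a = 0 := orb_diag hb a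
  have o1 : orb G a b a b = 1 := if_pos ⟨1, one_smul _ _, one_smul _ _⟩
  have o2 : orb G a b a b' = 0 := if_neg fun ⟨g, h1, h2⟩ => hb2 ⟨⟨g, h1⟩, h2⟩
  have o3 : ∀ x y, orb G a b x y * orb G a b x y = orb G a b x y := fun x y => by simp [orb]
  have o4 : ∀ x y, ∃ z : ℤ, (orb G a b * orb G a b) x y = z := fun x y =>
    ⟨∑ w, (if ∃ g : G, g • a = x ∧ g • b = w then 1 else 0) *
      if ∃ g : G, g • a = w ∧ g • b = y then 1 else 0, by
        simp only [mul_apply, orb, of_apply, Int.cast_sum, Int.cast_mul, Int.cast_ite,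
          Int.cast_one, Int.cast_zero]
        congr!⟩
  have t1 : (orb G a b).trace = 0 := sum_eq_zero fun x _ => orb_diag hb x
  have t2 : (orb G a b * orb G a b).trace = Nat.card Ω * k := by
    nth_rw 2 [← hs]
    simp [trace, mul_apply, o3, hk]
  generalize orb G a b = T at *
  have hT : T * T = c (irrOne G) ^ 2 • em Ω (fun _ : G => 1) + c ⟨χ₁, h₁⟩ ^ 2 • em Ω χ₁ +
      c ⟨χ₂, h₂⟩ ^ 2 • em Ω χ₂ := by
    simp only [hc, add_mul, mul_add, smul_mul_smul_comm, em_mul_self, h₀, h₁, h₂,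
      em_mul_of_ne h₀ h₁ n1.symm, em_mul_of_ne h₀ h₂ n2.symm, em_mul_of_ne h₁ h₀ n1,
      em_mul_of_ne h₁ h₂ n12, em_mul_of_ne h₂ h₀ n2, em_mul_of_ne h₂ h₁ n12.symm, smul_zero,
      add_zero, zero_add, sq]
  have c0 : c (irrOne G) = k := by
    have : T * em Ω (fun _ : G => 1) = c (irrOne G) • em Ω (fun _ : G => 1) := by
      simp only [hc, add_mul, smul_mul_assoc, em_mul_self h₀, em_mul_of_ne h₁ h₀ n1,
        em_mul_of_ne h₂ h₀ n2, smul_zero, add_zero]
    have := congrFun (congrFun this a) a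
    simp only [mul_apply, hE, ← sum_mul, hk, Matrix.smul_apply, smul_eq_mul] at this
    have : Nonempty Ω := ⟨a⟩
    exact (mul_right_cancel₀ (inv_ne_zero (Nat.cast_ne_zero.2 Nat.card_pos.ne')) ‹_›).symm
  obtain ⟨z, hz⟩ := o4 a b
  obtain ⟨z', hz'⟩ := o4 a b'
  obtain ⟨z₀, hz₀⟩ := o4 a a
  have j0 := congrFun (congrFun hI a) a
  have j1 := congrFun (congrFun hI a) b
  have j2 := congrFun (congrFun hI a) b'
  rw [hT] at hz hz' hz₀ t2
  rw [hc] at o0 o1 o2 t1
  simp only [Matrix.add_apply, Matrix.smul_apply, smul_eq_mul, hE, one_apply_ne hb.symm,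
    one_apply_ne hb1.symm, one_apply_eq, trace_add, trace_smul, trace_em h₀.isCharacter,
    trace_em h₁.isCharacter, trace_em h₂.isCharacter, i0, i1, i2, hd₁, hd₂, mul_one, c0]
    at hz hz' hz₀ o0 o1 o2 j0 j1 j2 t1 t2
  generalize c ⟨χ₁, h₁⟩ = r at *
  generalize c ⟨χ₂, h₂⟩ = s at *
  have hrs : s = (z - z' : ℤ) - r := by
    push_cast
    linear_combination hz - hz' - (r + s) * (o1 - o2) - r * s * (j1 - j2)
  have hrs' : r * s = (z' - z₀ : ℤ) := by
    push_cast
    linear_combination hz' - hz₀ - (r + s) * (o2 - o0) - r * s * (j2 - j0)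
  have h1 : (charDegree χ₂ - charDegree χ₁ : ℂ) ≠ 0 := sub_ne_zero.2 (Nat.cast_injective.ne hd.symm)
  obtain ⟨n, rfl⟩ := exists_int_of_isIntegral_of_rat (z := r)
    (q := (k + charDegree χ₂ * (z - z' : ℤ)) / (charDegree χ₂ - charDegree χ₁))
    ⟨Polynomial.X ^ 2 - Polynomial.C (z - z') * Polynomial.X + Polynomial.C (z' - z₀), by monicity!,
      by simp only [Polynomial.eval₂_add, Polynomial.eval₂_sub, Polynomial.eval₂_mul,
          Polynomial.eval₂_X_pow, Polynomial.eval₂_C, Polynomial.eval₂_X]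
         simp only [eq_intCast]
         linear_combination -hrs' + r * hrs⟩ (by
      rw [hrs] at t1; push_cast at t1 ⊢; field_simp; linear_combination -t1)
  rw [hrs] at t1 t2
  exact ⟨n, z - z' - n, by exact_mod_cast (show (k + charDegree χ₁ * n + charDegree χ₂ *
      ((z - z' : ℤ) - n) : ℂ) = 0 by linear_combination t1), by
    exact_mod_cast (show (k ^ 2 + charDegree χ₁ * n ^ 2 + charDegree χ₂ *
      ((z - z' : ℤ) - n) ^ 2 : ℂ) = Nat.card Ω * k by linear_combination t2)⟩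

end Cfsg.Lib.PermChar
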