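import Cfsg.Agent.Lib.CharDeg.RealRep
import Cfsg.Agent.Lib.CharDeg.FS
import Cfsg.Agent.Lib.Clifford.Correspondence
import Cfsg.Agent.Lib.Clifford.Gallagher

/-! Induced matrix representations; induction preserves Frobenius–Schur indicator one. -/

set_option autoImplicit false

namespace Cfsg.Lib.CharDeg

open Cfsg.Lib.Char Cfsg.Lib.Induce Cfsg.Lib.Clifford

variable {G : Type*} [Group G]

section IndMat

variable {k ι : Type*} [CommRing k] [Fintype ι] [DecidableEq ι] (H : Subgroup G)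

open Classical in
/-- extension by zero of a matrix representation of a subgroup -/
noncomputable def dotMat (Y : H →* Matrix ι ι k) (g : G) : Matrix ι ι k :=
  if h : g ∈ H then Y ⟨g, h⟩ else 0

theorem dotMat_of_mem (Y : H →* Matrix ι ι k) {g : G} (h : g ∈ H) : dotMat H Y g = Y ⟨g, h⟩ :=
  dif_pos h

theorem dotMat_of_not_mem (Y : H →* Matrix ι ι k) {g : G} (h : g ∉ H) : dotMat H Y g = 0 :=
  dif_neg h

theorem dotMat_mul (Y : H →* Matrix ι ι k) {x : G} (hx : x ∈ H) (y : G) :
    dotMat H Y x * dotMat H Y y = dotMat H Y (x * y) := by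
  by_cases hy : y ∈ H
  · rw [dotMat_of_mem H Y hx, dotMat_of_mem H Y hy, dotMat_of_mem H Y (H.mul_mem hx hy), ← map_mul]
    rfl
  · rw [dotMat_of_not_mem H Y hy, mul_zero,
      dotMat_of_not_mem H Y (fun h => hy ((H.mul_mem_cancel_left hx).1 h))]

/-- the induced matrix representation -/
noncomputable def indMat [Fintype (G ⧸ H)] [DecidableEq (G ⧸ H)] (Y : H →* Matrix ι ι k) :
    G →* Matrix ((G ⧸ H) × ι) ((G ⧸ H) × ι) k where
  toFun g := Matrix.of fun a b => dotMat H Y (a.1.out⁻¹ * g * b.1.out) a.2 b.2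
  map_one' := by
    ext ⟨a, i⟩ ⟨b, j⟩
    rw [Matrix.of_apply, mul_one]
    by_cases h : a = b
    · subst h
      rw [inv_mul_cancel, dotMat_of_mem H Y H.one_mem]
      change Y 1 i j = _
      rw [map_one]
      simp [Matrix.one_apply]
    · rw [dotMat_of_not_mem H Y (fun h' => h (by
        rw [← a.out_eq', ← b.out_eq']; exact QuotientGroup.eq.2 h')),
        Matrix.one_apply_ne (fun e => h (congrArg Prod.fst e))]
      rfl
  map_mul' g h := by
    ext ⟨a, i⟩ ⟨b, j⟩
    rw [Matrix.mul_apply, Fintype.sum_prod_type]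
    simp only [Matrix.of_apply, ← Matrix.mul_apply]
    rw [Finset.sum_eq_single ((g⁻¹ * a.out : G) : G ⧸ H)]
    · rw [dotMat_mul]
      · congr 1; group
      · have := QuotientGroup.eq.1 (((g⁻¹ * a.out : G) : G ⧸ H).out_eq').symm
        rwa [mul_inv_rev, inv_inv] at this
    · intro r _ hr
      rw [dotMat_of_not_mem H Y, zero_mul, Matrix.zero_apply]
      intro h'
      refine hr ?_
      rw [← r.out_eq']
      exact (QuotientGroup.eq.2 (by rwa [mul_inv_rev, inv_inv])).symm
    · intro h; exact absurd (Finset.mem_univ _) h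

theorem trace_indMat [Fintype (G ⧸ H)] [DecidableEq (G ⧸ H)] (Y : H →* Matrix ι ι k) (g : G) :
    (indMat H Y g).trace = ∑ q : G ⧸ H, (dotMat H Y (q.out⁻¹ * g * q.out)).trace := by
  rw [Matrix.trace, Fintype.sum_prod_type]
  rfl

end IndMat

theorem fs_indFun_eq_one [Fintype G] (H : Subgroup G) [Fintype H] {ψ : H → ℂ}
    (hψ : IsIrrCharacter H ψ) (h1 : (Nat.card H : ℂ)⁻¹ * ∑ s : H, ψ (s * s) = 1)
    (hχ : IsIrrCharacter G (indFun H ψ)) :
    (Nat.card G : ℂ)⁻¹ * ∑ s : G, indFun H ψ (s * s) = 1 := by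
  classical
  obtain ⟨n, Y, hY⟩ := (frobeniusSchur_eq_one_iff hψ).1 h1
  haveI := Fintype.ofFinite (G ⧸ H)
  let e := Fintype.equivFin ((G ⧸ H) × Fin n)
  refine (frobeniusSchur_eq_one_iff hχ).2
    ⟨_, (Matrix.reindexAlgEquiv ℝ ℝ e).toMonoidHom.comp (indMat H Y), fun g => ?_⟩
  have : ((Matrix.reindexAlgEquiv ℝ ℝ e).toMonoidHom.comp (indMat H Y) g).trace =
      (indMat H Y g).trace := by
    change (Matrix.reindex e e (indMat H Y g)).trace = _
    simp only [Matrix.trace, Matrix.diag, Matrix.reindex_apply, Matrix.submatrix_apply]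
    exact Equiv.sum_comp e.symm (fun a => indMat H Y g a a)
  rw [this, trace_indMat, indFun_eq_sum_quotient H hψ.isClassFunction, Complex.ofReal_sum]
  refine Finset.sum_congr rfl fun q _ => ?_
  by_cases h : q.out⁻¹ * g * q.out ∈ H
  · rw [dotMat_of_mem H Y h, extendByZero_of_mem H _ h, hY]
  · rw [dotMat_of_not_mem H Y h, extendByZero_of_not_mem H _ h]; simp

/-- linear characters agreeing on a subgroup are at most as many as its index -/
theorem card_le_index_of_res_eq [Finite G] (I : Subgroup G) (S : Finset (IrrCharacter G))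
    (h1 : ∀ χ ∈ S, (χ : G → ℂ) 1 = 1)
    (h : ∀ χ ∈ S, ∀ ψ ∈ S, ∀ x : I, (χ : G → ℂ) x = (ψ : G → ℂ) x) : S.card ≤ I.index := by
  haveI := Fintype.ofFinite G
  haveI := Fintype.ofFinite I
  rcases S.eq_empty_or_nonempty with rfl | ⟨μ, hμ⟩
  · simp
  have hμI := (μ.2.isCharacter.restrict I).isIrrCharacter_of_apply_one (h1 μ hμ)
  have := sum_charDegree_le_of_constituents (isCharacter_indFun I hμI.isCharacter) S (fun χ hχ => by
    rw [frobenius_reciprocity I _ χ.2.isClassFunction, funext (h χ hχ μ hμ), hμI.inner_self]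
    exact one_ne_zero)
  rw [Finset.sum_congr rfl (fun χ hχ => charDegree_eq_of_apply_one (n := 1)
    (by rw [h1 χ hχ, Nat.cast_one])), charDegree_eq_of_apply_one (n := I.index)
    (by rw [indFun_one]; simp [h1 μ hμ])] at this
  simpa using this

/-- Linear characters against characters induced from an extension to the inertia group. -/
theorem card_linear_le [Fintype G] (N : Subgroup G) [hN : N.Normal] (hN' : N ≤ commutator G)
    {φ : N → ℂ} (hφ : IsIrrCharacter N φ) {I : Subgroup G} (hI : inertia N φ ≤ I) (hNI : N ≤ I)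
    {ψ : I → ℂ} (hψ : IsIrrCharacter I ψ) (hext : ∀ n : N, ψ ⟨n, hNI n.2⟩ = φ n)
    (P Q : IrrCharacter G → Prop) (hP : ∀ χ, P χ → (χ : G → ℂ) 1 = 1)
    (hQ : ∀ χ χ' : IrrCharacter G, P χ → IsIrrCharacter I (fun x : I => (χ : G → ℂ) x * ψ x) →
      (χ' : G → ℂ) = indFun I (fun x : I => (χ : G → ℂ) x * ψ x) → Q χ') :
    Nat.card {χ // P χ} ≤ I.index * Nat.card {χ // Q χ} := by
  classical
  haveI := Fintype.ofFinite N
  haveI := Fintype.ofFinite I
  have hker : ∀ χ, P χ → ∀ n ∈ N, (χ : G → ℂ) n = 1 := by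
    intro χ hχ n hn
    obtain ⟨lam, hl⟩ := χ.2.isCharacter.exists_hom_of_apply_one (hP χ hχ)
    rw [hl]
    have : lam n = 1 := Abelianization.commutator_subset_ker lam (hN' hn)
    simp [this]
  have hirr : ∀ χ, P χ → IsIrrCharacter I (fun x : I => (χ : G → ℂ) x * ψ x) := fun χ hχ =>
    hψ.mul_of_apply_one (χ.2.isCharacter.restrict I) (hP χ hχ)
  have hov : ∀ χ, P χ → classInner (fun n : N => (fun x : I => (χ : G → ℂ) x * ψ x) ⟨n, hNI n.2⟩) φ ≠ 0 := by
    intro χ hχ
    simp only [hext, fun n : N => hker χ hχ n n.2, one_mul]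
    rw [hφ.inner_self]
    exact one_ne_zero
  let F : IrrCharacter G → IrrCharacter G := fun χ =>
    if h : P χ then ⟨_, isIrrCharacter_indFun_of_over N hNI hφ hI (hirr χ h) (hov χ h)⟩ else χ
  have hF : ∀ χ, P χ → (F χ : G → ℂ) = indFun I (fun x : I => (χ : G → ℂ) x * ψ x) := by
    intro χ h
    simp only [F, dif_pos h]
  rw [Nat.subtype_card (Finset.univ.filter P) (by simp),
    Nat.subtype_card (Finset.univ.filter Q) (by simp)]
  refine Finset.card_le_mul_card_image_of_maps_to (f := F) (fun χ hχ => ?_) _ (fun χ' _ => ?_)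
  · have h := (Finset.mem_filter.1 hχ).2
    exact Finset.mem_filter.2 ⟨Finset.mem_univ _, hQ χ _ h (hirr χ h) (hF χ h)⟩
  · refine card_le_index_of_res_eq I _
      (fun χ hχ => hP χ (Finset.mem_filter.1 (Finset.mem_filter.1 hχ).1).2) fun χ hχ μ hμ => ?_
    have h1 := (Finset.mem_filter.1 (Finset.mem_filter.1 hχ).1).2
    have h2 := (Finset.mem_filter.1 (Finset.mem_filter.1 hμ).1).2
    have h3 := eq_of_indFun_eq_of_over N hNI hφ hI (hirr χ h1) (hirr μ h2) (hov χ h1) (hov μ h2)
      (by rw [← hF χ h1, ← hF μ h2, (Finset.mem_filter.1 hχ).2, (Finset.mem_filter.1 hμ).2])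
    have h4 := eq_of_mul_eq_of_ker (N.subgroupOf I) hψ.isCharacter
      ((isIrrCharacter_res_subgroupOf_iff hNI).2 (by simpa only [hext] using hφ))
      ((χ.2.isCharacter.restrict I).isIrrCharacter_of_apply_one (hP χ h1))
      ((μ.2.isCharacter.restrict I).isIrrCharacter_of_apply_one (hP μ h2))
      (fun n hn => (hker χ h1 n hn).trans (hP χ h1).symm)
      (fun n hn => (hker μ h2 n hn).trans (hP μ h2).symm) h3
    exact congrFun h4

theorem le_commutator_of_minimal (N : Subgroup G) (hN : N.Normal)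
    (hmin : ∀ M : Subgroup G, M.Normal → M ≤ N → M = ⊥ ∨ M = N) (hna : ¬ IsMulCommutative N) :
    N ≤ commutator G := by
  rcases hmin ⁅N, N⁆ inferInstance (Subgroup.commutator_le_left N N) with h | h
  · exact absurd (Subgroup.le_centralizer_iff_isMulCommutative.1
      (Subgroup.commutator_eq_bot_iff_le_centralizer.1 h)) hna
  · rw [← h]
    exact Subgroup.commutator_mono le_top le_top

end Cfsg.Lib.CharDeg
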