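import Cfsg.Agent.S4864
import Cfsg.Agent.Lib.Rel.Glaub
import Cfsg.Agent.Lib.Char.FrobSchur

/-!
# Real characters and normalizers of Sylow subgroups (Isaacs-Navarro)
-/

set_option autoImplicit false
set_option linter.unusedSectionVars false

namespace Cfsg.Lib.CharDeg
open Cfsg.Lib.Char Cfsg.Lib.Clifford Cfsg.Lib.Induce Subgroup Cfsg.Agent.S4864 Cfsg.Lib.Transfer
open scoped ComplexConjugate

variable {G : Type*} [Group G] [Finite G]

theorem inner_eq_one_of_real (K : Subgroup G) [hK : K.Normal] [Fintype K] (hodd : Odd K.index)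
    {χ : G → ℂ} (hχ : IsIrrCharacter G χ) (hr : ∀ g, (χ g).im = 0) {θ : K → ℂ}
    (hθ : IsIrrCharacter K θ) (h : classInner (fun n : K => χ n) θ ≠ 0) :
    classInner (fun n : K => χ n) θ = 1 := by
  classical
  have := Fintype.ofFinite G
  have h1 : (Nat.card G : ℂ)⁻¹ * ∑ s, indFun K θ (s * s) =
      classInner (fun n : K => χ n) θ * ((Nat.card G : ℂ)⁻¹ * ∑ s, χ (s * s)) := by
    rw [indFun_eq_sum_irr K hθ.isCharacter.isGeneralizedCharacter]
    simp only [Finset.sum_apply, Pi.smul_apply, smul_eq_mul]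
    rw [Finset.sum_comm, Finset.mul_sum, Finset.sum_eq_single ⟨χ, hχ⟩ (fun ψ _ hψ => ?_)
      (fun h => absurd (Finset.mem_univ _) h), ← Finset.mul_sum, mul_left_comm]
    rw [← Finset.mul_sum, mul_left_comm]
    rcases ψ.2.frobeniusSchur with h2 | h2
    · rw [h2.2, mul_zero]
    · rw [not_not.1 fun h3 => hψ (Subtype.ext (real_unique K hodd ψ.2 h2.1 hχ hr hθ h3 h)),
        zero_mul]
  have h2 : ∑ s, indFun K θ (s * s) = ∑ n : K, indFun K θ (n * n) := by
    rw [← Finset.sum_subtype (Finset.univ.filter (· ∈ K)) (by simp) fun s => indFun K θ (s * s)]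
    refine (Finset.sum_subset (Finset.filter_subset _ _) fun s _ hs => ?_).symm
    refine indFun_normal_of_not_mem K θ fun h3 => hs (Finset.mem_filter.2 ⟨Finset.mem_univ _,
      mem_of_pow_mem_of_coprime (Nat.coprime_two_left.2 hodd) (by rwa [sq]) (K.pow_index_mem s)⟩)
  have h3 : ∀ g : G, ∑ n : K, conjChar K g θ (n * n) = ∑ n : K, θ (n * n) := fun g =>
    Fintype.sum_equiv (MulAut.conjNormal g).toEquiv _ _ fun n =>
      congrArg θ (map_mul (MulAut.conjNormal g) n n)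
  rw [h2, Finset.sum_congr rfl fun (n : K) _ => show indFun K θ (n * n) = _ from
    congrFun (res_indFun K θ) (n * n)] at h1
  simp only [Pi.smul_apply, Finset.sum_apply, smul_eq_mul] at h1
  rw [← Finset.mul_sum, Finset.sum_comm, Finset.sum_congr rfl fun g _ => h3 g, Finset.sum_const,
    Finset.card_univ, ← Nat.card_eq_fintype_card, nsmul_eq_mul, mul_left_comm,
    inv_mul_cancel_left₀ (card_ne_zero_complex G)] at h1
  obtain ⟨e, he⟩ := (hχ.isCharacter.restrict K).exists_inner_eq_nat hθ.isCharacter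
  rw [he] at h1 ⊢
  have h4 := (hθ.frobeniusSchur.resolve_left fun ⟨⟨n, h⟩, _⟩ =>
    h (real_below K hodd hχ hr hθ ‹_› n)).2
  have h5 := (hχ.frobeniusSchur.resolve_left fun ⟨⟨n, h⟩, _⟩ => h (hr n)).2
  have h6 : (e : ℂ) ^ 2 = 1 := by
    rcases h4 with h4 | h4 <;> rcases h5 with h5 | h5 <;> rw [h4, h5] at h1
    · linear_combination -(e + 1) * h1
    · linear_combination (e - 1) * h1
    · linear_combination -(e - 1) * h1
    · linear_combination (e + 1) * h1
  have : e ^ 2 = 1 := by exact_mod_cast h6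
  rw [(Nat.pow_eq_one.1 this).resolve_right two_ne_zero, Nat.cast_one]

theorem charDegree_of_real (K : Subgroup G) [hK : K.Normal] [Fintype K] (hodd : Odd K.index)
    {χ : G → ℂ} (hχ : IsIrrCharacter G χ) (hr : ∀ g, (χ g).im = 0) {θ : K → ℂ}
    (hθ : IsIrrCharacter K θ) (h : classInner (fun n : K => χ n) θ ≠ 0) :
    charDegree χ = (inertia K θ).index * charDegree θ := by
  have := clifford_degree K hχ hθ h
  rw [inner_eq_one_of_real K hodd hχ hr hθ h, one_mul, hχ.apply_one_eq, hθ.apply_one_eq] at this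
  exact_mod_cast this

variable {p : ℕ} [hp : Fact p.Prime]

theorem index_cast_eq_relIndex (P : Sylow p G) {T : Subgroup G} (h : (P : Subgroup G) ≤ T) :
    (T.index : ZMod p) = T.relIndex (normalizer ((P : Subgroup G) : Set G)) := by
  have h1 := (ZMod.natCast_eq_natCast_iff _ _ _).2 (card_sylow_modEq_one p G)
  have h2 := (ZMod.natCast_eq_natCast_iff _ _ _).2 (card_sylow_modEq_one p T)
  rw [P.card_eq_index_normalizer] at h1
  change ((normalizer ((P : Subgroup G) : Set G)).index : ZMod p) = _ at h1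
  rw [(P.subtype h).card_eq_index_normalizer] at h2
  change ((normalizer ((P : Subgroup G).subgroupOf T : Set T)).index : ZMod p) = _ at h2
  rw [← subgroupOf_normalizer_eq h] at h2
  have h3 := congrArg (Nat.cast : ℕ → ZMod p) ((relIndex_mul_index (inf_le_left (a := T)
    (b := normalizer ((P : Subgroup G) : Set G)))).trans (relIndex_mul_index inf_le_right).symm)
  rw [inf_relIndex_left, inf_relIndex_right, Nat.cast_mul, Nat.cast_mul, h1, relIndex, h2] at h3
  simpa using h3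

theorem exists_rel (P : Sylow p G) (K L : Subgroup G) [hK : K.Normal] [hL : L.Normal]
    (hLK : L ≤ K) (hLP : L ≤ P) (hPK : (P : Subgroup G) ⊓ K ≤ L) (hi : ¬ p ∣ L.relIndex K)
    {N : Subgroup G} (hN : N = normalizer ((P : Subgroup G) : Set G)) [Fintype (K.subgroupOf N)]
    {ι : K.subgroupOf N →* K} (hι : ∀ x, (ι x : G) = x) :
    (∀ θ : IrrCharacter K, (P : Subgroup G) ≤ inertia K θ.1 → ∃ η : IrrCharacter (K.subgroupOf N),
      (P : Subgroup G).subgroupOf N ≤ inertia _ η.1 ∧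
      ((resMult ι θ η : ZMod p) = 1 ∨
        (resMult ι θ η : ZMod p) = -1) ∧
      ∀ η' : IrrCharacter (K.subgroupOf N), (P : Subgroup G).subgroupOf N ≤ inertia _ η'.1 →
        (resMult ι θ η' : ZMod p) ≠ 0 → η' = η) ∧
    (∀ η : IrrCharacter (K.subgroupOf N), (P : Subgroup G).subgroupOf N ≤ inertia _ η.1 →
      ∃ θ : IrrCharacter K, (P : Subgroup G) ≤ inertia K θ.1 ∧
        (resMult ι θ η : ZMod p) ≠ 0 ∧
        ∀ θ' : IrrCharacter K, (P : Subgroup G) ≤ inertia K θ'.1 →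
          (resMult ι θ' η : ZMod p) ≠ 0 → θ' = θ) := by
  have hPN : (P : Subgroup G) ≤ N := hN ▸ le_normalizer
  have hn : ∀ (A B : Subgroup G) [B.Normal], A ≤ normalizer (B : Set G) := fun A B _ => by
    rw [normalizer_eq_top]; exact le_top
  have h := Rel.modCor_relGlauberman (C := K ⊓ N) P.isPGroup' hLK (hn _ _) (hn _ _) (hn _ _) hi
    fun c => and_congr_right fun hc => ⟨fun h s hs => hPK ⟨by
      rw [mul_assoc, mul_assoc, ← mul_assoc c]
      exact Subgroup.mul_mem _ hs ((mem_normalizer_iff.1 (hN ▸ h) _).1 (Subgroup.inv_mem _ hs)),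
      Subgroup.mul_mem _ (hK.conj_mem c hc s) (Subgroup.inv_mem _ hc)⟩, fun h => hN ▸ mem_normalizer_of_conj_le
        (conj_le_iff.2 fun s hs => by
          simpa [mul_assoc] using (P : Subgroup G).mul_mem hs (hLP (h _ (Subgroup.inv_mem _ hs))))⟩
  have := Fintype.ofFinite ↥(K ⊓ N)
  let e : K.subgroupOf N ≃* ↥(K ⊓ N) :=
    { toFun := fun x => ⟨x.1.1, x.2, x.1.2⟩
      invFun := fun y => ⟨⟨y.1, y.2.2⟩, y.2.1⟩
      left_inv := fun _ => rfl
      right_inv := fun _ => rfl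
      map_mul' := fun _ _ => rfl }
  let E : IrrCharacter (K.subgroupOf N) → IrrCharacter ↥(K ⊓ N) := fun η =>
    ⟨_, η.2.comp_equiv e.symm⟩
  have hE : ∀ η η', E η = E η' → η = η' := fun η η' h => Subtype.ext (funext fun x =>
    congrFun (congrArg Subtype.val h) (e x))
  have h1 : ∀ θ η, Rel.ndot (K ⊓ N) (extendByZero K θ.1) (extendByZero _ (E η).1) =
      resMult ι θ η := fun θ η => by
    rw [Rel.ndot_ext inf_le_left]
    refine resMult_eq_of_inner ?_
    rw [← classInner_comp_equiv e, ← inner_eq_resMult]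
    exact congrArg₂ classInner (funext fun x => congrArg θ.1 (Subtype.ext (hι x).symm)) rfl
  have h2 : ∀ θ : IrrCharacter K, extendByZero K θ.1 ∈ Rel.InvIrr K P ↔
      (P : Subgroup G) ≤ inertia K θ.1 := fun θ => by
    refine (and_iff_right (Rel.ext_mem_Irr θ)).trans ((Rel.le_inertia_ext_iff (hn _ _) θ).trans
      ⟨fun h s hs => (mem_inertia_iff K).2 fun n => h s hs _ _ rfl, fun h s hs g g' e => ?_⟩)
    rw [← (mem_inertia_iff K).1 (h hs) g]
    exact congrArg _ (Subtype.ext e)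
  have h3 : ∀ η, extendByZero _ (E η).1 ∈ Rel.InvIrr (K ⊓ N) P ↔
      (P : Subgroup G).subgroupOf N ≤ inertia _ η.1 := fun η => by
    refine (and_iff_right (Rel.ext_mem_Irr _)).trans ((Rel.le_inertia_ext_iff
      (Cfsg.Lib.Coprime.le_normalizer_inf (hn _ _) (hPN.trans le_normalizer)) _).trans
      ⟨fun h s hs => (mem_inertia_iff _).2 fun n => h s hs (e n) (e ⟨s * n * s⁻¹, Normal.conj_mem inferInstance _ n.2 s⟩) rfl,
        fun h s hs g g' e' => ?_⟩)
    refine Eq.trans ?_ ((mem_inertia_iff _).1 (h (x := ⟨s, hPN hs⟩) hs) (e.symm g))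
    exact congrArg η.1 (Subtype.ext (Subtype.ext e'))
  have h4 : ∀ ξ ∈ Rel.InvIrr (K ⊓ N) P, ∃ η, extendByZero _ (E η).1 = ξ := fun ξ hξ => by
    obtain ⟨ξ, rfl⟩ := Rel.exists_eq_ext hξ.1
    exact ⟨⟨_, ξ.2.comp_equiv e⟩, rfl⟩
  refine ⟨fun θ hθ => ?_, fun η hη => ?_⟩
  · obtain ⟨ξ, a1, a2, a3⟩ := h.row _ ((h2 θ).2 hθ)
    obtain ⟨η, rfl⟩ := h4 ξ a1
    exact ⟨η, (h3 η).1 a1, by rwa [← h1], fun η' b1 b2 =>
      hE _ _ (Rel.ext_injective (a3 _ ((h3 η').2 b1) (by rwa [h1])))⟩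
  · obtain ⟨χ, a1, a2⟩ := h.col _ ((h3 η).2 hη)
    obtain ⟨θ, rfl⟩ := Rel.exists_eq_ext a1.1
    exact ⟨θ, (h2 θ).1 a1, by rwa [← h1], fun θ' b1 b2 => Rel.ext_injective
      (h.inj _ ((h2 θ').2 b1) _ a1 _ ((h3 η).2 hη) (by rwa [h1]) a2)⟩

theorem exists_real_bij (P : Sylow p G) (K L : Subgroup G) [hK : K.Normal] [hL : L.Normal]
    (hodd : Odd K.index) (hLK : L ≤ K) (hLP : L ≤ P) (hPK : (P : Subgroup G) ⊓ K ≤ L)
    (hi : ¬ p ∣ L.relIndex K)
    (h : ∀ χ : IrrCharacter G, (∀ g, (χ.1 g).im = 0) → ¬ p ∣ charDegree χ.1)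
    {N : Subgroup G} (hN : N = normalizer ((P : Subgroup G) : Set G)) :
    ∃ f : {χ : IrrCharacter G // ∀ g, (χ.1 g).im = 0} →
      {ξ : IrrCharacter N // (∀ n, (ξ.1 n).im = 0) ∧ ¬ p ∣ charDegree ξ.1},
      Function.Bijective f ∧ ∀ χ, (charDegree (f χ).1.1 : ZMod p) = charDegree χ.1.1 ∨
        (charDegree (f χ).1.1 : ZMod p) = -charDegree χ.1.1 := by
  classical
  have := Fintype.ofFinite G
  have := Fintype.ofFinite K
  have := Fintype.ofFinite (K.subgroupOf N)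
  let ι : K.subgroupOf N →* K := N.subtype.subgroupComap K
  obtain ⟨h1, h2⟩ := exists_rel P K L hLK hLP hPK hi hN (ι := ι) fun _ => rfl
  have hPN : (P : Subgroup G) ≤ N := hN ▸ le_normalizer
  have hoddN : Odd (K.subgroupOf N).index := hodd.of_dvd_nat (relIndex_dvd_index_of_normal K N)
  let cj (n : N) (θ : IrrCharacter K) : IrrCharacter K := ⟨_, isIrrCharacter_conjChar K θ.2 n⟩
  let cj' (n : N) (η : IrrCharacter (K.subgroupOf N)) : IrrCharacter (K.subgroupOf N) :=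
    ⟨_, isIrrCharacter_conjChar _ η.2 n⟩
  let R (θ : IrrCharacter K) (η : IrrCharacter (K.subgroupOf N)) : Prop :=
    (P : Subgroup G) ≤ inertia K θ.1 ∧ (P : Subgroup G).subgroupOf N ≤ inertia _ η.1 ∧
      (resMult ι θ η : ZMod p) ≠ 0
  have u1 : ∀ θ η η', R θ η → R θ η' → η = η' := fun θ η η' a b => by
    obtain ⟨η₀, -, -, e⟩ := h1 θ a.1
    rw [e η a.2.1 a.2.2, e η' b.2.1 b.2.2]
  have u2 : ∀ θ θ' η, R θ η → R θ' η → θ = θ' := fun θ θ' η a b => by
    obtain ⟨θ₀, -, -, e⟩ := h2 η a.2.1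
    rw [e θ a.1 a.2.2, e θ' b.1 b.2.2]
  have hP : ∀ (n : N), ∀ s ∈ (P : Subgroup G), (n : G) * s * n⁻¹ ∈ (P : Subgroup G) :=
    fun n s hs => (mem_normalizer_iff.1 (hN ▸ n.2) s).1 hs
  have c1 : ∀ n θ η, R θ η → R (cj n θ) (cj' n η) := fun n θ η a =>
    ⟨fun s hs => (mem_inertia_conjChar K).2 (a.1 (hP n s hs)),
      fun s hs => (mem_inertia_conjChar _).2 (a.2.1 (hP n s hs)), by
        rw [resMult_eq_of_inner (m := resMult ι θ η) (by
          rw [← inner_eq_resMult]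
          exact classInner_conjChar _ n (fun c => θ.1 (ι c)) _)]
        exact a.2.2⟩
  have c2 : ∀ θ η, R θ η → R ⟨_, θ.2.conj⟩ ⟨_, η.2.conj⟩ := fun θ η a =>
    ⟨fun s hs => (mem_inertia_iff K).2 fun n => congrArg conj ((mem_inertia_iff K).1 (a.1 hs) n),
      fun s hs => (mem_inertia_iff _).2 fun n =>
        congrArg conj ((mem_inertia_iff _).1 (a.2.1 hs) n), by
        rw [resMult_eq_of_inner (m := resMult ι θ η) (by
          rw [← inner_eq_resMult']
          exact classInner_conj_conj _ _)]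
        exact a.2.2⟩
  have d1 : ∀ θ η, R θ η → (charDegree η.1 : ZMod p) = charDegree θ.1 ∨
      (charDegree η.1 : ZMod p) = -charDegree θ.1 := fun θ η a => by
    obtain ⟨η₀, b1, b2, b3⟩ := h1 θ a.1
    obtain rfl := b3 η a.2.1 a.2.2
    rw [charDegree_eq_sum_resMult ι θ, Nat.cast_sum, sum_eq_sum_fixed_zmod
      (P.isPGroup'.comap_subtype (K := N)) (irrPermAut.comp (MulAut.conjNormal.comp
        ((P : Subgroup G).subgroupOf N).subtype))
      (Subtype.val : {η : IrrCharacter (K.subgroupOf N) //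
        (P : Subgroup G).subgroupOf N ≤ inertia _ η.1} → _) Subtype.val_injective
      (fun x => by
        rw [Subtype.range_coe_subtype]
        exact ⟨fun h s hs => (mem_inertia_iff _).2 ((irrPermAut_eq_iff _ _).1 (h ⟨s, hs⟩)),
          fun h s => (irrPermAut_eq_iff _ _).2 ((mem_inertia_iff _).1 (h s.2))⟩) _ fun s x => ?_,
      Finset.sum_eq_single ⟨η, b1⟩ (fun η' _ h' => by
        rw [Nat.cast_mul, not_not.1 fun e => h' (Subtype.ext (b3 _ η'.2 e)), zero_mul])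
      (fun h => absurd (Finset.mem_univ _) h), Nat.cast_mul]
    · rcases b2 with e | e <;> simp [e]
    · have e1 := resMult_irrPermAut ι (MulAut.conjNormal (s.1 : G)) (MulAut.conjNormal s.1)
        (fun _ => rfl) θ x
      rw [(irrPermAut_eq_iff _ _).2 ((mem_inertia_iff K).1 (a.1 s.2))] at e1
      exact congrArg Nat.cast (congrArg₂ _ e1 (charDegree_congr (congrArg x.1 (map_one _))))
  let S (χ : IrrCharacter G) (ξ : IrrCharacter N) : Prop := ∃ θ η, R θ η ∧
    classInner (fun n : K => χ.1 n) θ.1 ≠ 0 ∧ classInner (fun n : K.subgroupOf N => ξ.1 n) η.1 ≠ 0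
  have d2 : ∀ χ ξ, S χ ξ → (∀ g, (χ.1 g).im = 0) → (∀ g, (ξ.1 g).im = 0) →
      (charDegree ξ.1 : ZMod p) = charDegree χ.1 ∨
        (charDegree ξ.1 : ZMod p) = -charDegree χ.1 := by
    rintro χ ξ ⟨θ, η, a, b, c⟩ r1 r2
    have e : inertia _ η.1 = (inertia K θ.1).subgroupOf N := Subgroup.ext fun n =>
      ⟨fun hn => congrArg Subtype.val (u2 _ _ _ (c1 n θ η a)
        (by rwa [show cj' n η = η from Subtype.ext hn])), fun hn => congrArg Subtype.val
          (u1 _ _ _ (c1 n θ η a) (by rwa [show cj n θ = θ from Subtype.ext hn]))⟩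
    rw [charDegree_of_real K hodd χ.2 r1 θ.2 b, charDegree_of_real _ hoddN ξ.2 r2 η.2 c, e,
      Nat.cast_mul, Nat.cast_mul, index_cast_eq_relIndex P a.1, ← hN, relIndex]
    rcases d1 θ η a with e | e <;> simp [e]
  have t1 : ∀ χ : {χ : IrrCharacter G // ∀ g, (χ.1 g).im = 0},
      ∃ ξ : {ξ : IrrCharacter N // (∀ n, (ξ.1 n).im = 0) ∧ ¬ p ∣ charDegree ξ.1}, S χ ξ := by
    rintro ⟨χ, hr⟩
    obtain ⟨θ, hθ, hne⟩ := exists_irr_below K χ.2
    obtain ⟨c, hc⟩ := exists_conj_le_of_not_dvd_index (T := inertia K θ)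
      (fun hd => h χ hr (hd.trans (index_inertia_dvd_charDegree K χ.2 hθ hne))) P.isPGroup'
    rw [← classInner_res_conjChar K χ.2.isClassFunction c] at hne
    have hθ' := isIrrCharacter_conjChar K hθ c
    have a1 : (P : Subgroup G) ≤ inertia K (conjChar K c θ) := fun s hs =>
      (mem_inertia_conjChar K).2 (hc (mem_map_of_mem _ hs))
    obtain ⟨η, a2, a3, -⟩ := h1 ⟨_, hθ'⟩ a1
    have a : R ⟨_, hθ'⟩ η := ⟨a1, a2, Rel.ne_zero_of_sign a3⟩
    have a4 := c2 _ _ a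
    rw [show (⟨_, hθ'.conj⟩ : IrrCharacter K) = ⟨_, hθ'⟩ from Subtype.ext
      (conj_eq_self_iff_im.2 (real_below K hodd χ.2 hr hθ' hne))] at a4
    obtain ⟨ξ, hξ, b1, b2⟩ := exists_real_over_of_odd_index _ hoddN η.2
      (conj_eq_self_iff_im.1 (congrArg Subtype.val (u1 _ _ _ a4 a)))
    have s : S χ ⟨ξ, hξ⟩ := ⟨_, η, a, hne, b2⟩
    refine ⟨⟨⟨ξ, hξ⟩, b1, fun hd => h χ hr ?_⟩, s⟩
    rw [← ZMod.natCast_eq_zero_iff] at hd ⊢
    rcases d2 _ _ s hr b1 with e | e <;> rw [hd] at e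
    · exact e.symm
    · exact neg_eq_zero.1 e.symm
  choose f hf using t1
  refine ⟨f, ⟨fun χ ψ e => ?_, fun ⟨ξ, hr, hd⟩ => ?_⟩, fun χ => d2 _ _ (hf χ) χ.2 (f χ).2.1⟩
  · obtain ⟨θ, η, a1, a2, a3⟩ := hf χ
    obtain ⟨θ', η', b1, b2, b3⟩ := hf ψ
    obtain ⟨n, hn⟩ := exists_conjChar_eq_of_constituents _ (f χ).1.2 η.2 η'.2 a3 (e ▸ b3)
    obtain rfl : cj n θ = θ' := u2 _ _ _ (c1 n θ η a1)
      (by rwa [show cj' n η = η' from Subtype.ext hn])
    rw [classInner_res_conjChar K ψ.1.2.isClassFunction] at b2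
    exact Subtype.ext (Subtype.ext (real_unique K hodd χ.1.2 χ.2 ψ.1.2 ψ.2 θ.2 a2 b2))
  · obtain ⟨η, hη, hne⟩ := exists_irr_below (K.subgroupOf N) ξ.2
    obtain ⟨c, hc⟩ := exists_conj_le_of_not_dvd_index (T := inertia _ η)
      (fun h => hd (h.trans (index_inertia_dvd_charDegree _ ξ.2 hη hne)))
      (P.isPGroup'.comap_subtype (K := N))
    have a1 : (P : Subgroup G).subgroupOf N ≤ inertia _ η := fun s hs => by
      simpa [mul_assoc] using conj_le_iff.1 hc (c⁻¹ * s * c) (by simpa [mem_subgroupOf] using hP c⁻¹ s hs)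
    obtain ⟨θ, a2, a3, -⟩ := h2 ⟨η, hη⟩ a1
    have a : R θ ⟨η, hη⟩ := ⟨a2, a1, a3⟩
    have a4 := c2 _ _ a
    rw [show (⟨_, hη.conj⟩ : IrrCharacter _) = ⟨η, hη⟩ from Subtype.ext
      (conj_eq_self_iff_im.2 (real_below _ hoddN ξ.2 hr hη hne))] at a4
    obtain ⟨χ, hχ, b1, b2⟩ := exists_real_over_of_odd_index K hodd θ.2
      (conj_eq_self_iff_im.1 (congrArg Subtype.val (u2 _ _ _ a4 a)))
    refine ⟨⟨⟨χ, hχ⟩, b1⟩, ?_⟩
    obtain ⟨θ', η', e1, e2, e3⟩ := hf ⟨⟨χ, hχ⟩, b1⟩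
    obtain ⟨g, hg⟩ := exists_conjChar_eq_of_constituents K hχ θ.2 θ'.2 b2 e2
    obtain ⟨t, ht, h5⟩ := exists_conj_le_of_not_dvd_relIndex P.isPGroup'
      (sylow_not_dvd_relIndex P a2) (isPGroup_conj P.isPGroup' g)
      (conj_le_iff.2 fun s hs => (mem_inertia_conjChar K).1 (hg ▸ e1.1 hs))
    rw [conj_conj] at h5
    let n : N := ⟨t * g, hN ▸ mem_normalizer_of_conj_le h5⟩
    obtain rfl : cj n θ = θ' := Subtype.ext (by
      rw [← hg]
      exact (conjChar_mul K t g θ.1).trans (congrArg _ ((mem_inertia K).1 ht)))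
    obtain rfl := u1 _ _ _ (c1 n _ _ a) e1
    rw [classInner_res_conjChar _ (f _).1.2.isClassFunction] at e3
    exact Subtype.ext (Subtype.ext (real_unique _ hoddN (f _).1.2 (f _).2.1 ξ.2 hr hη e3 hne))

end Cfsg.Lib.CharDeg
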