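import Cfsg.Agent.Lib.CharDeg.MinNonab
import Cfsg.Agent.Lib.Char.FrobSchur
import Cfsg.Agent.Lib.Transfer.SylowIn

/-! Real irreducible characters lying over characters of normal subgroups. -/

set_option autoImplicit false

namespace Cfsg.Lib.CharDeg

open Cfsg.Lib.Char Cfsg.Lib.Clifford Cfsg.Lib.Induce Cfsg.Lib.Core Subgroup
open scoped ComplexConjugate commutatorElement

section
variable {G : Type*} [Group G] [Finite G]

theorem exists_real_of_odd_sum (w : IrrCharacter G → ℕ) (hw : ∀ χ, w ⟨_, χ.2.conj⟩ = w χ)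
    (h : ¬ 2 ∣ ∑ χ, w χ) : ∃ χ : IrrCharacter G, (∀ g, ((χ : G → ℂ) g).im = 0) ∧ ¬ 2 ∣ w χ := by
  by_contra hcon
  push Not at hcon
  refine h ((ZMod.natCast_eq_zero_iff _ _).1 ?_)
  rw [Nat.cast_sum]
  exact Finset.sum_involution (fun χ _ => ⟨_, χ.2.conj⟩)
    (fun χ _ => by rw [hw, CharTwo.add_self_eq_zero])
    (fun χ _ h0 h => h0 ((ZMod.natCast_eq_zero_iff _ _).2
      (hcon χ (conj_eq_self_iff_im.1 (congrArg Subtype.val h)))))
    (fun _ _ => Finset.mem_univ _) (fun χ _ => Subtype.ext (funext fun x => Complex.conj_conj _))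

theorem inner_res_conj (N : Subgroup G) [N.Normal] [Fintype N] {φ : N → ℂ}
    (hφ : IsIrrCharacter N φ) {g : G} (hg : (fun n => conj (φ n)) = conjChar N g φ) {χ : G → ℂ}
    (hχ : IsIrrCharacter G χ) :
    classInner (fun n : N => conj (χ n)) φ = classInner (fun n : N => χ n) φ := by
  have h5 := classInner_conj_conj (fun n : N => χ n) (fun n => conj (φ n))
  simp only [Complex.conj_conj] at h5
  rwa [hφ.conj.isCharacter.inner_comm (hχ.isCharacter.restrict N), hg,
    classInner_res_conjChar N hχ.isClassFunction] at h5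

theorem exists_real_over_of_odd_index (N : Subgroup G) [N.Normal] [Fintype N] (hodd : Odd N.index)
    {φ : N → ℂ} (hφ : IsIrrCharacter N φ) (hr : ∀ n, (φ n).im = 0) :
    ∃ χ, IsIrrCharacter G χ ∧ (∀ g, (χ g).im = 0) ∧ classInner (fun n : N => χ n) φ ≠ 0 := by
  haveI := Fintype.ofFinite G
  choose e he using fun χ : IrrCharacter G =>
    (χ.2.isCharacter.restrict N).exists_inner_eq_nat hφ.isCharacter
  have h1 := sum_sq_classInner_res N hφ
  simp only [he] at h1
  have h2 : ∑ χ, e χ ^ 2 = N.relIndex (inertia N φ) := by exact_mod_cast h1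
  obtain ⟨χ, h3, h4⟩ := exists_real_of_odd_sum (fun χ => e χ ^ 2) (fun χ => by
    have := inner_res_conj N hφ (g := 1) (by rw [conjChar_one]; exact conj_eq_self_iff_im.2 hr) χ.2
    rw [he, he ⟨_, χ.2.conj⟩] at this
    exact congrArg (· ^ 2) (by exact_mod_cast this))
    (by rw [h2]; exact fun h => Nat.not_even_iff_odd.2 hodd
          (even_iff_two_dvd.2 (h.trans (relIndex_dvd_index_of_normal N _))))
  exact ⟨χ, χ.2, h3, by rw [he]; exact_mod_cast fun h0 => h4 (by simp [h0])⟩

theorem exists_real_over (N : Subgroup G) [N.Normal] [Fintype N] {φ : N → ℂ}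
    (hφ : IsIrrCharacter N φ) {g : G} (hg : (fun n => conj (φ n)) = conjChar N g φ)
    (S : Subgroup G) (hS : S ⊓ N = ⊥) {m : ℕ} (hm : ¬ 2 ∣ m)
    (h : m * Nat.card S = N.index * charDegree φ) :
    ∃ χ, IsIrrCharacter G χ ∧ (∀ g, (χ g).im = 0) ∧ classInner (fun n : N => χ n) φ ≠ 0 := by
  haveI := Fintype.ofFinite G
  haveI := Fintype.ofFinite S
  choose e he using fun χ : IrrCharacter G =>
    (χ.2.isCharacter.restrict N).exists_inner_eq_nat hφ.isCharacter
  choose b hb using fun χ : IrrCharacter G =>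
    (χ.2.isCharacter.restrict S).exists_inner_eq_nat isCharacter_one
  have h1 : ((∑ χ, e χ * b χ : ℕ) : ℂ) = classInner (fun x : S => indFun N φ x) (fun _ => 1) := by
    rw [indFun_eq_sum_irr N hφ.isGeneralizedCharacter, Nat.cast_sum]
    simp only [Nat.cast_mul, ← hb, ← classInner_smul_left, ← classInner_sum_left, he]
    congr 1
    exact funext fun x => by simp
  have h3 : (∑ χ, e χ * b χ) * Nat.card S = N.index * charDegree φ := by
    rw [classInner_one_right, Finset.sum_eq_single 1 (fun x _ hx =>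
      indFun_normal_of_not_mem N _ fun hx' => hx (Subtype.ext (by
        have : (x : G) ∈ S ⊓ N := ⟨x.2, hx'⟩
        rwa [hS, mem_bot] at this))) (by simp),
      OneMemClass.coe_one, indFun_one, hφ.apply_one_eq, eq_inv_mul_iff_mul_eq₀
        (card_ne_zero_complex _), mul_comm] at h1
    exact_mod_cast h1
  obtain ⟨χ, h4, h5⟩ := exists_real_of_odd_sum (fun χ => e χ * b χ) (fun χ => by
    have h4 := inner_res_conj N hφ hg χ.2
    rw [he, he ⟨_, χ.2.conj⟩] at h4
    have h5 := classInner_conj_conj (fun n : S => (χ : G → ℂ) n) (fun _ => 1)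
    simp only [map_one] at h5
    rw [isCharacter_one.inner_comm (χ.2.isCharacter.restrict _), hb, hb ⟨_, χ.2.conj⟩] at h5
    exact congrArg₂ (· * ·) (by exact_mod_cast h4) (by exact_mod_cast h5))
    (by rwa [Nat.eq_of_mul_eq_mul_right Nat.card_pos (h3.trans h.symm)])
  exact ⟨χ, χ.2, h4, by rw [he]; exact_mod_cast fun h0 => h5 (by simp [h0])⟩

theorem exists_real_over_of_odd (N : Subgroup G) [N.Normal] [Fintype N] (hN : ¬ 2 ∣ Nat.card N)
    {φ : N → ℂ} (hφ : IsIrrCharacter N φ) {g : G} (hg : (fun n => conj (φ n)) = conjChar N g φ) :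
    ∃ χ, IsIrrCharacter G χ ∧ (∀ g, (χ g).im = 0) ∧ classInner (fun n : N => χ n) φ ≠ 0 := by
  obtain ⟨P⟩ : Nonempty (Sylow 2 G) := inferInstance
  obtain ⟨k, hk⟩ := P.isPGroup'.exists_card_eq
  have h1 : (Nat.card P).Coprime (Nat.card N) := by
    rw [hk]; exact ((Nat.Prime.coprime_iff_not_dvd Nat.prime_two).2 hN).pow_left k
  obtain ⟨m, hm⟩ : Nat.card P ∣ N.index * charDegree φ := Dvd.dvd.mul_right
    (h1.dvd_of_dvd_mul_left (by rw [card_mul_index]; exact card_subgroup_dvd_card _)) _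
  refine exists_real_over N hφ hg P (inf_eq_bot_of_coprime h1) (m := m) (fun h => P.not_dvd_index
    (h.trans (Nat.dvd_of_mul_dvd_mul_left (Nat.card_pos (α := P)) ?_))) (by rw [hm, mul_comm])
  rw [← hm, card_mul_index, ← N.index_mul_card]
  exact Nat.mul_dvd_mul_left _ hφ.charDegree_dvd_card

theorem exists_irr_inverted (M : Subgroup G) [hM : M.Normal] {s : G}
    (h2 : s * s ∈ centralizer (M : Set G)) (h1 : s ∉ centralizer (M : Set G)) :
    ∃ φ, IsIrrCharacter M φ ∧ φ ≠ (fun _ => 1) ∧ (fun n => conj (φ n)) = conjChar M s φ := by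
  have hb := brauer_permutation_comp (G := M) (fun n => (MulAut.conjNormal s n)⁻¹)
    (fun a b h => by
      obtain ⟨c, rfl⟩ := isConj_iff.1 h
      exact isConj_iff.2 ⟨MulAut.conjNormal s c, by simp [mul_assoc]⟩)
    (fun χ h => (isIrrCharacter_conjChar M h.comp_inv s :))
  obtain ⟨m, hm, hms⟩ : ∃ m ∈ M, m * s ≠ s * m := by
    by_contra h
    push Not at h
    exact h1 h
  have key : ∀ x : M, (MulAut.conjNormal s x)⁻¹ = x → ∀ g : M, ConjClasses.mk g = ConjClasses.mk x →
      IsConj g (MulAut.conjNormal s g)⁻¹ := by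
    intro x hx g hg
    obtain ⟨c, rfl⟩ := isConj_iff.1 (ConjClasses.mk_eq_mk_iff_isConj.1 hg.symm)
    refine (isConj_iff.2 ⟨c, rfl⟩ : IsConj x _).symm.trans (isConj_iff.2 ⟨MulAut.conjNormal s c, ?_⟩)
    rw [map_mul, map_mul, map_inv, mul_inv_rev, mul_inv_rev, inv_inv, hx, mul_assoc]
  let x : M := ⟨m, hm⟩ * (MulAut.conjNormal s ⟨m, hm⟩)⁻¹
  have hx : (MulAut.conjNormal s x)⁻¹ = x := Subtype.ext (by
    have := h2 m hm
    simp only [x, map_mul, map_inv, mul_inv_rev, inv_inv, coe_mul, coe_inv, MulAut.conjNormal_apply]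
    rw [show s * (s * m * s⁻¹) * s⁻¹ = (s * s * m) * (s * s)⁻¹ by group, ← this]
    group)
  have hx1 : x ≠ 1 := fun e => hms (by
    have : m * (s * m * s⁻¹)⁻¹ = 1 := congrArg Subtype.val e
    rw [mul_inv_eq_one, eq_mul_inv_iff_mul_eq] at this
    exact this)
  by_contra hcon
  push Not at hcon
  have h3 : Nat.card {χ : IrrCharacter M // ∀ g, (χ : M → ℂ) (MulAut.conjNormal s g)⁻¹ =
      (χ : M → ℂ) g} ≤ 1 := Finite.card_le_one_iff_subsingleton.2 ⟨fun a b => by
    have h4 : ∀ a : {χ : IrrCharacter M // ∀ g, (χ : M → ℂ) (MulAut.conjNormal s g)⁻¹ =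
        (χ : M → ℂ) g}, (a.1 : M → ℂ) = fun _ => 1 := fun a => by
      by_contra h
      refine hcon _ a.1.2 h (funext fun n => ?_)
      rw [← a.2 n, a.1.2.apply_inv, Complex.conj_conj]
      rfl
    exact Subtype.ext (Subtype.ext ((h4 a).trans (h4 b).symm))⟩
  rw [hb, Finite.card_le_one_iff_subsingleton] at h3
  have h4 := congrArg Subtype.val (h3.elim ⟨_, key x hx⟩ ⟨_, key 1 (by simp)⟩)
  exact hx1 (isConj_one_left.1 (ConjClasses.mk_eq_mk_iff_isConj.1 h4))

theorem index_inertia_dvd_charDegree (N : Subgroup G) [N.Normal] [Fintype N] {χ : G → ℂ}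
    (hχ : IsIrrCharacter G χ) {θ : N → ℂ} (hθ : IsIrrCharacter N θ)
    (h : classInner (fun n : N => χ n) θ ≠ 0) : (inertia N θ).index ∣ charDegree χ := by
  haveI := Fintype.ofFinite G
  obtain ⟨e, he⟩ := (hχ.isCharacter.restrict N).exists_inner_eq_nat hθ.isCharacter
  have := clifford_degree N hχ hθ h
  rw [he, hχ.apply_one_eq, hθ.apply_one_eq] at this
  have h1 : charDegree χ = e * (inertia N θ).index * charDegree θ := by exact_mod_cast this
  exact h1 ▸ (dvd_mul_left _ _).mul_right _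

theorem sylow_normal_of_le {p : ℕ} [Fact p.Prime] (P : Sylow p G) (Y : Subgroup G) [Y.Normal]
    (h1 : (P : Subgroup G) ≤ Y) (h2 : Y ≤ normalizer ((P : Subgroup G) : Set G)) : (P : Subgroup G).Normal := by
  have := P.normalizer_sup_eq_top' h1
  rw [← P.coe_coe, sup_eq_left.2 h2] at this
  exact normalizer_eq_top_iff.1 this

end

universe u in
/-- Real characters of degree prime to `p` force a normal Sylow `p`-subgroup. -/
theorem sylow_normal_of_real (p : ℕ) [hp : Fact p.Prime] (k : ℕ) :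
    ∀ (G : Type u) [Group G] [Finite G], Nat.card G = k →
    (∃ R : Subgroup G, R.Normal ∧ Group.IsSolvable R ∧ ¬ p ∣ R.index) →
    (∃ a, (closure {g : G | ∃ k : ℕ, orderOf g = 2 ^ k}).index ∣ p ^ a) →
    (∀ χ, IsIrrCharacter G χ → (∀ g, (χ g).im = 0) → ¬ p ∣ charDegree χ) →
    ∀ P : Sylow p G, (P : Subgroup G).Normal := by
  induction k using Nat.strong_induction_on with
  | _ k ih =>
  rintro G _ _ hk ⟨R, _, hRs, hR⟩ ⟨a, ha⟩ h P
  have hq : ∀ (L : Subgroup G) [L.Normal], L ≠ ⊥ → ((P : Subgroup G) ⊔ L).Normal := by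
    intro L _ hL
    have hc := L.card_mul_index
    have h3 : 1 < Nat.card L := (one_lt_card_iff_ne_bot L).2 hL
    have h4 := Nat.pos_of_ne_zero (L.index_ne_zero_of_finite)
    have h5 := ih _ (by rw [← hk, ← hc]; change L.index < _; nlinarith) (G ⧸ L) rfl
      ⟨R.map (QuotientGroup.mk' L), Normal.map ‹_› _ (QuotientGroup.mk'_surjective L),
        solvable_of_surjective ((QuotientGroup.mk' L).subgroupMap_surjective R),
        fun hd => hR (hd.trans (index_map_dvd _ (QuotientGroup.mk'_surjective L)))⟩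
      ⟨a, (index_dvd_of_le (map_le_iff_le_comap.2 ((closure_le _).2 fun g hg => hg.elim fun j hj =>
        subset_closure ((Nat.dvd_prime_pow Nat.prime_two).1
          (hj ▸ orderOf_map_dvd (QuotientGroup.mk' L) g) |>.imp fun _ h => h.2)))).trans
        ((index_map_dvd _ (QuotientGroup.mk'_surjective L)).trans ha)⟩
      (fun β hβ hr => h _ hβ.inflate fun g => hr g) (P.mapSurjective (QuotientGroup.mk'_surjective L))
    have h6 := h5.comap (QuotientGroup.mk' L)
    rwa [Sylow.coe_mapSurjective, comap_map_eq, QuotientGroup.ker_mk'] at h6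
  by_cases hR0 : R = ⊥
  · rw [hR0, index_bot] at hR
    obtain ⟨j, hj⟩ := P.isPGroup'.exists_card_eq
    have h1 := card_subgroup_dvd_card (P : Subgroup G)
    rcases j with _ | j
    · rw [card_eq_one.1 (hj.trans (pow_zero p))]; infer_instance
    · exact absurd ((dvd_pow_self p (Nat.succ_ne_zero j)).trans (hj ▸ h1)) hR
  obtain ⟨V, hV, hVR⟩ := exists_isMinNormal_le ‹R.Normal› hR0
  haveI := hV.normal
  have hVs : Group.IsSolvable V := solvable_of_solvable_injective (inclusion_injective hVR)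
  have hab : V ≤ centralizer (V : Set G) := fun a ha b hb =>
    congrArg Subtype.val ((hV.isMulCommutative hVs).is_comm.comm (⟨b, hb⟩ : V) ⟨a, ha⟩)
  haveI := hq V hV.ne_bot
  by_contra hP
  have hn : ∀ (L : Subgroup G) [L.Normal], L ≤ normalizer ((P : Subgroup G) : Set G) → L = ⊥ := by
    intro L _ hL
    by_contra h0
    haveI := hq L h0
    exact hP (sylow_normal_of_le P (P ⊔ L) le_sup_left (sup_le le_normalizer hL))
  have hH : normalizer ((P : Subgroup G) : Set G) ⊔ V = ⊤ := by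
    have := P.normalizer_sup_eq_top' (N := (P : Subgroup G) ⊔ V)
      (le_sup_left : (P : Subgroup G) ≤ (P : Subgroup G) ⊔ V)
    rwa [← P.coe_coe, ← sup_assoc, sup_eq_left.2 le_normalizer] at this
  have hC : normalizer ((P : Subgroup G) : Set G) ⊓ centralizer (V : Set G) = ⊥ := by
    haveI : (normalizer ((P : Subgroup G) : Set G) ⊓ centralizer (V : Set G)).Normal := by
      rw [← normalizer_eq_top_iff, eq_top_iff, ← hH]
      refine sup_le (le_trans (le_inf le_normalizer le_normalizer_of_normal)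
        inf_normalizer_le_normalizer_inf) ((le_centralizer_iff.1 inf_le_right).trans
        (centralizer_le_normalizer _))
    exact hn _ inf_le_left
  have hHV : normalizer ((P : Subgroup G) : Set G) ⊓ V = ⊥ :=
    eq_bot_iff.2 ((inf_le_inf_left _ hab).trans hC.le)
  have hcard : Nat.card (normalizer ((P : Subgroup G) : Set G)) = V.index := by
    rw [← relIndex_top_right, ← hH, relIndex_sup_right, ← inf_relIndex_right, inf_comm, hHV,
      relIndex_bot_left]
  obtain ⟨s, hs2, hs⟩ : ∃ φ, IsIrrCharacter V φ ∧ φ ≠ (fun _ => 1) ∧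
      ∃ s, (fun n => conj (φ n)) = conjChar V s φ := by
    by_cases h2 : 2 ∣ Nat.card (normalizer ((P : Subgroup G) : Set G))
    · obtain ⟨t, ht⟩ := exists_prime_orderOf_dvd_card' 2 h2
      obtain ⟨φ, h3, h4, h5⟩ := exists_irr_inverted V (s := t) (by
        rw [← coe_mul, ← sq, ← ht, pow_orderOf_eq_one]; exact one_mem _) fun h3 => by
          have : (t : G) ∈ normalizer ((P : Subgroup G) : Set G) ⊓ centralizer (V : Set G) := ⟨t.2, h3⟩
          rw [hC, mem_bot] at this
          rw [show t = 1 from Subtype.ext this, orderOf_one] at ht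
          omega
      exact ⟨φ, h3, h4, _, h5⟩
    obtain ⟨q, hq', hel⟩ := hV.isElementaryAbelian hVs
    by_cases h3 : q = 2
    · haveI := (nontrivial_iff_ne_bot V).2 hV.ne_bot
      obtain ⟨x, hx⟩ := exists_ne (1 : V)
      obtain ⟨φ, h4, h5⟩ := exists_irr_apply_ne_of_ne_one hx
      refine ⟨φ, h4, fun e => h5 (by rw [e]), 1, funext fun n => ?_⟩
      rw [conjChar_one, ← h4.apply_inv, inv_eq_of_mul_eq_one_right
        (Subtype.ext (by rw [coe_mul, ← sq, ← h3, hel.2 n n.2]; rfl) : n * n = 1)]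
    · haveI := Fact.mk hq'
      obtain ⟨j, hj⟩ := IsPGroup.exists_card_eq (p := q) (G := V) fun x =>
        ⟨1, Subtype.ext (by rw [pow_one]; exact hel.2 x x.2)⟩
      have h4 : ¬ 2 ∣ Nat.card G := by
        rw [← V.card_mul_index, ← hcard, hj]
        exact fun h5 => ((Nat.Prime.dvd_mul Nat.prime_two).1 h5).elim (fun h6 => h3
          ((Nat.prime_dvd_prime_iff_eq Nat.prime_two hq').1
            (Nat.prime_two.dvd_of_dvd_pow h6)).symm) h2
      rw [(closure_eq_bot_iff).2 (fun g hg => hg.elim fun i hi => orderOf_eq_one_iff.1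
        (Nat.eq_one_of_dvd_coprimes
        (((Nat.Prime.coprime_iff_not_dvd Nat.prime_two).2 h4).pow_left i) hi.dvd
        (orderOf_dvd_natCard g))), index_bot] at ha
      obtain ⟨i, -, hi⟩ := (Nat.dvd_prime_pow hp.out).1 ha
      haveI := (IsPGroup.of_card hi).isNilpotent
      exact absurd (P.normal_of_normalizerCondition normalizerCondition_of_isNilpotent) hP
  obtain ⟨hs1, g, hg⟩ := hs
  haveI := hV.isMulCommutative hVs
  obtain ⟨lam, rfl⟩ := hs2.exists_hom_of_comm
  haveI := Fintype.ofFinite V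
  obtain ⟨χ, hχ, hr, hne⟩ := exists_real_over V hs2 hg _ hHV (m := 1) (by norm_num)
    (by rw [one_mul, charDegree_hom, mul_one, hcard])
  obtain ⟨c, hc⟩ := Cfsg.Lib.Transfer.exists_conj_le_of_not_dvd_index
    (T := inertia V fun v => (lam v : ℂ)) (fun hd => h χ hχ hr (hd.trans
      (index_inertia_dvd_charDegree V hχ hs2 hne))) P.isPGroup'
  have hY : (P : Subgroup G) ⊔ V ≤ inertia V fun v => (lam v : ℂ) := by
    intro y hy
    obtain ⟨u, hu, v, hv, e⟩ := mem_sup_of_normal_right.1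
      ((inferInstance : ((P : Subgroup G) ⊔ V).Normal).conj_mem y hy c⁻¹)
    rw [show y = c * u * c⁻¹ * (c * v * c⁻¹) by
      rw [show c * u * c⁻¹ * (c * v * c⁻¹) = c * (u * v) * c⁻¹ by group, e]; group]
    exact mul_mem (hc (mem_map_of_mem _ hu))
      (le_inertia V hs2.isClassFunction (hV.normal.conj_mem v hv c))
  rcases hV.min ⁅V, (P : Subgroup G) ⊔ V⁆ inferInstance (commutator_le_left _ _) with h2 | h2
  · exact hV.ne_bot (hn V ((commutator_eq_bot_iff_le_centralizer.1 h2).trans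
      ((centralizer_le (SetLike.coe_subset_coe.2 le_sup_left)).trans (centralizer_le_normalizer _))))
  · have h3 : ⁅V, (P : Subgroup G) ⊔ V⁆ ≤ lam.ker.map V.subtype := commutator_le.2 fun v hv y hy =>
      ⟨⟨v, hv⟩ * ⟨y * v⁻¹ * y⁻¹, hV.normal.conj_mem _ (inv_mem hv) y⟩, by
        rw [SetLike.mem_coe, MonoidHom.mem_ker, map_mul,
          mem_inertia_hom.1 (hY hy) ⟨v⁻¹, inv_mem hv⟩, ← map_mul]
        exact (congrArg lam (Subtype.ext (mul_inv_cancel v))).trans lam.map_one,
        by simp [commutatorElement_def, mul_assoc]⟩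
    rw [h2] at h3
    refine hs1 (funext fun v => ?_)
    obtain ⟨w, hw, e⟩ := h3 v.2
    rw [← show w = v from Subtype.ext e, MonoidHom.mem_ker.1 hw, Units.val_one]

section
variable {G : Type*} [Group G] [Finite G]

omit [Finite G] in
theorem closure_pElts_normal (G : Type*) [Group G] (p : ℕ) :
    (closure {g : G | ∃ k : ℕ, orderOf g = p ^ k}).Normal := by
  refine ⟨fun x hx g => ?_⟩
  have : (closure {g : G | ∃ k : ℕ, orderOf g = p ^ k}).map (MulAut.conj g).toMonoidHom ≤
      closure {g : G | ∃ k : ℕ, orderOf g = p ^ k} :=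
    map_le_iff_le_comap.2 ((closure_le _).2 fun y hy => subset_closure
      (hy.imp fun _ h => (MulEquiv.orderOf_eq (MulAut.conj g) y).trans h))
  exact this (mem_map_of_mem _ hx)

theorem not_dvd_index_closure_pElts (G : Type*) [Group G] [Finite G] (p : ℕ) [Fact p.Prime] :
    ¬ p ∣ (closure {g : G | ∃ k : ℕ, orderOf g = p ^ k}).index := by
  obtain ⟨P⟩ : Nonempty (Sylow p G) := inferInstance
  refine fun h => P.not_dvd_index (h.trans (index_dvd_of_le fun x hx => subset_closure ?_))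
  obtain ⟨k, hk⟩ := IsPGroup.iff_orderOf.1 P.isPGroup' ⟨x, hx⟩
  exact ⟨k, by rw [← hk, orderOf_mk]⟩

theorem real_not_dvd_of_odd_index {p : ℕ} (U : Subgroup G) [U.Normal] (hU : Odd U.index)
    (h : ∀ χ, IsIrrCharacter G χ → (∀ g, (χ g).im = 0) → ¬ p ∣ charDegree χ) :
    ∀ θ, IsIrrCharacter U θ → (∀ g, (θ g).im = 0) → ¬ p ∣ charDegree θ := by
  intro θ hθ hr hd
  haveI := Fintype.ofFinite U
  obtain ⟨χ, hχ, h1, h2⟩ := exists_real_over_of_odd_index U hU hθ hr
  exact h χ hχ h1 (hd.trans (charDegree_dvd_charDegree_of_over U hχ hθ h2))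

theorem sylow_normal_of_real' {p : ℕ} [Fact p.Prime]
    (hs : Group.IsSolvable (closure {g : G | ∃ k : ℕ, orderOf g = p ^ k}))
    (h : ∀ χ, IsIrrCharacter G χ → (∀ g, (χ g).im = 0) → ¬ p ∣ charDegree χ)
    (U : Subgroup G) [U.Normal] (hKU : closure {g : G | ∃ k : ℕ, orderOf g = 2 ^ k} ≤ U) {a : ℕ}
    (ha : (closure {g : G | ∃ k : ℕ, orderOf g = 2 ^ k}).relIndex U = p ^ a) (Q : Sylow p U) :
    (Q : Subgroup U).Normal := by
  haveI := closure_pElts_normal G p
  refine sylow_normal_of_real p _ U rfl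
    ⟨(closure {g : G | ∃ k : ℕ, orderOf g = p ^ k}).subgroupOf U, inferInstance,
      solvable_of_solvable_injective (f := (U.subtype.subgroupComap _)) fun x y e =>
        Subtype.ext (Subtype.ext (congrArg Subtype.val e :)),
      fun hd => not_dvd_index_closure_pElts G p (hd.trans (relIndex_dvd_index_of_normal _ _))⟩
    ⟨a, ha ▸ index_dvd_of_le ?_⟩ (real_not_dvd_of_odd_index U (Nat.odd_iff.2 (Nat.two_dvd_ne_zero.1
      fun hd => not_dvd_index_closure_pElts G 2 (hd.trans (index_dvd_of_le hKU)))) h) Q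
  rw [← map_le_map_iff_of_injective U.subtype_injective, subgroupOf_map_subtype,
    MonoidHom.map_closure]
  refine inf_le_left.trans (closure_mono fun g hg => ⟨⟨g, hKU (subset_closure hg)⟩, ?_, rfl⟩)
  exact hg.imp fun _ h => by rw [orderOf_mk, h]

end

end Cfsg.Lib.CharDeg
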